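import Cfsg.Agent.H9.JA1

/-! S3403, piece (JA): the facts about a line of type `A`. -/

set_option autoImplicit false

namespace CfsgJ

open CfsgH5 CfsgH6 CfsgFT Subgroup MulAction
open scoped commutatorElement

universe u

variable {G Ω : Type u} [Group G] [MulAction G Ω] {P : Ω → Subgroup G} {L : Subgroup G}
  [Finite G]

namespace LA

theorem zm_pow : ∀ a b : ZMod 11, a ^ 5 = 1 → a ≠ 1 → b ^ 5 = 1 → ∃ k : Fin 5, b = a ^ k.1 := by
  decide

theorem dec (h : LA G Ω P L) {i j : Ω} (hij : i ≠ j) (hi : P i ≤ L) (hj : P j ≤ L) {t : G}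
    (ht : t ∈ L) (ho : orderOf t = 5) (ti : t • i = i) (tj : t • j = j) {g : G} (hN : g ∈ N L)
    (gi : g • i = i) (gj : g • j = j) (hc : g ^ 5 ∈ C (P i)) :
    ∃ k : ℕ, ∃ w ∈ C L, g = t ^ k * w := by
  obtain ⟨φ, -, h2⟩ := h.aut i
  have t1 : t ≠ 1 := fun e => by rw [e, orderOf_one] at ho; omega
  have a1 : φ ⟨t, ti⟩ ^ 5 = 1 := by
    rw [← map_pow, h2]
    show t ^ 5 ∈ _
    rw [← ho, pow_orderOf_eq_one]
    exact one_mem _
  have a2 : φ ⟨g, gi⟩ ^ 5 = 1 := by rw [← map_pow, h2]; exact hc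
  obtain ⟨k, hk⟩ := zm_pow (φ ⟨t, ti⟩) (φ ⟨g, gi⟩) 
    (by rw [← Units.val_pow_eq_pow_val, a1, Units.val_one])
    (fun e => h.notC hij hi ht t1 tj ((h2 _).1 (Units.ext e)))
    (by rw [← Units.val_pow_eq_pow_val, a2, Units.val_one])
  have hk' : φ ⟨g, gi⟩ = φ ⟨t, ti⟩ ^ k.1 := Units.ext (by exact_mod_cast hk)
  refine ⟨k, (t ^ k.1)⁻¹ * g, h.star (mul_mem (inv_mem (pow_mem (le_N _ ht) _)) hN) hi hj hij.symm
    ((h2 ((⟨t, ti⟩ ^ k.1)⁻¹ * ⟨g, gi⟩)).1 (by rw [map_mul, map_inv, map_pow, hk', inv_mul_cancel]))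
    ?_, (mul_inv_cancel_left _ _).symm⟩
  exact (mul_mem (inv_mem (pow_mem (show t ∈ stabilizer G j from tj) _))
    (show g ∈ stabilizer G j from gj) :)

theorem opp (h : LA G Ω P L) {i j : Ω} (hij : i ≠ j) (hi : P i ≤ L) (hj : P j ≤ L) {g : G}
    (ho : orderOf g = 5) (gi : g • i = i) (gj : g • j = j) {n : ZMod 11} (hn : Sc g (P i) n) :
    Sc g⁻¹ (P j) n := by
  obtain ⟨t, ht, to', ti, tj, -, s, -, -, si, e⟩ := h.tor hij hi hj
  obtain ⟨k, w, hw, rfl⟩ := h.dec hij hi hj ht to' ti tj (h.gen hij hi hj ▸ h.N_pair gi gj) gi gj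
    (by rw [← ho, pow_orderOf_eq_one]; exact one_mem _)
  have h1 := ((Sc.mul_C (C_anti hi hw)).1 hn).cjj s
  rw [← h.smul, si, ← conj_pow, e, inv_pow] at h1
  rw [mem_C.1 hw _ (pow_mem ht k), mul_inv_rev]
  exact (Sc.mul_C (inv_mem (C_anti hj hw))).2 h1

theorem sq (h : LA G Ω P L) {g : G} (hN : g ∈ N L) : ∃ m ∈ L, ∃ w ∈ C L, g * g = m * w := by
  obtain ⟨i, j, hij, hi, hj⟩ := h.line.two
  obtain ⟨t, ht, to', ti, tj, -⟩ := h.torus hij hi hj
  obtain ⟨l, hl, e1, e2⟩ := h.two_tr hij hi hj (fun e => hij (smul_left_cancel g e))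
    ((h.on_N hN).2 hi) ((h.on_N hN).2 hj)
  rw [← mul_smul] at e1 e2
  have hN' : l * g ∈ N L := mul_mem (le_N _ hl) hN
  obtain ⟨k, w, hw, e⟩ := h.dec hij hi hj ht to' ti tj (mul_mem hN' hN')
    (by rw [mul_smul, e1, e1]) (by rw [mul_smul, e2, e2])
    (by rw [← pow_two, ← pow_mul]; exact h.pow10 e1)
  refine ⟨l⁻¹ * (l * g * l⁻¹ * (l * g)⁻¹) * t ^ k, mul_mem (mul_mem (inv_mem hl)
    (conj_mem_of_mem_N hN' (inv_mem hl))) (pow_mem ht k), w, hw, ?_⟩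
  rw [mul_assoc, ← e]
  group

theorem out (h : LA G Ω P L) {u : G} (hN : u ∈ N L) (h2 : u * u = 1)
    (hf : ∀ i, P i ≤ L → u • i ≠ i) : ∃ m ∈ L, ∃ w ∈ C L, u = m * w := by
  classical
  have := h.finite
  obtain ⟨i, j, hij, hi, hj⟩ := h.line.two
  obtain ⟨t, ht, to', ti, tj, -⟩ := h.torus hij hi hj
  obtain ⟨l, hl, e1, e2⟩ := h.two_tr hij hi hj (fun e => hij (smul_left_cancel u e))
    ((h.on_N hN).2 hi) ((h.on_N hN).2 hj)
  rw [← mul_smul] at e1 e2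
  have hN' : l * u ∈ N L := mul_mem (le_N _ hl) hN
  by_cases hc : (l * u) ^ 5 ∈ C (P i)
  · obtain ⟨k, w, hw, e⟩ := h.dec hij hi hj ht to' ti tj hN' e1 e2 hc
    exact ⟨l⁻¹ * t ^ k, mul_mem (inv_mem hl) (pow_mem ht k), w, hw, by
      rw [mul_assoc, ← e, inv_mul_cancel_left]⟩
  exfalso
  letI : MulAction (N L) {k // P k ≤ L} :=
    { smul := fun g k => ⟨g.1 • k.1, (h.on_N g.2).2 k.2⟩
      one_smul := fun k => Subtype.ext (one_smul G k.1)
      mul_smul := fun a b k => Subtype.ext (mul_smul a.1 b.1 k.1) }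
  let σ := toPermHom (N L) {k // P k ≤ L}
  have hσ : ∀ g k, σ g k = k ↔ g.1 • k.1 = k.1 := fun _ _ => Subtype.ext_iff
  have := Fintype.ofFinite {k // P k ≤ L}
  have hcard : Fintype.card {k // P k ≤ L} = 12 := by
    rw [Fintype.card_eq_nat_card, ← h.npts]; rfl
  have sL : L ≤ (Equiv.Perm.sign.comp σ).ker.map (N L).subtype :=
    h.perfL.ge.trans (commutator_le.2 fun a ha b hb => ⟨⁅⟨a, le_N L ha⟩, ⟨b, le_N L hb⟩⁆,
      Abelianization.commutator_subset_ker _ (commutator_mem_commutator trivial trivial), rfl⟩)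
  have sl : Equiv.Perm.sign (σ ⟨l, le_N L hl⟩) = 1 := by
    obtain ⟨x, hx, e⟩ := sL hl
    rwa [show x = ⟨l, le_N L hl⟩ from Subtype.ext e] at hx
  have su : Equiv.Perm.sign (σ ⟨u, hN⟩) = 1 := by
    rw [Equiv.Perm.sign_of_pow_two_eq_one (by
      rw [← map_pow, pow_two, show (⟨u, hN⟩ * ⟨u, hN⟩ : N L) = 1 from Subtype.ext h2, map_one]),
      hcard, Fintype.card_eq_zero_iff.2 ⟨fun k => hf _ k.1.2 ((hσ _ _).1 k.2)⟩]
    decide
  have f1 : (l * u) ^ 5 ∈ stabilizer G i := pow_mem e1 5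
  have f2 : (l * u) ^ 5 ∈ stabilizer G j := pow_mem e2 5
  have sa : Equiv.Perm.sign (σ ((⟨l, le_N L hl⟩ * ⟨u, hN⟩) ^ 5)) = -1 := by
    have h3 : (l * u) ^ 10 ∈ C L := h.star (pow_mem hN' 10) hi hj hij.symm (h.pow10 e1)
      (pow_mem (show l * u ∈ stabilizer G j from e2) 10)
    have h4 : Function.fixedPoints (σ ((⟨l, le_N L hl⟩ * ⟨u, hN⟩) ^ 5)) = {⟨i, hi⟩, ⟨j, hj⟩} := by
      ext k
      refine (hσ _ _).trans ⟨fun e => ?_, ?_⟩
      · by_cases e' : k.1 = i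
        · exact .inl (Subtype.ext e')
        · exact .inr (Subtype.ext (h.fix2u hi f1 hc hj k.2 hij.symm e' f2 e))
      · rintro (rfl | rfl)
        exacts [f1, f2]
    rw [Equiv.Perm.sign_of_pow_two_eq_one (by
      rw [← map_pow, ← pow_mul]
      exact Equiv.ext fun k => (hσ _ _).2 (h.fix_W h3 k.2)),
      hcard, Fintype.card_eq_nat_card, h4, Nat.card_coe_set_eq,
      Set.ncard_pair fun e => hij (congrArg Subtype.val e)]
    decide
  rw [map_pow, map_pow, map_mul, map_mul, sl, su] at sa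
  revert sa
  decide

theorem cls0 (h : LA G Ω P L) {i j : Ω} (hij : i ≠ j) (hi : P i ≤ L) (hj : P j ≤ L) {t s : G}
    (ht : t ∈ L) (ho : orderOf t = 5) (ti : t • i = i)
    (hT : ∀ g ∈ L, g • i = i → g • j = j → g ∈ zpowers t) (hs : s ∈ L) (so : orderOf s = 2)
    (si : s • i = j) (e : s * t * s⁻¹ = t⁻¹) {v : G} (hv : v ∈ L) (vo : orderOf v = 2) :
    ∃ g ∈ L ⊓ stabilizer G i, g * s * g⁻¹ = v := by
  have sq : ∀ x : G, orderOf x = 2 → x * x = 1 := fun x hx => by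
    rw [← pow_two, ← hx, pow_orderOf_eq_one]
  have sw : ∀ (x : G) (a b : Ω), x * x = 1 → x • a = b → x • b = a := fun x a b h1 h2 => by
    rw [← h2, ← mul_smul, h1, one_smul]
  obtain ⟨x, hx, e1⟩ := h.reg hi hj ((h.on_mem hv).2 hi) hij.symm fun e' => by
    rw [h.fpf hv (sq v vo) hi e', orderOf_one] at vo; omega
  have xi := h.fix_P hx
  have e2 : (x⁻¹ * v * x) • i = j := by rw [mul_smul, mul_smul, xi, ← e1, inv_smul_smul]
  have e3 := sw _ _ _ (by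
    calc x⁻¹ * v * x * (x⁻¹ * v * x) = x⁻¹ * (v * v) * x := by group
      _ = 1 := by rw [sq v vo]; group) e2
  obtain ⟨k, hk⟩ := hT ((x⁻¹ * v * x) * s⁻¹) (mul_mem (mul_mem (mul_mem (inv_mem (hi hx)) hv)
    (hi hx)) (inv_mem hs)) (by rw [mul_smul, inv_smul_eq_iff.2 (sw _ _ _ (sq s so) si).symm, e3])
    (by rw [mul_smul, inv_smul_eq_iff.2 si.symm, e2])
  have hk : t ^ k = x⁻¹ * v * x * s⁻¹ := hk
  refine ⟨x * t ^ (3 * k), (L ⊓ stabilizer G i).mul_mem ⟨hi hx, xi⟩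
    ((L ⊓ stabilizer G i).zpow_mem ⟨ht, ti⟩ _), ?_⟩
  have e4 : s * (t ^ (3 * k))⁻¹ * s⁻¹ = t ^ (3 * k) := by
    rw [← inv_zpow, ← conj_zpow, conj_inv.symm, e, inv_inv]
  have e5 : t ^ (5 * k) = 1 := by
    rw [zpow_mul, show (5 : ℤ) = ((5 : ℕ) : ℤ) from rfl, zpow_natCast, ← ho, pow_orderOf_eq_one,
      one_zpow]
  calc x * t ^ (3 * k) * s * (x * t ^ (3 * k))⁻¹
      = x * t ^ (3 * k) * (s * (t ^ (3 * k))⁻¹ * s⁻¹) * s * x⁻¹ := by group
    _ = x * t ^ (5 * k) * t ^ k * s * x⁻¹ := by rw [e4]; group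
    _ = v := by rw [e5, hk]; group

theorem cls (h : LA G Ω P L) {v w : G} (hv : v ∈ L) (hw : w ∈ L) (vo : orderOf v = 2)
    (wo : orderOf w = 2) : ∃ g ∈ L, g * v * g⁻¹ = w := by
  obtain ⟨i, j, hij, hi, hj⟩ := h.line.two
  obtain ⟨t, ht, ho, ti, -, hT, s, hs, so, si, e⟩ := h.tor hij hi hj
  obtain ⟨a, ha, rfl⟩ := h.cls0 hij hi hj ht ho ti hT hs so si e hv vo
  obtain ⟨b, hb, rfl⟩ := h.cls0 hij hi hj ht ho ti hT hs so si e hw wo
  exact ⟨b * a⁻¹, mul_mem hb.1 (inv_mem ha.1), by group⟩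

theorem ninv (h : LA G Ω P L) : {s | s ∈ L ∧ orderOf s = 2}.ncard = 55 := by
  obtain ⟨i, j, hij, hi, hj⟩ := h.line.two
  obtain ⟨t, ht, ho, ti, -, hT, s, hs, so, si, e⟩ := h.tor hij hi hj
  have h1 : {s | s ∈ L ∧ orderOf s = 2} =
      (fun g => g * s * g⁻¹) '' (L ⊓ stabilizer G i : Subgroup G) := by
    ext v
    refine ⟨fun ⟨hv, vo⟩ => h.cls0 hij hi hj ht ho ti hT hs so si e hv vo, ?_⟩
    rintro ⟨g, hg, rfl⟩
    exact ⟨mul_mem (mul_mem hg.1 hs) (inv_mem hg.1), (orderOf_conj' _ _).trans so⟩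
  rw [h1, Set.InjOn.ncard_image, ← h.stab hi, ← Nat.card_coe_set_eq]
  · rfl
  intro a ha b hb hab
  have hab : a * s * a⁻¹ = b * s * b⁻¹ := hab
  have h2 : b⁻¹ * a ∈ L ⊓ stabilizer G i := mul_mem (inv_mem hb) ha
  have h3 : b⁻¹ * a * s = s * (b⁻¹ * a) := by
    calc b⁻¹ * a * s = b⁻¹ * (a * s * a⁻¹) * a := by group
      _ = _ := by rw [hab]; group
  obtain ⟨k, hk⟩ := hT _ h2.1 h2.2 (by rw [← si, ← mul_smul, h3, mul_smul, h2.2])
  have hk : t ^ k = b⁻¹ * a := hk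
  have h4 : s * (b⁻¹ * a) * s⁻¹ = (b⁻¹ * a)⁻¹ := by rw [← hk, ← conj_zpow, e, inv_zpow]
  rw [← h3, mul_inv_cancel_right] at h4
  exact (inv_mul_eq_one.1 (h.fpf h2.1 (mul_eq_one_iff_eq_inv.2 h4) hi h2.2)).symm

theorem el2 (h : LA G Ω P L) {V : Subgroup G} (hV : SylIn 2 V L) : El 2 2 V L := by
  have : Fact (Nat.Prime 2) := ⟨Nat.prime_two⟩
  obtain ⟨k, hk⟩ := IsPGroup.iff_card.1 hV.isPGroup
  have h1 := card_mul_relIndex hV.le
  have h2 := hV.not_dvd_relIndex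
  rw [hk, h.tA.1] at h1
  have h3 : k < 10 := (Nat.pow_lt_pow_iff_right (by norm_num)).1
    ((Nat.le_of_dvd (by norm_num) ⟨_, h1.symm⟩).trans_lt (by norm_num : 660 < 2 ^ 10))
  have h4 : k = 2 := by interval_cases k <;> omega
  subst h4
  have hne : V ≠ ⊥ := fun e => by rw [e, card_bot] at hk; omega
  obtain ⟨E, hE⟩ := exists_el_two_of_ab Nat.prime_two hV.isPGroup
    (ab_of_card_dvd_sq Nat.prime_two hk.dvd) fun hc => h.burn Nat.prime_two hV hne
      (hV.inf_N_le_C_of_isCyclic Nat.prime_two hc fun q hq _ => hq.not_dvd_one)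
  rw [← eq_of_le_of_card_eq hE.le (hE.card.trans hk.symm)]
  exact hE.mono hV.le

theorem four_mem {V : Subgroup G} (hV : El 2 2 V L) {a b x : G} (ha : a ∈ V) (hb : b ∈ V)
    (a1 : a ≠ 1) (b1 : b ≠ 1) (ab : a ≠ b) (hx : x ∈ V) : x = 1 ∨ x = a ∨ x = b ∨ x = a * b := by
  classical
  have n1 : a * b ≠ 1 := fun e => ab (by
    rw [← mul_one a, ← hV.elAb.2 b hb, pow_two, ← mul_assoc, e, one_mul])
  have hs : (({1, a, b, a * b} : Finset G) : Set G) ⊆ V := by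
    intro y hy
    simp only [Finset.coe_insert, Finset.coe_singleton, Set.mem_insert_iff,
      Set.mem_singleton_iff] at hy
    rcases hy with rfl | rfl | rfl | rfl
    exacts [one_mem _, ha, hb, mul_mem ha hb]
  have := Set.eq_of_subset_of_ncard_le hs (by
    rw [Set.ncard_coe_finset, Finset.card_insert_of_notMem (by simp [a1.symm, b1.symm, n1.symm]),
      Finset.card_insert_of_notMem (by simp [ab, b1]),
      Finset.card_insert_of_notMem (by simp [a1]), Finset.card_singleton]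
    exact hV.card.le)
  simpa using this.ge hx

theorem ex3 (h : LA G Ω P L) {V : Subgroup G} (hV : SylIn 2 V L) :
    ∃ y ∈ L, y ∈ N V ∧ orderOf y = 3 ∧ y ∉ C V := by
  have : Fact (Nat.Prime 2) := ⟨Nat.prime_two⟩
  have : Fact (Nat.Prime 3) := ⟨Nat.prime_three⟩
  have hE := h.el2 hV
  have h1 := hE.relIndex_C_dvd_two Nat.prime_two (A := L ⊓ N V) (nrm_of_le_N inf_le_right)
  have h2 := (hV.of_le (le_inf hV.le (le_N V)) inf_le_left).not_dvd_relIndex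
  have h3 : (C V).relIndex (L ⊓ N V) ∣ V.relIndex (L ⊓ N V) := relIndex_dvd_of_le_left _ hE.ab
  have h4 : (C V).relIndex (L ⊓ N V) ≠ 1 := fun e =>
    h.burn Nat.prime_two hV (hE.ne_bot Nat.prime_two) (relIndex_eq_one.1 e)
  have h5 : (C V).relIndex (L ⊓ N V) = 3 := by
    have h6 : ¬ 2 ∣ (C V).relIndex (L ⊓ N V) := fun e => h2 (e.trans h3)
    generalize (C V).relIndex (L ⊓ N V) = m at h1 h4 h6
    have := Nat.le_of_dvd (by norm_num) h1
    norm_num at this h1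
    interval_cases m <;> omega
  obtain ⟨y, hy, yo⟩ := exists_mem_orderOf_eq (X := L ⊓ N V) Nat.prime_three
    (h5 ▸ relIndex_dvd_card' _ _)
  refine ⟨y, hy.1, hy.2, yo, fun hc => ?_⟩
  have h6 := card_inf_mul_relIndex (C V) (L ⊓ N V)
  have h7 : 3 ∣ Nat.card ↥(C V ⊓ (L ⊓ N V)) := yo ▸ orderOf_dvd_card' ⟨hc, hy⟩
  have h8 := card_dvd_of_le' (inf_le_left : L ⊓ N V ≤ L)
  rw [← h6, h5, h.tA.1] at h8
  have := (Nat.mul_dvd_mul_right h7 3).trans h8
  omega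

theorem exV (h : LA G Ω P L) {s : G} (hs : s ∈ L) (so : orderOf s = 2) {s' : G} (hs' : s' ∈ L)
    (so' : orderOf s' = 2) (e : s * s' = s' * s) : ∃ V, SylIn 2 V L ∧ s ∈ V ∧ s' ∈ V := by
  have pz : ∀ x : G, orderOf x = 2 → IsPGroup 2 (zpowers x) := fun x hx =>
    IsPGroup.of_card (n := 1) (by rw [Nat.card_zpowers, hx, pow_one])
  obtain ⟨V, h1, h2⟩ := exists_sylIn_ge (sup_le (zpowers_le.2 hs) (zpowers_le.2 hs'))
    (isPGroup_sup Nat.prime_two (pz s so) (pz s' so') (.inl (nrm_of_le_C (by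
      rw [C_zpowers, zpowers_le, mem_C1]; exact e))))
  exact ⟨V, h2, h1 (mem_sup_left (mem_zpowers s)), h1 (mem_sup_right (mem_zpowers s'))⟩

theorem ex_other {V : Subgroup G} (hV : El 2 2 V L) (s : G) :
    ∃ v ∈ V, orderOf v = 2 ∧ v ≠ s := by
  by_contra e
  push Not at e
  have h1 : (V : Set G) ⊆ {1, s} := fun v hv => by
    by_cases e' : v = 1
    exacts [.inl e', .inr (e v hv (hV.elAb.orderOf_eq Nat.prime_two hv e'))]
  have h2 := Set.ncard_le_ncard h1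
  have h3 := Set.ncard_insert_le (1 : G) {s}
  have h4 : (V : Set G).ncard = 4 := hV.card
  rw [Set.ncard_singleton] at h3
  omega

theorem four (h : LA G Ω P L) {s : G} (hs : s ∈ L) (so : orderOf s = 2) :
    ∃ s' ∈ L, orderOf s' = 2 ∧ s' ≠ s ∧ s * s' = s' * s := by
  obtain ⟨V, hV, h1, -⟩ := h.exV hs so hs so rfl
  obtain ⟨v, hv, vo, hne⟩ := ex_other (h.el2 hV) s
  exact ⟨v, hV.le hv, vo, hne, (h.el2 hV).elAb.1 s h1 v hv⟩

theorem a4 (h : LA G Ω P L) {s s' : G} (hs : s ∈ L) (hs' : s' ∈ L) (so : orderOf s = 2)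
    (so' : orderOf s' = 2) (hne : s' ≠ s) (e : s * s' = s' * s) :
    ∃ g ∈ L, orderOf g = 3 ∧ g * s * g⁻¹ = s' ∧ g * s' * g⁻¹ = s * s' := by
  obtain ⟨V, hV, h1, h2⟩ := h.exV hs so hs' so' e
  have hE := h.el2 hV
  obtain ⟨y, hy, hN, yo, hc⟩ := h.ex3 hV
  have y3 : y * y * y = 1 := by rw [← pow_three', ← yo, pow_orderOf_eq_one]
  have nofix : ∀ v ∈ V, v ≠ 1 → y * v * y⁻¹ ≠ v := fun v hv v1 e1 => hc (by
    obtain ⟨w, hw, wo, wv⟩ := ex_other hE v
    have w1 : w ≠ 1 := fun e => by rw [e, orderOf_one] at wo; omega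
    have v2 : v * v = 1 := by rw [← pow_two]; exact hE.elAb.2 v hv
    have e2 : y * w * y⁻¹ = w := by
      rcases four_mem hE hv hw v1 w1 wv.symm (conj_mem_of_mem_N hN hw) with f | f | f | f
      · exact absurd f (conj_ne_one w1)
      · exact absurd (by simpa using f.trans e1.symm) wv
      · exact f
      · have f2 : y * y * w * (y * y)⁻¹ = w := by
          calc y * y * w * (y * y)⁻¹ = y * (y * w * y⁻¹) * y⁻¹ := by group
            _ = y * (v * w) * y⁻¹ := by rw [f]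
            _ = (y * v * y⁻¹) * (y * w * y⁻¹) := by group
            _ = w := by rw [e1, f, ← mul_assoc, v2, one_mul]
        calc y * w * y⁻¹ = y * (y * y * w * (y * y)⁻¹) * y⁻¹ := by rw [f2]
          _ = (y * y * y) * w * (y * y * y)⁻¹ := by group
          _ = w := by rw [y3]; group
    refine mem_C.2 fun x hx => (mul_inv_eq_iff_eq_mul.1 ?_).symm
    rcases four_mem hE hv hw v1 w1 wv.symm hx with rfl | rfl | rfl | rfl
    · group
    · exact e1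
    · exact e2
    · rw [conj_mul.symm, e1, e2])
  have s1 : s ≠ 1 := fun e => by rw [e, orderOf_one] at so; omega
  have s1' : s' ≠ 1 := fun e => by rw [e, orderOf_one] at so'; omega
  have s2 : s * s = 1 := by rw [← pow_two]; exact hE.elAb.2 s h1
  have s2' : s' * s' = 1 := by rw [← pow_two]; exact hE.elAb.2 s' h2
  have n1 : s * s' ≠ 1 := fun e => hne (by rw [← one_mul s', ← s2, mul_assoc, e, mul_one])
  have m := nofix _ (mul_mem h1 h2) n1
  rw [← conj_mul] at m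
  rcases four_mem hE h1 h2 s1 s1' hne.symm (conj_mem_of_mem_N hN h1) with f | f | f | f
  · exact absurd f (conj_ne_one s1)
  · exact absurd f (nofix s h1 s1)
  · rcases four_mem hE h1 h2 s1 s1' hne.symm (conj_mem_of_mem_N hN h2) with g | g | g | g
    · exact absurd g (conj_ne_one s1')
    · exact absurd (by rw [f, g, e]) m
    · exact absurd g (nofix s' h2 s1')
    · exact ⟨y, hy, yo, f, g⟩
  · rcases four_mem hE h1 h2 s1 s1' hne.symm (conj_mem_of_mem_N hN h2) with g | g | g | g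
    · exact absurd g (conj_ne_one s1')
    · refine ⟨y⁻¹, inv_mem hy, (orderOf_inv y).trans yo, by rw [← g]; group, ?_⟩
      have : y * (s * s') * y⁻¹ = s' := by
        rw [← conj_mul, f, g, e, mul_assoc, s2, mul_one]
      rw [← this]
      conv_rhs => rw [this]
      group
    · exact absurd g (nofix s' h2 s1')
    · exact absurd (by simpa using g.trans f.symm) hne

theorem ord4 (h : LA G Ω P L) {a : G} (hN : a ∈ N L) (a2 : a * a = 1) {i : Ω} (hi : P i ≤ L)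
    (ai : a • i = i) (hc : a ∉ C (P i)) : ∃ v ∈ L, orderOf (a * v) = 4 ∧ (a * v) ^ 2 ∈ L := by
  have : Fact (Nat.Prime 2) := ⟨Nat.prime_two⟩
  obtain ⟨S, h1, hS⟩ := exists_sylIn_ge (p := 2) (zpowers_le.2 hN)
    (IsPGroup.of_card_dvd_pow (n := 1) (by
      rw [Nat.card_zpowers]; exact orderOf_dvd_of_pow_eq_one (by rw [pow_one, pow_two, a2])))
  have hV := hS.inf_nrm (le_N L) (nrm_N L)
  have hE := h.el2 hV
  have haS : a ∈ S := h1 (mem_zpowers a)
  have hNV : ∀ v ∈ S ⊓ L, a * v * a⁻¹ ∈ S ⊓ L := fun v hv =>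
    ⟨S.mul_mem (S.mul_mem haS hv.1) (S.inv_mem haS), conj_mem_of_mem_N hN hv.2⟩
  obtain ⟨v, hv, e⟩ : ∃ v ∈ S ⊓ L, a * v ≠ v * a := by
    by_contra e
    push Not at e
    obtain ⟨j, -, hj⟩ := h.fix2 hN hi ai hc
    have sq : ∀ v ∈ S ⊓ L, v * v = 1 := fun v hv => by rw [← pow_two]; exact hE.elAb.2 v hv
    have key : ∀ v ∈ S ⊓ L, orderOf v = 2 → v • i = j := fun v hv vo =>
      hj _ ⟨(h.on_mem hv.2).2 hi, fun e' => by
        rw [h.fpf hv.2 (sq v hv) hi e', orderOf_one] at vo; omega,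
        by rw [← mul_smul, e v hv, mul_smul, ai]⟩
    obtain ⟨v, hv, vo, -⟩ := ex_other hE 1
    obtain ⟨w, hw, wo, wv⟩ := ex_other hE v
    have h2 := mul_mem (inv_mem hw) hv
    exact wv (inv_mul_eq_one.1 (h.fpf h2.2 (sq _ h2) hi (by
      rw [mul_smul, key v hv vo, ← key w hw wo, inv_smul_smul])))
  have e1 : (a * v) ^ 2 = a * v * a⁻¹ * v := by
    rw [inv_eq_of_mul_eq_one_right a2, pow_two, mul_assoc (a * v)]
  have h2 : (a * v) ^ 2 ∈ S ⊓ L := e1 ▸ mul_mem (hNV v hv) hv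
  refine ⟨v, hv.2, orderOf_eq_prime_pow (p := 2) (n := 1) (fun e' => e ?_) ?_, h2.2⟩
  · rw [pow_one, e1, mul_eq_one_iff_eq_inv, inv_eq_of_mul_eq_one_right
      (show v * v = 1 by rw [← pow_two]; exact hE.elAb.2 v hv), mul_inv_eq_iff_eq_mul] at e'
    exact e'
  · rw [show 2 ^ (1 + 1) = 2 * 2 from rfl, pow_mul]
    exact hE.elAb.2 _ h2

end LA

theorem Geo.fa (h : Geo G Ω P) {L : Subgroup G} (hL : Line P L) (hA : TyA L) : FA P L :=
  have h : LA G Ω P L := ⟨h, hL, hA⟩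
  { card := hA.1
    perf := h.perfL
    npts := h.npts
    gen := fun _ _ => h.gen
    reg := fun _ _ _ => h.reg
    cen := fun _ => h.cen
    stab := fun _ => h.stab
    fpf := fun _ hs h2 _ => h.fpf hs h2
    tor := fun _ _ => h.tor
    cls := fun _ hs _ hs' => h.cls hs hs'
    ninv := h.ninv
    four := fun _ => h.four
    a4 := fun _ hs _ hs' => h.a4 hs hs'
    b := fun _ hi _ => h.b hi
    fix2 := fun _ hN _ => h.fix2 hN
    opp := fun _ _ hij hi hj _ ho gi gj _ _ => h.opp hij hi hj ho gi gj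
    sq := fun _ => h.sq
    out := fun _ => h.out
    ord4 := fun _ hN a2 _ => h.ord4 hN a2 }

end CfsgJ
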