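import Cfsg.Agent.H3.JDef
import Cfsg.Agent.FT.Main

/-! S3403, Lemma (CF). -/

set_option autoImplicit false

namespace CfsgJ

open CfsgH5 CfsgH6 CfsgFT Subgroup
open scoped commutatorElement

universe u

namespace CF

variable {H : Type u} [Group H] [Finite H]

theorem relIndex_C1_le {X Y : Subgroup H} {s : H} (h : ∀ x ∈ X, ⁅x, s⁆ ∈ Y) :
    (C1 s).relIndex X ≤ Nat.card Y := by
  rw [← ncard_class]
  have e : ((fun y => y * s) '' (Y : Set H)).ncard = Nat.card Y := by
    rw [Set.ncard_image_of_injective _ (mul_left_injective s), ← Nat.card_coe_set_eq]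
    rfl
  rw [← e]
  refine Set.ncard_le_ncard ?_ (Set.toFinite _)
  rintro _ ⟨_, rfl, x, hx, rfl⟩
  exact ⟨_, h x hx, by simp only [commutatorElement_def]; group⟩

theorem card_quot_le (B K : Subgroup H) [B.Normal] (hB : B ≤ K) (w : H) :
    Nat.card ↥(K.map (QuotientGroup.mk' B) ⊓ C1 (QuotientGroup.mk' B w)) ≤
      Nat.card ↥(K ⊓ C1 w) := by
  set f := QuotientGroup.mk' B
  have hk : f.ker = B := QuotientGroup.ker_mk' _
  have hs : Function.Surjective f := QuotientGroup.mk'_surjective _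
  set X := K.map f ⊓ C1 (f w)
  have h1 : X.comap f ≤ K := (comap_mono inf_le_left).trans (by
    rw [comap_map_eq, hk]; exact sup_le le_rfl hB)
  have h2 := relIndex_C1_le (X := X.comap f) (Y := B) (s := w) fun x hx => by
    rw [← hk, MonoidHom.mem_ker, map_commutatorElement, commutatorElement_eq_one_iff_mul_comm]
    exact mem_C1.1 hx.2
  have h3 := card_inf_mul_relIndex (C1 w) (X.comap f)
  have h4 : Nat.card ↥(C1 w ⊓ X.comap f) ≤ Nat.card ↥(K ⊓ C1 w) :=
    card_le_of_le (le_inf (inf_le_right.trans h1) inf_le_left)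
  have h5 := (X.comap f).card_mul_index
  have h6 := X.card_mul_index
  have h7 := B.card_eq_card_quotient_mul_card_subgroup
  rw [index_comap_of_surjective _ hs] at h5
  have h8 : Nat.card (X.comap f) = Nat.card X * Nat.card B := by
    refine Nat.eq_of_mul_eq_mul_right (Nat.pos_of_ne_zero X.index_ne_zero_of_finite) ?_
    rw [h5, h7, ← h6]; ring
  refine Nat.le_of_mul_le_mul_right ?_ (card_pos B)
  rw [← h8, ← h3]
  exact Nat.mul_le_mul h4 h2

theorem pow_index_mem (P : Subgroup H) {z : H} (hz : z ∈ center H) (h : z ∈ commutator H) :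
    z ^ P.index ∈ ⁅P, P⁆ := by
  have key : ∀ (k : ℕ) (g₀ : H), g₀⁻¹ * z ^ k * g₀ ∈ P → g₀⁻¹ * z ^ k * g₀ = z ^ k :=
    fun k g _ => by rw [mul_assoc, ← mem_center_iff.mp (pow_mem hz k) g, inv_mul_cancel_left]
  have e := MonoidHom.transfer_eq_pow (Abelianization.of : P →* Abelianization P) z key
  rw [Abelianization.commutator_subset_ker _ h, eq_comm, ← MonoidHom.mem_ker,
    Abelianization.ker_of] at e
  rw [← map_subtype_commutator]
  exact ⟨_, e, rfl⟩

theorem dvd_sq {X : Subgroup H} (h : IsPGroup 11 X) (hc : Nat.card X < 1331) :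
    Nat.card X ∣ 11 ^ 2 := by
  have : Fact (Nat.Prime 11) := ⟨by norm_num⟩
  obtain ⟨k, hk⟩ := IsPGroup.iff_card.1 h
  rw [hk] at hc ⊢
  refine pow_dvd_pow 11 (Nat.lt_succ_iff.1 ?_)
  exact (Nat.pow_lt_pow_iff_right (by norm_num)).1 (show 11 ^ k < 11 ^ 3 from hc)

/-- the case where every nontrivial normal subgroup inside `K` contains `w` -/
theorem base (K : Subgroup H) [hK : K.Normal] (t w : H) (ho : Odd (Nat.card H)) (hi : K.index = 5)
    (ht : orderOf t = 5) (htK : t ∉ K) (hw : w ∈ K) (h11 : orderOf w = 11) (hc : w * t = t * w)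
    (hb : Nat.card ↥(K ⊓ C1 w) ≤ 121) (gen : commutator H ⊔ zpowers t = ⊤)
    (hm : ∀ B : Subgroup H, B.Normal → B ≤ K → B ≠ ⊥ → w ∈ B) : False := by
  have p11 : Nat.Prime 11 := by norm_num
  have : Fact (Nat.Prime 11) := ⟨p11⟩
  have := feit_thompson H ho
  have := BG23_holds.{u}
  have w1 : w ≠ 1 := fun e => by rw [e, orderOf_one] at h11; omega
  obtain ⟨V, hV, hmin⟩ := exists_minNrm (X := K) (A := ⊤) (fun e => w1 (mem_bot.1 (e ▸ hw)))
    (nrm_top_iff.2 hK)
  have wV := hm V (nrm_top_iff.1 hmin.nrm) hV hmin.ne_bot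
  have hE : ElAb 11 V := hmin.elAb_of_dvd inferInstance p11 (h11 ▸ orderOf_dvd_card' wV)
  have hVp : IsPGroup 11 V := hE.isPGroup
  have hVc : Nat.card V ∣ 11 ^ 2 := dvd_sq hVp (lt_of_le_of_lt ((card_le_of_le
    (le_inf hV fun v hv => mem_C1.2 (hE.1 v hv w wV))).trans hb) (by norm_num))
  have nT : ∀ X : Subgroup H, Nrm ⊤ X → ∀ A : Subgroup H, Nrm A X := fun X h A a _ =>
    h a trivial
  have hD : D (⊤ : Subgroup H) ≤ C V := by
    have h1 := der1_odd_abelem2 (A := ⊤) hE hVc hmin.nrm (by rwa [card_top])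
    obtain ⟨S, hS⟩ := exists_sylIn 11 (D (⊤ : Subgroup H))
    have h2 : S ⊔ (D ⊤ ⊓ C V) = D ⊤ := hS.sup_eq inf_le_left
      (nT _ ((normalIn_D ⊤).nrm.inf hmin.nrm.C) _) fun x hx =>
        (h1 x hx).imp fun k hk => ⟨pow_mem hx _, hk⟩
    have h3 := inf_C_ne_bot_of_isPGroup p11 hVp hS.isPGroup (nT _ hmin.nrm _) hmin.ne_bot
    have h4 : V ⊓ C S ≤ V ⊓ C (D ⊤) := le_inf inf_le_left (by
      rw [← h2]
      exact le_C_sup inf_le_right (le_C_symm (inf_le_right.trans (C_anti inf_le_left))))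
    have h5 := (hmin.eq_bot_or_eq (X := V ⊓ C (D ⊤)) inf_le_left
      (hmin.nrm.inf (normalIn_D ⊤).nrm.C)).resolve_left fun e => h3 (le_bot_iff.1 (e ▸ h4))
    exact le_C_symm (h5.ge.trans inf_le_right)
  rw [D_top] at hD
  have hC : C1 w = ⊤ := top_le_iff.1 (gen ▸ sup_le (hD.trans (C_le_C1 wV))
    (zpowers_le.2 (mem_C1.2 hc.symm)))
  have hz : w ∈ center H := mem_center_iff.2 fun g => mem_C1.1 (hC ▸ mem_top g)
  rw [hC, inf_top_eq] at hb
  have hDK : commutator H ≤ K := by
    have : Fact (Nat.Prime 5) := ⟨by norm_num⟩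
    have : IsCyclic (H ⧸ K) := isCyclic_of_prime_card (p := 5) hi
    letI := IsCyclic.commGroup (α := H ⧸ K)
    exact (Abelianization.commutator_subset_ker (QuotientGroup.mk' K)).trans
      (QuotientGroup.ker_mk' K).le
  have hwD : w ∈ commutator H := by
    obtain ⟨d, hd, y, hy, e⟩ := (mem_sup_nrm' (nT _ (nrm_top_iff.2 inferInstance) _)).1
      (gen ▸ mem_top w : w ∈ commutator H ⊔ zpowers t)
    have h1 : y ∈ zpowers t ⊓ K := ⟨hy, (K.mul_mem_cancel_left (hDK hd)).1 (e ▸ hw)⟩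
    rw [(le_or_inf_eq_bot_of_prime_card (X := zpowers t) (by rw [Nat.card_zpowers, ht]; norm_num)
      K).resolve_left fun h => htK (h (mem_zpowers t)), mem_bot] at h1
    rwa [e, h1, mul_one]
  obtain ⟨P, hP⟩ := exists_sylIn 11 (⊤ : Subgroup H)
  have h1 := K.card_mul_index
  have h2 : Nat.card P < 1331 := by
    have := card_le_card_group P
    rw [hi] at h1
    omega
  have h3 : _ ∈ D P := pow_index_mem P hz hwD
  rw [D_eq_bot.2 (ab_of_card_dvd_sq p11 (dvd_sq hP.isPGroup h2)), mem_bot,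
    ← orderOf_dvd_iff_pow_eq_one, h11] at h3
  exact hP.not_dvd_relIndex (by rwa [relIndex_top_right])

theorem main (n : ℕ) : ∀ (H : Type u) [Group H] [Finite H] (K : Subgroup H) [K.Normal] (t w : H),
    Nat.card H = n → Odd (Nat.card H) → K.index = 5 → orderOf t = 5 → t ∉ K → w ∈ K →
    orderOf w = 11 → w * t = t * w → Nat.card ↥(K ⊓ C1 w) ≤ 121 →
    commutator H ⊔ zpowers t = ⊤ → False := by
  induction n using Nat.strong_induction_on with
  | _ n ih =>
  intro H _ _ K _ t w hn ho hi ht htK hw h11 hc hb gen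
  refine base K t w ho hi ht htK hw h11 hc hb gen fun B hB hBK hne => ?_
  by_contra hwB
  set f := QuotientGroup.mk' B
  have hk : f.ker = B := QuotientGroup.ker_mk' _
  have hs : Function.Surjective f := QuotientGroup.mk'_surjective _
  have h1 := B.card_eq_card_quotient_mul_card_subgroup
  have hKK : (K.map f).comap f = K := by rw [comap_map_eq, hk, sup_of_le_left hBK]
  have ord : ∀ (x : H) (p : ℕ), p.Prime → orderOf x = p → x ∉ B → orderOf (f x) = p := by
    intro x p hp e hx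
    refine ((Nat.dvd_prime hp).1 (e ▸ orderOf_map_dvd f x)).resolve_left fun e' => hx ?_
    rw [← hk]
    exact orderOf_eq_one_iff.1 e'
  have := Normal.map ‹K.Normal› f hs
  refine ih _ (by
    have : 1 < Nat.card B := one_lt_card.2 hne
    have : 0 < Nat.card (H ⧸ B) := Nat.card_pos
    nlinarith) (H ⧸ B) (K.map f) (f t) (f w) rfl (ho.of_dvd_nat ⟨_, h1⟩) ?_
    (ord t 5 (by norm_num) ht fun e => htK (hBK e)) (fun e => htK (hKK ▸ e)) ⟨w, hw, rfl⟩
    (ord w 11 (by norm_num) h11 hwB) (by rw [← map_mul, hc, map_mul])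
    ((card_quot_le B K hBK w).trans hb) ?_
  · rw [← index_comap_of_surjective _ hs, hKK, hi]
  · rw [← MonoidHom.map_zpowers, commutator_def, ← map_top_of_surjective _ hs, ← map_commutator,
      ← commutator_def, ← Subgroup.map_sup, gen]

end CF

theorem lemCF : CFSt.{u} := by
  intro H _ _ K _ t w ho hi ht htK hw h11 hc hb
  set M := commutator H ⊔ zpowers t
  have hM : M.Normal := ⟨fun x hx g => by
    have : g * x * g⁻¹ = ⁅g, x⁆ * x := by simp only [commutatorElement_def]; group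
    exact this ▸ mul_mem (mem_sup_left (commutator_mem_commutator trivial trivial)) hx⟩
  have hne : M ≠ ⊤ := CF.main _ H K t w rfl ho hi ht htK hw h11 hc hb
  obtain ⟨a, ha⟩ : ∃ a, a ∉ M := by
    by_contra e
    push Not at e
    exact hne (eq_top_iff.2 fun a _ => e a)
  letI : CommGroup (H ⧸ M) :=
    { (inferInstance : Group (H ⧸ M)) with
      mul_comm := by
        rintro ⟨x⟩ ⟨y⟩
        refine QuotientGroup.eq.2 (mem_sup_left ?_)
        have : (x * y)⁻¹ * (y * x) = ⁅y⁻¹, x⁻¹⁆ := by simp only [commutatorElement_def]; group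
        exact this ▸ commutator_mem_commutator trivial trivial }
  have : NeZero (Monoid.exponent (H ⧸ M)) := ⟨Monoid.exponent_ne_zero_of_finite⟩
  obtain ⟨φ, hφ⟩ := CommGroup.exists_apply_ne_one_of_hasEnoughRootsOfUnity (H ⧸ M) ℂ
    (a := (a : H ⧸ M)) fun e => ha ((QuotientGroup.eq_one_iff a).1 e)
  refine ⟨φ.comp (QuotientGroup.mk' M), fun e => hφ (DFunLike.congr_fun e a), ?_⟩
  rw [MonoidHom.comp_apply, QuotientGroup.mk'_apply,
    (QuotientGroup.eq_one_iff t).2 (mem_sup_right (mem_zpowers t)), map_one]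

end CfsgJ
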