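import Cfsg.Agent.H3.JDef
import Cfsg.Agent.H9.J1Spec
import Cfsg.Agent.H6.PSLSmall

/-! S3403: the order of `J₁`, and the two types of lines from the isomorphism types. -/

set_option autoImplicit false
set_option maxRecDepth 100000

namespace CfsgJ

open CfsgH5 CfsgH6 CfsgFT Subgroup CfsgH9 CfsgH9.J1C Cfsg

universe u v

theorem eight_dvd {G : Type u} [Group G] [Finite G] {a b c : G} (ha : a * a = 1) (hb : b * b = 1)
    (hc : c * c = 1) (ab : a * b = b * a) (ac : a * c = c * a) (bc : b * c = c * b) (a1 : a ≠ 1)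
    (b1 : b ≠ 1) (c1 : c ≠ 1) (nab : a ≠ b) (nac : a ≠ c) (nbc : b ≠ c) (ne : a * b ≠ c) :
    8 ∣ Nat.card G := by
  have pz : ∀ x : G, x * x = 1 → IsPGroup 2 (zpowers x) := fun x hx =>
    IsPGroup.of_card_dvd_pow (n := 1) (by
      rw [Nat.card_zpowers]; exact orderOf_dvd_of_pow_eq_one (by rw [pow_one, pow_two, hx]))
  have cz : ∀ x y : G, x * y = y * x → zpowers x ≤ C (zpowers y) := fun x y h => by
    rw [C_zpowers, zpowers_le, mem_C1]; exact h
  have h1 := isPGroup_sup Nat.prime_two (pz a ha) (pz b hb) (.inl (nrm_of_le_C (cz a b ab)))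
  have h2 := isPGroup_sup Nat.prime_two h1 (pz c hc)
    (.inl (nrm_of_le_C (sup_le (cz a c ac) (cz b c bc))))
  set E := zpowers a ⊔ zpowers b ⊔ zpowers c
  have ma : a ∈ E := mem_sup_left (mem_sup_left (mem_zpowers a))
  have mb : b ∈ E := mem_sup_left (mem_sup_right (mem_zpowers b))
  have mc : c ∈ E := mem_sup_right (mem_zpowers c)
  have : Fact (Nat.Prime 2) := ⟨Nat.prime_two⟩
  obtain ⟨k, hk⟩ := IsPGroup.iff_card.1 h2
  have n1 : a * b ≠ 1 := fun e => nab (by
    rw [← mul_one a, ← hb, ← mul_assoc, e, one_mul])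
  have n2 : a * b ≠ a := fun e => b1 (mul_eq_left.1 e)
  have n3 : a * b ≠ b := fun e => a1 (mul_eq_right.1 e)
  have h5 : 5 ≤ Nat.card E := by
    classical
    have hs : (({1, a, b, c, a * b} : Finset G) : Set G) ⊆ E := by
      intro x hx
      simp only [Finset.coe_insert, Finset.coe_singleton, Set.mem_insert_iff,
        Set.mem_singleton_iff] at hx
      rcases hx with rfl | rfl | rfl | rfl | rfl
      exacts [one_mem _, ma, mb, mc, mul_mem ma mb]
    have := Set.ncard_le_ncard hs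
    rw [Set.ncard_coe_finset, Finset.card_insert_of_notMem (by
        simp [a1.symm, b1.symm, c1.symm, n1.symm]),
      Finset.card_insert_of_notMem (by simp [nab, nac, n2.symm]),
      Finset.card_insert_of_notMem (by simp [nbc, n3.symm]),
      Finset.card_insert_of_notMem (by simp [ne.symm]), Finset.card_singleton] at this
    exact this
  have : 3 ≤ k := by
    by_contra hlt
    have : k ≤ 2 := by omega
    interval_cases k <;> omega
  exact ((pow_dvd_pow 2 this).trans (hk ▸ dvd_rfl)).trans E.card_subgroup_dvd_card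

theorem mem_word_J1 (w : List ℕ) : ∃ x : Spor.J1, MM.enc x = MM.word 2 c_s0 w := by
  obtain ⟨x, hx, e⟩ := Model.mem_word (by norm_num) (fun _ ha => c_valid0.mem_gen ha) w
  exact ⟨⟨x, gen_eq ▸ hx⟩, e⟩

instance finiteJ1 : Finite Spor.J1 := gen_eq ▸ c_chain0.finite_card_le.1

theorem eight_dvd_J1 : 8 ∣ Nat.card Spor.J1 := by
  obtain ⟨a, ea⟩ := mem_word_J1 [1, 1, 1, 1, 0, 1, 0]
  obtain ⟨b, eb⟩ := mem_word_J1 [0, 1, 1, 1, 1, 0, 1]
  obtain ⟨c, ec⟩ := mem_word_J1 [1, 1, 1, 1, 0, 0, 1, 0, 0]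
  have eq : ∀ x y : Spor.J1, x = y ↔ MM.enc x = MM.enc y := fun x y =>
    ⟨fun e => e ▸ rfl, fun e => Subtype.ext (MM.enc_inj e)⟩
  refine eight_dvd (a := a) (b := b) (c := c) ?_ ?_ ?_ ?_ ?_ ?_ ?_ ?_ ?_ ?_ ?_ ?_ ?_ <;>
    simp only [ne_eq, eq, coe_mul, coe_one, MM.enc_mul, MM.enc_one, ea, eb, ec] <;>
    decide +kernel

theorem card_J1 : Nat.card Spor.J1 = 175560 := by
  have hle : Nat.card Spor.J1 ≤ 175560 := by
    have := c_chain0.finite_card_le.2
    rw [gen_eq] at this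
    exact this.trans (by decide +kernel)
  have d : ∀ n, (∃ g : Spor.J1, orderOf g = n) → n ∣ Nat.card Spor.J1 := by
    rintro _ ⟨g, rfl⟩
    exact orderOf_dvd_natCard g
  have h8 := eight_dvd_J1
  have h15 := d _ exists_order_15
  have h7 := d _ exists_order_7
  have h11 := d _ exists_order_11
  have h19 := d _ exists_order_19
  have : 8 * 15 * 7 * 11 * 19 ∣ Nat.card Spor.J1 :=
    Nat.Coprime.mul_dvd_of_dvd_of_dvd (by norm_num) (Nat.Coprime.mul_dvd_of_dvd_of_dvd (by norm_num)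
      (Nat.Coprime.mul_dvd_of_dvd_of_dvd (by norm_num)
        (Nat.Coprime.mul_dvd_of_dvd_of_dvd (by norm_num) h8 h15) h7) h11) h19
  exact le_antisymm hle (Nat.le_of_dvd Nat.card_pos this)

theorem orderOf_J1 (g : Spor.J1) : orderOf g ∈ [1, 2, 3, 5, 6, 7, 10, 11, 15, 19] := by
  obtain ⟨k, hk, e⟩ := pow_eq_one g
  have hd := orderOf_dvd_of_pow_eq_one e
  generalize orderOf g = d at hd
  have h1 : d ≤ 19 := by
    have := Nat.le_of_dvd (by revert hk; simp; omega) hd
    revert hk; simp; omega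
  revert k
  interval_cases d <;> simp

theorem tyB_of_iso {G : Type u} [Group G] {L : Subgroup G} (h : Spor.IsoJ1 L) : TyB L := by
  obtain ⟨e⟩ := h
  refine ⟨(Nat.card_congr e.toEquiv).trans card_J1, fun g hg => ?_⟩
  rw [← orderOf_mk g hg, ← e.orderOf_eq]
  exact orderOf_J1 _

theorem tyA_of_iso {G : Type u} [Group G] {L : Subgroup G} {F : Type v} [Field F] [Fintype F]
    (hF : Fintype.card F = 11)
    (h : Nonempty (L ≃* Matrix.ProjectiveSpecialLinearGroup (Fin 2) F)) : TyA L := by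
  obtain ⟨e⟩ := h
  have h1 := two_mul_card_psl2_odd F (by rw [hF]; decide)
  have := Matrix.ProjectiveSpecialLinearGroup.rank_two_simple (F := F)
    (by rw [Nat.card_eq_fintype_card, hF]; decide)
  rw [hF] at h1
  exact ⟨by rw [Nat.card_congr e.toEquiv]; omega, e.isSimpleGroup⟩

end CfsgJ
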