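import Cfsg.Agent.H9.JRed
import Cfsg.Agent.H9.JCard

/-! S3403 from the non-existence of a minimal counterexample. -/

set_option autoImplicit false

namespace CfsgJ

open CfsgH5 CfsgH6 CfsgFT Subgroup

universe u v

theorem final (H : ∀ (G Ω : Type u) [Group G] [Finite G] [MulAction G Ω] [Finite Ω]
    (P : Ω → Subgroup G), ¬ Geo G Ω P) {G : Type u} [Group G] [Finite G] {F : Type v} [Field F]
    [Fintype F] (hF : Fintype.card F = 11) (P : Subgroup G) (hP : Nat.card ↥P = 11)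
    (hPn : ¬ P.Normal) (hgen : Subgroup.normalClosure (P : Set G) = ⊤)
    (hpair : ∀ g : G, P.map (MulAut.conj g).toMonoidHom ≠ P →
      Nonempty (↥(P ⊔ P.map (MulAut.conj g).toMonoidHom) ≃*
        Matrix.ProjectiveSpecialLinearGroup (Fin 2) F) ∨
        Cfsg.Spor.IsoJ1 ↥(P ⊔ P.map (MulAut.conj g).toMonoidHom)) :
    Nonempty (G ≃* Matrix.ProjectiveSpecialLinearGroup (Fin 2) F) ∨ Cfsg.Spor.IsoJ1 G := by
  obtain ⟨g, h1, h2⟩ := reduce H P hP hPn hgen fun g hg =>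
    (hpair g hg).imp (tyA_of_iso hF) tyB_of_iso
  have e : G ≃* ↥(P ⊔ P.map (MulAut.conj g).toMonoidHom) :=
    topEquiv.symm.trans (MulEquiv.subgroupCongr h2.symm)
  exact (hpair g h1).imp (fun ⟨f⟩ => ⟨e.trans f⟩) fun ⟨f⟩ => ⟨e.trans f⟩

end CfsgJ
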