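import Cfsg.Agent.H9.VA1

set_option autoImplicit false
set_option linter.unusedSectionVars false
set_option maxHeartbeats 400000

/-! V-case, linear step: `H = C(V) D` from the linear lemma. -/

namespace CfsgSE

open Subgroup CfsgH5 CfsgH6 CfsgFT CfsgSZ CfsgSZ.PS

universe u

/-- the statement of the linear lemma. -/
def LINh : Prop := ∀ {L W : Type u} [Group L] [Finite L] [CommGroup W] [Finite W]
  [MulDistribMulAction L W], (∀ g : L, (∀ v : W, g • v = v) → g = 1) → (∀ v : W, v * v = 1) →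
  16 ≤ Nat.card W → ∀ {S E : Subgroup L}, IsCyclic S →
  (∀ v w : W, v ≠ 1 → w ≠ 1 → ∃ s ∈ S, s • v = w) → Nrm E S →
  (∀ (r : ℕ) (Y : Subgroup L), r.Prime → IsPGroup r Y → Y ⊓ S ≠ ⊥ → N Y ≤ E) →
  (∀ v : W, v ≠ 1 → Group.IsSolvable (MulAction.stabilizer L v)) → E = ⊤

variable {G Ω : Type u} [Group G] [Finite G] [MulAction G Ω] {V : Ω → Subgroup G} {α β : Ω}

theorem VN.C_sup_D_of (lin : LINh.{u}) (h : VN V) (hne : α ≠ β) :
    C (V α) ⊔ St G α ⊓ St G β = St G α := by
  have S := h.se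
  obtain ⟨u, hu, rfl⟩ := S.exists_J hne
  obtain ⟨k, k1, k2, k3⟩ := h.singer hu hne.symm
  have eN := h.N_eq α
  letI : CommGroup (V α) := { (inferInstance : Group (V α)) with
    mul_comm := fun a b => Subtype.ext ((h.elAb α).1 a a.2 b b.2) }
  let f := (autm (V α)).rangeRestrict
  have fs : Function.Surjective f := (autm (V α)).rangeRestrict_surjective
  haveI : Finite (autm (V α)).range := Finite.of_surjective f fs
  have fa : ∀ (g : N (V α)) (v : V α), ((f g • v : V α) : G) = g * v * (g : G)⁻¹ := fun _ _ => rfl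
  have fk : pre f ⊥ = C (V α) := by
    rw [← ker_autm]
    ext g
    rw [mem_pre, mem_pre]
    exact exists_congr fun m => by rw [mem_bot, mem_bot]; exact Subtype.ext_iff
  have f1 : ∀ g : N (V α), f g = 1 ↔ (g : G) ∈ C (V α) := fun g => by
    rw [← fk, mem_pre]
    exact ⟨fun e => ⟨g.2, e⟩, fun ⟨_, e⟩ => e⟩
  have dN : St G α ⊓ St G (u • α) ≤ N (V α) := inf_le_left.trans eN.ge
  have kN : k ∈ N (V α) := dN k1.mem_D
  obtain ⟨s, s1, s2⟩ := h.exists_mem α
  have KC : ∀ k, KK u α k → k ∈ C (V α) → k = 1 := fun k a b =>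
    S.K_eq_one hu (h.iv s1 s2) (h.le α s1) hne.symm a (mem_centralizer_iff.1 b s s1).symm
  have Kz : ∀ x ∈ zpowers k, KK u α x := fun x hx =>
    S.kk_of hne.symm (zpowers_le.2 k1.mem_D hx) (pt_inv_zp k1.inv hx)
  have := lin (L := (autm (V α)).range) (W := V α) (fun g e => Subtype.ext (MulEquiv.ext e))
    (fun v => Subtype.ext (h.sq v.2)) (h.card α) (S := zpowers (f ⟨k, kN⟩))
    (E := img f (St G α ⊓ St G (u • α))) inferInstance (fun v w a b => by
      obtain ⟨i, e⟩ := k2 v v.2 (fun e => a (Subtype.ext e)) w w.2 fun e => b (Subtype.ext e)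
      exact ⟨_, npow_mem_zpowers _ i, Subtype.ext (by rw [← map_pow, fa]; exact e)⟩)
    (nrm_of_le_N fun y hy => by
      obtain ⟨d, d1, d2, rfl⟩ := mem_img'.1 hy
      obtain ⟨i, e⟩ := k3 d d1
      refine mem_N_of_conj fun x hx => ?_
      have a : f ⟨d, d2⟩ * f ⟨k, kN⟩ * (f ⟨d, d2⟩)⁻¹ = f ⟨k, kN⟩ ^ i := by
        rw [eq_comm, ← inv_mul_eq_one, ← map_pow, ← map_inv, ← map_inv, ← map_mul, ← map_mul,
          ← map_mul, f1]
        exact e
      have b : zpowers (f ⟨k, kN⟩) ≤ cj (f ⟨d, d2⟩)⁻¹ (zpowers (f ⟨k, kN⟩)) := by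
        rw [zpowers_le, mem_cj, inv_inv, a]; exact npow_mem_zpowers _ i
      simpa using mem_cj.1 (b hx))
    (fun r Y hr hY hn g hg => by
      have := Fact.mk hr
      obtain ⟨y, y1, y2⟩ := (bot_or_exists_ne_one _).resolve_left hn
      rw [← img_zpowers] at y1
      obtain ⟨x, x1, x2, rfl⟩ := mem_img'.1 y1.2
      have x3 : x ≠ 1 := fun e => y2 (by subst e; exact map_one f)
      have x4 : IsPGroup r (zpowers x) := by
        obtain ⟨j, hj⟩ := hY ⟨_, y1.1⟩
        have e : f (⟨x, x2⟩ ^ r ^ j) = 1 := by rw [map_pow]; exact congrArg Subtype.val hj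
        have e' := KC _ (Kz _ (pow_mem x1 _)) ((f1 _).1 e)
        obtain ⟨i, -, hi⟩ := (Nat.dvd_prime_pow hr).1 (orderOf_dvd_of_pow_eq_one e')
        exact IsPGroup.of_card (by rw [Nat.card_zpowers, hi])
      have r2 : r ≠ 2 := by
        rintro rfl
        obtain ⟨j, hj⟩ := IsPGroup.iff_orderOf.1 x4 ⟨x, mem_zpowers x⟩
        rw [← orderOf_coe] at hj
        have o := (Kz x x1).odd
        rcases j with _ | j
        · exact x3 (orderOf_eq_one_iff.1 hj)
        · rw [show orderOf x = 2 ^ (j + 1) from hj, pow_succ] at o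
          exact (Nat.not_even_iff_odd.2 o) (even_two.mul_left _)
      have p1 : x ∈ pre f Y := mem_pre.2 ⟨x2, y1.1⟩
      obtain ⟨T, t1, t2⟩ := exists_sylIn_ge (zpowers_le.2 p1) x4
      have t3 := (h.fixK hu hne.symm (Kz x x1) x3 hr x4).of_le hr r2 t1 t2.isPGroup
      obtain ⟨g, rfl⟩ := fs g
      have pN : pre f Y ≤ N (V α) := fun z hz => (mem_pre.1 hz).1
      have eY : img f (pre f Y) = Y := img_pre_of_le fun z _ => fs z
      have g1 : (g : G) ∈ N (pre f Y) := by
        have := (pre_N_img (f := f) pN (pre_mono f bot_le)).le (mem_pre.2 ⟨g.2, eY.symm ▸ hg⟩)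
        exact this.2
      obtain ⟨z, z1, z2⟩ := t2.frattini (mem_N.1 g1)
      have z3 : z * g ∈ St G α := mul_mem (eN.le (pN z1)) (eN.le g.2)
      have z4 : z * g ∈ St G α ⊓ St G (u • α) := ⟨z3, ((t3.cases (mem_N.2 z2)).resolve_right
        fun e => hne (z3.symm.trans e.1)).2⟩
      have e1 : img f T = Y := by
        have := t2.img hr f pN
        rw [eY] at this
        exact (this.eq_of_le le_rfl hY this.le).symm
      have z5 : f ⟨z, pN z1⟩ ∈ img f (St G α ⊓ St G (u • α)) :=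
        img_mono f (le_inf t3.l t3.r) (e1.ge (mem_pre.1 z1).2)
      have z6 := mem_img_of_mem f (dN z4) z4
      rwa [show (⟨z * g, dN z4⟩ : N (V α)) = ⟨z, pN z1⟩ * g from rfl, map_mul,
        mul_mem_cancel_left z5] at z6)
    (fun v hv => by
      have a := h.iv v.2 fun e => hv (Subtype.ext e)
      refine solvable_of_le (solvable_img f (h.solv _ a)) fun g hg => ?_
      obtain ⟨g, rfl⟩ := fs g
      exact mem_img_of_mem f g.2 (mem_C1_iff_conj.2 ((fa g v).symm.trans (congrArg Subtype.val hg))))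
  refine le_antisymm (sup_le (h.C_le α) inf_le_left) fun g hg => ?_
  have a := pre_img f dN
  rw [this, fk, sup_comm] at a
  exact a.le (mem_pre.2 ⟨eN.ge hg, trivial⟩)

end CfsgSE
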