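import Cfsg.Agent.H9.P43Mod
import Cfsg.Agent.H9.E7Rel
import Cfsg.Agent.H9.Pres5
import Cfsg.Agent.H9.CoxeterSn
import Cfsg.Agent.H1.SpConc
import Cfsg.Agent.H7.SpAlg

/-! The Weyl groups of types `A₅`, `E₆`, `E₇` inside `Sp₆(2)`. -/

set_option autoImplicit false
set_option maxRecDepth 100000

namespace CfsgH9.E7

open CfsgH3.TC Matrix Subgroup

/-- the group `Sp₆(2)` -/
abbrev Sp62 : Type := symplecticGroup (Fin 3) (ZMod 2)

/-- the index bijection -/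
def e6 : Fin 3 ⊕ Fin 3 ≃ Fin 6 := finSumFinEquiv

noncomputable def eM : Model Sp62 := spModel P43.gl_ok e6

noncomputable def e7T : NT := (.node (.node (.node (.node (.leaf (nat_lit 40564838550125678058396201254913)) (.leaf (nat_lit 40564838550125680591680655327233))) (.node (.leaf (nat_lit 40564838550125678058397409219073)) (.leaf (nat_lit 40564838550125678058397274996737)))) (.node (.node (.leaf (nat_lit 40564838550125696072794710736897)) (.leaf (nat_lit 40644066712639942395989745205249))) (.node (.leaf (nat_lit 40564838587904609921353362964481)) (.leaf (nat_lit 40564838550125680310196014940161))))) (.node (.node (.node (.leaf (nat_lit 40564838550125678058396201254913)) (.leaf (nat_lit 40564838550125680591680655327233))) (.node (.leaf (nat_lit 40564838550125678058397409219073)) (.leaf (nat_lit 40564838550125678058397274996737)))) (.node (.node (.leaf (nat_lit 40564838550125696072794710736897))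 (.leaf (nat_lit 40644066712639942395989745205249))) (.node (.leaf (nat_lit 40564838587904609921353362964481)) (.leaf (nat_lit 40564838550125680310196014940161))))))

noncomputable def e7val : ℕ → Sp62 := fun a => eM.dec (e7T.get (2 * a))

theorem e7_tab : eM.Tab e7T e7val (2 * 8) :=
  sp_tab P43.gl_ok e6 (mask := 7) (cJ := 79228200293216466750102569472) (by norm_num) (by decide +kernel) (by decide +kernel)
    (by decide +kernel)

theorem e7_h0 : e7val 0 = 1 := eM.dec_one (by decide +kernel)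

theorem e7_rels : RelsHold e7val R7 := e7_tab.relsHold (by decide) (by decide +kernel)

noncomputable def e7_lv0 : List (ℕ × NT) := []

theorem e7_ch0 : eM.Chain (gcl e7val 0) e7_lv0 := eM.chain_zero _

noncomputable def e7_t1 : NT := (.node (.leaf (nat_lit 40564838550125678058396201254913)) (.leaf (nat_lit 40564838550125696072794710736897)))

noncomputable def e7_lv1 : List (ℕ × NT) := (nat_lit 2, e7_t1) :: e7_lv0

theorem e7_ht1 : allLt 2 (fun j => Nat.beq (e7_t1.get j) (eM.wcode e7T (invW (l1W.getD j [])))) = true := by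
  decide +kernel

theorem e7_ch1 : eM.Chain (gcl e7val 1) e7_lv1 :=
  Model.Tab.chain_cons e7_h0 (m := 8) e7_tab (by norm_num) (by norm_num) (l1_cos e7_h0 (e7_rels.mono (by decide)))
    (by decide) e7_ch0 (l := 2) rfl (by norm_num) e7_ht1

noncomputable def e7_t2 : NT := (.node (.node (.leaf (nat_lit 40564838550125678058396201254913)) (.leaf (nat_lit 40564838550190259677053902131713))) (.leaf (nat_lit 40564838550125678058397409219073)))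

noncomputable def e7_lv2 : List (ℕ × NT) := (nat_lit 3, e7_t2) :: e7_lv1

theorem e7_ht2 : allLt 3 (fun j => Nat.beq (e7_t2.get j) (eM.wcode e7T (invW (l2W.getD j [])))) = true := by
  decide +kernel

theorem e7_ch2 : eM.Chain (gcl e7val 2) e7_lv2 :=
  Model.Tab.chain_cons e7_h0 (m := 8) e7_tab (by norm_num) (by norm_num) (l2_cos e7_h0 (e7_rels.mono (by decide)))
    (by decide) e7_ch1 (l := 3) rfl (by norm_num) e7_ht2

noncomputable def e7_t3 : NT := (.node (.node (.leaf (nat_lit 40564838550125678058396201254913)) (.leaf (nat_lit 40564838587904609921354568831497))) (.node (.leaf (nat_lit 40564838587904609921353362964481)) (.leaf (nat_lit 40564838587969335655199137600009))))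

noncomputable def e7_lv3 : List (ℕ × NT) := (nat_lit 4, e7_t3) :: e7_lv2

theorem e7_ht3 : allLt 4 (fun j => Nat.beq (e7_t3.get j) (eM.wcode e7T (invW (l3W.getD j [])))) = true := by
  decide +kernel

theorem e7_ch3 : eM.Chain (gcl e7val 3) e7_lv3 :=
  Model.Tab.chain_cons e7_h0 (m := 8) e7_tab (by norm_num) (by norm_num) (l3_cos e7_h0 (e7_rels.mono (by decide)))
    (by decide) e7_ch2 (l := 4) rfl (by norm_num) e7_ht3

noncomputable def e7_t4 : NT := (.node (.node (.node (.leaf (nat_lit 40564838550125678058396201254913)) (.leaf (nat_lit 40564973988177643861005362561545))) (.leaf (nat_lit 40564973987596409293105384128513))) (.node (.leaf (nat_lit 40564838550125680591680655327233)) (.leaf (nat_lit 40564973987596409293096926347785))))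

noncomputable def e7_lv4 : List (ℕ × NT) := (nat_lit 5, e7_t4) :: e7_lv3

theorem e7_ht4 : allLt 5 (fun j => Nat.beq (e7_t4.get j) (eM.wcode e7T (invW (l4W.getD j [])))) = true := by
  decide +kernel

theorem e7_ch4 : eM.Chain (gcl e7val 4) e7_lv4 :=
  Model.Tab.chain_cons e7_h0 (m := 8) e7_tab (by norm_num) (by norm_num) (l4_cos e7_h0 (e7_rels.mono (by decide)))
    (by decide) e7_ch3 (l := 5) rfl (by norm_num) e7_ht4

noncomputable def e7_t5 : NT := (.node (.node (.node (.leaf (nat_lit 40564838550125678058396201254913)) (.leaf (nat_lit 40644202452342128529949717463625))) (.leaf (nat_lit 40644066712639944924876169543681))) (.node (.node (.leaf (nat_lit 40644066712639942395989745205249)) (.leaf (nat_lit 40644202452924516019362760524361))) (.leaf (nat_lit 40644202452342128529958192021505))))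

noncomputable def e7_lv5 : List (ℕ × NT) := (nat_lit 6, e7_t5) :: e7_lv4

theorem e7_ht5 : allLt 6 (fun j => Nat.beq (e7_t5.get j) (eM.wcode e7T (invW (l5W.getD j [])))) = true := by
  decide +kernel

theorem e7_ch5 : eM.Chain (gcl e7val 5) e7_lv5 :=
  Model.Tab.chain_cons e7_h0 (m := 8) e7_tab (by norm_num) (by norm_num) (l5_cos e7_h0 (e7_rels.mono (by decide)))
    (by decide) e7_ch4 (l := 6) rfl (by norm_num) e7_ht5


/-- the code of a word -/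
noncomputable def wc (w : List ℕ) : ℕ := eM.wcode e7T w

variable {G : Type*} [Group G]

theorem sq_of_comm {a b : G} (ha : a * a = 1) (hb : b * b = 1) (h : a * b = b * a) :
    a * (b * (a * b)) = 1 := by
  rw [← mul_assoc b, ← h, mul_assoc, hb, mul_one, ha]

theorem cube_eq {a b : G} (h : (a * b) ^ 3 = 1) : a * (b * (a * (b * (a * b)))) = 1 := by
  rw [← h, pow_three']; simp only [mul_assoc]

theorem braid_of_cube {a b : G} (ha : a * a = 1) (hb : b * b = 1) (h : (a * b) ^ 3 = 1) :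
    a * b * a = b * a * b := by
  have h1 : a⁻¹ = a := inv_eq_of_mul_eq_one_right ha
  have h2 : b⁻¹ = b := inv_eq_of_mul_eq_one_right hb
  rw [← mul_inv_eq_one, ← h, pow_three']
  simp only [_root_.mul_inv_rev, h1, h2, mul_assoc]

theorem cube_symm {a b : G} (h : (a * b) ^ 3 = 1) : (b * a) ^ 3 = 1 := by
  rw [show b * a = a⁻¹ * (a * b) * a⁻¹⁻¹ by group, conj_pow, h]; simp

/-- Coxeter generators of `S₆` -/
structure S6 (a b c d e : G) : Prop where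
  aa : a * a = 1
  bb : b * b = 1
  cc : c * c = 1
  dd : d * d = 1
  ee : e * e = 1
  ab : (a * b) ^ 3 = 1
  bc : (b * c) ^ 3 = 1
  cd : (c * d) ^ 3 = 1
  de : (d * e) ^ 3 = 1
  ac : a * c = c * a
  ad : a * d = d * a
  ae : a * e = e * a
  bd : b * d = d * b
  be : b * e = e * b
  ce : c * e = e * c
  ne : a * b ≠ 1

theorem S6.rels {val : ℕ → G} (h : S6 (val 1) (val 2) (val 3) (val 4) (val 5)) :
    RelsHold val R5 := by
  simp only [RelsHold, R5, List.forall_mem_cons, wval_cons, wval_nil, sval, Nat.reduceMod,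
    Nat.reduceDiv, ↓reduceIte, mul_one]
  exact ⟨h.aa, h.bb, cube_eq h.ab, h.cc, sq_of_comm h.aa h.cc h.ac, cube_eq h.bc, h.dd,
    sq_of_comm h.aa h.dd h.ad, sq_of_comm h.bb h.dd h.bd, cube_eq h.cd, h.ee,
    sq_of_comm h.aa h.ee h.ae, sq_of_comm h.bb h.ee h.be, sq_of_comm h.cc h.ee h.ce, cube_eq h.de,
    by simp⟩

theorem S6.rels6 {val : ℕ → G} (h : S6 (val 1) (val 2) (val 3) (val 4) (val 5))
    (h0 : val 6 * val 6 = 1) (h1 : val 1 * val 6 = val 6 * val 1) (h2 : val 2 * val 6 = val 6 * val 2)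
    (h3 : (val 3 * val 6) ^ 3 = 1) (h4 : val 4 * val 6 = val 6 * val 4)
    (h5 : val 5 * val 6 = val 6 * val 5) : RelsHold val R6 := by
  refine (h.rels.append (R' := R6.drop 15) ?_).mono (by decide)
  simp only [RelsHold, R6, List.drop, List.forall_mem_cons, wval_cons, wval_nil, sval, Nat.reduceMod,
    Nat.reduceDiv, ↓reduceIte, mul_one]
  exact ⟨h0, sq_of_comm h.aa h0 h1, sq_of_comm h.bb h0 h2, cube_eq h3, sq_of_comm h.dd h0 h4,
    sq_of_comm h.ee h0 h5, by simp⟩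

theorem S6.rels7 {val : ℕ → G} (h : S6 (val 1) (val 2) (val 3) (val 4) (val 5))
    (hR : RelsHold val R6) (h6 : val 6 * val 6 = 1)
    (h0 : val 7 * val 7 = 1) (h1 : val 1 * val 7 = val 7 * val 1) (h2 : val 2 * val 7 = val 7 * val 2)
    (h3 : val 3 * val 7 = val 7 * val 3) (h4 : val 4 * val 7 = val 7 * val 4)
    (h5 : (val 5 * val 7) ^ 3 = 1) (h7 : val 6 * val 7 = val 7 * val 6) : RelsHold val R7 := by
  refine (hR.append (R' := R7.drop 21) ?_).mono (by decide)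
  simp only [RelsHold, R7, List.drop, List.forall_mem_cons, wval_cons, wval_nil, sval, Nat.reduceMod,
    Nat.reduceDiv, ↓reduceIte, mul_one]
  exact ⟨h0, sq_of_comm h.aa h0 h1, sq_of_comm h.bb h0 h2, sq_of_comm h.cc h0 h3,
    sq_of_comm h.dd h0 h4, cube_eq h5, sq_of_comm h6 h0 h7, by simp⟩

theorem S6.symm {a b c d e : G} (h : S6 a b c d e) (hne : e * d ≠ 1) : S6 e d c b a :=
  ⟨h.ee, h.dd, h.cc, h.bb, h.aa, cube_symm h.de, cube_symm h.cd, cube_symm h.bc, cube_symm h.ab,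
    h.ce.symm, h.be.symm, h.ae.symm, h.bd.symm, h.ad.symm, h.ac.symm, hne⟩

theorem S6.conj {a b c d e : G} (h : S6 a b c d e) (g : G) :
    S6 (g * a * g⁻¹) (g * b * g⁻¹) (g * c * g⁻¹) (g * d * g⁻¹) (g * e * g⁻¹) := by
  constructor <;> simp only [conj_mul, conj_pow, ne_eq, conj_eq_one_iff, h.aa, h.bb, h.cc, h.dd, h.ee,
    h.ab, h.bc, h.cd, h.de, h.ac, h.ad, h.ae, h.bd, h.be, h.ce, h.ne, not_false_eq_true]

theorem S6.card {val : ℕ → G} (h : S6 (val 1) (val 2) (val 3) (val 4) (val 5)) :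
    Nat.card (gcl val 5) = 720 := by
  have hc : CoxRel (fun i => val (i + 1)) 5 := ⟨fun i hi => by
    interval_cases i
    exacts [h.aa, h.bb, h.cc, h.dd, h.ee], fun i hi => by
    have : i < 4 := by omega
    interval_cases i
    exacts [braid_of_cube h.aa h.bb h.ab, braid_of_cube h.bb h.cc h.bc, braid_of_cube h.cc h.dd h.cd,
      braid_of_cube h.dd h.ee h.de], fun i j hi hj => by
    have : i < 3 := by omega
    interval_cases i <;> interval_cases j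
    exacts [h.ac, h.ad, h.ae, h.bd, h.be, h.ce]⟩
  obtain ⟨φ, hφ⟩ := hc.exists_hom
  have h1 : φ.range = gcl val 5 := by
    rw [CoxRel.range_eq hφ, coxSub, gcl]
    congr 1
    ext y
    exact ⟨fun ⟨i, hi, e⟩ => ⟨i + 1, by omega, hi, e⟩,
      fun ⟨i, h1, h2, e⟩ => ⟨i - 1, show i - 1 < 5 by omega, by simpa [Nat.sub_add_cancel h1] using e⟩⟩
  have h2 : Function.Injective φ := by
    rw [← MonoidHom.ker_eq_bot_iff]
    by_contra h2
    have h3 := Equiv.Perm.alternatingGroup_le_of_normal (by simp) ((nontrivial_iff_ne_bot _).2 h2)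
      (x := adjSwap 5 0 * adjSwap 5 1) (by rw [Equiv.Perm.mem_alternatingGroup]; decide)
    rw [MonoidHom.mem_ker, map_mul, hφ 0 (by norm_num), hφ 1 (by norm_num)] at h3
    exact h.ne h3
  rw [← h1, ← Nat.card_congr (φ.ofInjective h2).toEquiv, Nat.card_perm]
  simp [Nat.factorial]

theorem wm0 (n : ℕ) (hn : n < 8) : WM eM e7T e7val 8 n e7val (gcl e7val n).subtype :=
  wm_self e7_tab hn e7_h0

theorem e7_s6 : S6 (e7val 1) (e7val 2) (e7val 3) (e7val 4) (e7val 5) := by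
  have h := wm0 5 (by norm_num)
  have r : ∀ a, a < 6 → Rep eM (gcl e7val 5).subtype (e7val a) (wc [2 * a]) := fun a ha =>
    wval_single e7val a ▸ h.rep [2 * a] (by simp; omega)
  have r1 := r 1 (by norm_num)
  have r2 := r 2 (by norm_num)
  have r3 := r 3 (by norm_num)
  have r4 := r 4 (by norm_num)
  have r5 := r 5 (by norm_num)
  exact ⟨r1.of_o2 (by decide +kernel), r2.of_o2 (by decide +kernel), r3.of_o2 (by decide +kernel),
    r4.of_o2 (by decide +kernel), r5.of_o2 (by decide +kernel),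
    (r1.mul r2).of_o3 (by decide +kernel), (r2.mul r3).of_o3 (by decide +kernel),
    (r3.mul r4).of_o3 (by decide +kernel), (r4.mul r5).of_o3 (by decide +kernel),
    r1.comm r3 (by decide +kernel), r1.comm r4 (by decide +kernel), r1.comm r5 (by decide +kernel),
    r2.comm r4 (by decide +kernel), r2.comm r5 (by decide +kernel), r3.comm r5 (by decide +kernel),
    (r1.mul r2).ne (subtype_injective _) Rep.one (by decide +kernel)⟩

theorem exists_wm5 [Finite G] {val : ℕ → G} (h0 : val 0 = 1)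
    (h : S6 (val 1) (val 2) (val 3) (val 4) (val 5)) :
    ∃ ψ, WM eM e7T e7val 8 5 val ψ ∧ Function.Injective ψ := by
  obtain ⟨ψ, hψ⟩ := exists_wm (val := val) (n := 5) e7_tab (by norm_num) e7_h0 h0
    (bd5 (Prod.ext (subVal_zero _ _) h0)
      (((e7_rels.mono (by decide)).subVal e7_h0 (by decide)).prod h.rels)) e7_s6.card.ge
  exact ⟨ψ, hψ, hψ.injective (e7_s6.card.trans h.card.symm).le⟩

/-- the reflection in the highest root of `E₆` -/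
def th6 : List ℕ := [12, 6, 4, 2, 8, 6, 4, 10, 8, 6, 12, 6, 4, 2, 8, 6, 4, 10, 8, 6, 12]

def wA6 : List (List ℕ) := [[], [12], [6, 12], [4, 6, 12], [8, 6, 12], [2, 4, 6, 12], [8, 4, 6, 12], [10, 8, 6, 12], [8, 2, 4, 6, 12], [6, 8, 4, 6, 12], [10, 8, 4, 6, 12], [6, 8, 2, 4, 6, 12], [10, 8, 2, 4, 6, 12], [10, 6, 8, 4, 6, 12], [12, 6, 8, 4, 6, 12], [4, 6, 8, 2, 4, 6, 12], [10, 6, 8, 2, 4, 6, 12], [12, 6, 8, 2, 4, 6, 12], [8, 10, 6, 8, 4, 6, 12], [12, 10, 6, 8, 4, 6, 12], [10, 4, 6, 8, 2, 4, 6, 12], [12, 4, 6, 8, 2, 4, 6, 12], [8, 10, 6, 8, 2, 4, 6, 12], [12, 10, 6, 8, 2, 4, 6, 12], [12, 8, 10, 6, 8, 4, 6, 12], [8, 10, 4, 6, 8, 2, 4, 6, 12], [12, 10, 4, 6, 8, 2, 4, 6, 12], [6, 12, 4, 6, 8, 2, 4, 6, 12], [12, 8, 10, 6, 8, 2, 4, 6, 12], [6, 12, 8, 10, 6, 8, 4, 6, 12], [6, 8, 10, 4, 6, 8, 2, 4, 6, 12], [12, 8, 10, 4, 6, 8, 2, 4, 6, 12], [6, 12, 10, 4, 6, 8, 2, 4, 6, 12],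 [8, 6, 12, 4, 6, 8, 2, 4, 6, 12], [6, 12, 8, 10, 6, 8, 2, 4, 6, 12], [4, 6, 12, 8, 10, 6, 8, 4, 6, 12]]
def wB6 : List (List ℕ) := [[], [4], [2, 4], [6, 4], [6, 2, 4], [8, 6, 4], [4, 6, 2, 4], [8, 6, 2, 4], [10, 8, 6, 4], [8, 4, 6, 2, 4], [10, 8, 6, 2, 4], [6, 8, 4, 6, 2, 4], [10, 8, 4, 6, 2, 4], [10, 6, 8, 4, 6, 2, 4], [8, 10, 6, 8, 4, 6, 2, 4]]
def wC6 : List (List ℕ) := [[], [8], [6, 8], [10, 8], [10, 6, 8], [8, 10, 6, 8]]
def wD6 : List (List ℕ) := [[], [12, 6, 4, 2, 8, 6, 4, 10, 8, 6, 12, 6, 4, 2, 8, 6, 4, 10, 8, 6, 12], [2], [6], [10], [12, 6, 4, 2, 8, 6, 4, 10, 8, 6, 12, 6, 4, 2, 8, 6, 4, 10, 8, 6, 12, 2], [12, 6, 4, 2, 8, 6, 4, 10, 8, 6, 12, 6, 4, 2, 8, 6, 4, 10, 8, 6, 12, 6], [12, 6, 4, 2, 8, 6, 4, 10, 8, 6, 12, 6, 4, 2, 8, 6, 4, 10, 8, 6, 12, 10], [2, 6], [2, 10], [6, 10], [12, 6, 4, 2, 8, 6, 4, 10, 8, 6, 12, 6, 4, 2, 8, 6, 4, 10, 8, 6, 12, 2, 6], [12, 6,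 4, 2, 8, 6, 4, 10, 8, 6, 12, 6, 4, 2, 8, 6, 4, 10, 8, 6, 12, 2, 10], [12, 6, 4, 2, 8, 6, 4, 10, 8, 6, 12, 6, 4, 2, 8, 6, 4, 10, 8, 6, 12, 6, 10], [2, 6, 10], [12, 6, 4, 2, 8, 6, 4, 10, 8, 6, 12, 6, 4, 2, 8, 6, 4, 10, 8, 6, 12, 2, 6, 10]]

theorem e7_card6 : 51840 ≤ Nat.card (gcl e7val 6) := by
  have h := wm0 6 (by norm_num)
  have hi := subtype_injective (gcl e7val 6)
  have m : ∀ Ws, WLt 6 Ws → ∀ w ∈ Ws, wval e7val w ∈ gcl e7val 6 := fun Ws hW w hw => h.mem w (hW w hw)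
  have h1 := h.card_step hi th6 (by decide) (Ws := wA6) (by decide) (m _ (by decide)) (by decide +kernel)
  have h2 := h.card_step hi [2] (by decide) (Ws := wB6) (by decide) (fun w hw => mem_inf.2
    ⟨m _ (by decide) w hw, h.mem_cent (by decide) th6 (by decide) (by decide +kernel) w hw⟩)
    (by decide +kernel)
  have h3 := h.card_step hi [6] (by decide) (Ws := wC6) (by decide) (fun w hw => mem_inf.2 ⟨mem_inf.2
    ⟨m _ (by decide) w hw, h.mem_cent (by decide) th6 (by decide) (by decide +kernel) w hw⟩,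
    h.mem_cent (by decide) [2] (by decide) (by decide +kernel) w hw⟩) (by decide +kernel)
  have h4 := h.card_list hi (Ws := wD6) (by decide) (fun w hw => mem_inf.2 ⟨mem_inf.2 ⟨mem_inf.2
    ⟨m _ (by decide) w hw, h.mem_cent (by decide) th6 (by decide) (by decide +kernel) w hw⟩,
    h.mem_cent (by decide) [2] (by decide) (by decide +kernel) w hw⟩,
    h.mem_cent (by decide) [6] (by decide) (by decide +kernel) w hw⟩) (by decide +kernel)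
  rw [show wA6.length = 36 by rfl] at h1
  rw [show wB6.length = 15 by rfl] at h2
  rw [show wC6.length = 6 by rfl] at h3
  rw [show wD6.length = 16 by rfl] at h4
  omega

theorem exists_wm6 {val : ℕ → G} (h0 : val 0 = 1) (h : RelsHold val R6) :
    ∃ ψ, WM eM e7T e7val 8 6 val ψ :=
  exists_wm (val := val) (n := 6) e7_tab (by norm_num) e7_h0 h0
    (bd6 (Prod.ext (subVal_zero _ _) h0)
      (((e7_rels.mono (by decide)).subVal e7_h0 (by decide)).prod h)) e7_card6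

theorem e7_card6' : Nat.card (gcl e7val 6) = 51840 :=
  le_antisymm (bd6 e7_h0 (e7_rels.mono (by decide))).2 e7_card6

/-- the transvection commuting with all generators but the first -/
def th7 : List ℕ := [4, 6, 4, 8, 6, 4, 10, 8, 6, 4, 12, 6, 4, 8, 6, 10, 8, 12, 6, 4, 14, 10, 8, 6, 4, 12, 6, 8, 10, 14]

def wA7 : List (List ℕ) := [[], [2], [4, 2], [6, 4, 2], [8, 6, 4, 2], [12, 6, 4, 2], [10, 8, 6, 4, 2], [12, 8, 6, 4, 2], [12, 10, 8, 6, 4, 2], [14, 10, 8, 6, 4, 2], [6, 12, 8, 6, 4, 2], [6, 12, 10, 8, 6, 4, 2], [14, 12, 10, 8, 6, 4, 2], [4, 6, 12, 8, 6, 4, 2], [4, 6, 12, 10, 8, 6, 4, 2], [8, 6, 12, 10, 8, 6, 4, 2], [14, 6, 12, 10, 8, 6, 4, 2], [2, 4, 6, 12, 8, 6, 4, 2], [2, 4, 6, 12, 10, 8, 6, 4, 2], [8, 4, 6, 12, 10, 8, 6, 4, 2], [14, 4, 6, 12, 10, 8, 6, 4, 2], [14, 8, 6, 12, 10, 8, 6, 4, 2], [8, 2, 4, 6, 12, 10, 8, 6, 4, 2], [14, 2, 4, 6, 12, 10, 8, 6, 4, 2], [6,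 8, 4, 6, 12, 10, 8, 6, 4, 2], [14, 8, 4, 6, 12, 10, 8, 6, 4, 2], [10, 14, 8, 6, 12, 10, 8, 6, 4, 2], [6, 8, 2, 4, 6, 12, 10, 8, 6, 4, 2], [14, 8, 2, 4, 6, 12, 10, 8, 6, 4, 2], [12, 6, 8, 4, 6, 12, 10, 8, 6, 4, 2], [14, 6, 8, 4, 6, 12, 10, 8, 6, 4, 2], [10, 14, 8, 4, 6, 12, 10, 8, 6, 4, 2], [4, 6, 8, 2, 4, 6, 12, 10, 8, 6, 4, 2], [12, 6, 8, 2, 4, 6, 12, 10, 8, 6, 4, 2], [14, 6, 8, 2, 4, 6, 12, 10, 8, 6, 4, 2], [10, 14, 8, 2, 4, 6, 12, 10, 8, 6, 4, 2], [14, 12, 6, 8, 4, 6, 12, 10, 8, 6, 4, 2], [10, 14, 6, 8, 4, 6, 12, 10, 8, 6, 4, 2], [12, 4, 6, 8, 2, 4, 6, 12, 10, 8, 6, 4, 2], [14, 4, 6, 8, 2, 4, 6, 12, 10, 8, 6, 4, 2], [14, 12, 6, 8, 2, 4, 6, 12, 10, 8, 6, 4, 2], [10, 14, 6, 8, 2, 4, 6, 12, 10, 8, 6, 4, 2], [10, 14, 12, 6, 8, 4, 6, 12, 10, 8, 6, 4, 2], [8, 10, 14, 6, 8, 4, 6, 12, 10, 8, 6, 4, 2], [6, 12, 4, 6, 8, 2, 4, 6, 12, 10, 8, 6, 4, 2], [14, 12, 4, 6, 8, 2, 4,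 6, 12, 10, 8, 6, 4, 2], [10, 14, 4, 6, 8, 2, 4, 6, 12, 10, 8, 6, 4, 2], [10, 14, 12, 6, 8, 2, 4, 6, 12, 10, 8, 6, 4, 2], [8, 10, 14, 6, 8, 2, 4, 6, 12, 10, 8, 6, 4, 2], [8, 10, 14, 12, 6, 8, 4, 6, 12, 10, 8, 6, 4, 2], [8, 6, 12, 4, 6, 8, 2, 4, 6, 12, 10, 8, 6, 4, 2], [14, 6, 12, 4, 6, 8, 2, 4, 6, 12, 10, 8, 6, 4, 2], [10, 14, 12, 4, 6, 8, 2, 4, 6, 12, 10, 8, 6, 4, 2], [8, 10, 14, 4, 6, 8, 2, 4, 6, 12, 10, 8, 6, 4, 2], [8, 10, 14, 12, 6, 8, 2, 4, 6, 12, 10, 8, 6, 4, 2], [6, 8, 10, 14, 12, 6, 8, 4, 6, 12, 10, 8, 6, 4, 2], [10, 8, 6, 12, 4, 6, 8, 2, 4, 6, 12, 10, 8, 6, 4, 2], [14, 8, 6, 12, 4, 6, 8, 2, 4, 6, 12, 10, 8, 6, 4, 2], [10, 14, 6, 12, 4, 6, 8, 2, 4, 6, 12, 10, 8, 6, 4, 2], [8, 10, 14, 12, 4, 6, 8, 2, 4, 6, 12, 10, 8, 6, 4, 2], [6, 8, 10, 14, 4, 6, 8, 2, 4, 6, 12, 10, 8, 6, 4, 2], [6, 8, 10, 14, 12, 6, 8, 2, 4, 6, 12, 10, 8, 6, 4, 2], [4, 6, 8, 10, 14, 12, 6,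 8, 4, 6, 12, 10, 8, 6, 4, 2]]
def wB7 : List (List ℕ) := [[], [6], [4, 6], [8, 6], [12, 6], [8, 4, 6], [12, 4, 6], [10, 8, 6], [12, 8, 6], [6, 8, 4, 6], [10, 8, 4, 6], [12, 8, 4, 6], [6, 12, 4, 6], [12, 10, 8, 6], [14, 10, 8, 6], [6, 12, 8, 6], [10, 6, 8, 4, 6], [12, 10, 8, 4, 6], [14, 10, 8, 4, 6], [6, 12, 10, 8, 6], [14, 12, 10, 8, 6], [8, 10, 6, 8, 4, 6], [14, 10, 6, 8, 4, 6], [14, 12, 10, 8, 4, 6], [8, 6, 12, 10, 8, 6], [14, 6, 12, 10, 8, 6], [14, 8, 10, 6, 8, 4, 6], [14, 8, 6, 12, 10, 8, 6], [10, 14, 8, 10, 6, 8, 4, 6], [10, 14, 8, 6, 12, 10, 8, 6]]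
def wC7 : List (List ℕ) := [[], [10], [8, 10], [14, 10], [10, 8, 6, 4, 12, 6, 8, 10, 14, 10, 8, 6, 4, 12, 6, 8, 10, 10], [14, 8, 10], [10, 8, 6, 4, 12, 6, 8, 10, 14, 10, 8, 6, 4, 12, 6, 8, 10, 8, 10], [10, 8, 6, 4, 12, 6, 8, 10, 14, 10, 8, 6, 4, 12, 6, 8, 10, 14, 10], [10, 14, 8, 10], [10, 8, 6, 4, 12, 6, 8, 10, 14, 10, 8, 6, 4, 12, 6, 8, 10, 14, 8, 10], [10, 10, 8, 6, 4, 12, 6, 8, 10, 14, 10, 8, 6, 4, 12, 6, 8, 10, 8, 10], [10, 10, 8, 6, 4, 12, 6, 8, 10, 14, 10, 8, 6, 4, 12, 6, 8, 10, 14, 10]]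
def wD7 : List (List ℕ) := [[], [4, 6, 4, 8, 6, 4, 10, 8, 6, 4, 12, 6, 4, 8, 6, 10, 8, 12, 6, 4, 14, 10, 8, 6, 4, 12, 6, 8, 10, 14], [12], [14], [4], [8], [10, 8, 6, 4, 12, 6, 8, 10, 14, 10, 8, 6, 4, 12, 6, 8, 10], [4, 6, 4, 8, 6, 4, 10, 8, 6, 4, 12, 6, 4, 8, 6, 10, 8, 12, 6, 4, 14, 10, 8, 6, 4, 12, 6, 8, 10, 14, 12], [4, 6, 4, 8, 6, 4, 10, 8, 6, 4, 12, 6, 4, 8, 6, 10, 8, 12, 6, 4, 14, 10, 8, 6, 4, 12, 6, 8, 10, 14, 14], [4, 6, 4, 8, 6, 4, 10, 8, 6, 4, 12, 6, 4, 8, 6, 10, 8, 12, 6, 4, 14, 10, 8, 6, 4, 12, 6, 8, 10, 14, 4], [4, 6, 4, 8, 6, 4, 10, 8, 6, 4, 12, 6, 4, 8, 6, 10, 8, 12, 6, 4, 14, 10, 8, 6, 4, 12, 6, 8, 10, 14, 8], [4, 6, 4, 8, 6, 4, 10, 8, 6, 4, 12, 6, 4, 8, 6, 10, 8, 12, 6, 4, 14, 10, 8, 6, 4, 12, 6, 8, 10, 14, 10, 8, 6, 4, 12, 6, 8, 10, 14, 10, 8, 6, 4, 12, 6, 8, 10], [12, 14], [12, 4], [12, 8], [12, 10, 8, 6, 4, 12, 6, 8, 10, 14, 10, 8, 6, 4, 12, 6, 8,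 10], [14, 4], [14, 8], [14, 10, 8, 6, 4, 12, 6, 8, 10, 14, 10, 8, 6, 4, 12, 6, 8, 10], [4, 8], [4, 10, 8, 6, 4, 12, 6, 8, 10, 14, 10, 8, 6, 4, 12, 6, 8, 10], [8, 10, 8, 6, 4, 12, 6, 8, 10, 14, 10, 8, 6, 4, 12, 6, 8, 10], [4, 6, 4, 8, 6, 4, 10, 8, 6, 4, 12, 6, 4, 8, 6, 10, 8, 12, 6, 4, 14, 10, 8, 6, 4, 12, 6, 8, 10, 14, 12, 14], [4, 6, 4, 8, 6, 4, 10, 8, 6, 4, 12, 6, 4, 8, 6, 10, 8, 12, 6, 4, 14, 10, 8, 6, 4, 12, 6, 8, 10, 14, 12, 4], [4, 6, 4, 8, 6, 4, 10, 8, 6, 4, 12, 6, 4, 8, 6, 10, 8, 12, 6, 4, 14, 10, 8, 6, 4, 12, 6, 8, 10, 14, 12, 8], [4, 6, 4, 8, 6, 4, 10, 8, 6, 4, 12, 6, 4, 8, 6, 10, 8, 12, 6, 4, 14, 10, 8, 6, 4, 12, 6, 8, 10, 14, 12, 10, 8, 6, 4, 12, 6, 8, 10, 14, 10, 8, 6, 4, 12, 6, 8, 10], [4, 6, 4, 8, 6, 4, 10, 8, 6, 4, 12, 6, 4, 8, 6, 10, 8, 12, 6, 4, 14, 10, 8, 6, 4, 12, 6, 8, 10, 14, 14, 4], [4, 6, 4, 8, 6, 4, 10, 8, 6, 4, 12, 6, 4, 8, 6, 10, 8, 12, 6,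 4, 14, 10, 8, 6, 4, 12, 6, 8, 10, 14, 14, 8], [4, 6, 4, 8, 6, 4, 10, 8, 6, 4, 12, 6, 4, 8, 6, 10, 8, 12, 6, 4, 14, 10, 8, 6, 4, 12, 6, 8, 10, 14, 14, 10, 8, 6, 4, 12, 6, 8, 10, 14, 10, 8, 6, 4, 12, 6, 8, 10], [4, 6, 4, 8, 6, 4, 10, 8, 6, 4, 12, 6, 4, 8, 6, 10, 8, 12, 6, 4, 14, 10, 8, 6, 4, 12, 6, 8, 10, 14, 4, 8], [4, 6, 4, 8, 6, 4, 10, 8, 6, 4, 12, 6, 4, 8, 6, 10, 8, 12, 6, 4, 14, 10, 8, 6, 4, 12, 6, 8, 10, 14, 4, 10, 8, 6, 4, 12, 6, 8, 10, 14, 10, 8, 6, 4, 12, 6, 8, 10], [4, 6, 4, 8, 6, 4, 10, 8, 6, 4, 12, 6, 4, 8, 6, 10, 8, 12, 6, 4, 14, 10, 8, 6, 4, 12, 6, 8, 10, 14, 8, 10, 8, 6, 4, 12, 6, 8, 10, 14, 10, 8, 6, 4, 12, 6, 8, 10], [12, 14, 4], [12, 14, 8], [12, 14, 10, 8, 6, 4, 12, 6, 8, 10, 14, 10, 8, 6, 4, 12, 6, 8, 10], [12, 4, 8], [12, 4, 10, 8, 6, 4, 12, 6, 8, 10, 14, 10, 8, 6, 4, 12, 6, 8, 10], [12, 8, 10, 8, 6, 4, 12, 6, 8, 10, 14, 10, 8, 6, 4, 12, 6, 8, 10],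 [14, 4, 8], [14, 4, 10, 8, 6, 4, 12, 6, 8, 10, 14, 10, 8, 6, 4, 12, 6, 8, 10], [14, 8, 10, 8, 6, 4, 12, 6, 8, 10, 14, 10, 8, 6, 4, 12, 6, 8, 10], [4, 8, 10, 8, 6, 4, 12, 6, 8, 10, 14, 10, 8, 6, 4, 12, 6, 8, 10], [4, 6, 4, 8, 6, 4, 10, 8, 6, 4, 12, 6, 4, 8, 6, 10, 8, 12, 6, 4, 14, 10, 8, 6, 4, 12, 6, 8, 10, 14, 12, 14, 4], [4, 6, 4, 8, 6, 4, 10, 8, 6, 4, 12, 6, 4, 8, 6, 10, 8, 12, 6, 4, 14, 10, 8, 6, 4, 12, 6, 8, 10, 14, 12, 14, 8], [4, 6, 4, 8, 6, 4, 10, 8, 6, 4, 12, 6, 4, 8, 6, 10, 8, 12, 6, 4, 14, 10, 8, 6, 4, 12, 6, 8, 10, 14, 12, 14, 10, 8, 6, 4, 12, 6, 8, 10, 14, 10, 8, 6, 4, 12, 6, 8, 10], [4, 6, 4, 8, 6, 4, 10, 8, 6, 4, 12, 6, 4, 8, 6, 10, 8, 12, 6, 4, 14, 10, 8, 6, 4, 12, 6, 8, 10, 14, 12, 4, 8], [4, 6, 4, 8, 6, 4, 10, 8, 6, 4, 12, 6, 4, 8, 6, 10, 8, 12, 6, 4, 14, 10, 8, 6, 4, 12, 6, 8, 10, 14, 12, 4, 10, 8, 6, 4, 12, 6, 8, 10, 14, 10, 8, 6, 4, 12, 6, 8, 10],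 [4, 6, 4, 8, 6, 4, 10, 8, 6, 4, 12, 6, 4, 8, 6, 10, 8, 12, 6, 4, 14, 10, 8, 6, 4, 12, 6, 8, 10, 14, 12, 8, 10, 8, 6, 4, 12, 6, 8, 10, 14, 10, 8, 6, 4, 12, 6, 8, 10], [4, 6, 4, 8, 6, 4, 10, 8, 6, 4, 12, 6, 4, 8, 6, 10, 8, 12, 6, 4, 14, 10, 8, 6, 4, 12, 6, 8, 10, 14, 14, 4, 8], [4, 6, 4, 8, 6, 4, 10, 8, 6, 4, 12, 6, 4, 8, 6, 10, 8, 12, 6, 4, 14, 10, 8, 6, 4, 12, 6, 8, 10, 14, 14, 4, 10, 8, 6, 4, 12, 6, 8, 10, 14, 10, 8, 6, 4, 12, 6, 8, 10], [4, 6, 4, 8, 6, 4, 10, 8, 6, 4, 12, 6, 4, 8, 6, 10, 8, 12, 6, 4, 14, 10, 8, 6, 4, 12, 6, 8, 10, 14, 14, 8, 10, 8, 6, 4, 12, 6, 8, 10, 14, 10, 8, 6, 4, 12, 6, 8, 10], [4, 6, 4, 8, 6, 4, 10, 8, 6, 4, 12, 6, 4, 8, 6, 10, 8, 12, 6, 4, 14, 10, 8, 6, 4, 12, 6, 8, 10, 14, 4, 8, 10, 8, 6, 4, 12, 6, 8, 10, 14, 10, 8, 6, 4, 12, 6, 8, 10], [12, 14, 4, 8], [12, 14, 4, 10, 8, 6, 4, 12, 6, 8, 10, 14, 10, 8, 6, 4, 12, 6, 8, 10], [12, 14, 8, 10, 8,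 6, 4, 12, 6, 8, 10, 14, 10, 8, 6, 4, 12, 6, 8, 10], [12, 4, 8, 10, 8, 6, 4, 12, 6, 8, 10, 14, 10, 8, 6, 4, 12, 6, 8, 10], [14, 4, 8, 10, 8, 6, 4, 12, 6, 8, 10, 14, 10, 8, 6, 4, 12, 6, 8, 10], [4, 6, 4, 8, 6, 4, 10, 8, 6, 4, 12, 6, 4, 8, 6, 10, 8, 12, 6, 4, 14, 10, 8, 6, 4, 12, 6, 8, 10, 14, 12, 14, 4, 8], [4, 6, 4, 8, 6, 4, 10, 8, 6, 4, 12, 6, 4, 8, 6, 10, 8, 12, 6, 4, 14, 10, 8, 6, 4, 12, 6, 8, 10, 14, 12, 14, 4, 10, 8, 6, 4, 12, 6, 8, 10, 14, 10, 8, 6, 4, 12, 6, 8, 10], [4, 6, 4, 8, 6, 4, 10, 8, 6, 4, 12, 6, 4, 8, 6, 10, 8, 12, 6, 4, 14, 10, 8, 6, 4, 12, 6, 8, 10, 14, 12, 14, 8, 10, 8, 6, 4, 12, 6, 8, 10, 14, 10, 8, 6, 4, 12, 6, 8, 10], [4, 6, 4, 8, 6, 4, 10, 8, 6, 4, 12, 6, 4, 8, 6, 10, 8, 12, 6, 4, 14, 10, 8, 6, 4, 12, 6, 8, 10, 14, 12, 4, 8, 10, 8, 6, 4, 12, 6, 8, 10, 14, 10, 8, 6, 4, 12, 6, 8, 10], [4, 6, 4, 8, 6, 4, 10, 8, 6, 4, 12, 6, 4, 8, 6, 10, 8, 12, 6,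 4, 14, 10, 8, 6, 4, 12, 6, 8, 10, 14, 14, 4, 8, 10, 8, 6, 4, 12, 6, 8, 10, 14, 10, 8, 6, 4, 12, 6, 8, 10], [12, 14, 4, 8, 10, 8, 6, 4, 12, 6, 8, 10, 14, 10, 8, 6, 4, 12, 6, 8, 10], [4, 6, 4, 8, 6, 4, 10, 8, 6, 4, 12, 6, 4, 8, 6, 10, 8, 12, 6, 4, 14, 10, 8, 6, 4, 12, 6, 8, 10, 14, 12, 14, 4, 8, 10, 8, 6, 4, 12, 6, 8, 10, 14, 10, 8, 6, 4, 12, 6, 8, 10]]

theorem e7_card7 : 1451520 ≤ Nat.card (gcl e7val 7) := by
  have h := wm0 7 (by norm_num)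
  have hi := subtype_injective (gcl e7val 7)
  have m : ∀ Ws, WLt 7 Ws → ∀ w ∈ Ws, wval e7val w ∈ gcl e7val 7 := fun Ws hW w hw => h.mem w (hW w hw)
  have h1 := h.card_step hi th7 (by decide) (Ws := wA7) (by decide) (m _ (by decide)) (by decide +kernel)
  have h2 := h.card_step hi [12] (by decide) (Ws := wB7) (by decide) (fun w hw => mem_inf.2
    ⟨m _ (by decide) w hw, h.mem_cent (by decide) th7 (by decide) (by decide +kernel) w hw⟩)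
    (by decide +kernel)
  have h3 := h.card_step hi [14] (by decide) (Ws := wC7) (by decide) (fun w hw => mem_inf.2 ⟨mem_inf.2
    ⟨m _ (by decide) w hw, h.mem_cent (by decide) th7 (by decide) (by decide +kernel) w hw⟩,
    h.mem_cent (by decide) [12] (by decide) (by decide +kernel) w hw⟩) (by decide +kernel)
  have h4 := h.card_list hi (Ws := wD7) (by decide) (fun w hw => mem_inf.2 ⟨mem_inf.2 ⟨mem_inf.2
    ⟨m _ (by decide) w hw, h.mem_cent (by decide) th7 (by decide) (by decide +kernel) w hw⟩,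
    h.mem_cent (by decide) [12] (by decide) (by decide +kernel) w hw⟩,
    h.mem_cent (by decide) [14] (by decide) (by decide +kernel) w hw⟩) (by decide +kernel)
  rw [show wA7.length = 63 by rfl] at h1
  rw [show wB7.length = 30 by rfl] at h2
  rw [show wC7.length = 12 by rfl] at h3
  rw [show wD7.length = 64 by rfl] at h4
  omega

open CfsgH1 Sum in
theorem card_FxS_le (T : Finset (Fin 3 ⊕ Fin 3)) (c : Fin 3 ⊕ Fin 3) {n : ℕ}
    (hn : (Finset.univ.filter fun v : Fin 3 ⊕ Fin 3 → ZMod 2 =>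
      v ≠ 0 ∧ ∀ d, d.swap ∈ T → v d = (Pi.single c 1 : Fin 3 ⊕ Fin 3 → ZMod 2) d).card = n) :
    Nat.card (FxS (ZMod 2) (T : Set (Fin 3 ⊕ Fin 3))) ≤
      n * Nat.card (FxS (ZMod 2) ((insert c T : Finset _) : Set (Fin 3 ⊕ Fin 3))) := by
  set L := FxS (ZMod 2) (T : Set (Fin 3 ⊕ Fin 3))
  set v : Fin 3 ⊕ Fin 3 → ZMod 2 := Pi.single c 1 with hv
  have h1 : Nat.card (MulAction.stabilizer L v) ≤
      Nat.card (FxS (ZMod 2) ((insert c T : Finset _) : Set (Fin 3 ⊕ Fin 3))) :=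
    Nat.card_le_card_of_injective (fun g => ⟨g.1.1, mem_FxS.2 fun d hd => by
      rcases Finset.mem_insert.1 hd with rfl | hd
      exacts [g.2, mem_FxS.1 g.1.2 d hd]⟩) fun a b e => Subtype.ext (Subtype.ext (Subtype.mk.inj e))
  have h2 : (MulAction.stabilizer L v).index ≤ n := by
    rw [MulAction.index_stabilizer, ← hn, ← Set.ncard_coe_finset]
    refine Set.ncard_le_ncard ?_
    rintro _ ⟨g, rfl⟩
    simp only [Finset.coe_filter, Finset.mem_univ, true_and, Set.mem_ofPred_eq]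
    refine ⟨fun e => ?_, fun d hd => smul_apply_eq g.2 v hd⟩
    have h3 : v = 0 := by rwa [smul_eq_zero_iff_eq] at e
    simpa [hv] using congrFun h3 c
  rw [← card_mul_index (MulAction.stabilizer L v), mul_comm]
  exact Nat.mul_le_mul h2 h1

open CfsgH1 Sum in
theorem card_sp62_le : Nat.card Sp62 ≤ 1451520 := by
  have h1 := card_FxS_le ∅ (inl 0) (n := 63) (by decide +kernel)
  have h2 := card_FxS_le (insert (inl 0) ∅) (inr 0) (n := 32) (by decide +kernel)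
  have h3 := card_FxS_le (insert (inr 0) (insert (inl 0) ∅)) (inl 1) (n := 15) (by decide +kernel)
  have h4 := card_FxS_le (insert (inl 1) (insert (inr 0) (insert (inl 0) ∅))) (inr 1) (n := 8)
    (by decide +kernel)
  have h5 := card_FxS_le (insert (inr 1) (insert (inl 1) (insert (inr 0) (insert (inl 0) ∅)))) (inl 2)
    (n := 3) (by decide +kernel)
  have h6 := card_FxS_le (insert (inl 2) (insert (inr 1) (insert (inl 1) (insert (inr 0)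
    (insert (inl 0) ∅))))) (inr 2) (n := 2) (by decide +kernel)
  have h7 : FxS (ZMod 2) ((∅ : Finset (Fin 3 ⊕ Fin 3)) : Set (Fin 3 ⊕ Fin 3)) = ⊤ := by
    ext g; simp [mem_FxS]
  have h8 : FxS (ZMod 2) ((insert (inr 2) (insert (inl 2) (insert (inr 1) (insert (inl 1) (insert (inr 0)
    (insert (inl 0) ∅))))) : Finset (Fin 3 ⊕ Fin 3)) : Set (Fin 3 ⊕ Fin 3)) = ⊥ :=
    eq_bot_iff.2 fun g hg => sp_ext fun v => by
      rw [one_smul]
      exact smul_eq_self hg fun c hc => absurd (Finset.mem_coe.2 (by revert c; decide)) hc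
  rw [h7, card_top] at h1
  rw [h8, card_bot] at h6
  exact h1.trans (by omega)

theorem e7_top : gcl e7val 7 = ⊤ :=
  eq_of_le_of_card_ge le_top (by rw [card_top]; exact card_sp62_le.trans e7_card7)

theorem e7_card7' : Nat.card (gcl e7val 7) = 1451520 :=
  le_antisymm (by rw [e7_top, card_top]; exact card_sp62_le) e7_card7

def w63 : List (List ℕ) := [[], [4], [2, 4], [6, 4], [6, 2, 4], [8, 6, 4], [12, 6, 4], [4, 6, 2, 4], [8, 6, 2, 4], [12, 6, 2, 4], [10, 8, 6, 4], [12, 8, 6, 4], [8, 4, 6, 2, 4], [12, 4, 6, 2, 4], [10, 8, 6, 2, 4], [12, 8, 6, 2, 4], [12, 10, 8, 6, 4], [14, 10, 8, 6, 4], [6, 12, 8, 6, 4], [6, 8, 4, 6, 2, 4], [10, 8, 4, 6, 2, 4], [12, 8, 4, 6, 2, 4], [6, 12, 4, 6, 2, 4], [12, 10, 8, 6, 2, 4], [14, 10, 8, 6, 2, 4], [6, 12, 8, 6, 2, 4], [6, 12, 10, 8, 6, 4], [14, 12, 10, 8, 6, 4], [4, 6, 12, 8, 6, 4], [10, 6, 8, 4, 6, 2, 4], [12, 10, 8, 4, 6, 2, 4],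 [14, 10, 8, 4, 6, 2, 4], [6, 12, 10, 8, 6, 2, 4], [14, 12, 10, 8, 6, 2, 4], [4, 6, 12, 10, 8, 6, 4], [8, 6, 12, 10, 8, 6, 4], [14, 6, 12, 10, 8, 6, 4], [8, 10, 6, 8, 4, 6, 2, 4], [14, 10, 6, 8, 4, 6, 2, 4], [14, 12, 10, 8, 4, 6, 2, 4], [8, 6, 12, 10, 8, 6, 2, 4], [14, 6, 12, 10, 8, 6, 2, 4], [8, 4, 6, 12, 10, 8, 6, 4], [14, 4, 6, 12, 10, 8, 6, 4], [14, 8, 6, 12, 10, 8, 6, 4], [14, 8, 10, 6, 8, 4, 6, 2, 4], [14, 8, 6, 12, 10, 8, 6, 2, 4], [6, 8, 4, 6, 12, 10, 8, 6, 4], [14, 8, 4, 6, 12, 10, 8, 6, 4], [10, 14, 8, 6, 12, 10, 8, 6, 4], [10, 14, 8, 10, 6, 8, 4, 6, 2, 4], [10, 14, 8, 6, 12, 10, 8, 6, 2, 4], [12, 6, 8, 4, 6, 12, 10, 8, 6, 4], [14, 6, 8, 4, 6, 12, 10, 8, 6, 4], [10, 14, 8, 4, 6, 12, 10, 8, 6, 4], [14, 12, 6, 8, 4, 6, 12, 10, 8, 6, 4], [10, 14, 6, 8, 4, 6, 12, 10, 8, 6, 4], [10, 14, 12, 6, 8, 4, 6, 12, 10, 8, 6, 4], [8, 10, 14, 6, 8, 4, 6, 12, 10, 8, 6, 4],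 [8, 10, 14, 12, 6, 8, 4, 6, 12, 10, 8, 6, 4], [6, 8, 10, 14, 12, 6, 8, 4, 6, 12, 10, 8, 6, 4], [4, 6, 8, 10, 14, 12, 6, 8, 4, 6, 12, 10, 8, 6, 4], [2, 4, 6, 8, 10, 14, 12, 6, 8, 4, 6, 12, 10, 8, 6, 4]]
def k63 : List (List ℕ) := [[], [2], [], [6, 2], [6], [8, 6, 2], [12, 6, 2], [8, 6], [8, 6], [12, 6], [10, 8, 6, 2], [12, 8, 6, 2], [6], [12, 8, 6], [10, 8, 6], [12, 8, 6], [12, 10, 8, 6, 2], [14, 10, 8, 6, 2], [6, 12, 8, 6, 2], [], [10, 6], [12, 6], [6, 12, 8, 6], [12, 10, 8, 6], [14, 10, 8, 6], [6, 12, 8, 6], [6, 12, 10, 8, 6, 2], [14, 12, 10, 8, 6, 2], [10, 4, 6, 8, 2, 4, 6, 12, 4, 6, 8, 10, 4, 6, 2, 4], [10], [12, 10, 6], [14, 10, 6], [6, 12, 10, 8, 6], [14, 12, 10, 8, 6], [4, 6, 8, 2, 4, 6, 12, 4, 6, 8, 10, 4, 6, 2, 4], [8, 6, 12, 10, 8, 6, 2], [14, 6, 12, 10, 8, 6, 2], [8, 10], [14, 10], [14, 12, 10, 6], [8, 6, 12, 10, 8, 6], [14, 6, 12, 10, 8, 6], [4, 6, 8, 2,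 4, 6, 12, 6, 8, 10, 4, 6, 2, 4], [14, 4, 6, 8, 2, 4, 6, 12, 4, 6, 8, 10, 4, 6, 2, 4], [14, 8, 6, 12, 10, 8, 6, 2], [14, 8, 10], [14, 8, 6, 12, 10, 8, 6], [4, 6, 8, 2, 4, 6, 12, 6, 8, 10, 8, 6, 4], [14, 4, 6, 8, 2, 4, 6, 12, 6, 8, 10, 4, 6, 2, 4], [10, 14, 8, 6, 12, 10, 8, 6, 2], [10, 14, 8, 10], [10, 14, 8, 6, 12, 10, 8, 6], [12, 4, 6, 8, 2, 4, 6, 12, 6, 8, 10, 8, 6, 4], [14, 4, 6, 8, 2, 4, 6, 12, 6, 8, 10, 8, 6, 4], [10, 14, 4, 6, 8, 2, 4, 6, 12, 6, 8, 10, 4, 6, 2, 4], [14, 12, 4, 6, 8, 2, 4, 6, 12, 6, 8, 10, 8, 6, 4], [10, 14, 4, 6, 8, 2, 4, 6, 12, 6, 8, 10, 8, 6, 4], [10, 14, 12, 4, 6, 8, 2, 4, 6, 12, 6, 8, 10, 8, 6, 4], [8, 10, 14, 4, 6, 8, 2, 4, 6, 12, 6, 8, 10, 8, 6, 4], [8, 10, 14, 12, 4, 6, 8, 2, 4, 6, 12, 6, 8, 10, 8, 6, 4], [6, 8, 10, 14, 12, 4, 6, 8, 2, 4, 6, 12, 6, 8, 10, 8, 6, 4], [4, 6, 12, 2, 4, 6, 8, 10, 14, 6, 12, 4, 6, 8, 2, 4, 6, 12, 10, 8, 6], [4,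 6, 12, 2, 4, 6, 8, 10, 14, 6, 12, 4, 6, 8, 2, 4, 6, 12, 10, 8, 6, 2]]
def l63 : List ℕ := [40564838550125696072794710736897, 40564838550190259677053902393856, 40564838550125678058397409219073, 40564821667730227533260337189384, 40564821662943135316546122945033, 40564995753564763161526817292808, 40564841010469554391031088153096, 40564838587904609921353362964481, 40564995748261162110680016388617, 40564841005756249150611712377353, 724371771475977595212156404296, 40564976410825436585239632974344, 40564973987596409293655137845249, 40564819245091496087287639310337, 723133826131938242585849528905, 40564976405448048558097993601545, 5794954829649568624911801684552, 41289036235684109677008976347720, 40564838550780558055949079974400, 40564838550125680591680655327233, 5159889166265988330799448981505, 40564993330409522846237294854145, 40564838550125678058397274996737, 5793716884231742295990656340553,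 41287798290930366134810094600777, 40564838550125680626865161671169, 5784913147058952149764762014272, 46359619293857700425225054982728, 40564838550715994135021949550593, 5149849906249521682968479793153, 89306108166184277394776391681, 45724553631064415976724499529729, 5783675206363636418901337739841, 46358381349030169906731334767177, 80485445967355922102450388993, 41279129952785290040879257485888, 46349732353771994623162133516864, 40644066712639942395989745205249, 45714669113552860001977648545793, 40653970572964612204803393585153, 41277892012754057096738096808513, 46348494413666974702726134370881, 45715907053667103294450502467585, 40645304652680398712167760658433, 714310746072247285998319338048, 79247505336603795497009807361, 713072805450718531429733532225, 45725791575901169867255074521089, 5151087846954060785868758843393, 40564838550706770798169466896896, 40564838550125680310196014940161,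 40564838550125680345380387062273, 40655208517727579119039130107905, 5161127111693038031757449101313, 40564838550789781392801428406273, 90544053519447002057938042881, 40564973992983020692833631993857, 40564993335722347269120950534145, 40564838592627138533809593516033, 40564819249887811676038708330497, 40564838550199483049090622947329, 40564838550116472700757855961600, 40564838550125678058396201255425]
def g7 : List (List ℕ) := [[], [2, 4], [4, 6, 2, 4], [6, 8, 4, 6, 2, 4], [8, 10, 6, 8, 4, 6, 2, 4], [6, 12, 4, 6, 2, 4], [10, 14, 8, 10, 6, 8, 4, 6, 2, 4]]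

theorem chk63a : allLt (2 * 7) (fun a => allL l63 fun c =>
    memL l63 (eM.mul (eM.mul (eM.wcode e7T [a + 2]) c) (eM.wcode e7T [invL (a + 2)]))) = true := by
  decide +kernel

theorem chk63b : allLt 63 (fun i => (fun c k => band
    (Nat.beq (wc (w63.getD i [] ++ [2] ++ invW (w63.getD i []))) c)
    (bor (Nat.beq c (wc [2])) (bor (Nat.beq (eM.mul k (wc [2, 4])) (eM.mul (eM.mul (wc [2]) c) k))
      (Nat.beq (eM.mul k (wc [2, 8])) (eM.mul (eM.mul (wc [2]) c) k)))))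
    (l63.getD i 0) (wc (k63.getD i []))) = true := by
  decide +kernel

theorem chk63c : allLt 7 (fun a => Nat.beq (wc (g7.getD a [] ++ [2] ++ invW (g7.getD a [])))
    (wc [2 * (a + 1)])) = true := by
  decide +kernel

theorem exists_wm7 [Finite G] {val : ℕ → G} (h0 : val 0 = 1) (h : RelsHold val R7)
    (hz : ∀ z ∈ gcl val 7, z * z = 1 → gcl val 7 ≤ centralizer {z} → z = 1)
    (h12 : val 1 * val 2 ≠ 1) (h14 : val 1 * val 4 ≠ 1) :
    ∃ ψ, WM eM e7T e7val 8 7 val ψ ∧ Function.Injective ψ := by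
  obtain ⟨ψ, hψ⟩ := exists_wm (val := val) (n := 7) e7_tab (by norm_num) e7_h0 h0
    (bd_of_double (N := 1451520) (bd7 (Prod.ext (subVal_zero _ _) h0)
      ((e7_rels.subVal e7_h0 (by decide)).prod h)) e7_card7 (gcl_subVal_top _ _) hz) le_rfl
  refine ⟨ψ, hψ, (injective_iff_map_eq_one ψ).2 fun y hy => ?_⟩
  have h1 := wm0 7 (by norm_num)
  have hi := subtype_injective (gcl e7val 7)
  have hL : ∀ i, i < 63 → l63.getD i 0 = wc (w63.getD i [] ++ [2] ++ invW (w63.getD i [])) :=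
    fun i hi => (Nat.eq_of_beq_eq_true (band_iff.1 (allLt_iff.1 chk63b i hi)).1).symm
  have key : ∀ n : gcl e7val 7, ψ n = 1 → n.1 * wval e7val [2] * n.1⁻¹ = wval e7val [2] := by
    intro n hn
    obtain ⟨c, hc, h2⟩ := h1.conj_closed (L := l63) (fun c hc => by
      obtain ⟨i, h2, rfl⟩ := List.getElem_of_mem hc
      rw [← List.getD_eq_getElem _ 0, hL i h2]
      exact ⟨_, h1.rep_conj _ _ (getD_lt (by decide) i) (by decide)⟩) chk63a n.2 _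
      ⟨wc [2], by decide +kernel, h1.rep [2] (by decide)⟩
    obtain ⟨i, h3, rfl⟩ := List.getElem_of_mem hc
    rw [← List.getD_eq_getElem _ 0] at h2
    have h4 : Rep eM ψ (wval val [2]) (l63.getD i 0) := by
      obtain ⟨q, h4, h5⟩ := h2
      obtain ⟨p, h6, h7⟩ := hψ.rep [2] (by decide)
      have h8 : p.1 = wval e7val [2] := eM.enc_inj (h7.trans (e7_tab.enc_wval (by decide)).symm)
      refine ⟨q, ?_, h5⟩
      rw [show q = n * p * n⁻¹ from Subtype.ext (h4.trans (by rw [← h8]; rfl)), map_mul, map_mul,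
        map_inv, hn, h6]
      simp
    have h5 := (hψ.rep [2] (by decide)).mul h4
    have h6 := hψ.rep _ (getD_lt (n := 2 * 7 + 2) (Ws := k63) (by decide) i)
    have h7 : wval val [2] * wval val [2] = 1 := by simpa using h [2, 2] (by decide)
    rcases bor_iff.1 (band_iff.1 (allLt_iff.1 chk63b i h3)).2 with e | e
    · exact h2.eq' (h1.rep [2] (by decide)) e
    rcases bor_iff.1 e with e | e
    · have := h6.conj (hψ.rep [2, 4] (by decide)) h5 e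
      rw [h7, conj_eq_one_iff] at this
      exact absurd (by simpa [sval] using this) h12
    · have := h6.conj (hψ.rep [2, 8] (by decide)) h5 e
      rw [h7, conj_eq_one_iff] at this
      exact absurd (by simpa [sval] using this) h14
  have h2 : gcl e7val 7 ≤ centralizer {y.1} := gcl_le fun a h2 h3 => by
    have h4 := getD_lt (n := 2 * 7 + 2) (Ws := g7) (by decide) (a - 1)
    have h5 := (h1.rep_conj _ [2] h4 (by decide)).eq' (h1.rep [2 * (a - 1 + 1)] (by simp; omega))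
      (allLt_iff.1 chk63c (a - 1) (by omega))
    rw [wval_single, Nat.sub_add_cancel h2] at h5
    have h6 := key ((⟨_, h1.mem _ h4⟩ : gcl e7val 7)⁻¹ * y * ⟨_, h1.mem _ h4⟩) (by simp [hy])
    rw [mem_centralizer_singleton_iff, ← h5]
    change (wval e7val _)⁻¹ * y.1 * wval e7val _ * _ * ((wval e7val _)⁻¹ * y.1 * wval e7val _)⁻¹ = _ at h6
    generalize wval e7val (g7.getD (a - 1) []) = k at *
    calc _ = k * (k⁻¹ * y.1 * k * wval e7val [2] * (k⁻¹ * y.1 * k)⁻¹) * k⁻¹ * y.1 := by rw [h6]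
      _ = _ := by group
  obtain ⟨c, hc⟩ := CfsgH7.sp_center_scalar y.1 (mem_center_iff.2 fun g =>
    mem_centralizer_singleton_iff.1 (h2 (e7_top ▸ mem_top g)))
  rcases (by decide : ∀ c : ZMod 2, c = 0 ∨ c = 1) c with rfl | rfl
  · have h3 := congrArg Subtype.val (mul_inv_cancel y.1)
    rw [Submonoid.coe_mul, hc, zero_smul, zero_mul] at h3
    exact absurd (congrFun (congrFun h3 (Sum.inl 0)) (Sum.inl 0)) (by simp)
  · exact Subtype.ext (Subtype.ext (hc.trans (one_smul _ _)))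

/-- entrywise map of symplectic groups -/
def spMap3 {R S : Type*} [CommRing R] [CommRing S] (φ : R ≃+* S) :
    symplecticGroup (Fin 3) R ≃* symplecticGroup (Fin 3) S where
  toFun g := ⟨g.1.map φ.toRingHom, SymplecticGroup.map_mem g.2 _⟩
  invFun g := ⟨g.1.map φ.symm.toRingHom, SymplecticGroup.map_mem g.2 _⟩
  left_inv g := Subtype.ext (by ext i j; simp)
  right_inv g := Subtype.ext (by ext i j; simp)
  map_mul' a b := Subtype.ext (by simp [← Matrix.map_mul])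

theorem sp62_equiv {val : ℕ → G} {ψ : gcl e7val 7 →* G} (h : WM eM e7T e7val 8 7 val ψ)
    (hi : Function.Injective ψ) (ht : gcl val 7 = ⊤) (F : Type*) [Field F] [Fintype F]
    (hF : Fintype.card F = 2) : Nonempty (G ≃* symplecticGroup (Fin 3) F) :=
  ⟨(MulEquiv.ofBijective ψ ⟨hi, MonoidHom.range_eq_top.1 (h.range.trans ht)⟩).symm.trans
    (((MulEquiv.subgroupCongr e7_top).trans topEquiv).trans
      (spMap3 (ZMod.ringEquivOfPrime F Nat.prime_two hF)))⟩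

end CfsgH9.E7
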