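import Cfsg.Agent.H9.HsAff
import Cfsg.Agent.H9.HsMod

/-! The additional generator of the centralizer of the involution. -/

set_option autoImplicit false
set_option maxRecDepth 100000

namespace CfsgH9.Hs

open Subgroup CfsgFT CfsgH5 CfsgH3.TC Function

variable {G : Type*} [Group G] {t c x : G} {R V Q : Subgroup G} {val : ℕ → G} {β : List ℕ}
  {L : List (List ℕ)}

theorem zp_inv {a g θ : G} (h : g * a * g⁻¹ = a⁻¹) (hθ : θ ∈ zpowers a) : g * θ * g⁻¹ = θ⁻¹ := by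
  obtain ⟨k, rfl⟩ := hθ
  simp only [← conj_zpow, h, inv_zpow]

theorem zp_cm {a g θ : G} (h : g * a = a * g) (hθ : θ ∈ zpowers a) : g * θ = θ * g := by
  obtain ⟨k, rfl⟩ := hθ
  exact (Commute.zpow_right h k).eq

theorem memP : val 1 ∈ PP val ∧ val 2 ∈ PP val ∧ val 3 ∈ PP val ∧ val 5 ∈ PP val ∧ val 6 ∈ PP val :=
  ⟨wS (val := val) 1 ▸ mem_gcl (a := 1) (by omega) (by omega),
    wS (val := val) 2 ▸ mem_gcl (a := 2) (by omega) (by omega),
    wS (val := val) 3 ▸ mem_gcl (a := 3) (by omega) (by omega),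
    wS (val := val) 5 ▸ mem_gcl (a := 4) (by omega) (by omega),
    wS (val := val) 6 ▸ mem_gcl (a := 5) (by omega) (by omega)⟩

/-- the local situation -/
structure LM (t c : G) (R V Q : Subgroup G) (val : ℕ → G) (β : List ℕ) (L : List (List ℕ)) : Prop
    extends Hy t c R V Q, MS c V Q val β, F1 val L where
  eqP : PP val = N V ⊓ C1 t
  cardP : Nat.card (PP val) = 1536

theorem LM.of {T : NT} {lv : List (ℕ × NT)} {ψ} (h : Hy t c R V Q) (m : MS c V Q val β)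
    (p : PM T lv val ψ) (f : F1 val L) : LM t c R V Q val β L :=
  ⟨h, m, f, by rw [p.eqP, m.gen, m.v1, h.cc], p.card⟩

theorem Hy.lmH [Finite G] (h : Hy t c R V Q) (m : MS c V Q val []) : F2 val ∧
    LM t c R V Q val [] [[9, 9, 12, 8, 11], [9, 9, 12, 8, 11, 4, 4, 6, 6, 2, 2]] :=
  let ⟨_, p⟩ := aH_pm m.h0 m.rels (m.gen ▸ h.cardM)
  ⟨aH_f2 p, .of h m p (aH_f1 p)⟩

/-- a candidate for the additional generator -/
structure H1 (t : G) (R : Subgroup G) (val : ℕ → G) (x : G) : Prop where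
  xH : x ∈ C1 t
  xy : x * val 5 = val 5 * x
  xx : x * x ∈ zpowers (val 1)
  zx : val 6 * x * (val 6)⁻¹ * x⁻¹ ∈ zpowers (val 1)
  xk : (x * eK val) ^ 3 ∈ R
  xa : x * val 1 * x⁻¹ = (val 1)⁻¹

namespace LM

variable (h : LM t c R V Q val β L)
include h

theorem aa : val 1 * val 1 = t := h.v1 ▸ h.cc

theorem PH : PP val ≤ C1 t := h.eqP.le.trans inf_le_right

theorem RP : R ≤ PP val := (le_inf h.RM h.RH).trans h.eqP.ge

theorem kP : eK val ∈ PP val := mul_mem (mul_mem memP.2.2.2.2 memP.2.1) (inv_mem memP.2.2.1)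

theorem uQ : eU val ∈ Q := mul_mem (mul_mem (mul_mem h.bQ h.bQ) h.dQ) h.dQ

theorem uR : eU val ∈ R := h.VR ((h.memV _).2 ⟨h.uQ, h.uu⟩)

theorem r4 {r : G} (hr : r ∈ R) : r * r * (r * r) = 1 := by
  rcases h.sq r hr with e | e <;> simp [e, h.tt]

theorem cm {r θ : G} (hr : r ∈ R) (hθ : θ ∈ zpowers (val 1)) : r * θ = θ * r :=
  zp_cm (h.v1 ▸ h.cen r hr) hθ

theorem aR : zpowers (val 1) ≤ R := zpowers_le.2 (h.v1 ▸ h.cR)

theorem ai : (val 1)⁻¹ ≠ val 1 := fun e => h.t1 (by rw [← h.aa, ← mul_eq_one_iff_inv_eq.2 e])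

theorem zi : (val 6)⁻¹ = val 6 := inv_eq_of_mul_eq_one_right h.zz

theorem not_mem (xy : x * val 5 = val 5 * x) (xa : x * val 1 * x⁻¹ = (val 1)⁻¹) : x ∉ PP val :=
  fun e => h.ai (by rw [← xa, (h.cy x e xy).1, mul_inv_cancel_right])

theorem exists_h1 [Finite G] : ∃ x, H1 t R val x ∧ ∃ w ∈ L, x * eU val * x⁻¹ = wval val w := by
  obtain ⟨π, p1, p2⟩ := h.piH
  obtain ⟨Y, hY⟩ : ∃ Y : C1 t, Y.1 = val 5 := ⟨⟨_, h.PH memP.2.2.2.1⟩, rfl⟩
  obtain ⟨Z, hZ⟩ : ∃ Z : C1 t, Z.1 = val 6 := ⟨⟨_, h.PH memP.2.2.2.2⟩, rfl⟩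
  obtain ⟨K, hK⟩ : ∃ K : C1 t, K.1 = eK val := ⟨⟨_, h.PH h.kP⟩, rfl⟩
  have e1 : π Z * π Z = 1 := by rw [← map_mul, p2, coe_mul, hZ, h.zz]; exact one_mem _
  have e2 : π Z * π (Z * Y) = π Y := by rw [map_mul, ← mul_assoc, e1, one_mul]
  obtain ⟨e, k1, k2, k3, k4⟩ := sym5 (π Z) e1 (π (Z * Y))
    (by rw [← map_mul, p2]; simp only [coe_mul, hZ, hY, h.zy, one_mem])
    (by rw [e2, ← pow_three', ← map_pow, p2, coe_pow, hY, h.y3]; exact one_mem _)
    (by
      rw [e2, Ne, p2, hY]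
      exact fun e => h.y1 (by rw [← h.r4 e, ← mul_assoc, ← pow_three', h.y3, one_mul])) (π K)
    (by rw [← map_mul, p2, coe_mul, hK, h.kk]; exact one_mem _)
    (by rw [← map_mul, ← map_mul, p2]; simp only [coe_mul, hZ, hK, h.zk, h.uR])
    (by
      rw [← map_mul, Ne, p2, coe_mul, hZ, hK]
      exact fun e => (h.zk ▸ h.sq _ e).elim h.u1 (h.aa ▸ h.ut))
    (by rw [← pow_three', ← map_mul, ← map_pow, p2]; simp only [coe_pow, coe_mul, hZ, hK, hY, h.yk, one_mem])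
  obtain ⟨x0, rfl⟩ := p1 e
  have k5 : π x0 * π Y = π Y * π x0 := by
    rw [← e2, ← mul_assoc, k2, mul_assoc, k3, mul_assoc]
  have : Fact (Nat.Prime 3) := ⟨by norm_num⟩
  obtain ⟨r, hr, e3⟩ := exists_conj_cop 3 (K := R) (y := Y) (g := x0 * Y * x0.1⁻¹)
    (by rw [h.cardR]; norm_num) (fun r hr => by simpa using h.nR _ (inv_mem Y.2) r hr)
    ((p2 (Y⁻¹ * (x0 * Y * x0⁻¹))).1 (by simp [k5])) (hY ▸ h.y3) (by rw [conj_pow, hY, h.y3]; group)
  obtain ⟨x, x1, xy⟩ : ∃ x : C1 t, π x = π x0 ∧ x.1 * val 5 = val 5 * x :=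
    ⟨⟨r, h.RH hr⟩ * x0, by rw [map_mul, (p2 ⟨r, h.RH hr⟩).2 hr, one_mul], by
      rw [← hY, coe_mul, ← mul_inv_eq_iff_eq_mul]
      exact Eq.trans (by group) e3⟩
  rw [← x1] at k1 k2 k4
  have a1 : x.1 * x ∈ R := (p2 (x * x)).1 (by simpa using k1)
  have a2 : val 6 * x * (val 6)⁻¹ * x.1⁻¹ ∈ R := hZ ▸ (p2 (Z * x * Z⁻¹ * x⁻¹)).1 (by simp [← k2])
  have a3 : (x * eK val) ^ 3 ∈ R := hK ▸ (p2 ((x * K) ^ 3)).1 (by simpa [pow_three'] using k4)
  have cx : Commute x.1 (val 5) := xy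
  have zx := (h.cy _ (h.RP a2) (Commute.mul_left (by
    have e : val 5 = val 6 * (val 5)⁻¹ * (val 6)⁻¹ := by
      rw [h.zi, ← inv_inj]; simpa [h.zi, ← mul_assoc] using (eq_inv_of_mul_eq_one_left (by
        simpa only [← mul_assoc] using h.zy)).symm
    rw [e]
    exact (Commute.conj_iff _).2 cx.inv_right) cx.inv_left)).2.1 (h.r4 a2)
  have xa : x * val 1 * x.1⁻¹ = (val 1)⁻¹ := h.v1 ▸ (h.cH x x.2).resolve_left fun e => by
    have e1 : x * eK val * val 1 * (x * eK val)⁻¹ = (val 1)⁻¹ := by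
      calc _ = x * (eK val * val 1 * (eK val)⁻¹) * x.1⁻¹ := by group
        _ = _ := by rw [h.ka, ← conj_inv, h.v1, e]
    have e2 := h.cm a3 (mem_zpowers _)
    generalize x * eK val = g at e1 e2
    refine h.ai ?_
    calc _ = g * (g * (g * val 1 * g⁻¹) * g⁻¹) * g⁻¹ := by rw [e1, ← conj_inv, e1, inv_inv, e1]
      _ = g ^ 3 * val 1 * (g ^ 3)⁻¹ := by simp [pow_succ, mul_assoc]
      _ = _ := by rw [e2, mul_inv_cancel_right]
  have b1 := h.nR x x.2 _ h.uR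
  refine ⟨x, ⟨x.2, xy, (h.cy _ (h.RP a1) (cx.mul_left cx)).2.1 (h.r4 a1), zx, a3, xa⟩,
    (h.wp _ (h.RP b1) (by simpa using h.u1) (by rw [conj_mul, h.uu]; group) ?_ ?_).resolve_left
      fun e => h.not_mem xy xa (h.eqP.ge ⟨h.nV x (h.aa ▸ x.2) ?_ ?_, x.2⟩)⟩
  · have e := h.cm b1 zx
    generalize x.1 = x at *
    calc _ = val 6 * x * (val 6)⁻¹ * x⁻¹ * (x * eU val * x⁻¹) * (val 6 * x * (val 6)⁻¹ * x⁻¹)⁻¹ *
          (val 6 * x * (val 6)⁻¹ * ((eU val)⁻¹ * (val 6 * eU val) * (val 6)⁻¹) * val 6 * x⁻¹) := by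
          group
      _ = _ := by rw [← e, h.zu]; group
  · have e : val 5 = x * val 5 * x.1⁻¹ := by rw [xy, mul_inv_cancel_right]
    rw [e, conj_inv, conj_mul, conj_mul, conj_mul, conj_mul, conj_mul, conj_mul, h.yu]
    group
  · rw [← h.yb]
    exact mem_C1.2 ((cx.mul_right (mul_inv_eq_iff_eq_mul.1 e)).mul_right cx.inv_right)
  · rw [← h.yd]
    exact mem_C1.2 ((cx.inv_right.mul_right (mul_inv_eq_iff_eq_mul.1 e)).mul_right cx)

end LM

theorem MS.upd (m : MS c V Q val β) {z : G} (x : G)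
    (hr : RelsHold (lv [val 1, val 2, val 3, val 4, val 5, z, x]) (RB ++ RZ [] β)) (zM : z ∈ N V)
    (hz : val 6 ∈ gcl (lv [val 1, val 2, val 3, val 4, val 5, z, x]) 6) :
    MS c V Q (lv [val 1, val 2, val 3, val 4, val 5, z, x]) β := by
  refine ⟨rfl, m.v1, m.bQ, m.dQ, hr, le_antisymm (gcl_le fun i i1 i2 => ?_)
    (m.gen.ge.trans (gcl_le fun i i1 i2 => ?_)), m.nV⟩
  · have := m.gen.le (mem_gcl i1 i2)
    interval_cases i <;> assumption
  · have := mem_gcl (val := lv [val 1, val 2, val 3, val 4, val 5, z, x]) i1 i2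
    interval_cases i <;> assumption

theorem Hy.exists_h2 [Finite G] (h : Hy t c R V Q) :
    ∃ val x, MS c V Q val [] ∧ H1 t R val x ∧ x * eU val * x⁻¹ = eW val := by
  obtain ⟨val, β, rfl | rfl, m⟩ := h.exists_ms
  swap
  · obtain ⟨_, p⟩ := aO_pm m.h0 m.rels (m.gen ▸ h.cardM)
    obtain ⟨_, -, _, hw, -⟩ := (LM.of h m p (aO_f1 p)).exists_h1
    simp at hw
  obtain ⟨f, l⟩ := h.lmH m
  obtain ⟨x, k, w, hw, e⟩ := l.exists_h1
  simp only [List.mem_cons, List.not_mem_nil, or_false] at hw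
  rcases hw with rfl | rfl
  · exact ⟨val, x, m, k, e.trans wW⟩
  have ct : ∀ g ∈ C1 t, g * (val 1 * val 1) = val 1 * val 1 * g := fun g hg => l.aa ▸ mem_C1.1 hg
  refine ⟨_, x, m.upd (z := val 6 * (val 1 * val 1)) 1 (f.dr.sub.congr (n := 6) rfl rfl
    (fun i _ _ => by interval_cases i <;> simp [sub, lv, sval]) (by decide))
    (m.gen.le (mul_mem (mem_gcl (by omega) (by omega)) (mul_mem (mem_gcl (by omega) (by omega))
      (mem_gcl (by omega) (by omega))))) ((mul_mem_cancel_right ?_).1 (mem_gcl (a := 6) (by omega)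
      (by omega))), ⟨k.xH, k.xy, k.xx, ?_, ?_, k.xa⟩, ?_⟩
  · exact mul_mem (mem_gcl (a := 1) (by omega) (by omega)) (mem_gcl (a := 1) (by omega) (by omega))
  · change val 6 * (val 1 * val 1) * x * (val 6 * (val 1 * val 1))⁻¹ * x⁻¹ ∈ zpowers (val 1)
    rw [mul_assoc (val 6), ← ct x k.xH]
    simpa [mul_assoc] using k.zx
  · change (x * (val 6 * (val 1 * val 1) * val 2 * (val 3)⁻¹)) ^ 3 ∈ R
    have e1 := ct _ (mul_mem k.xH (l.PH memP.2.2.2.2))
    have e2 : Commute (x * eK val) (val 1 * val 1) := ct _ (mul_mem k.xH (l.PH l.kP))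
    rw [show x * (val 6 * (val 1 * val 1) * val 2 * (val 3)⁻¹) = val 1 * val 1 * (x * eK val) by
      rw [← mul_assoc, ← mul_assoc, ← mul_assoc, e1]; group, e2.symm.mul_pow]
    exact mul_mem (pow_mem (l.aR (mul_mem (mem_zpowers _) (mem_zpowers _))) _) k.xk
  · change x * eU val * x⁻¹ = (val 4)⁻¹ * (val 4)⁻¹ * (val 6 * (val 1 * val 1)) * val 4 * (val 5)⁻¹
    rw [e, ← f.de]
    simp [sval, mul_assoc]

namespace LM

variable (h : LM t c R V Q val β L)
include h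

theorem normalize (f : F2 val) (k : H1 t R val x) (hw : x * eU val * x⁻¹ = eW val) :
    ∃ x, H1 t R val x ∧ x * eU val * x⁻¹ = eW val ∧ (x * eK val) ^ 3 = 1 := by
  have yH := h.PH memP.2.2.2.1
  have wR := hw ▸ h.nR x k.xH _ h.uR
  have xw : x * eW val * x⁻¹ = eU val := by
    rw [← hw]
    calc _ = x * x * eU val * (x * x)⁻¹ := by group
      _ = _ := by rw [← h.cm h.uR k.xx, mul_inv_cancel_right]
  have xy : ∀ g, x * (val 5 * g * (val 5)⁻¹) * x⁻¹ = val 5 * (x * g * x⁻¹) * (val 5)⁻¹ := fun g => by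
    calc _ = x * val 5 * g * (x * val 5)⁻¹ := by group
      _ = _ := by rw [k.xy]; group
  have w2 : wval val [10, 9, 9, 12, 8, 11, 11] = val 5 * eW val * (val 5)⁻¹ := by simp [sval, mul_assoc]
  have w3 : wval val [4, 4] = val 5 * eU val * (val 5)⁻¹ := by rw [h.yb]; simp [sval]
  have hθ := f.th R h.cardR (by
    simp only [WR, List.forall_mem_cons, wU, wW, w2, w3, wval_nil]
    exact ⟨one_mem _, wS (val := val) 1 ▸ h.aR (mem_zpowers _), h.uR, h.nR _ yH _ h.uR, wR,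
      h.nR _ yH _ wR, by simp⟩) (MulAut.conj x).toMonoidHom (fun i _ _ => by
    change x * _ * x⁻¹ = _
    interval_cases i <;> simp only [sub, WR, WR', List.getD_cons_succ, List.getD_cons_zero, wU, wW, w2,
      w3, xy, hw, xw]
    simpa [sval] using k.xa) _ k.xk (by
    have e := h.cm k.xk k.xx
    have e1 := (Commute.self_pow (x * eK val) 3).eq
    change _ = x * _ * x⁻¹
    generalize (x * eK val) ^ 3 = θ at e e1 ⊢
    generalize eK val = k at e1
    calc _ = x⁻¹ * (x * k * θ) * k⁻¹ := by group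
      _ = x * (x * x)⁻¹ * (θ * (x * x)) * x⁻¹ := by rw [e1]; group
      _ = _ := by rw [e]; group)
  have e4 := h.r4 k.xk
  have e1 : Commute (x * eK val) ((x * eK val) ^ 3) := Commute.self_pow _ _
  have e2 := zp_inv h.ka hθ
  have e3 := zp_inv k.xa hθ
  have e5 := zp_inv h.za hθ
  have e6 : x * ((x * eK val) ^ 3)⁻¹ * eK val = x * eK val * (x * eK val) ^ 3 := by
    rw [← e2, ← inv_eq_of_mul_eq_one_right h.kk]
    group
  have e7 : (x * eK val * (x * eK val) ^ 3) ^ 3 = 1 := by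
    rw [e1.mul_pow, pow_three' (_ ^ 3), ← mul_assoc, ← mul_assoc, mul_assoc, e4]
  have a1 := h.cm h.uR hθ
  have a2 := zp_cm (h.cy _ memP.2.2.2.1 rfl).1 hθ
  have a3 := zp_cm rfl hθ
  generalize (x * eK val) ^ 3 = θ at *
  refine ⟨x * θ⁻¹, ⟨mul_mem k.xH (inv_mem (h.RH (h.aR hθ))),
    (Commute.mul_left k.xy (Commute.inv_left a2.symm)).eq, ?_, ?_, by rw [e6, e7]; exact one_mem _,
    ?_⟩, ?_, by rw [e6, e7]⟩
  · rw [show x * θ⁻¹ * (x * θ⁻¹) = x * x * (x⁻¹ * (x * θ * x⁻¹) * x) * θ⁻¹ by rw [e3]; group]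
    simpa [mul_assoc] using k.xx
  · rw [show val 6 * (x * θ⁻¹) * (val 6)⁻¹ * (x * θ⁻¹)⁻¹ = val 6 * x * (val 6)⁻¹ * x⁻¹ *
      (x * (val 6 * θ * (val 6)⁻¹)⁻¹ * x⁻¹) * (x * θ * x⁻¹) by group, e5, inv_inv, e3]
    exact mul_mem (mul_mem k.zx (inv_mem hθ)) (inv_mem hθ)
  · rw [← k.xa, mul_assoc x, ← (Commute.inv_right a3).eq]; group
  · rw [← hw, mul_assoc x, ← (Commute.inv_right a1).eq]; group

theorem hr (f : F2 val) (k : H1 t R val x) (hw : x * eU val * x⁻¹ = eW val)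
    (xk : (x * eK val) ^ 3 = 1) : HR (val 1) (val 2) (val 3) (val 4) (val 5) (val 6) x := by
  have ki := inv_eq_of_mul_eq_one_right h.kk
  have xx : x * x = 1 := by
    have e1 := zp_inv k.xa k.xx
    have e2 := zp_inv h.ka k.xx
    have e3 : (x * x)⁻¹ = x * x := by rw [← e1]; group
    rw [e3] at e1 e2
    have e4 : Commute (x * eK val)⁻¹ (x * x) := (Commute.mul_left (mul_inv_eq_iff_eq_mul.1 e1)
      (mul_inv_eq_iff_eq_mul.1 e2)).inv_left
    have e5 : (eK val * (x * eK val) * (eK val)⁻¹) ^ 3 = 1 := by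
      rw [conj_pow, xk, mul_one, mul_inv_cancel]
    rw [show eK val * (x * eK val) * (eK val)⁻¹ = (x * eK val)⁻¹ * (x * x) by
      rw [mul_inv_rev x, ← mul_assoc, mul_inv_cancel_right, ki, mul_assoc (eK val),
        inv_mul_cancel_left], e4.mul_pow, inv_pow, xk, inv_one,
      one_mul, pow_three', inv_eq_iff_mul_eq_one.1 e3, one_mul] at e5
    exact e5
  have xi := inv_eq_of_mul_eq_one_right xx
  have wR := hw ▸ h.nR x k.xH _ h.uR
  have zx := k.zx
  have ka := f.ka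
  have xa := k.xa
  have j1 := zp_inv h.ka zx
  have j2 := zp_inv k.xa zx
  have j3 := zp_inv h.za zx
  have j4 := h.cm (h.nR _ (h.PH h.kP) _ wR) (inv_mem zx)
  have j5 := h.r4 (h.aR zx)
  have ww : eW val * eW val = 1 := by rw [← hw, conj_mul, h.uu]; group
  simp only [xi, ki, h.zi] at hw zx ka xa j1 j2 j3 j4 j5
  refine ⟨xx, k.xy, ?_, xa, Eq.trans (by group) hw,
    by simpa [pow_succ, mul_assoc] using xk⟩
  have zk := h.zk
  have kk := h.kk
  have zz := h.zz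
  have uu := h.uu
  rw [← ka]
  generalize eK val = k, eU val = u, eW val = w, val 6 = z at *
  obtain ⟨κ, hκ⟩ : ∃ κ, κ = z * x * z * x := ⟨_, rfl⟩
  rw [← hκ] at j1 j2 j3 j4 j5 ⊢
  have x2 : ∀ g, x * (x * g) = g := fun g => by rw [← mul_assoc, xx, one_mul]
  have z2 : ∀ g, z * (z * g) = g := fun g => by rw [← mul_assoc, zz, one_mul]
  have k2 : ∀ g, k * (k * g) = g := fun g => by rw [← mul_assoc, kk, one_mul]
  have e1 : x * z * x = z * κ := by simp [hκ, mul_assoc, z2]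
  have e2 : z * x * z = κ * x := by simp [hκ, mul_assoc, xx]
  have e3 : x * k * x = k * x * k := by
    calc _ = (x * k) ^ 3 * (k * x * k) := by simp [pow_succ, mul_assoc, x2, k2, kk]
      _ = _ := by rw [xk, one_mul]
  have e4 : z * k * z = u * k := by simp [← zk, mul_assoc, kk]
  have e5 : k * κ = κ⁻¹ * k := by simp [← j1, mul_assoc, kk]
  have e6 : κ * (k * x * k) = k * x * k * κ⁻¹ := by
    calc _ = k * x * (x * (k * κ * k)⁻¹ * x)⁻¹ * k := by simp [mul_assoc, x2, k2, xi, ki]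
      _ = k * x * κ * k := by rw [j1, inv_inv, j2, inv_inv]
      _ = k * x * k * (k * κ * k) := by simp [mul_assoc, k2]
      _ = _ := by rw [j1]
  have e7 : κ⁻¹ * z = z * κ := by simp [← j3, mul_assoc, zz]
  have e8 : w = u * (k * w * k) * κ :=
    calc w = x * (z * k * (z * k)) * x := by rw [zk, hw]
      _ = x * z * x * (x * k * x) * (x * z * x) * (x * k * x) := by simp [mul_assoc, x2]
      _ = z * (κ * (k * x * k)) * z * (κ * (k * x * k)) := by rw [e1, e3]; group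
      _ = z * (k * x * k) * (κ⁻¹ * z) * (k * x * k) * κ⁻¹ := by rw [e6]; group
      _ = z * (k * x * k) * z * (κ * (k * x * k)) * κ⁻¹ := by rw [e7]; group
      _ = z * k * z * (z * x * z) * (z * k * z) * (k * x * k) * κ⁻¹ * κ⁻¹ := by
        rw [e6]; simp [mul_assoc, z2]
      _ = u * (k * κ) * (x * u * x) * k * κ⁻¹ * κ⁻¹ := by rw [e4, e2]; simp [mul_assoc, k2]
      _ = u * (κ⁻¹ * (k * w * k)) * κ⁻¹ * κ⁻¹ * (κ * κ * (κ * κ)) := by rw [e5, hw, j5]; group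
      _ = _ := by rw [← j4]; group
  calc κ = (k * w * k)⁻¹ * u⁻¹ * (u * (k * w * k) * κ) := by group
    _ = _ := by
      rw [← e8, inv_eq_of_mul_eq_one_right uu, mul_inv_rev, mul_inv_rev, ki,
        inv_eq_of_mul_eq_one_right ww, ← mul_assoc]

end LM

/-- the data for the final argument -/
structure EG (t : G) (val : ℕ → G) (ψ : gcl hval 7 →* G) : Prop where
  wm : WM hM hT hval 8 7 val ψ
  aa : val 1 * val 1 = t
  tt : t * t = 1
  t1 : t ≠ 1
  le : C1 t ≤ gcl val 7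
  cardH : Nat.card (C1 t) = 7680
  dvd : 10752 ∣ Nat.card (gcl val 7)
  PH : PP val ≤ C1 t
  cardP : Nat.card (PP val) = 1536
  iv : ∀ x ∈ PP val, x * x = 1 → x ≠ 1 → (∃ k ∈ gcl val 7, x = k * t * k⁻¹) ∨
    (∃ k ∈ gcl val 7, x = k * wval val [12, 2] * k⁻¹) ∧
      ∃ k ∈ gcl val 7, t * x = k * wval val [12, 2] * k⁻¹

theorem LM.eg [Finite G] (h : LM t c R V Q val β L) (f : F2 val) (xH : val 7 ∈ C1 t)
    (k : HR (val 1) (val 2) (val 3) (val 4) (val 5) (val 6) (val 7)) : ∃ ψ, EG t val ψ := by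
  have rH := k.rels f.t4
  have xi := inv_eq_of_mul_eq_one_right k.hh
  have hw : val 7 * eU val * (val 7)⁻¹ = eW val := by rw [xi, ← show _ = eW val from k.hu]; group
  have w2 : sub WP val 2 = val 2 := wS 2
  have w3 : sub WP val 3 = val 3 := wS 3
  have w7 : sub WP val 7 = val 7 := wS 7
  have e1 : gcl (sub WP val) 7 = C1 t := by
    have a1 : gcl (sub WP val) 7 ≤ C1 t := gcl_le fun i i1 i2 => by
      rcases i2.eq_or_lt with rfl | i2
      exacts [w7 ▸ xH, h.PH (mem_gcl i1 (by omega))]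
    refine (eq_or_eq_of_prime_relIndex (X := PP val) ?_ (gcl_mono _ (by omega)) a1).resolve_left
      fun e => h.not_mem k.hy (by rw [xi, k.ha]) (w7 ▸ e.le (mem_gcl (by omega) le_rfl))
    rw [relIndex_eq_of_mul h.PH (n := 5) (by rw [h.cardP, h.cardH])]
    norm_num
  have cU : ∀ g ∈ C1 t, g * eU val = eU val * g → g ∈ PP val := fun g hg e => by
    obtain ⟨ω, hω, p⟩ := cosP f.rp rH g (e1.ge hg)
    have a1 : ∀ q ∈ Q, g * (val 7 * q)⁻¹ ∉ PP val := fun q hq p => f.uw _ p (by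
      rw [← hw, ← mul_assoc, ← e]
      calc _ = g * q⁻¹ * (q * eU val) * (val 7 * q)⁻¹ := by group
        _ = _ := by rw [h.ab q hq _ h.uQ]; group)
    simp only [lpW, List.mem_cons, List.not_mem_nil, or_false] at hω
    rcases hω with rfl | rfl | rfl | rfl | rfl
    · simpa using p
    · exact absurd (by simpa [sval, w7] using p) (a1 1 (one_mem _))
    · exact absurd (by simpa [sval, w7, w2] using p) (a1 _ h.bQ)
    · exact absurd (by simpa [sval, w7, w3] using p) (a1 _ h.dQ)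
    · exact absurd (by simpa [sval, w7, w2, w3] using p) (a1 _ (mul_mem h.bQ h.dQ))
  have ac : ∀ c < 8, 2 ≤ c → ∀ i < 16, sval (sub WE val) c * wval val (EW i) *
      (sval (sub WE val) c)⁻¹ = wval val (EW (actW [c] i)) := fun c c1 c2 i hi => by
    rcases le_or_gt 4 c with c3 | c3
    · exact f.ac c c1 c3 i hi
    rw [show sval (sub WE val) c = val 7 by interval_cases c <;> simp [sval, sub, WE, xi],
      show actW [c] i = actW [2] i by interval_cases c <;> rfl, ← f.ah i hi]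
    refine map_sub (MulAut.conj (val 7)).toMonoidHom (n := 4) rfl rfl (fun j _ _ => ?_)
      (getD_lt (by decide) i)
    change val 7 * _ * (val 7)⁻¹ = _
    interval_cases j <;> simp only [sub, WL, WL', List.getD_cons_succ, List.getD_cons_zero, wU, wW, wT,
      hw, h.aa, mem_C1_iff_conj.1 xH]
    · rw [← hw, xi, ← mul_assoc, ← mul_assoc, k.hh, mul_assoc, mul_assoc, k.hh]; simp
    · simp [sval, ← k.zh, xi, ← mul_assoc, h.zz]
  have aw : ∀ g : List ℕ, (∀ c ∈ g, c < 8 ∧ 2 ≤ c) → ∀ i < 16, actW g i < 16 ∧ wval (sub WE val) g *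
      wval val (EW i) * (wval (sub WE val) g)⁻¹ = wval val (EW (actW g i)) := fun g hg i hi => by
    induction g with
    | nil => exact ⟨hi, by simp [actW]⟩
    | cons c g ih =>
      obtain ⟨a1, a2⟩ := ih fun c hc => hg c (List.mem_cons_of_mem _ hc)
      obtain ⟨c1, c2⟩ := hg c List.mem_cons_self
      refine ⟨(by decide +kernel : ∀ c < 8, ∀ i < 16, actW [c] i < 16) c c1 _ a1, ?_⟩
      rw [show actW (c :: g) i = actW [c] (actW g i) from rfl, ← ac c c1 c2 _ a1, ← a2, wval_cons]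
      group
  have rE : RelsHold val RE := by
    rw [show RE = GE.map fun g => subW WE (g ++ g ++ g ++ g ++ g) by decide +kernel]
    intro w hw
    obtain ⟨g, hg, rfl⟩ := List.mem_map.1 hw
    obtain ⟨a1, a2, a3, a4⟩ := (by decide +kernel : ∀ g ∈ GE, (∀ c ∈ g, c < 8 ∧ 2 ≤ c) ∧
      (∀ c ∈ g ++ g ++ g ++ g ++ g, c < 8 ∧ 2 ≤ c) ∧ (∀ i < 16, actW (g ++ g ++ g ++ g ++ g) i = i) ∧
      ∀ i < 16, actW g i = i → i = 0) g hg
    have a5 := fun i hi => mul_inv_eq_iff_eq_mul.1 (a3 i hi ▸ (aw _ a2 i hi).2)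
    obtain ⟨j, hj, e⟩ := f.ce _ (cU _ (mem_C1.2 (h.aa ▸ wT (val := val) ▸ a5 1 (by omega)))
      (wU (val := val) ▸ a5 2 (by omega))) (wU (val := val) ▸ a5 2 (by omega))
      (wW (val := val) ▸ a5 4 (by omega)) (wS (val := val) 6 ▸ a5 8 (by omega))
    obtain ⟨b1, b2⟩ := aw g a1 j hj
    obtain rfl := a4 j hj (f.ei _ b1 _ hj (by rw [← b2, ← e]; simp [mul_assoc]))
    rw [← wval_sub, e]
    rfl
  have m7 : ∀ i, 1 ≤ i → i ≤ 7 → val i ∈ gcl val 7 := fun i => mem_gcl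
  obtain ⟨ψ, p⟩ := exists_wm7 h.h0 (rels7 f.r7 rH rE) fun z _ _ e => by
    have s7 : val 4 = val 4 ^ 4 * val 4 ^ 4 := by
      have := h.rels [8, 8, 8, 8, 8, 8, 8] (List.mem_append_left _ (by decide))
      simpa [sval, pow_succ, mul_assoc] using this
    have y3 : val 5 = val 5 ^ 2 * val 5 ^ 2 := by rw [← pow_add, pow_succ, h.y3, one_mul]
    refine (h.cy z (cU z (mem_C1.2 (h.aa ▸ (e _ (m7 1 (by omega) (by omega))).symm)) ?_) ?_).2.2 ?_
    · have := Commute.mul_left (e _ (m7 2 (by omega) (by omega))) (e _ (m7 3 (by omega) (by omega)))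
      simpa [mul_assoc] using this.symm.eq
    · exact y3 ▸ (e _ (pow_mem (m7 5 (by omega) (by omega)) 2)).symm
    · exact s7 ▸ (e _ (pow_mem (m7 4 (by omega) (by omega)) 4)).symm
  have m6 := gcl_mono val (by omega : 6 ≤ 7)
  refine ⟨ψ, p, h.aa, h.tt, h.t1, e1.ge.trans (gcl_sub_le h.h0 (by decide) _), h.cardH,
    h.cardM ▸ h.gen ▸ card_dvd_of_le m6, h.PH, h.cardP, fun x hx x2 x1 => ?_⟩
  rcases f.iv x hx x2 x1 with ⟨g, hg, e | e⟩ | ⟨⟨g, hg, e⟩, g', hg', e'⟩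
  · exact Or.inl ⟨g, m6 hg, h.aa ▸ e⟩
  · refine Or.inl ⟨g * val 7 * val 4 ^ 4, mul_mem (mul_mem (m6 hg) (m7 7 (by omega) (by omega)))
      (pow_mem (m7 4 (by omega) (by omega)) _), ?_⟩
    rw [e, ← hw, ← wU, ← f.t4, ← h.aa]
    simp [sval, pow_succ, mul_assoc]
  · exact Or.inr ⟨⟨g, m6 hg, e⟩, g', m6 hg', h.aa ▸ e'⟩

theorem Hy.exists_eg [Finite G] (h : Hy t c R V Q) : ∃ val ψ, EG t val ψ := by
  obtain ⟨val, x, m, k, hw⟩ := h.exists_h2
  obtain ⟨f, l⟩ := h.lmH m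
  obtain ⟨x, k, hw, xk⟩ := l.normalize f k hw
  obtain ⟨f', l'⟩ := h.lmH (m.upd (z := val 6) x (m.rels.congr (n := 6) m.h0 rfl
    (fun i _ _ => by interval_cases i <;> rfl) (by decide)) (m.gen.le (mem_gcl (by omega) le_rfl))
    (mem_gcl (a := 6) (by omega) le_rfl))
  exact ⟨_, l'.eg f' k.xH (l.hr f k hw xk)⟩

end CfsgH9.Hs
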