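import Cfsg.Agent.H9.HsSet

/-! Generators and relations for the normalizer of the elementary abelian subgroup. -/

set_option autoImplicit false
set_option maxRecDepth 100000

namespace CfsgH9.Hs

open Subgroup CfsgFT CfsgH5 CfsgH3.TC Function

variable {G : Type*} [Group G]

theorem exists_conj_cop [Finite G] (p : ℕ) [Fact p.Prime] {K : Subgroup G} (hK : ¬ p ∣ Nat.card K)
    {y g : G} (hy : ∀ r ∈ K, y⁻¹ * r * y ∈ K) (hg : y⁻¹ * g ∈ K) (h1 : y ^ p = 1) (h2 : g ^ p = 1) :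
    ∃ r ∈ K, r * g * r⁻¹ = y := by
  classical
  have := Fintype.ofFinite K
  let f : K → K := fun r => ⟨y⁻¹ * r * g, by simpa [mul_assoc] using mul_mem (hy r r.2) hg⟩
  let σ : Equiv.Perm K := Equiv.ofBijective f (Finite.injective_iff_bijective.1 fun a b e =>
    Subtype.ext (by simpa [f] using e))
  have h3 : ∀ (n : ℕ) (r : K), ((σ ^ n) r : G) = (y ^ n)⁻¹ * r * g ^ n := fun n r => by
    induction n with
    | zero => simp
    | succ n ih =>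
      rw [pow_succ', Equiv.Perm.mul_apply]
      change y⁻¹ * ((σ ^ n) r : G) * g = _
      rw [ih]; group
  obtain ⟨r, hr⟩ := Equiv.Perm.exists_fixed_point_of_prime (p := p) (n := 1) (σ := σ)
    (by rwa [← Nat.card_eq_fintype_card]) (Equiv.ext fun r => Subtype.ext (by simp [h3, h1, h2]))
  have h4 : y⁻¹ * r * g = r := congrArg Subtype.val hr
  refine ⟨r, r.2, ?_⟩
  calc _ = (r : G) * g * (y⁻¹ * r * g)⁻¹ := by rw [h4]
    _ = y := by group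

/-- coordinates -/
def jv (a b d : G) (x : Z3) : G := a ^ x.1.val * b ^ x.2.1.val * d ^ x.2.2.val

/-- a basis -/
structure Bas (Q : Subgroup G) (a b d : G) : Prop where
  add : ∀ x y, jv a b d (x + y) = jv a b d x * jv a b d y
  inj : Injective (jv a b d)
  mem : ∀ q, q ∈ Q ↔ ∃ x, jv a b d x = q

/-- a linear map -/
def lin (p q r x : Z3) : Z3 :=
  (x.1 * p.1 + x.2.1 * q.1 + x.2.2 * r.1, x.1 * p.2.1 + x.2.1 * q.2.1 + x.2.2 * r.2.1,
    x.1 * p.2.2 + x.2.1 * q.2.2 + x.2.2 * r.2.2)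

/-- the action on coordinates -/
def Act (a b d g : G) (f : Z3 → Z3) : Prop := ∀ x, g * jv a b d x * g⁻¹ = jv a b d (f x)

variable {t c a b d g k s y z : G} {R V Q : Subgroup G} {f f' : Z3 → Z3}

theorem jv0 : jv a b d 0 = 1 := by simp [jv]

theorem jv1 : jv a b d (1, 0, 0) = a := show a ^ 1 * b ^ 0 * d ^ 0 = a by simp

theorem jv2 : jv a b d (0, 1, 0) = b := show a ^ 0 * b ^ 1 * d ^ 0 = b by simp

theorem jv3 : jv a b d (0, 0, 1) = d := show a ^ 0 * b ^ 0 * d ^ 1 = d by simp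

theorem lin1 (p q r : Z3) : lin p q r (1, 0, 0) = p := by simp [lin]

theorem lin2 (p q r : Z3) : lin p q r (0, 1, 0) = q := by simp [lin]

theorem lin3 (p q r : Z3) : lin p q r (0, 0, 1) = r := by simp [lin]

/-- a candidate for the action of the third generator -/
abbrev zl (p v : Z3) : Z3 → Z3 :=
  lin p v (lin (1, 0, 0) (0, 0, 1) (2, 3, 3) (lin (1, 0, 0) (0, 0, 1) (2, 3, 3) v))

set_option synthInstance.maxSize 2000 in
theorem zlin : ∀ p, p = lin (1, 0, 0) (0, 0, 1) (2, 3, 3) (lin (1, 0, 0) (0, 0, 1) (2, 3, 3) p) → ∀ v,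
    (zl p v ∘ zl p v) (0, 1, 0) = (0, 1, 0) →
    (zl p v ∘ lin (0, 1, 0) (0, 0, 1) (1, 3, 2))^[3] (1, 0, 0) = (1, 0, 0) →
    (zl p v ∘ lin (0, 1, 0) (0, 0, 1) (1, 3, 2))^[3] (0, 1, 0) = (0, 1, 0) →
    p = (3, 0, 0) ∧ v = (0, 0, 1) := by
  decide +kernel

theorem Bas.act (B : Bas Q a b d) {p q r : Z3} (h1 : g * a * g⁻¹ = jv a b d p)
    (h2 : g * b * g⁻¹ = jv a b d q) (h3 : g * d * g⁻¹ = jv a b d r) : Act a b d g (lin p q r) := by
  have h : ∀ (n : ℕ) (x : Z3), jv a b d (n • x) = jv a b d x ^ n := fun n x => by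
    induction n with
    | zero => simp [jv0]
    | succ n ih => rw [succ_nsmul, B.add, ih, pow_succ]
  intro x
  have e : lin p q r x = x.1.val • p + x.2.1.val • q + x.2.2.val • r := by
    ext <;> simp [lin]
  rw [e, B.add, B.add, h, h, h, ← h1, ← h2, ← h3, conj_pow, conj_pow, conj_pow, jv]
  group

theorem Act.mul (h1 : Act a b d g f) (h2 : Act a b d k f') : Act a b d (g * k) (f ∘ f') :=
  fun x => by rw [comp_apply, ← h1, ← h2]; group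

theorem Act.pow (h : Act a b d g f) (n : ℕ) : Act a b d (g ^ n) f^[n] := by
  induction n with
  | zero => exact fun x => by simp
  | succ n ih => rw [pow_succ]; exact ih.mul h

theorem Bas.eq (B : Bas Q a b d) (h1 : Act a b d g f) (h2 : Act a b d g f') (x : Z3) : f x = f' x :=
  B.inj ((h1 x).symm.trans (h2 x))

theorem Bas.fix (B : Bas Q a b d) (h1 : Act a b d g f) {x : Z3}
    (e : g * jv a b d x = jv a b d x * g) : f x = x :=
  B.inj (by rw [← h1, e, mul_inv_cancel_right])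

theorem Bas.triv (B : Bas Q a b d) (h1 : Act a b d g f) (hg : g ∈ Q) (x : Z3) : f x = x := by
  obtain ⟨u, rfl⟩ := (B.mem g).1 hg
  exact B.fix h1 (by rw [← B.add, ← B.add, add_comm])

theorem Bas.cube (B : Bas Q a b d) (h : Act a b d g f) (u : Z3) :
    (jv a b d u * g) ^ 3 = jv a b d (u + f u + f (f u)) * g ^ 3 := by
  rw [B.add, B.add, ← h (f u), ← h]
  simp [pow_succ, mul_assoc]

theorem Hy.bas [Finite G] (h : Hy t c R V Q) (hs : s ∈ N V) (s7 : s ^ 7 = 1) (st : s * t ≠ t * s)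
    (ha : a ∈ Q) (aa : a * a = t) : Bas Q a (s * a * s⁻¹) (s * (s * a * s⁻¹) * s⁻¹) := by
  have hb := h.nQ s hs a ha
  have hd := h.nQ s hs _ hb
  have bb : s * a * s⁻¹ * (s * a * s⁻¹) = s * t * s⁻¹ := by rw [← aa]; group
  have dd : s * (s * a * s⁻¹) * s⁻¹ * (s * (s * a * s⁻¹) * s⁻¹) = s * (s * t * s⁻¹) * s⁻¹ := by
    rw [← aa]; group
  generalize s * (s * a * s⁻¹) * s⁻¹ = d at hd dd ⊢
  generalize s * a * s⁻¹ = b at hb bb ⊢
  have h1 : ∀ q ∈ Q, ∀ i j : ZMod 4, q ^ (i + j).val = q ^ i.val * q ^ j.val := fun q hq i j => by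
    rw [ZMod.val_add, ← pow_add, ← pow_eq_pow_mod _ (by
      simpa only [pow_succ, pow_zero, one_mul] using h.e4 q hq)]
  have h2 : ∀ x, jv a b d x ∈ Q := fun x =>
    mul_mem (mul_mem (pow_mem ha _) (pow_mem hb _)) (pow_mem hd _)
  have add : ∀ x y, jv a b d (x + y) = jv a b d x * jv a b d y := fun x y => by
    have := ab_iff_isMulCommutative.1 (ab_iff.2 h.ab)
    have e := fun a b c d e f : Q => congrArg Subtype.val
      (show a * b * (c * d) * (e * f) = a * c * e * (b * d * f) by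
        open scoped IsMulCommutative in ac_rfl)
    simp only [jv, Prod.fst_add, Prod.snd_add, h1 a ha, h1 b hb, h1 d hd]
    exact e ⟨_, pow_mem ha _⟩ ⟨_, pow_mem ha _⟩ ⟨_, pow_mem hb _⟩ ⟨_, pow_mem hb _⟩ ⟨_, pow_mem hd _⟩
      ⟨_, pow_mem hd _⟩
  have h3 : ∀ n, n < 7 → 0 < n → s ^ n * t * (s ^ n)⁻¹ ≠ t := fun n n1 n2 e => by
    obtain ⟨m, hm⟩ : ∃ m, n * m % 7 = 1 := by
      interval_cases n
      exacts [⟨1, rfl⟩, ⟨4, rfl⟩, ⟨5, rfl⟩, ⟨2, rfl⟩, ⟨3, rfl⟩, ⟨6, rfl⟩]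
    have := pow_mem (mem_C1_iff_conj.2 e) m
    rw [← pow_mul, pow_eq_pow_mod _ s7, hm, pow_one] at this
    exact st (mem_C1.1 this)
  have ti : t⁻¹ = t := inv_eq_of_mul_eq_one_right h.tt
  have h4 : ∀ x : Z3, x + x = 0 → jv a b d x = 1 → x = 0 := fun x hx e => by
    rcases (by decide +kernel : ∀ x : Z3, x + x = 0 → x = 0 ∨ x = (2, 0, 0) ∨ x = (0, 2, 0) ∨
      x = (0, 0, 2) ∨ x = (2, 2, 0) ∨ x = (0, 2, 2) ∨ x = (2, 0, 2) ∨ x = (2, 2, 2)) x hx with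
      rfl | rfl | rfl | rfl | rfl | rfl | rfl | rfl
    · rfl
    all_goals
      exfalso
      simp only [jv, show (2 : ZMod 4).val = 2 from rfl, ZMod.val_zero, pow_zero, pow_two, aa, bb, dd,
        mul_one, one_mul, conj_eq_one_iff, h.t1] at e
    · exact h3 1 (by norm_num) (by norm_num) (by rw [pow_one, eq_inv_of_mul_eq_one_right e, ti])
    · refine h3 1 (by norm_num) (by norm_num) ?_
      rw [conj_mul, conj_eq_one_iff] at e
      rw [pow_one, eq_inv_of_mul_eq_one_right e, ti]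
    · exact h3 2 (by norm_num) (by norm_num) 
        (Eq.trans (by simp [pow_succ, mul_assoc]) ((eq_inv_of_mul_eq_one_right e).trans ti))
    · refine h3 3 (by norm_num) (by norm_num) ?_
      calc _ = (s * t * s⁻¹ * (s * (s * t * s⁻¹) * s⁻¹))⁻¹ *
          (s * (t * (s * t * s⁻¹) * (s * (s * t * s⁻¹) * s⁻¹)) * s⁻¹) := by group
        _ = t * (s * t * s⁻¹) * (s * (s * t * s⁻¹) * s⁻¹) *
          (s * t * s⁻¹ * (s * (s * t * s⁻¹) * s⁻¹))⁻¹ := by rw [e]; group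
        _ = t := by group
  have inj : Injective (jv a b d) := fun x y e => by
    have k : jv a b d (x - y) = 1 := mul_right_cancel (by rw [← add, sub_add_cancel, e, one_mul])
    have k2 := h4 (x - y + (x - y)) ((by decide +kernel : ∀ x : Z3, x + x + (x + x) = 0) _)
      (by rw [add, k, mul_one])
    exact sub_eq_zero.1 (h4 _ k2 k)
  refine ⟨add, inj, fun q => ⟨fun hq => ?_, fun ⟨x, e⟩ => e ▸ h2 x⟩⟩
  obtain ⟨x, e⟩ := ((Nat.bijective_iff_injective_and_card (fun x => (⟨_, h2 x⟩ : Q))).2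
    ⟨fun x y e => inj (congrArg Subtype.val e), by rw [h.cardQ]; simp⟩).2 ⟨q, hq⟩
  exact ⟨x, congrArg Subtype.val e⟩

theorem Hy.act_s [Finite G] (h : Hy t c R V Q) (hs : s ∈ N V) (s7 : s ^ 7 = 1)
    (B : Bas Q a (s * a * s⁻¹) (s * (s * a * s⁻¹) * s⁻¹)) : ∃ e, (e = (1, 3, 2) ∨ e = (1, 2, 1)) ∧
      Act a (s * a * s⁻¹) (s * (s * a * s⁻¹) * s⁻¹) s (lin (0, 1, 0) (0, 0, 1) e) := by
  obtain ⟨e, he⟩ := (B.mem _).1 (h.nQ s hs _ ((B.mem _).2 ⟨_, jv3⟩))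
  have A := B.act jv2.symm jv3.symm he.symm
  exact ⟨e, (by decide +kernel : ∀ e : Z3, (lin (0, 1, 0) (0, 0, 1) e)^[7] (1, 0, 0) = (1, 0, 0) →
    e = (1, 3, 2) ∨ e = (1, 2, 1)) e (B.triv (A.pow 7) (s7 ▸ one_mem _) _), A⟩

/-- lifts of generators of `L₃(2)` -/
structure L1 (t : G) (V Q : Subgroup G) (s y z : G) : Prop where
  sM : s ∈ N V
  yM : y ∈ N V
  zM : z ∈ N V
  s7 : s ^ 7 = 1
  st : s * t ≠ t * s
  y3 : y ^ 3 = 1
  ys : y * s * y⁻¹ = s * s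
  zy : z * y * z⁻¹ = y⁻¹
  zz : z * z ∈ Q
  zs : (z * s) ^ 3 ∈ Q
  zs' : (z * s⁻¹) ^ 3 ∈ Q
  gen : ∀ K : Subgroup G, Q ≤ K → s ∈ K → y ∈ K → z ∈ K → N V ≤ K

theorem L1.inv (h : L1 t V Q s y z) : L1 t V Q s⁻¹ y z :=
  ⟨inv_mem h.sM, h.yM, h.zM, by rw [inv_pow, h.s7, inv_one],
    fun e => h.st (mem_C1.1 (inv_mem_iff.1 (mem_C1.2 e))), h.y3,
    by rw [← conj_inv, h.ys, mul_inv_rev], h.zy, h.zz, h.zs', by simpa using h.zs,
    fun K k1 k2 => h.gen K k1 (inv_mem_iff.1 k2)⟩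

theorem Hy.cop [Finite G] (h : Hy t c R V Q) (p : ℕ) [hp : Fact p.Prime] (p2 : p ≠ 2) {K : Type*}
    [Group K] {π : N V →* K} (k : ∀ g, π g = 1 ↔ g.1 ∈ Q) {x w : N V} (e1 : π x = π w)
    (e2 : x ^ p = 1) (e3 : w ^ p = 1) : ∃ q, π q = 1 ∧ q * w * q⁻¹ = x := by
  obtain ⟨q, hq, e⟩ := exists_conj_cop p (K := Q) (y := x) (g := w) (by
    rw [h.cardQ]; exact fun e => p2 ((Nat.prime_dvd_prime_iff_eq hp.out Nat.prime_two).1
      (hp.out.dvd_of_dvd_pow (show p ∣ 2 ^ 6 from e))))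
    (fun r hr => by simpa using h.nQ _ (inv_mem x.2) r hr)
    ((k (x⁻¹ * w)).1 (by simp [e1])) (congrArg Subtype.val e2) (congrArg Subtype.val e3)
  exact ⟨⟨q, h.QM hq⟩, (k _).2 hq, Subtype.ext e⟩

theorem Hy.lift1 [Finite G] (h : Hy t c R V Q) {K : Type*} [Group K] {π : N V →* K}
    (p1 : Surjective π) (p2 : ∀ g, π g = 1 ↔ g.1 ∈ Q) {S Y : K} (k1 : S ^ 7 = 1) (k2 : S ≠ 1)
    (k3 : Y ^ 3 = 1) (k4 : Y * S * Y⁻¹ = S * S) : ∃ (π : N V →* K) (s y : N V), Surjective π ∧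
      (∀ g, π g = 1 ↔ g.1 ∈ Q) ∧ π s = S ∧ π y = Y ∧ s ^ 7 = 1 ∧ s.1 * t ≠ t * s ∧ y ^ 3 = 1 ∧
      y * s * y⁻¹ = s * s ∧ y.1 * t * y.1⁻¹ = t := by
  have : Fact (Nat.Prime 7) := ⟨by norm_num⟩
  obtain ⟨s, rfl, s7⟩ : ∃ s, π s = S ∧ s ^ 7 = 1 := by
    obtain ⟨x, rfl⟩ := p1 S
    refine ⟨x ^ 8, by rw [map_pow, pow_succ, k1, one_mul], ?_⟩
    have := h.e4 _ ((p2 (x ^ 7)).1 (by rw [map_pow, k1]))
    rw [← pow_mul, show 8 * 7 = 7 * 4 * 2 from rfl, pow_mul, pow_mul, show (x ^ 7) ^ 4 = 1 from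
      Subtype.ext (by simpa only [coe_pow, pow_succ (x.1 ^ 7), pow_zero, one_mul, coe_one] using this), one_pow]
  have s7' : (s : G) ^ 7 = 1 := congrArg Subtype.val s7
  have st : (s : G) * t ≠ t * s := fun e => by
    have := orderOf_dvd_card' (mem_C1.2 e)
    rw [h.cardH, orderOf_eq_prime s7' fun e => k2 (by rw [show s = 1 from Subtype.ext e, map_one])]
      at this
    omega
  obtain ⟨q, hq, qq⟩ := h.sqt
  have B := h.bas s.2 s7' st hq qq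
  obtain ⟨e, he, A⟩ := h.act_s s.2 s7' B
  obtain ⟨y0, rfl⟩ := p1 Y
  obtain ⟨u, u1, u2⟩ := h.cop 7 (by norm_num) p2 (x := s * s) (w := y0 * s * y0⁻¹) (by simp [← k4])
    (by rw [← pow_two, ← pow_mul, mul_comm, pow_mul, s7, one_pow]) (by rw [conj_pow, s7]; group)
  obtain ⟨y, y1, y2⟩ : ∃ y, π y = π y0 ∧ y * s * y⁻¹ = s * s :=
    ⟨u * y0, by simp [u1], by rw [← u2]; group⟩
  have y3 : y ^ 3 = 1 := by
    obtain ⟨x, hx⟩ := (B.mem _).1 ((p2 (y ^ 3)).1 (by rw [map_pow, y1, k3]))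
    have e1 : y ^ 3 * s * (y ^ 3)⁻¹ = s := by
      calc _ = y * (y * (y * s * y⁻¹) * y⁻¹) * y⁻¹ := by simp [pow_succ, mul_assoc]
        _ = s ^ 7 * s := by simp only [y2, ← conj_mul]; simp [pow_succ, mul_assoc]
        _ = s := by rw [s7, one_mul]
    have e2 := B.fix A (x := x) (by
      rw [hx]; exact congrArg Subtype.val (mul_inv_eq_iff_eq_mul.1 e1).symm)
    rw [(by decide +kernel : ∀ e : Z3, e = (1, 3, 2) ∨ e = (1, 2, 1) → ∀ x,
      lin (0, 1, 0) (0, 0, 1) e x = x → x = 0) e he x e2, jv0] at hx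
    exact Subtype.ext hx.symm
  obtain ⟨j, hj⟩ : ∃ j : ℕ, (y : G) * t * (y : G)⁻¹ = s ^ j * t * (s ^ j : G)⁻¹ := by
    obtain ⟨x, hx⟩ := (B.mem _).1 (h.nQ _ y.2 t (qq ▸ mul_mem hq hq))
    obtain ⟨j, -, e⟩ := (by decide +kernel : ∀ e : Z3, e = (1, 3, 2) ∨ e = (1, 2, 1) → ∀ x : Z3,
      x + x = 0 → x ≠ 0 → ∃ j < 7, (lin (0, 1, 0) (0, 0, 1) e)^[j] ((1, 0, 0) + (1, 0, 0)) = x) e he x
      (B.inj (by rw [B.add, hx, jv0, conj_mul, h.tt]; group))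
      (fun e => h.t1 (by rw [e, jv0] at hx; exact conj_eq_one_iff.1 hx.symm))
    exact ⟨j, by rw [← hx, ← e, ← A.pow j, B.add, jv1, qq]⟩
  have hc : ∀ g, (MulAut.conj (π s ^ j)⁻¹).toMonoidHom.comp π g = (π s ^ j)⁻¹ * π g * (π s ^ j)⁻¹⁻¹ :=
    fun _ => rfl
  refine ⟨(MulAut.conj (π s ^ j)⁻¹).toMonoidHom.comp π, s, s ^ j * y * (s ^ j)⁻¹,
    (MulAut.conj _).surjective.comp p1, fun g => by rw [hc, conj_eq_one_iff, p2], by rw [hc]; group,
    by rw [hc, map_mul, map_mul, map_inv, map_pow, y1]; group, s7, st,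
    by rw [conj_pow, y3]; group, ?_, ?_⟩
  · calc _ = s ^ j * (y * s * y⁻¹) * (s ^ j)⁻¹ := by group
      _ = _ := by rw [y2, ← pow_two]; group
  · have e : (y : G) * s * (y : G)⁻¹ = s * s := congrArg Subtype.val y2
    simp only [coe_mul, coe_inv, coe_pow]
    generalize (y : G) = y, (s : G) = s at e hj
    calc _ = s ^ j * ((y * s * y⁻¹) ^ j)⁻¹ * (y * t * y⁻¹) * (y * s * y⁻¹) ^ j * (s ^ j)⁻¹ := by
          rw [conj_pow]; group
      _ = _ := by rw [e, hj, (Commute.refl s).mul_pow]; group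

theorem Hy.lift2 [Finite G] (h : Hy t c R V Q) {K : Type*} [Group K] {π : N V →* K}
    (p1 : Surjective π) (p2 : ∀ g, π g = 1 ↔ g.1 ∈ Q) {S Y Z : K} (k1 : S ^ 7 = 1) (k2 : S ≠ 1)
    (k3 : Y ^ 3 = 1) (k4 : Y * S * Y⁻¹ = S * S) (k5 : Z * Y * Z⁻¹ = Y⁻¹) (k6 : Z * Z = 1)
    (k7 : (Z * S) ^ 3 = 1) (k8 : (Z * S⁻¹) ^ 3 = 1)
    (k9 : ∀ L : Subgroup K, S ∈ L → Y ∈ L → Z ∈ L → L = ⊤)
    (k10 : ∀ g, g * Y = Y * g → g ^ 8 = 1 → g = 1) :
    ∃ s y z, L1 t V Q s y z ∧ c ∈ Q ∧ y * c * y⁻¹ = c := by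
  obtain ⟨π, s, y, p1, p2, rfl, rfl, s7, st, y3, y2, yt⟩ := h.lift1 p1 p2 k1 k2 k3 k4
  have : Fact (Nat.Prime 3) := ⟨by norm_num⟩
  obtain ⟨z0, rfl⟩ := p1 Z
  obtain ⟨v, v1, v2⟩ := h.cop 3 (by norm_num) p2 (x := y⁻¹) (w := z0 * y * z0⁻¹) (by simp [← k5])
    (by rw [inv_pow, y3, inv_one]) (by rw [conj_pow, y3]; group)
  obtain ⟨z, z1, z2⟩ : ∃ z, π z = π z0 ∧ z * y * z⁻¹ = y⁻¹ :=
    ⟨v * z0, by simp [v1], by rw [← v2]; group⟩
  rw [← z1] at k6 k7 k8 k9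
  have yc : y.1 * c * y.1⁻¹ = c := (h.cH y (mem_C1_iff_conj.2 yt)).resolve_right fun e => by
    have y3' : (y : G) ^ 3 = 1 := congrArg Subtype.val y3
    refine h.t1 (h.cc ▸ mul_eq_one_iff_eq_inv.2 ?_)
    calc c = (y : G) ^ 3 * c * ((y : G) ^ 3)⁻¹ := by rw [y3']; group
      _ = y * (y * (y * c * (y : G)⁻¹) * (y : G)⁻¹) * (y : G)⁻¹ := by simp [pow_succ, mul_assoc]
      _ = _ := by rw [e, ← conj_inv, e, inv_inv, e]
  refine ⟨s, y, z, ⟨s.2, y.2, z.2, congrArg Subtype.val s7, st, congrArg Subtype.val y3,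
    congrArg Subtype.val y2, congrArg Subtype.val z2, (p2 (z * z)).1 (by simpa using k6),
    (p2 ((z * s) ^ 3)).1 (by simpa using k7), (p2 ((z * s⁻¹) ^ 3)).1 (by simpa using k8),
    fun K a1 a2 a3 a4 g hg => ?_⟩, (p2 ⟨c, h.RM h.cR⟩).1 (k10 _ ?_ ?_), yc⟩
  · obtain ⟨x, hx, e⟩ := (k9 ((K.subgroupOf (N V)).map π) (mem_map_of_mem _ a2) (mem_map_of_mem _ a3)
      (mem_map_of_mem _ a4)).ge (mem_top (π ⟨g, hg⟩))
    simpa using mul_mem (mem_subgroupOf.1 hx) (a1 ((p2 (x⁻¹ * ⟨g, hg⟩)).1 (by simp [e])))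
  · rw [← map_mul, ← map_mul]
    exact congrArg π (Subtype.ext (mul_inv_eq_iff_eq_mul.1 yc).symm)
  · rw [← map_pow, ← map_one π]
    refine congrArg π (Subtype.ext ?_)
    calc c ^ 8 = (c * c * (c * c)) ^ 2 := by simp [pow_succ, mul_assoc]
      _ = 1 := by rw [h.cc, h.tt, one_pow]

/-- the presentation of the normalizer -/
structure MS (c : G) (V Q : Subgroup G) (val : ℕ → G) (β : List ℕ) : Prop where
  h0 : val 0 = 1
  v1 : val 1 = c
  bQ : val 2 ∈ Q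
  dQ : val 3 ∈ Q
  rels : RelsHold val (RB ++ RZ [] β)
  gen : gcl val 6 = N V
  nV : ∀ g, g ∈ C1 (val 1 * val 1) → g ∈ C1 (val 2 * val 2) → g ∈ C1 (val 3 * val 3) → g ∈ N V

theorem Hy.ms_fin [Finite G] (h : Hy t c R V Q) (B : Bas Q c b d) (m : MB c b d s y z)
    (sM : s ∈ N V) (yM : y ∈ N V) (zM : z ∈ N V)
    (gen : ∀ K : Subgroup G, Q ≤ K → s ∈ K → y ∈ K → z ∈ K → N V ≤ K)
    (zz : z * z = 1 ∨ z * z = c * c) (zs : (z * s) ^ 3 = 1 ∨ (z * s) ^ 3 = b) :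
    ∃ val β, (β = [] ∨ β = [4]) ∧ MS c V Q val β := by
  have bQ := (B.mem _).2 ⟨_, jv2⟩
  have dQ := (B.mem _).2 ⟨_, jv3⟩
  let val := lv [c, b, d, s, y, z]
  have g6 : gcl val 6 = N V := by
    refine le_antisymm (gcl_le fun i i1 i2 => ?_) (gen _ (fun q hq => ?_) (mem_gcl (a := 4) (by omega)
      (by omega)) (mem_gcl (a := 5) (by omega) (by omega)) (mem_gcl (a := 6) (by omega) (by omega)))
    · interval_cases i
      exacts [h.RM h.cR, h.QM bQ, h.QM dQ, sM, yM, zM]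
    · obtain ⟨x, rfl⟩ := (B.mem q).1 hq
      exact mul_mem (mul_mem (pow_mem (mem_gcl (a := 1) (by omega) (by omega)) _)
        (pow_mem (mem_gcl (a := 2) (by omega) (by omega)) _))
        (pow_mem (mem_gcl (a := 3) (by omega) (by omega)) _)
  have r : ∀ u v, z * z = wval val u → (z * s) ^ 3 = wval val v → RelsHold val (RB ++ RZ u v) :=
    fun u v h1 h2 => (MB.rels (val := val) m).append (relsZ h1 h2)
  have k : ¬ Bd (gcl val 6) 1344 := fun e => by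
    have := e.2
    rw [g6, h.cardM] at this
    omega
  have e2 : wval val [2, 2] = c * c := by simp [sval, val, lv]
  have e4 : wval val [4] = b := wval_single val 2
  have nV : ∀ g, g ∈ C1 (c * c) → g ∈ C1 (b * b) → g ∈ C1 (d * d) → g ∈ N V := fun g g1 g2 g3 =>
    C_le_N V fun v hv => by
      obtain ⟨x, rfl⟩ := (B.mem v).1 ((h.memV v).1 hv).1
      obtain ⟨i, -, j, -, k, -, e1, e2, e3⟩ := (by decide +kernel : ∀ x : Z3, x + x = 0 → ∃ i < 2,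
        ∃ j < 2, ∃ k < 2, x.1.val = 2 * i ∧ x.2.1.val = 2 * j ∧ x.2.2.val = 2 * k) x
        (B.inj (by rw [B.add, ((h.memV _).1 hv).2, jv0]))
      rw [jv, e1, e2, e3, pow_mul, pow_mul, pow_mul, pow_two, pow_two, pow_two]
      exact mem_C1.1 (mul_mem (mul_mem (pow_mem (mem_C1_comm.1 g1) _) (pow_mem (mem_C1_comm.1 g2) _))
        (pow_mem (mem_C1_comm.1 g3) _))
  rcases zz with zz | zz <;> rcases zs with zs | zs
  · exact ⟨val, [], Or.inl rfl, rfl, rfl, bQ, dQ, r _ _ zz zs, g6, nV⟩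
  · exact ⟨val, [4], Or.inr rfl, rfl, rfl, bQ, dQ, r _ _ zz (zs.trans e4.symm), g6, nV⟩
  · exact absurd (bc0 (r _ _ (zz.trans e2.symm) zs)) k
  · exact absurd (bc1 (r _ _ (zz.trans e2.symm) (zs.trans e4.symm))) k

theorem Hy.ms_of [Finite G] (h : Hy t c R V Q) (l : L1 t V Q s y z) (yc : y * c * y⁻¹ = c)
    (B : Bas Q c b d) (sa : s * c * s⁻¹ = b) (sb : s * b * s⁻¹ = d)
    (A : Act c b d s (lin (0, 1, 0) (0, 0, 1) (1, 3, 2))) :
    ∃ val β, (β = [] ∨ β = [4]) ∧ MS c V Q val β := by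
  have cQ := (B.mem _).2 ⟨_, jv1⟩
  have bQ := (B.mem _).2 ⟨_, jv2⟩
  have dQ := (B.mem _).2 ⟨_, jv3⟩
  have yb : y * b * y⁻¹ = d := by
    calc _ = y * s * y⁻¹ * (y * c * y⁻¹) * (y * s * y⁻¹)⁻¹ := by rw [← sa]; group
      _ = _ := by rw [l.ys, yc, ← sb, ← sa]; group
  have yd : y * d * y⁻¹ = jv c b d (2, 3, 3) := by
    calc _ = y * s * y⁻¹ * (y * b * y⁻¹) * (y * s * y⁻¹)⁻¹ := by rw [← sb]; group
      _ = s * s * jv c b d (0, 0, 1) * (s * s)⁻¹ := by rw [l.ys, yb, jv3]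
      _ = _ := (A.mul A) _
  have Y := B.act (yc.trans jv1.symm) (yb.trans jv3.symm) yd
  obtain ⟨p, hp⟩ := (B.mem _).1 (h.nQ z l.zM c cQ)
  obtain ⟨v, hv⟩ := (B.mem _).1 (h.nQ z l.zM b bQ)
  obtain ⟨r, hr⟩ := (B.mem _).1 (h.nQ z l.zM d dQ)
  have Z := B.act hp.symm hv.symm hr.symm
  have yi : y⁻¹ = y * y := inv_eq_of_mul_eq_one_right (by rw [← l.y3, pow_three])
  have e1 : z * y = y * y * z := by rw [← yi, ← l.zy]; group
  have k1 := B.eq (Z.mul Y) (e1 ▸ (Y.mul Y).mul Z)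
  have a1 := k1 (1, 0, 0)
  have a2 := k1 (0, 1, 0)
  simp only [comp_apply, lin1, lin2, lin3] at a1 a2
  subst a2
  obtain ⟨rfl, rfl⟩ := zlin p a1 v (B.triv (Z.mul Z) l.zz _) (B.triv ((Z.mul A).pow 3) l.zs _)
    (B.triv ((Z.mul A).pow 3) l.zs _)
  replace Z : Act c b d z (lin (3, 0, 0) (0, 0, 1) (0, 1, 0)) := Z
  have ci : jv c b d (3, 0, 0) = c⁻¹ := eq_inv_of_mul_eq_one_left
    (show c ^ 3 * b ^ 0 * d ^ 0 * c = 1 by simpa [pow_succ] using h.e4 c cQ)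
  have m : MB c b d s y z := ⟨h.e4 c cQ, h.e4 b bQ, h.ab c cQ b bQ, h.e4 d dQ, h.ab c cQ d dQ,
    h.ab b bQ d dQ, by simpa only [pow_succ, pow_zero, one_mul] using l.s7, sa, sb,
    (jv3 (a := c) (b := b) (d := d) ▸ A _).trans
      (show c ^ 1 * b ^ 3 * d ^ 2 = _ by simp [pow_succ, mul_assoc]),
    by simpa only [pow_succ, pow_zero, one_mul] using l.y3, l.ys, yc, yb,
    yd.trans (show c ^ 2 * b ^ 3 * d ^ 3 = _ by simp [pow_succ, mul_assoc]), hp.symm.trans ci,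
    hv.symm.trans jv3, hr.symm.trans jv2, l.zy⟩
  have zz : z * z = 1 ∨ z * z = c * c := by
    obtain ⟨x, hx⟩ := (B.mem _).1 l.zz
    rcases (by decide +kernel : ∀ x : Z3, lin (1, 0, 0) (0, 0, 1) (2, 3, 3) x = x →
      lin (3, 0, 0) (0, 0, 1) (0, 1, 0) x = x → x = 0 ∨ x = (1, 0, 0) + (1, 0, 0)) x
      (B.fix Y (by
        rw [hx]
        calc _ = z * (z * y * z⁻¹) * z⁻¹ * (z * z) := by rw [l.zy, ← conj_inv, l.zy, inv_inv]
          _ = _ := by group)) (B.fix Z (by rw [hx, mul_assoc])) with rfl | rfl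
    exacts [Or.inl (hx.symm.trans jv0), Or.inr (by rw [← hx, B.add, jv1])]
  obtain ⟨x, hx⟩ := (B.mem _).1 l.zs
  have zc : z * c = jv c b d (3, 0, 0) * z := by rw [hp, inv_mul_cancel_right]
  have k : ∀ u, x = u + (0, 2, 0) → (z * c * s) ^ 3 = jv c b d u := fun u e => by
    rw [zc, mul_assoc, B.cube (Z.mul A), ← hx, ← B.add, e]
    exact congrArg _ ((by decide +kernel : ∀ u : Z3, (0, 2, 0) + (u + (0, 2, 0)) = u) u)
  have cj : ∀ {q q'}, c * q = q * c → z * q * z⁻¹ = q' → z * c * q * (z * c)⁻¹ = q' :=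
    fun e1 e2 => by rw [← e2, mul_assoc z, e1]; group
  have F := h.ms_fin B (z := z * c) { m with
      za := cj rfl m.za
      zb := cj m.ab m.zb
      zd := cj m.ad m.zd
      zy := cj (mul_inv_eq_iff_eq_mul.1 yc).symm m.zy } l.sM l.yM (mul_mem l.zM (h.QM cQ))
    (fun K a1 a2 a3 a4 => l.gen K a1 a2 a3 ((mul_mem_cancel_right (a1 cQ)).1 a4))
    (by
      rwa [show z * c * (z * c) = z * z from
        calc _ = z * c * (z * c * z⁻¹) * z := by group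
          _ = _ := by rw [m.za]; group])
  rcases (by decide +kernel : ∀ x : Z3, (lin (3, 0, 0) (0, 0, 1) (0, 1, 0) ∘
    lin (0, 1, 0) (0, 0, 1) (1, 3, 2)) x = x → x = 0 ∨ x = (0, 1, 0) ∨ x = 0 + (0, 2, 0) ∨
      x = (0, 1, 0) + (0, 2, 0)) x (B.fix (Z.mul A) (by rw [hx, ← pow_succ, ← pow_succ'])) with
    e | e | e | e
  · exact h.ms_fin B m l.sM l.yM l.zM l.gen zz (Or.inl (by rw [← hx, e, jv0]))
  · exact h.ms_fin B m l.sM l.yM l.zM l.gen zz (Or.inr (by rw [← hx, e, jv2]))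
  · exact F (Or.inl ((k _ e).trans jv0))
  · exact F (Or.inr ((k _ e).trans jv2))

theorem Hy.exists_ms [Finite G] (h : Hy t c R V Q) :
    ∃ val β, (β = [] ∨ β = [4]) ∧ MS c V Q val β := by
  obtain ⟨S, Y, Z, k1, k2, k3, k4, k5, k6, k7, k8, k9, k10⟩ := gl32
  obtain ⟨π, p1, p2⟩ := h.piM
  obtain ⟨s, y, z, l, cQ, yc⟩ := h.lift2 p1 p2 k1 k2 k3 k4 k5 k6 k7 k8 k9 k10
  have B := h.bas l.sM l.s7 l.st cQ h.cc
  obtain ⟨e, rfl | rfl, A⟩ := h.act_s l.sM l.s7 B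
  · exact h.ms_of l yc B rfl rfl A
  have B' := h.bas l.inv.sM l.inv.s7 l.inv.st cQ h.cc
  refine h.ms_of l.inv yc B' rfl rfl (B'.act jv2.symm jv3.symm ?_)
  have A' := A.pow 6
  rw [show s ^ 6 = s⁻¹ from eq_inv_of_mul_eq_one_left (by rw [← pow_succ, l.s7])] at A'
  have e1 := A' (1, 0, 0)
  rw [jv1] at e1
  rw [e1, A', A']
  change _ = c ^ 1 * _ ^ 3 * _ ^ 2
  rw [pow_one, pow_three', pow_two, ← B.add, ← B.add, ← B.add, mul_assoc c, ← B.add]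
  refine Eq.trans ?_ ((B.add (1, 0, 0) _).trans (congrArg (· * _) jv1))
  exact congrArg _ (by decide +kernel)

end CfsgH9.Hs
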