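import Cfsg.Agent.H9.HsSm
import Cfsg.Agent.FT.Base1
import Cfsg.Prelude.Def_Transfer
import Cfsg.Prelude.Def_CaseTheorems

/-! The hypotheses of the recognition theorem for the Higman–Sims group. -/

set_option autoImplicit false

namespace CfsgH9.Hs

open Subgroup CfsgFT CfsgH5 Function

/-- the homocyclic group of order 64 -/
abbrev Z3 : Type := ZMod 4 × ZMod 4 × ZMod 4

variable {G : Type*} [Group G]

/-- the hypotheses -/
structure Hy (t c : G) (R V Q : Subgroup G) : Prop where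
  tt : t * t = 1
  t1 : t ≠ 1
  cc : c * c = t
  piH : ∃ π : C1 t →* Equiv.Perm (Fin 5), Surjective π ∧ ∀ g, π g = 1 ↔ g.1 ∈ R
  piM : ∃ π : N V →* L32, Surjective π ∧ ∀ g, π g = 1 ↔ g.1 ∈ Q
  RH : R ≤ C1 t
  nR : ∀ g ∈ C1 t, ∀ r ∈ R, g * r * g⁻¹ ∈ R
  cardR : Nat.card R = 64
  sq : ∀ r ∈ R, r * r = 1 ∨ r * r = t
  cR : c ∈ R
  cen : ∀ r ∈ R, r * c = c * r
  cH : ∀ g ∈ C1 t, g * c * g⁻¹ = c ∨ g * c * g⁻¹ = c⁻¹
  RM : R ≤ N V
  VR : V ≤ R
  QM : Q ≤ N V
  nQ : ∀ g ∈ N V, ∀ q ∈ Q, g * q * g⁻¹ ∈ Q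
  cardQ : Nat.card Q = 64
  ab : ∀ p ∈ Q, ∀ q ∈ Q, p * q = q * p
  e4 : ∀ q ∈ Q, q * q * q * q = 1
  memV : ∀ v, v ∈ V ↔ v ∈ Q ∧ v * v = 1
  sqt : ∃ q ∈ Q, q * q = t
  cardH : Nat.card (C1 t) = 7680
  cardM : Nat.card (N V) = 10752

theorem exists_pi [Finite G] {K : Type*} [Group K] {H : Subgroup G} (e : H ⧸ Cfsg.pCore 2 H ≃* K) :
    (∃ π : H →* K, Surjective π ∧ ∀ g, π g = 1 ↔ g.1 ∈ Op 2 H) ∧
      Nat.card H = Nat.card K * Nat.card (Op 2 H) := by
  refine ⟨⟨e.toMonoidHom.comp (QuotientGroup.mk' _),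
    e.surjective.comp (QuotientGroup.mk'_surjective _), fun g => ?_⟩, ?_⟩
  · rw [MonoidHom.comp_apply, MulEquiv.coe_toMonoidHom, EmbeddingLike.map_eq_one_iff,
      QuotientGroup.mk'_apply, QuotientGroup.eq_one_iff]
    exact ⟨fun h => ⟨g, h, rfl⟩, fun ⟨a, h, e⟩ => (Subtype.ext e : a = g) ▸ h⟩
  · rw [card_eq_card_quotient_mul_card_subgroup (Cfsg.pCore 2 H), Nat.card_congr e.toEquiv, Op,
      card_map_of_injective Subtype.val_injective]

theorem cyc4 {Cy : Subgroup G} (h1 : IsCyclic Cy) (h2 : Nat.card Cy = 4) :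
    ∃ c ∈ Cy, c * c ≠ 1 ∧ c * c * c * c = 1 ∧ ∀ x ∈ Cy, x = 1 ∨ x = c ∨ x = c * c ∨ x = c⁻¹ := by
  obtain ⟨c, hc⟩ := h1.exists_generator
  have h3 : orderOf c = 4 := (orderOf_eq_card_of_forall_mem_zpowers hc).trans h2
  have h4 : c * c * c * c = 1 := by
    simpa only [h3, pow_succ, pow_zero, one_mul] using pow_orderOf_eq_one c
  refine ⟨c, c.2, fun e => ?_, congrArg Subtype.val h4, fun x hx => ?_⟩
  · have : orderOf c ∣ 2 := orderOf_dvd_of_pow_eq_one (Subtype.ext (by rw [pow_two]; exact e))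
    rw [h3] at this
    omega
  · have : Finite Cy := Nat.finite_of_card_ne_zero (by omega)
    obtain ⟨k, hk⟩ := mem_powers_iff_mem_zpowers.2 (hc ⟨x, hx⟩)
    have e : x = (c : G) ^ (k % 4) := by
      rw [← h3, ← coe_pow, pow_mod_orderOf]; exact (congrArg Subtype.val hk).symm
    have := Nat.mod_lt k (by norm_num : 0 < 4)
    have h5 : (c : G) * c * c = (c : G)⁻¹ := eq_inv_of_mul_eq_one_left (congrArg Subtype.val h4)
    interval_cases k % 4 <;> simp [e, pow_succ, h5]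

theorem exists_hy [Finite G] {t : G} (ht : orderOf t = 2) {Cy E : Subgroup G} (hCy : IsCyclic Cy)
    (hCycard : Nat.card Cy = 4) (hCyle : Cy ≤ Op 2 (C1 t) ⊓ C (Op 2 (C1 t)))
    (hEle : E ≤ Op 2 (C1 t)) (hEex : Cfsg.IsExtraspecial 2 E) (hEcard : Nat.card E = 32)
    (hprod : Cy ⊔ E = Op 2 (C1 t)) (hmeet : Cy ⊓ E = E ⊓ C E)
    (eH : C1 t ⧸ Cfsg.pCore 2 (C1 t) ≃* Equiv.Perm (Fin 5)) {V : Subgroup G}
    (hVexp : ∀ v ∈ V, v ^ 2 = 1) (hVcard : Nat.card V = 8) (hVR : V ≤ Op 2 (C1 t))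
    (eOM : Cfsg.pCore 2 (N V) ≃* Multiplicative Z3) (eM : N V ⧸ Cfsg.pCore 2 (N V) ≃* L32) :
    ∃ c, Hy t c (Op 2 (C1 t)) V (Op 2 (N V)) := by
  obtain ⟨p1, k1⟩ := exists_pi eH
  obtain ⟨p2, k2⟩ := exists_pi eM
  have nR := nrm_Op_self 2 (C1 t)
  have RH := Op_le 2 (C1 t)
  have tt : t * t = 1 := by rw [← pow_two, ← ht, pow_orderOf_eq_one]
  have t1 : t ≠ 1 := fun e => by simp [e] at ht
  have tR : t ∈ Op 2 (C1 t) := zpowers_le.1 (le_Op (zpowers_le.2 (mem_C1.2 rfl))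
    (fun a ha _ ⟨k, hk⟩ => ⟨k, by rw [← hk, ← conj_zpow, mem_C1_iff_conj.1 ha]⟩)
    (IsPGroup.of_card (n := 1) (by rw [Nat.card_zpowers, ht, pow_one])))
  obtain ⟨J, J1, J2⟩ : ∃ J : Multiplicative Z3 →* G, Injective J ∧ J.range = Op 2 (N V) :=
    ⟨(N V).subtype.comp ((Cfsg.pCore 2 (N V)).subtype.comp eOM.symm.toMonoidHom),
      Subtype.val_injective.comp (Subtype.val_injective.comp eOM.symm.injective), by
        rw [MonoidHom.range_comp, MonoidHom.range_comp, MonoidHom.range_eq_top.2 eOM.symm.surjective,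
          ← MonoidHom.range_eq_map, range_subtype, Op]⟩
  have VQ : V ≤ Op 2 (N V) := le_Op le_normalizer (nrm_iff.2 le_rfl)
    ((isPGroup_Op 2 (C1 t)).to_le hVR)
  have nQ := nrm_Op_self 2 (N V)
  have QM := Op_le 2 (N V)
  generalize Op 2 (C1 t) = R at *
  generalize Op 2 (N V) = Q at *
  obtain ⟨c, cC, c2, c4, hc⟩ := cyc4 hCy hCycard
  have cen : ∀ x ∈ Cy, ∀ r ∈ R, r * x = x * r := fun x hx => (hCyle hx).2
  have dec : ∀ r ∈ R, ∃ x ∈ Cy, ∃ e ∈ E, x * e = r := fun r hr => by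
    have : r ∈ ((Cy ⊔ E : Subgroup G) : Set G) := hprod.ge hr
    rwa [coe_mul_of_right_le_normalizer_left Cy E (nrm_iff.1 fun a ha x hx => by
      rwa [cen x hx a (hEle ha), mul_inv_cancel_right])] at this
  have zE : ∀ e ∈ E, (∀ f ∈ E, f * e = e * f) → e ∈ Cy := fun e he h => (hmeet.ge ⟨he, h⟩).1
  have zR : ∀ r ∈ R, (∀ f ∈ R, f * r = r * f) → r ∈ Cy := fun r hr h => by
    obtain ⟨x, hx, e, he, rfl⟩ := dec r hr
    refine mul_mem hx (zE e he fun f hf => mul_left_cancel (a := x) ?_)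
    rw [← mul_assoc, ← cen x hx f (hEle hf), mul_assoc, h f (hEle hf), mul_assoc]
  have inv : ∀ x ∈ Cy, x * x = 1 → x = 1 ∨ x = c * c := fun x hx e => by
    rcases hc x hx with rfl | rfl | rfl | rfl
    exacts [Or.inl rfl, absurd e c2, Or.inr rfl, absurd (by simpa [← mul_inv_rev] using e) c2]
  have cc : c * c = t := ((inv t (zR t tR fun f hf => mem_C1.1 (RH hf)) tt).resolve_left t1).symm
  have z2 : ∀ z : E, z ∈ center E → (z : G) = 1 ∨ (z : G) = t := fun z hz => cc ▸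
    inv z (zE z z.2 fun f hf => congrArg Subtype.val (mem_center_iff.1 hz ⟨f, hf⟩)) (by
      have := pow_card_eq_one' (x := (⟨z, hz⟩ : center E))
      rw [hEex.2, pow_two] at this
      exact congrArg (fun x : center E => (x.1 : G)) this)
  have cmE : ∀ e ∈ E, ∀ f ∈ E, e * f = f * e ∨ e * f = t * (f * e) := fun e he f hf => by
    rcases z2 (⟨e, he⟩ * ⟨f, hf⟩ * ⟨e, he⟩⁻¹ * ⟨f, hf⟩⁻¹) (by
      rw [← hEex.1.2.2]; exact commutator_mem_commutator (mem_top _) (mem_top _)) with h | h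
    · exact Or.inl (by simpa only [coe_mul, coe_inv, mul_inv_eq_iff_eq_mul, one_mul] using h)
    · exact Or.inr (by rw [← h]; simp [mul_assoc])
  have ct : ∀ r ∈ R, r * t = t * r := fun r hr => mem_C1.1 (RH hr)
  have cm : ∀ p ∈ R, ∀ q ∈ R, p * q = q * p ∨ p * q = t * (q * p) := fun p hp q hq => by
    obtain ⟨x, hx, e, he, rfl⟩ := dec p hp
    obtain ⟨y, hy, f, hf, rfl⟩ := dec q hq
    have a1 : x * e * (y * f) = x * y * (e * f) := by
      rw [mul_assoc, ← mul_assoc e, cen y hy e (hEle he)]; group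
    have a2 : y * f * (x * e) = x * y * (f * e) := by
      rw [mul_assoc, ← mul_assoc f, cen x hx f (hEle hf), ← cen x hx y (hCyle hy).1]; group
    rw [a1, a2]
    rcases cmE e he f hf with h | h
    · exact Or.inl (by rw [h])
    · exact Or.inr (by rw [h, ← mul_assoc, ct _ (hCyle (mul_mem hx hy)).1, mul_assoc])
  have two : ∀ p ∈ R, ∀ q ∈ R, ∀ r ∈ R, p * r ≠ r * p → q * r ≠ r * q → p * q * r = r * (p * q) :=
    fun p hp q hq r hr h1 h2 => by
      rw [mul_assoc, (cm q hq r hr).resolve_left h2, ← mul_assoc, ct p hp, mul_assoc, ← mul_assoc p,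
        (cm p hp r hr).resolve_left h1, mul_assoc, ← mul_assoc t, tt]
      group
  have sq : ∀ r ∈ R, r * r = 1 ∨ r * r = t := fun r hr => by
    have h1 := zR _ (mul_mem hr hr) fun f hf => by
      by_cases e : r * f = f * r
      · rw [← mul_assoc, ← e, mul_assoc, ← e, mul_assoc]
      · exact (two r hr r hr f hf e e).symm
    obtain ⟨x, hx, e, he, rfl⟩ := dec r hr
    have h2 : x * e * (x * e) = x * x * (e * e) := by
      rw [mul_assoc, ← mul_assoc e, cen x hx e (hEle he)]; group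
    have h3 : e * e = 1 ∨ e * e = t := z2 (⟨e, he⟩ * ⟨e, he⟩) (mem_center_iff.2 fun f => Subtype.ext
      (cen (e * e) ((mul_mem_cancel_left (mul_mem hx hx)).1 (h2 ▸ h1)) f (hEle f.2)))
    have h4 : x * x = 1 ∨ x * x = t := by
      rcases hc x hx with rfl | rfl | rfl | rfl
      exacts [Or.inl (mul_one _), Or.inr cc, Or.inl (by rw [← c4]; group),
        Or.inr (by rw [← mul_inv_rev, cc, inv_eq_of_mul_eq_one_right tt])]
    rw [h2]
    rcases h3 with h3 | h3 <;> rcases h4 with h4 | h4 <;> simp [h3, h4, tt]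
  have cardR : Nat.card R = 64 := by
    have := card_sup_mul (X := Cy) (Y := E) (Or.inr fun a ha x hx => by
      rwa [cen x hx a (hEle ha), mul_inv_cancel_right])
    rw [hprod, hmeet, hCycard, hEcard, show E ⊓ C E = _ from Z_eq_map_center E,
      card_map_of_injective Subtype.val_injective, hEex.2] at this
    omega
  have V2 : ∀ v ∈ V, v * v = 1 := fun v hv => by rw [← pow_two, hVexp v hv]
  have ab : ∀ p ∈ Q, ∀ q ∈ Q, p * q = q * p := by
    rw [← J2]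
    rintro _ ⟨x, rfl⟩ _ ⟨y, rfl⟩
    rw [← map_mul, mul_comm, map_mul]
  have tV : t ∈ V := by
    by_contra hn
    have h1 : ∀ v ∈ V, v ∈ Cy → v = 1 := fun v hv h =>
      (inv v h (V2 v hv)).resolve_right fun e => hn (cc ▸ e ▸ hv)
    have h2 : V ≤ C Cy := fun v hv x hx => (cen x hx v (hVR hv)).symm
    have h3 : V ⊔ Cy ≤ R := sup_le hVR fun x hx => (hCyle hx).1
    have h4 : Nat.card ↥(V ⊔ Cy) = 32 := by
      rw [card_sup_of_inf_eq_bot (Or.inl (nrm_of_le_C h2))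
        ((eq_bot_iff_forall _).2 fun v h => h1 v h.1 h.2), hVcard, hCycard]
    obtain ⟨r, hr, h5⟩ := SetLike.exists_of_lt (lt_of_le_of_ne h3 fun e => by
      rw [e, cardR] at h4; omega)
    have h6 : V ⊔ Cy ⊔ zpowers r = R := by
      refine (eq_or_eq_of_prime_relIndex (X := V ⊔ Cy) ?_ le_sup_left
        (sup_le h3 (zpowers_le.2 hr))).resolve_left fun e => h5 (e.le (mem_sup_right (mem_zpowers r)))
      rw [relIndex_eq_of_mul h3 (n := 2) (by rw [h4, cardR])]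
      exact Nat.prime_two
    have h7 : ∀ v ∈ V, v ≠ 1 → v * r ≠ r * v := fun v hv v1 e => v1 (h1 v hv (zR v (hVR hv) (by
      rw [← h6]
      exact fun f hf => mem_C1.1 ((sup_le (sup_le (fun w hw => mem_C1.2 (ab w (VQ hw) v (VQ hv))) fun x hx =>
        mem_C1.2 (h2 hv x hx)) (zpowers_le.2 (mem_C1.2 e.symm)) : V ⊔ Cy ⊔ zpowers r ≤ C1 v) hf))))
    have : Fintype V := Fintype.ofFinite V
    obtain ⟨x, y, z, k1, k2, k3⟩ := Fintype.two_lt_card_iff.1
      (show 2 < Fintype.card V by rw [← Nat.card_eq_fintype_card, hVcard]; norm_num)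
    have h8 : ∀ x y : V, x ≠ y → x = 1 ∨ y = 1 := fun x y e => by
      by_contra! h
      refine h7 (x * y) (x * y).2 (fun e' => e (Subtype.ext ?_)) (two x (hVR x.2) y (hVR y.2) r hr
        (h7 x x.2 (by simpa using h.1)) (h7 y y.2 (by simpa using h.2)))
      exact mul_right_cancel (e'.trans (V2 y y.2).symm)
    rcases h8 x y k1 with rfl | rfl
    · rcases h8 y z k3 with rfl | rfl
      exacts [k1 rfl, k2 rfl]
    · rcases h8 x z k2 with rfl | rfl
      exacts [k1 rfl, k3 rfl]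
  have memV : ∀ v, v ∈ V ↔ v ∈ Q ∧ v * v = 1 := fun v => ⟨fun h => ⟨VQ h, V2 v h⟩, fun h => by
    have h1 : ∀ v : V, ∃ x : {x : Multiplicative Z3 // x * x = 1}, J x = v := fun v => by
      obtain ⟨x, hx⟩ := J2.ge (VQ v.2)
      exact ⟨⟨x, J1 (by rw [map_mul, hx, V2 v v.2, map_one])⟩, hx⟩
    choose f hf using h1
    have h2 := (Nat.bijective_iff_injective_and_card f).2
      ⟨fun a b e => Subtype.ext (by rw [← hf, ← hf, e]), by
        rw [hVcard, Nat.card_eq_fintype_card]; decide +kernel⟩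
    obtain ⟨x, rfl⟩ := J2.ge h.1
    obtain ⟨w, e⟩ := h2.2 ⟨x, J1 (by rw [map_mul, h.2, map_one])⟩
    have := hf w
    rw [e] at this
    exact this ▸ w.2⟩
  have cardQ : Nat.card Q = 64 := by
    rw [← J2, ← Nat.card_congr (MonoidHom.ofInjective J1).toEquiv]; simp
  refine ⟨c, tt, t1, cc, p1, p2, RH, nR, cardR, sq, (hCyle cC).1, cen c cC, fun g hg => ?_,
    nrm_iff.1 fun r hr v hv => ?_, hVR, QM, nQ, cardQ, ab, ?_, memV, ?_,
    by rw [k1, cardR]; simp [Fintype.card_perm, Nat.factorial], by rw [k2, cardQ, card_L32]⟩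
  · have h1 : g * c * g⁻¹ * (g * c * g⁻¹) = t := by
      rw [← mem_C1_iff_conj.1 hg, ← cc]; group
    rcases hc _ (zR _ (nR g hg c (hCyle cC).1) fun f hf => by
      have := cen c cC _ (nR.conj' hg hf)
      calc _ = g * (g⁻¹ * f * g * c) * g⁻¹ := by group
        _ = _ := by rw [this]; group) with h | h | h | h
    · exact absurd (by rw [← h1, h, mul_one]) t1
    · exact Or.inl h
    · exact absurd (by rw [← h1, h, cc, tt]) t1
    · exact Or.inr h
  · rcases cm r hr v (hVR hv) with h | h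
    · rwa [h, mul_inv_cancel_right]
    · rw [h, ← mul_assoc, mul_inv_cancel_right]; exact mul_mem tV hv
  · rw [← J2]
    rintro _ ⟨x, rfl⟩
    rw [← map_mul, ← map_mul, ← map_mul, (by decide +kernel : ∀ x : Multiplicative Z3,
      x * x * x * x = 1) x, map_one]
  · obtain ⟨x, rfl⟩ := J2.ge (VQ tV)
    obtain ⟨y, rfl⟩ := (by decide +kernel : ∀ x : Multiplicative Z3, x * x = 1 → ∃ y, y * y = x) x
      (J1 (by rw [map_mul, tt, map_one]))
    exact ⟨J y, J2.le ⟨y, rfl⟩, (map_mul _ _ _).symm⟩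

end CfsgH9.Hs
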