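import Cfsg.Agent.H9.HsRel
import Cfsg.Agent.H9.SpModel

/-! Computations in `GL₃(2)` and `Sym(5)`. -/

set_option autoImplicit false
set_option maxRecDepth 100000

namespace CfsgH9.Hs

open CfsgH3.TC Subgroup

theorem l_ok : MatOK 3 2 2 6 1 1 12483 63 87381 65793 :=
  ⟨by norm_num, by norm_num, by norm_num, by norm_num, by norm_num, by decide +kernel, by decide +kernel,
    by decide +kernel, by decide +kernel, by norm_num, by decide +kernel⟩

/-- the group `GL₃(2)` -/
abbrev L32 : Type := GL (Fin 3) (ZMod 2)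

noncomputable def lM : Model L32 := glModel l_ok

noncomputable def lT : NT := (.node (.node (.node (.leaf (nat_lit 65793)) (.leaf (nat_lit 82945))) (.node (.leaf (nat_lit 17488)) (.leaf (nat_lit 17409)))) (.node (.node (.leaf (nat_lit 65793)) (.leaf (nat_lit 17665))) (.node (.leaf (nat_lit 5125)) (.leaf (nat_lit 17409)))))

noncomputable def lval : ℕ → L32 := fun a => lM.dec (lT.get (2 * a))

theorem l_tab : lM.Tab lT lval (2 * 4) := gl_tab l_ok (mask := 3) (by decide +kernel)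

theorem l_h0 : lval 0 = 1 := lM.dec_one (by decide +kernel)

theorem l_rels : RelsHold lval (RG3 ++ [[6, 3, 6, 3, 6, 3]]) := l_tab.relsHold (by decide) (by decide +kernel)

noncomputable def lt1 : NT := (.node (.node (.node (.leaf (nat_lit 65793)) (.leaf (nat_lit 70916))) (.node (.leaf (nat_lit 17488)) (.leaf (nat_lit 83281)))) (.node (.node (.leaf (nat_lit 5125)) (.leaf (nat_lit 86356))) (.leaf (nat_lit 20565))))

noncomputable def llv1 : List (ℕ × NT) := (nat_lit 7, lt1) :: []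

theorem l_ch1 : lM.Chain (gcl lval 1) llv1 :=
  Model.Tab.chain_cons l_h0 (m := 4) l_tab (by norm_num) (by norm_num) (g1_cos l_h0 (l_rels.mono (by decide)))
    (by decide) (lM.chain_zero _) (l := 7) rfl (by norm_num) (by decide +kernel)

noncomputable def lt2 : NT := (.node (.node (.leaf (nat_lit 65793)) (.leaf (nat_lit 82945))) (.leaf (nat_lit 17665)))

noncomputable def llv2 : List (ℕ × NT) := (nat_lit 3, lt2) :: llv1

theorem l_ch2 : lM.Chain (gcl lval 2) llv2 :=
  Model.Tab.chain_cons l_h0 (m := 4) l_tab (by norm_num) (by norm_num) (g2_cos l_h0 (l_rels.mono (by decide)))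
    (by decide) l_ch1 (l := 3) rfl (by norm_num) (by decide +kernel)

noncomputable def lt3 : NT := (.node (.node (.node (.leaf (nat_lit 65793)) (.leaf (nat_lit 69717))) (.node (.leaf (nat_lit 4369)) (.leaf (nat_lit 21776)))) (.node (.node (.leaf (nat_lit 17409)) (.leaf (nat_lit 16721))) (.node (.leaf (nat_lit 65860)) (.leaf (nat_lit 21828)))))

noncomputable def llv3 : List (ℕ × NT) := (nat_lit 8, lt3) :: llv2

theorem l_ch3 : lM.Chain (gcl lval 3) llv3 :=
  Model.Tab.chain_cons l_h0 (m := 4) l_tab (by norm_num) (by norm_num) (g3_cos l_h0 (l_rels.mono (by decide)))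
    (by decide) l_ch2 (l := 8) rfl (by norm_num) (by decide +kernel)

noncomputable def lI : NT := (.node (.node (.node (.node (.node (.leaf (nat_lit 0)) (.node (.leaf (nat_lit 0)) (.node (.leaf (nat_lit 0)) (.node (.node (.leaf (nat_lit 135)) (.leaf (nat_lit 106))) (.node (.leaf (nat_lit 38)) (.leaf (nat_lit 165))))))) (.node (.leaf (nat_lit 0)) (.node (.node (.node (.leaf (nat_lit 116)) (.leaf (nat_lit 49))) (.node (.leaf (nat_lit 142)) (.leaf (nat_lit 23)))) (.node (.node (.leaf (nat_lit 131)) (.leaf (nat_lit 64))) (.node (.leaf (nat_lit 109)) (.leaf (nat_lit 74))))))) (.node (.node (.node (.node (.leaf (nat_lit 0)) (.node (.leaf (nat_lit 0)) (.node (.leaf (nat_lit 94)) (.leaf (nat_lit 3))))) (.node (.leaf (nat_lit 0)) (.node (.leaf (nat_lit 0)) (.node (.leaf (nat_lit 71)) (.leaf (nat_lit 104)))))) (.node (.node (.leaf (nat_lit 0)) (.node (.leaf (nat_lit 0)) (.node (.leaf (nat_lit 103)) (.leaf (nat_lit 129))))) (.node (.leaf (nat_lit 0)) (.node (.node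 (.leaf (nat_lit 150)) (.leaf (nat_lit 28))) (.leaf (nat_lit 0)))))) (.node (.node (.node (.leaf (nat_lit 0)) (.node (.leaf (nat_lit 0)) (.node (.leaf (nat_lit 154)) (.leaf (nat_lit 113))))) (.node (.leaf (nat_lit 0)) (.node (.leaf (nat_lit 0)) (.node (.leaf (nat_lit 141)) (.leaf (nat_lit 36)))))) (.node (.node (.node (.leaf (nat_lit 45)) (.leaf (nat_lit 22))) (.node (.leaf (nat_lit 163)) (.leaf (nat_lit 53)))) (.node (.node (.leaf (nat_lit 167)) (.leaf (nat_lit 82))) (.node (.leaf (nat_lit 42)) (.leaf (nat_lit 120)))))))) (.node (.node (.node (.leaf (nat_lit 0)) (.node (.leaf (nat_lit 0)) (.node (.leaf (nat_lit 0)) (.node (.node (.leaf (nat_lit 48)) (.leaf (nat_lit 65))) (.node (.leaf (nat_lit 19)) (.leaf (nat_lit 84))))))) (.node (.leaf (nat_lit 0)) (.node (.node (.node (.leaf (nat_lit 77)) (.leaf (nat_lit 162))) (.node (.leaf (nat_lit 27)) (.leaf (nat_lit 56)))) (.node (.node (.leaf (nat_lit 6)) (.leaf (nat_lit 31))) (.node (.leaf (nat_lit 148)) (.leaf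 (nat_lit 57))))))) (.node (.node (.node (.node (.leaf (nat_lit 0)) (.node (.leaf (nat_lit 0)) (.node (.leaf (nat_lit 164)) (.leaf (nat_lit 29))))) (.node (.leaf (nat_lit 0)) (.node (.leaf (nat_lit 0)) (.node (.leaf (nat_lit 97)) (.leaf (nat_lit 138)))))) (.node (.node (.leaf (nat_lit 0)) (.node (.leaf (nat_lit 0)) (.node (.leaf (nat_lit 50)) (.leaf (nat_lit 136))))) (.node (.leaf (nat_lit 0)) (.node (.node (.leaf (nat_lit 85)) (.leaf (nat_lit 11))) (.leaf (nat_lit 0)))))) (.node (.node (.node (.node (.node (.leaf (nat_lit 157)) (.leaf (nat_lit 124))) (.node (.leaf (nat_lit 87)) (.leaf (nat_lit 96)))) (.node (.node (.leaf (nat_lit 83)) (.leaf (nat_lit 54))) (.leaf (nat_lit 0)))) (.node (.node (.node (.leaf (nat_lit 26)) (.leaf (nat_lit 105))) (.node (.leaf (nat_lit 14)) (.leaf (nat_lit 67)))) (.node (.node (.leaf (nat_lit 112)) (.leaf (nat_lit 7))) (.leaf (nat_lit 0))))) (.node (.node (.node (.leaf (nat_lit 60)) (.leaf (nat_lit 99))) (.node (.leaf (nat_lit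 110)) (.leaf (nat_lit 92)))) (.node (.node (.leaf (nat_lit 128)) (.leaf (nat_lit 137))) (.node (.leaf (nat_lit 121)) (.leaf (nat_lit 15))))))))) (.node (.node (.node (.node (.node (.node (.leaf (nat_lit 0)) (.leaf (nat_lit 159))) (.node (.leaf (nat_lit 9)) (.leaf (nat_lit 122)))) (.node (.node (.leaf (nat_lit 133)) (.leaf (nat_lit 102))) (.node (.leaf (nat_lit 39)) (.node (.node (.leaf (nat_lit 51)) (.leaf (nat_lit 5))) (.leaf (nat_lit 161)))))) (.node (.node (.node (.leaf (nat_lit 43)) (.leaf (nat_lit 86))) (.node (.leaf (nat_lit 100)) (.leaf (nat_lit 61)))) (.node (.node (.leaf (nat_lit 2)) (.leaf (nat_lit 55))) (.node (.leaf (nat_lit 62)) (.node (.leaf (nat_lit 12)) (.node (.leaf (nat_lit 152)) (.leaf (nat_lit 90)))))))) (.node (.node (.node (.node (.leaf (nat_lit 66)) (.leaf (nat_lit 25))) (.node (.leaf (nat_lit 78)) (.leaf (nat_lit 107)))) (.node (.node (.leaf (nat_lit 108)) (.leaf (nat_lit 139))) (.node (.leaf (nat_lit 147)) (.node (.node (.leaf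 (nat_lit 81)) (.leaf (nat_lit 88))) (.leaf (nat_lit 44)))))) (.node (.node (.node (.leaf (nat_lit 127)) (.leaf (nat_lit 40))) (.node (.leaf (nat_lit 149)) (.leaf (nat_lit 20)))) (.node (.node (.leaf (nat_lit 80)) (.node (.leaf (nat_lit 73)) (.node (.leaf (nat_lit 4)) (.leaf (nat_lit 59))))) (.node (.leaf (nat_lit 89)) (.leaf (nat_lit 72))))))) (.node (.node (.node (.node (.node (.leaf (nat_lit 17)) (.leaf (nat_lit 58))) (.node (.node (.node (.leaf (nat_lit 1)) (.leaf (nat_lit 8))) (.leaf (nat_lit 16))) (.node (.node (.leaf (nat_lit 114)) (.leaf (nat_lit 47))) (.leaf (nat_lit 79))))) (.node (.node (.leaf (nat_lit 35)) (.leaf (nat_lit 76))) (.node (.node (.node (.leaf (nat_lit 46)) (.leaf (nat_lit 140))) (.leaf (nat_lit 130))) (.leaf (nat_lit 144))))) (.node (.node (.node (.leaf (nat_lit 132)) (.leaf (nat_lit 117))) (.node (.node (.node (.leaf (nat_lit 68)) (.leaf (nat_lit 75))) (.leaf (nat_lit 155))) (.node (.node (.leaf (nat_lit 125)) (.leaf (nat_lit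 166))) (.leaf (nat_lit 30))))) (.node (.node (.leaf (nat_lit 160)) (.leaf (nat_lit 153))) (.node (.node (.leaf (nat_lit 93)) (.node (.leaf (nat_lit 119)) (.leaf (nat_lit 145)))) (.leaf (nat_lit 115)))))) (.node (.node (.node (.node (.leaf (nat_lit 95)) (.leaf (nat_lit 32))) (.node (.node (.node (.leaf (nat_lit 91)) (.leaf (nat_lit 69))) (.leaf (nat_lit 52))) (.node (.node (.leaf (nat_lit 156)) (.leaf (nat_lit 134))) (.leaf (nat_lit 13))))) (.node (.node (.leaf (nat_lit 158)) (.leaf (nat_lit 21))) (.node (.node (.node (.leaf (nat_lit 151)) (.leaf (nat_lit 98))) (.leaf (nat_lit 101))) (.leaf (nat_lit 70))))) (.node (.node (.node (.node (.node (.leaf (nat_lit 24)) (.leaf (nat_lit 10))) (.leaf (nat_lit 33))) (.node (.node (.leaf (nat_lit 41)) (.leaf (nat_lit 111))) (.leaf (nat_lit 146)))) (.node (.leaf (nat_lit 118)) (.leaf (nat_lit 123)))) (.node (.node (.node (.leaf (nat_lit 18)) (.node (.leaf (nat_lit 126)) (.leaf (nat_lit 37)))) (.leaf (nat_lit 143)))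 (.node (.leaf (nat_lit 63)) (.leaf (nat_lit 34)))))))))

theorem card_L32 : Nat.card L32 = 168 := by
  rw [Matrix.card_GL_field]
  simp [Fin.prod_univ_succ]

theorem gcl_lval : gcl lval 3 = ⊤ := eq_top_of_card_eq _
  ((l_ch3.card_eq_hash (by decide +kernel) 511 (I := lI) (by decide +kernel)).trans card_L32.symm)

theorem gl32 : ∃ s y z : L32, s ^ 7 = 1 ∧ s ≠ 1 ∧ y ^ 3 = 1 ∧ y * s * y⁻¹ = s * s ∧ z * y * z⁻¹ = y⁻¹ ∧
    z * z = 1 ∧ (z * s) ^ 3 = 1 ∧ (z * s⁻¹) ^ 3 = 1 ∧ (∀ K : Subgroup L32, s ∈ K → y ∈ K → z ∈ K → K = ⊤) ∧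
    ∀ g, g * y = y * g → g ^ 8 = 1 → g = 1 := by
  have h := l_rels
  simp only [RelsHold, RG3, List.cons_append, List.nil_append, List.forall_mem_cons, wval_cons, wval_nil,
    sval, Nat.reduceMod, Nat.reduceDiv, ↓reduceIte, mul_one, one_ne_zero, ← mul_assoc] at h
  obtain ⟨h1, h2, h3, h4, h5, h6, h7, -⟩ := h
  refine ⟨lval 1, lval 2, lval 3, by simpa only [pow_succ, pow_zero, one_mul] using h1, ?_,
    by simpa only [pow_succ, pow_zero, one_mul] using h2, ?_, eq_inv_of_mul_eq_one_left h5, h4,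
    by simpa only [pow_succ, pow_zero, one_mul, ← mul_assoc] using h6,
    by simpa only [pow_succ, pow_zero, one_mul, ← mul_assoc] using h7, fun K k1 k2 k3 => ?_,
    fun g e1 e2 => ?_⟩
  · exact wval_single lval 1 ▸ l_tab.ne_of_wcode (w := [2]) (w' := []) (by decide) (by decide)
      (by decide +kernel)
  · rwa [mul_inv_eq_one, mul_inv_eq_iff_eq_mul] at h3
  · refine top_le_iff.1 (gcl_lval.ge.trans (gcl_le fun a a1 a2 => ?_))
    interval_cases a <;> assumption
  · have e := l_ch3.forall (n := 168) (by decide +kernel) (p := fun c => bimp (lM.cm c (lT.get 4))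
      (bimp (Nat.beq (lM.pow 4 c 8) lM.one) (Nat.beq c lM.one))) (by decide +kernel) g
      (gcl_lval.ge (mem_top g))
    have k : lM.enc (lval 2) = lT.get 4 := by simpa [sval] using l_tab 4 (by norm_num)
    rw [← k, Model.enc_pow _ _ _ (by norm_num) (by norm_num), e2, Model.cm, ← lM.enc_mul, ← lM.enc_mul,
      e1, ← lM.enc_one] at e
    exact lM.enc_inj (Nat.eq_of_beq_eq_true (bimp_iff.1 (bimp_iff.1 e (Nat.beq_refl _)) (Nat.beq_refl _)))

set_option synthInstance.maxSize 2000 in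
theorem sym5 : ∀ a : Equiv.Perm (Fin 5), a * a = 1 → ∀ b : Equiv.Perm (Fin 5), b * b = 1 →
    a * b * (a * b) * (a * b) = 1 → a * b ≠ 1 → ∀ d : Equiv.Perm (Fin 5), d * d = 1 →
    a * d * (a * d) = 1 → a * d ≠ 1 → b * d * (b * d) * (b * d) = 1 → ∃ e : Equiv.Perm (Fin 5),
    e * e = 1 ∧ e * a = a * e ∧ e * b = b * e ∧ e * d * (e * d) * (e * d) = 1 := by
  decide +kernel

end CfsgH9.Hs
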