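import Cfsg.Agent.H4.Lch3

/-! The Higman–Sims group has order at most `100 · 443520`; its matrix model modulo 17. -/

set_option autoImplicit false
set_option maxRecDepth 100000

namespace CfsgH9.Hs

open Cfsg CfsgH9.Golay CfsgWitt CfsgLch Finset Spor

/-- the hundred vectors -/
noncomputable def vecL : List Vc :=
  vecU :: (((List.range 4096).filter fun h => sumZ 24 (mb (comb Bm h 12)) = 8 ∧
      mb (comb Bm h 12) 11 = 1 ∧ mb (comb Bm h 12) 23 = 1).map
    (fun h p => 2 * mb (comb Bm h 12) (ix p)) ++
  ((List.range 23).filter fun j => j ≠ 11).map fun j p => 1 - if (ix p).val = j then 4 else 0)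

theorem vecL_len : vecL.length = 100 := by decide +kernel

theorem shape {w : leechLattice} (h1 : sqNorm w.1 = 32) (h2 : w.1 none = w.1 (some 0))
    (h3 : ∑ i, w.1 i + 4 * w.1 none = 24) : w.1 ∈ vecL := by
  obtain ⟨c, hc, h4⟩ := cases_of_mem w.2
  have b5 := @min_wt c hc
  have b6 := bit01 c
  unfold sqNorm at h1
  generalize w.1 = w at *
  rcases h4 with ⟨h4, -⟩ | ⟨h4, -⟩
  · have h5 : ∀ i, 0 ≤ w i ^ 2 - 4 * bit c i := fun i => sub_nonneg.2 (sq_even (b6 i) (h4 i))
    have h6 : ∑ i, (w i ^ 2 - 4 * bit c i) = 32 - 4 * ∑ i, bit c i := by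
      rw [sum_sub_distrib, ← mul_sum, h1]
    by_cases h7 : ∑ i, bit c i < 8
    · have h8 := b5 h7
      refine List.mem_cons.2 (Or.inl (funext fun p => ?_))
      have k1 : 0 ≤ ∑ i, (w i ^ 2 - 4 * w i) := sum_nonneg fun i _ =>
        q1 (by have := h4 i; have := h8 i; omega)
      rw [sum_sub_distrib, ← mul_sum, h1] at k1
      have k3 := all_zero (n := fun i => w i ^ 2 - vecU i ^ 2) (fun i => by
        unfold vecU
        split_ifs with e1
        · rcases e1 with e1 | e1 <;> rw [e1] <;> exact q2 (by omega)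
        · simpa using sq_nonneg (w i)) (by
          rw [sum_sub_distrib, h1, show ∑ i, vecU i ^ 2 = 32 by decide +kernel]; omega) p
      have k4 := q3 k3
      unfold vecU at k4 ⊢
      split_ifs at k4 ⊢ with e1
      · rcases e1 with e1 | e1 <;> rw [e1] at k4 ⊢ <;> omega
      · omega
    have h8 : ∑ i, bit c i = 8 := by have := sum_nonneg fun i (_ : i ∈ univ) => h5 i; omega
    have h9 : ∀ i, w i = 2 * bit c i ∨ w i = 2 * bit c i - 4 ∧ bit c i = 1 := fun i => by
      have k1 := all_zero h5 (by omega) i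
      rcases b6 i with k | k <;> rw [k] at k1 ⊢
      · have := q3 (a := 0) k1; omega
      · have := q3 (a := 2) k1; omega
    have k1 : ∑ i, (2 * bit c i - w i) = 16 - ∑ i, w i := by rw [sum_sub_distrib, ← mul_sum, h8]; rfl
    have k2 : ∀ i, 0 ≤ 2 * bit c i - w i := fun i => by have := h9 i; omega
    have k3 := sum_nonneg fun i (_ : i ∈ univ) => k2 i
    have k4 := h9 none
    have k5 := h9 (some 0)
    have k6 := b6 none
    have k7 := b6 (some 0)
    obtain ⟨h, hh, e⟩ := exists_mask hc
    have b1 : ∀ p, mb (comb Bm h 12) (ix p) = bit c p := fun p => by rw [e, bit_ofMask]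
    refine List.mem_cons_of_mem _ (List.mem_append_left _ (List.mem_map.2 ⟨h, List.mem_filter.2
      ⟨List.mem_range.2 hh, decide_eq_true ⟨by rw [← wt_ofMask, ← e, h8],
        (b1 (some 0)).trans (by omega), (b1 none).trans (by omega)⟩⟩, funext fun p => ?_⟩))
    have := all_zero k2 (by omega) p
    rw [b1]
    omega
  · have h5 : ∀ i, 0 ≤ w i ^ 2 - 1 := fun i => q4 (by have := h4 i; omega)
    have h6 : ∑ i, (w i ^ 2 - 1) = 8 := by rw [sum_sub_distrib, h1]; simp
    have h7 : ∀ i, w i ^ 2 - 1 = 0 ∧ w i = 1 - 2 * bit c i ∨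
        w i ^ 2 - 1 = 8 ∧ w i = 6 * bit c i - 3 := fun i => by
      have k1 := single_le_sum (fun i _ => h5 i) (mem_univ i)
      have k2 := abs_le_of_sq_le_sq' (a := w i) (b := 3) (by omega) (by norm_num)
      have k3 : w i = 1 ∨ w i = -1 ∨ w i = 3 ∨ w i = -3 := by have := h4 i; omega
      have k4 := h4 i
      have k5 := b6 i
      rcases k3 with k | k | k | k <;> rw [k] at k4 ⊢ <;> omega
    obtain ⟨j, hj⟩ := exists_single (n := fun i => (w i ^ 2 - 1) / 8)
      (fun i => by have := h7 i; omega) (by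
        have : 8 * ∑ i, (w i ^ 2 - 1) / 8 = ∑ i, (w i ^ 2 - 1) := by
          rw [mul_sum]; exact sum_congr rfl fun i _ => by have := h7 i; omega
        omega)
    have h8 : ∀ i, w i = 1 - 2 * bit c i + if i = j then 8 * bit c j - 4 else 0 := fun i => by
      have k1 := hj i
      have k2 := h7 i
      split_ifs at k1 ⊢ with e1
      · subst e1; omega
      · omega
    have h9 : ∑ i, w i = 24 - 2 * ∑ i, bit c i + (8 * bit c j - 4) := by
      rw [sum_congr rfl fun i _ => h8 i, sum_add_distrib, sum_delta, sum_sub_distrib, ← mul_sum]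
      simp
    have k4 := h8 none
    have k5 := h8 (some 0)
    have k6 := b6 none
    have k7 := b6 (some 0)
    have k8 := b6 j
    have k1 : j ≠ none := by
      rintro rfl
      simp only [reduceCtorEq, if_false, if_true] at k4 k5; omega
    have k2 : j ≠ some 0 := by
      rintro rfl
      simp only [reduceCtorEq, if_false, if_true] at k4 k5; omega
    rw [if_neg k1.symm] at k4
    have k3 := b5 (by omega)
    have k9 : (ix j).val ≠ 23 := fun e => k1 (ix_eq.1 e)
    refine List.mem_cons_of_mem _ (List.mem_append_right _ (List.mem_map.2 ⟨ix j, List.mem_filter.2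
      ⟨List.mem_range.2 (by omega), decide_eq_true fun e => k2 (ix_eq.1 e)⟩, funext fun p => ?_⟩))
    simp only [ix_eq]
    rw [h8 p, k3, k3]
    split_ifs <;> rfl

/-- the inclusion of the Higman–Sims group -/
def toCo : HS →* Co0 := Subgroup.inclusion fun _ h => h.1.1

theorem toCo_inj : Function.Injective toCo := Subgroup.inclusion_injective _

instance instFiniteHS : Finite HS := Finite.of_injective _ toCo_inj

theorem orbit_cond (g : HS) : sqNorm (g.1 leechU).1 = 32 ∧
    (g.1 leechU).1 none = (g.1 leechU).1 (some 0) ∧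
      ∑ i, (g.1 leechU).1 i + 4 * (g.1 leechU).1 none = 24 := by
  have h1 := dot_map (toCo g) leechU leechU'
  have h2 := dot_map (toCo g) leechU leechV
  rw [show (toCo g).1 leechU' = leechU' from g.2.2,
    show dotInt leechU.1 leechU'.1 = 0 by decide +kernel] at h1
  rw [show (toCo g).1 leechV = leechV from g.2.1.2,
    show dotInt leechU.1 leechV.1 = -24 by decide +kernel] at h2
  change dotInt (g.1 leechU).1 vecU' = 0 at h1
  change dotInt (g.1 leechU).1 vecV = -24 at h2
  refine ⟨(g.2.1.1.2 _).trans (by decide +kernel), ?_⟩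
  generalize (g.1 leechU).1 = w at *
  have h3 : dotInt w vecU' = ∑ i : GolayPt, ((if i = none then 4 * w none else 0) -
      if i = some 0 then 4 * w (some 0) else 0) := sum_congr rfl fun i _ => by
    unfold vecU'
    split_ifs with e1 e2 e3 <;> simp_all [mul_comm]
  have h4 : dotInt w vecV = ∑ i, ((if i = none then -4 * w none else 0) - w i) :=
    sum_congr rfl fun i _ => by
      unfold vecV
      split_ifs with e1
      · rw [e1]; ring
      · ring
  rw [sum_sub_distrib, sum_delta, sum_delta] at h3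
  rw [sum_sub_distrib, sum_delta] at h4
  constructor <;> linarith

theorem card_HS_le : Nat.card HS ≤ 44352000 := by
  obtain ⟨f, hf⟩ : ∃ f : MulAction.stabilizer HS leechU →* Spor.M22, Function.Injective f :=
    exists_m22 (toCo.comp (Subgroup.subtype _)) (toCo_inj.comp Subtype.val_injective)
      fun g => ⟨g.2, g.1.2.2, g.1.2.1.2⟩
  have h1 := (Nat.card_le_card_of_injective f hf).trans card_M22_le
  have h2 : Nat.card (MulAction.orbit HS leechU) ≤ 100 := by
    rw [← vecL_len]
    classical
    refine le_trans ?_ (List.toFinset_card_le vecL)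
    rw [← Nat.card_eq_finsetCard]
    refine Nat.card_le_card_of_injective (fun w => ⟨w.1.1, ?_⟩) fun a b e =>
      Subtype.ext (Subtype.ext (Subtype.mk.inj e))
    obtain ⟨w, g, rfl⟩ := w
    obtain ⟨a, b, c⟩ := orbit_cond g
    exact List.mem_toFinset.2 (shape a b c)
  rw [← (MulAction.stabilizer HS leechU).index_mul_card, MulAction.index_stabilizer,
    ← Nat.card_coe_set_eq]
  exact Nat.mul_le_mul h2 h1

/-- the model of the Higman–Sims group -/
noncomputable def hM : Model HS :=
  matModel 24 17 26 624 7711 17 cCM cRM cQM cone ok24 (mat.comp toCo) (mat_inj.comp toCo_inj)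

theorem hM_enc (g : HS) : hM.enc g = encMat 24 17 26 (mat (toCo g)) := by
  rw [hM, mm_enc, MonoidHom.comp_apply]

/-- the code describes an element of the Higman–Sims group -/
noncomputable def hsF (c : ℕ) : Bool :=
  band (coF c) (allLt 24 fun i => band
    (decide (img c (fun j => if j = 23 then 4 else if j = 11 then -4 else 0) i =
      8 * if i = 23 then 4 else if i = 11 then -4 else 0))
    (decide (img c (fun j => if j = 23 then -5 else -1) i = 8 * if i = 23 then -5 else -1)))

theorem exists_of_hsF {c : ℕ} (h : hsF c = true) : ∃ g, hM.enc g = c := by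
  obtain ⟨h1, h2⟩ := band_iff.1 h
  obtain ⟨g, hg, hc⟩ := exists_of_coF h1
  have key : ∀ (v : leechLattice) (x : ℕ → ℤ), (∀ p, v.1 p = x (ix p)) →
      (∀ i, i < 24 → img c x i = 8 * x i) → g.1 v = v := fun v x e1 e2 => by
    ext p
    have := eight_mul g v p
    simp only [hc, e1] at this
    rw [← img_eq, e2 _ (ix p).2, ← e1] at this
    omega
  have k1 := key leechV (fun j => if j = 23 then -5 else -1) (by decide +kernel) fun i hi =>
    of_decide_eq_true (band_iff.1 (allLt_iff.1 h2 i hi)).2
  have k2 := key leechU' (fun j => if j = 23 then 4 else if j = 11 then -4 else 0)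
    (by decide +kernel) fun i hi => of_decide_eq_true (band_iff.1 (allLt_iff.1 h2 i hi)).1
  refine ⟨⟨g.1, ⟨g.2, k1⟩, k2⟩, Eq.trans ?_ hg⟩
  rw [hM_enc]
  exact congrArg (fun x => encMat 24 17 26 (mat x)) rfl

/-- One step of a chain of orbits. -/
noncomputable def stepF (r r' N q : ℕ) (g g' t P I : NT) : Bool :=
  band (matValid 24 17 26 67108863 (t.get 0)) (band (allLt r' fun a => Nat.beq
    (mulMat 24 17 26 624 7711 17 cCM cRM cQM (t.get 0) (g'.get a)) (t.get 0))
    (allLt N (orbF hM r g t P I q)))

theorem step {K : Subgroup HS} {r r' N q : ℕ} {g g' ws t P I : NT} (hr : 0 < r)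
    (hg : ∀ a, a < r → hM.Mem K (g.get a)) (h1 : hM.subCheck r g r' g' ws 40 = true)
    (h2 : stepF r r' N q g g' t P I = true) :
    (∀ a, a < r' → hM.Mem (hM.gen r' g') (g'.get a)) ∧ N * Nat.card (hM.gen r' g') ≤ Nat.card K :=
  have h3 := Model.mem_of_subCheck hr hg h1
  ⟨fun _ ha => (Model.valid_of_mem h3).mem_gen ha, orbit_step ok24 _ _ hr hg h3 h2⟩

end CfsgH9.Hs
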