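import Cfsg.Agent.H3.JDef

/-! S3403, piece (R): reduction to a minimal counterexample. -/

set_option autoImplicit false

namespace CfsgJ

open CfsgH5 CfsgH6 CfsgFT Subgroup

universe u

namespace Red

/-- a line is of type `A` or `B` -/
def Ty {G : Type u} [Group G] (L : Subgroup G) : Prop := TyA L ∨ TyB L

theorem Ty.of_equiv {G H : Type u} [Group G] [Group H] {L : Subgroup G} {M : Subgroup H}
    (e : L ≃* M) (h : Ty L) : Ty M := by
  rcases h with ⟨h1, h2⟩ | ⟨h1, h2⟩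
  · exact .inl ⟨(Nat.card_congr e.toEquiv).symm.trans h1, e.symm.isSimpleGroup⟩
  · refine .inr ⟨(Nat.card_congr e.toEquiv).symm.trans h1, fun g hg => ?_⟩
    rw [← orderOf_mk g hg, ← e.symm.orderOf_eq, ← Subgroup.orderOf_coe]
    exact h2 _ (e.symm ⟨g, hg⟩).2

/-- a map injective on `L` -/
noncomputable def mapEquiv {G H : Type u} [Group G] [Group H] (f : G →* H) {L : Subgroup G}
    (h : L ⊓ f.ker = ⊥) : L ≃* L.map f :=
  MulEquiv.ofBijective (f.subgroupMap L) ⟨by
    rw [injective_iff_map_eq_one]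
    intro x hx
    have : (x : G) ∈ L ⊓ f.ker := ⟨x.2, congrArg Subtype.val hx⟩
    rw [h] at this
    exact Subtype.ext this, f.subgroupMap_surjective L⟩

theorem map_cj {G H : Type u} [Group G] [Group H] (f : G →* H) (g : G) (X : Subgroup G) :
    (cj g X).map f = cj (f g) (X.map f) := by
  unfold cj
  rw [map_map, map_map]
  congr 1
  ext x
  simp

variable {G : Type u} [Group G]

theorem Ty.cjj {L : Subgroup G} (h : Ty L) (g : G) : Ty (cj g L) := h.of_equiv (cjEquiv g L)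

variable [Finite G]

theorem syl_mod {r : ℕ} (hr : r.Prime) {S H : Subgroup G} (h : SylIn r S H) :
    (N S).relIndex H % r = 1 := by
  have := Fact.mk hr
  have h1 := card_sylow_modEq_one r H
  rw [h.toSylow.card_eq_index_normalizer] at h1
  rw [relIndex, subgroupOf_normalizer_eq h.le, ← Nat.mod_eq_of_lt hr.one_lt]
  exact h1

theorem pg {P : Subgroup G} (hP : Nat.card P = 11) : IsPGroup 11 P :=
  IsPGroup.of_card (n := 1) hP

theorem pr {P : Subgroup G} (hP : Nat.card P = 11) : (Nat.card P).Prime := by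
  rw [hP]; norm_num

theorem ab {P : Subgroup G} (hP : Nat.card P = 11) : Ab P :=
  ab_of_isCyclic (isCyclic_of_prime_card' (pr hP))

theorem Ty.syl {L P : Subgroup G} (h : Ty L) (hP : Nat.card P = 11) (hL : P ≤ L) :
    SylIn 11 P L := by
  have : Fact (Nat.Prime 11) := ⟨by norm_num⟩
  refine sylIn_of_not_dvd hL (pg hP) ?_
  rcases h with h | h
  · rw [relIndex_eq_of_mul hL (n := 60) (by rw [hP, h.1])]; norm_num
  · rw [relIndex_eq_of_mul hL (n := 15960) (by rw [hP, h.1])]; norm_num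

theorem Ty.conj {L P Q : Subgroup G} (h : Ty L) (hP : Nat.card P = 11) (hQ : Nat.card Q = 11)
    (h1 : P ≤ L) (h2 : Q ≤ L) : ∃ g ∈ L, cj g P = Q :=
  have : Fact (Nat.Prime 11) := ⟨by norm_num⟩
  (h.syl hP h1).conj (h.syl hQ h2)

theorem cenB {L P : Subgroup G} (h : TyB L) (hP : Nat.card P = 11) (hL : P ≤ L) :
    L ⊓ C P ≤ P := by
  rintro g ⟨hg, hc⟩
  obtain ⟨x, hx, ho⟩ := exists_mem_orderOf_eq (X := P) (p := 11) (by norm_num) (by rw [hP])
  by_cases h11 : orderOf g = 11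
  · refine (Ty.syl (.inr h) hP hL).le_of_nrm (X := zpowers g) (zpowers_le.2 hg)
      (IsPGroup.of_card (n := 1) (by rw [Nat.card_zpowers, h11, pow_one])) (nrm_of_le_C ?_) (mem_zpowers g)
    rw [C_zpowers]
    exact le_C1_iff.2 hc
  · have h1 := h.2 g hg
    have h2 := h.2 _ (mul_mem (hL hx) hg)
    have hco : (orderOf x).Coprime (orderOf g) := by
      rw [ho]
      generalize orderOf g = d at h1 h11
      revert h11
      revert d
      decide
    rw [(show Commute x g from mem_C.1 hc x hx).orderOf_mul_eq_mul_orderOf_of_coprime hco, ho] at h2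
    have : orderOf g = 1 := by
      simp only [List.mem_cons, List.not_mem_nil, or_false] at h1 h2
      omega
    rw [orderOf_eq_one_iff.1 this]
    exact one_mem _

theorem perfB {L P : Subgroup G} (h : TyB L) (hP : Nat.card P = 11) (hL : P ≤ L) : P ≤ D L := by
  refine (le_or_inf_eq_bot_of_prime_card (pr hP) (D L)).resolve_right fun e => ?_
  have h1 : L ⊓ N P ≤ P := (le_inf inf_le_left (le_C_of_comm_le_of_inf (comm_le_D inf_le_left hL)
    (nrm_of_le_N inf_le_right) (by rw [inf_comm, e]))).trans (cenB h hP hL)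
  have h2 := syl_mod (by norm_num) (Ty.syl (.inr h) hP hL)
  have h3 := card_inf_mul_relIndex (N P) L
  rw [show N P ⊓ L = P from le_antisymm (by rwa [inf_comm]) (le_inf (le_N P) hL), hP, h.1] at h3
  omega

theorem not_ab {P Q : Subgroup G} (h : Ty (P ⊔ Q)) (hP : Nat.card P = 11) (hQ : Nat.card Q = 11)
    (hne : P ≠ Q) : ¬ Ab (P ⊔ Q) := fun ha => by
  obtain ⟨g, hg, e⟩ := h.conj hP hQ le_sup_left le_sup_right
  exact hne ((cj_of_mem_C (C_anti le_sup_left (ha hg))).symm.trans e)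

theorem nrmA {L X : Subgroup G} (h : TyA L) (h1 : X ≤ L) (h2 : Nrm L X) : X = ⊥ ∨ X = L := by
  have := h.2
  have hn : (X.subgroupOf L).Normal := ⟨fun x hx g => h2 _ g.2 _ hx⟩
  refine (hn.eq_bot_or_eq_top).imp (fun e => ?_) fun e => ?_
  · rw [← map_subgroupOf_eq_of_le h1, e, Subgroup.map_bot]
  · exact le_antisymm h1 (subgroupOf_eq_top.1 e)

theorem perf {P Q : Subgroup G} (h : Ty (P ⊔ Q)) (hP : Nat.card P = 11) (hQ : Nat.card Q = 11)
    (hne : P ≠ Q) : D (P ⊔ Q) = P ⊔ Q := by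
  rcases h with h' | h'
  · exact (nrmA h' (D_le _) (normalIn_D _).nrm).resolve_left fun e =>
      not_ab (.inl h') hP hQ hne (D_eq_bot.1 e)
  · exact le_antisymm (D_le _) (sup_le (perfB h' hP le_sup_left) (perfB h' hQ le_sup_right))

theorem cenless {P Q : Subgroup G} (h : Ty (P ⊔ Q)) (hP : Nat.card P = 11)
    (hQ : Nat.card Q = 11) (hne : P ≠ Q) : Z (P ⊔ Q) = ⊥ := by
  rcases h with h' | h'
  · exact (nrmA h' (Z_le _) (normalIn_Z _).nrm).resolve_right fun e =>
      not_ab (.inl h') hP hQ hne (Z_eq_self.1 e)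
  · have h1 : Z (P ⊔ Q) ≤ P := (inf_le_inf_left _ (C_anti le_sup_left)).trans
      (cenB h' hP le_sup_left)
    have h2 : Z (P ⊔ Q) ≤ Q := (inf_le_inf_left _ (C_anti le_sup_right)).trans
      (cenB h' hQ le_sup_right)
    refine (eq_bot_or_eq_of_prime_card (pr hP) h1).resolve_right fun e => ?_
    exact hne (eq_of_le_of_card_eq (e ▸ h2) (by rw [hP, hQ]))

/-- the hypotheses -/
structure Hyp (P : Subgroup G) : Prop where
  card : Nat.card P = 11
  nn : ¬ P.Normal
  gen : normalClosure (P : Set G) = ⊤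
  pair : ∀ g, cj g P ≠ P → Ty (P ⊔ cj g P)

omit [Finite G] in
theorem ex_ne {P : Subgroup G} (h : ¬ P.Normal) : ∃ g, cj g P ≠ P := by
  by_contra hc
  push Not at hc
  exact h ⟨fun x hx g => hc g ▸ conj_mem_cj.2 hx⟩

omit [Finite G] in
theorem cj_normal {M : Subgroup G} (hM : M.Normal) (g : G) : cj g M = M :=
  (nrm_top_iff.2 hM).cj_eq trivial

namespace Hyp

variable {P : Subgroup G}

omit [Finite G] in
theorem pair' (h : Hyp P) {a b : G} (hne : cj a P ≠ cj b P) : Ty (cj a P ⊔ cj b P) := by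
  have := (h.pair (a⁻¹ * b) fun e => hne (by
    rw [← cj_inj (g := a⁻¹), cj_inv_cj, cj_cj, e])).cjj a
  rwa [CfsgFT.cj_sup, cj_cj, mul_inv_cancel_left] at this

omit [Finite G] in
theorem card' (h : Hyp P) (a : G) : Nat.card (cj a P) = 11 := (card_cj a P).trans h.card

omit [Finite G] in
theorem eq_top (h : Hyp P) {M : Subgroup G} (hM : M.Normal) (hle : P ≤ M) : M = ⊤ :=
  top_le_iff.1 (h.gen ▸ normalClosure_le_normal hle)

theorem inf_eq (h : Hyp P) {M : Subgroup G} (hM : M.Normal) (hne : M ≠ ⊤) : P ⊓ M = ⊥ :=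
  (le_or_inf_eq_bot_of_prime_card (pr h.card) M).resolve_left fun e => hne (h.eq_top hM e)

theorem le_center (h : Hyp P) {M : Subgroup G} (hM : M.Normal) (hne : M ≠ ⊤) : M ≤ center G := by
  have nM : ∀ A : Subgroup G, Nrm A M := fun A a _ x hx => hM.conj_mem x hx a
  have h1 : Nrm M P := nrm_of_le_N fun m hm => mem_N.2 (by
    by_contra e
    have h2 := perf (h.pair m e) h.card (h.card' m) (Ne.symm e)
    have h3 : P ⊔ cj m P ≤ P ⊔ M :=
      sup_le le_sup_left (cj_le_of_le le_sup_left (mem_sup_right hm))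
    have h4 : D (P ⊔ M) ≤ M := D_sup_le (nM P) (nM M) (by rw [D_eq_bot.2 (ab h.card)]; exact bot_le)
      (D_le M) (nM P).comm_le_right
    exact hne (h.eq_top hM (le_sup_left.trans (h2 ▸ (D_mono h3).trans h4))))
  have h2 : P ≤ C M := le_C_symm (le_C_of_inf_eq_bot h1 (nM P) (by rw [inf_comm, h.inf_eq hM hne]))
  have h3 : C M = ⊤ := h.eq_top (nrm_top_iff.1 (nM ⊤).C) h2
  intro m hm
  rw [mem_center_iff]
  intro g
  exact (mem_C.1 (h3 ▸ mem_top g : g ∈ C M) m hm).symm

theorem center_ne (h : Hyp P) : center G ≠ ⊤ := fun e =>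
  h.nn ⟨fun x hx g => by
    rwa [mem_center_iff.1 (e ▸ mem_top x : x ∈ center G) g, mul_inv_cancel_right]⟩

theorem line_inf (h : Hyp P) {g : G} (hg : cj g P ≠ P) : (P ⊔ cj g P) ⊓ center G = ⊥ :=
  le_bot_iff.1 ((inf_le_inf_left _ (center_le_centralizer _)).trans
    (cenless (h.pair g hg) h.card (h.card' g) hg.symm).le)

theorem quot (h : Hyp P) : Hyp (P.map (QuotientGroup.mk' (center G))) := by
  set f := QuotientGroup.mk' (center G)
  have hk : f.ker = center G := QuotientGroup.ker_mk' _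
  have hs : Function.Surjective f := QuotientGroup.mk'_surjective _
  refine ⟨?_, fun hn => ?_, ?_, fun g' hg' => ?_⟩
  · rw [← Nat.card_congr (mapEquiv f (by
      rw [hk]; exact h.inf_eq inferInstance h.center_ne)).toEquiv, h.card]
  · obtain ⟨g, hg⟩ := ex_ne h.nn
    have h1 := cj_normal hn (f g)
    rw [← map_cj, map_eq_map_iff, hk] at h1
    have h2 : cj g P ≤ (P ⊔ center G) ⊓ (P ⊔ cj g P) := le_inf (h1 ▸ le_sup_left) le_sup_right
    rw [modular_left (.inl fun a _ x hx => (inferInstance : (center G).Normal).conj_mem x hx a)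
      le_sup_left, inf_comm, h.line_inf hg, sup_bot_eq] at h2
    exact hg (eq_of_le_of_card_eq h2 (card_cj g P))
  · rw [coe_map, ← map_normalClosure _ _ hs, h.gen, map_top_of_surjective _ hs]
  · obtain ⟨g, rfl⟩ := hs g'
    rw [← map_cj] at hg' ⊢
    have hg : cj g P ≠ P := fun e => hg' (by rw [e])
    rw [← Subgroup.map_sup]
    exact (h.pair g hg).of_equiv (mapEquiv f (by rw [hk]; exact h.line_inf hg))

theorem of_quot (h : Hyp P) {g' : G ⧸ center G}
    (h1 : cj g' (P.map (QuotientGroup.mk' (center G))) ≠ P.map (QuotientGroup.mk' (center G)))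
    (h2 : P.map (QuotientGroup.mk' (center G)) ⊔ cj g' (P.map (QuotientGroup.mk' (center G))) = ⊤) :
    ∃ g, cj g P ≠ P ∧ P ⊔ cj g P = ⊤ := by
  set f := QuotientGroup.mk' (center G)
  have hk : f.ker = center G := QuotientGroup.ker_mk' _
  have hs : Function.Surjective f := QuotientGroup.mk'_surjective _
  obtain ⟨g, rfl⟩ := hs g'
  rw [← map_cj] at h1 h2
  refine ⟨g, fun e => h1 (by rw [e]), h.eq_top (nrm_top_iff.1 ?_) le_sup_left⟩
  rw [← Subgroup.map_sup, ← map_top_of_surjective _ hs, map_eq_map_iff, hk, top_sup_eq] at h2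
  rw [← h2]
  exact nrm_of_le_N (sup_le (le_N _) ((center_le_centralizer _).trans (C_le_N _)))

/-- the subgroup generated by the points in `Y` -/
theorem sub (h : Hyp P) {Y : Subgroup G} {a b : G} (hab : cj a P ≠ cj b P) (ha : cj a P ≤ Y)
    (hb : cj b P ≤ Y) :
    Hyp ((cj a P).subgroupOf (sSup {Q | Q ≤ Y ∧ ∃ c, Q = cj c P})) := by
  set Y0 := sSup {Q | Q ≤ Y ∧ ∃ c, Q = cj c P}
  have le0 : ∀ c, cj c P ≤ Y → cj c P ≤ Y0 := fun c hc => le_sSup ⟨hc, c, rfl⟩
  have hm := map_subgroupOf_eq_of_le (le0 a ha)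
  have hi := Y0.subtype_injective
  have cn : ∀ c, cj c P ≤ Y → ∃ l ∈ Y0, cj l (cj a P) = cj c P := fun c hc => by
    by_cases e : cj a P = cj c P
    · exact ⟨1, one_mem _, (cj_one _).trans e⟩
    · obtain ⟨l, hl, e'⟩ := (h.pair' e).conj (h.card' a) (h.card' c) le_sup_left le_sup_right
      exact ⟨l, sup_le (le0 a ha) (le0 c hc) hl, e'⟩
  refine ⟨?_, fun hn => ?_, ?_, fun g hg => ?_⟩
  · rw [← card_map_of_injective hi, hm, h.card']
  · obtain ⟨l, hl, e⟩ := cn b hb
    have := congrArg (map Y0.subtype) (cj_normal hn ⟨l, hl⟩)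
    rw [map_cj, hm] at this
    exact hab (this.symm.trans e)
  · set NC := normalClosure (((cj a P).subgroupOf Y0 : Subgroup Y0) : Set Y0)
    have : Y0 ≤ NC.map Y0.subtype := sSup_le (by
      rintro _ ⟨hc, c, rfl⟩
      obtain ⟨l, hl, e⟩ := cn c hc
      rw [← e, ← hm]
      refine (map_cj Y0.subtype ⟨l, hl⟩ _).symm.le.trans (map_mono ?_)
      exact (cj_mono le_normalClosure).trans (cj_normal inferInstance _).le)
    rw [eq_top_iff, ← map_le_map_iff_of_injective hi, ← MonoidHom.range_eq_map, range_subtype]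
    exact this
  · have e1 : ((cj a P).subgroupOf Y0 ⊔ cj g ((cj a P).subgroupOf Y0)).map Y0.subtype =
        cj a P ⊔ cj (g * a) P := by
      rw [Subgroup.map_sup, map_cj, hm, cj_cj]; rfl
    have e2 : cj a P ≠ cj (g * a) P := fun e => hg (map_injective hi (by
      rw [map_cj, hm, cj_cj]; exact e.symm))
    exact (e1 ▸ h.pair' e2).of_equiv (equivMapOfInjective _ _ hi).symm

end Hyp

/-- the points -/
def Pt (P : Subgroup G) : Type u := {Q : Subgroup G // ∃ c, Q = cj c P}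

instance ptAction (P : Subgroup G) : MulAction G (Pt P) where
  smul g Q := ⟨cj g Q.1, by obtain ⟨c, e⟩ := Q.2; exact ⟨g * c, by rw [e, cj_cj]⟩⟩
  one_smul Q := Subtype.ext (cj_one Q.1)
  mul_smul g h Q := Subtype.ext (cj_cj g h Q.1).symm

instance ptFinite (P : Subgroup G) : Finite (Pt P) := Subtype.finite

theorem main (H : ∀ (G Ω : Type u) [Group G] [Finite G] [MulAction G Ω] [Finite Ω]
    (P : Ω → Subgroup G), ¬ Geo G Ω P) (n : ℕ) : ∀ (G : Type u) [Group G] [Finite G],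
    Nat.card G = n → ∀ P : Subgroup G, Hyp P → ∃ g, cj g P ≠ P ∧ P ⊔ cj g P = ⊤ := by
  induction n using Nat.strong_induction_on with
  | _ n ih =>
  intro G _ _ hn P h
  by_contra hc
  have hZ : center G = ⊥ := by
    by_contra e
    have h1 := (center G).card_eq_card_quotient_mul_card_subgroup
    obtain ⟨g', h2, h3⟩ := ih _ (by
      have : 1 < Nat.card (center G) := one_lt_card.2 e
      have : 0 < Nat.card (G ⧸ center G) := Nat.card_pos
      nlinarith) _ rfl _ h.quot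
    exact hc (h.of_quot h2 h3)
  have nt : Nontrivial G := by
    by_contra e
    rw [not_nontrivial_iff_subsingleton] at e
    exact h.nn inferInstance
  refine H G (Pt P) Subtype.val ⟨⟨fun M hM => ?_⟩, Subtype.val_injective, ?_, fun _ _ => rfl,
    ?_, ?_, ?_, ?_, ?_⟩
  · by_cases e : M = ⊤
    · exact .inr e
    · exact .inl (le_bot_iff.1 (hZ ▸ h.le_center hM e))
  · rintro ⟨_, a, rfl⟩
    exact h.card' a
  · rintro ⟨_, a, rfl⟩ ⟨_, b, rfl⟩
    exact ⟨b * a⁻¹, Subtype.ext (show cj _ (cj a P) = cj b P by rw [cj_cj, inv_mul_cancel_right])⟩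
  · rintro ⟨_, a, rfl⟩ ⟨_, b, rfl⟩ hne
    exact h.pair' fun e => hne (Subtype.ext e)
  · rintro Y hY ⟨_, a, rfl⟩ ⟨_, b, rfl⟩ hne ha hb
    have hs := h.sub (fun e => hne (Subtype.ext e)) ha hb
    set Y0 := sSup {Q | Q ≤ Y ∧ ∃ c, Q = cj c P}
    have hle : Y0 ≤ Y := sSup_le fun _ hQ => hQ.1
    have le0 : ∀ c, cj c P ≤ Y → cj c P ≤ Y0 := fun c hc => le_sSup ⟨hc, c, rfl⟩
    have hm := map_subgroupOf_eq_of_le (le0 a ha)
    obtain ⟨g, h1, h2⟩ := ih _ (hn ▸ lt_of_le_of_ne (card_le_card_group Y0)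
      fun e => hY (top_le_iff.1 ((eq_top_of_card_eq Y0 e).symm.le.trans hle))) Y0 rfl _ hs
    have h3 := congrArg (map Y0.subtype) h2
    rw [Subgroup.map_sup, map_cj, hm, cj_cj, ← MonoidHom.range_eq_map, range_subtype] at h3
    refine ⟨⟨_, a, rfl⟩, ⟨_, Y0.subtype g * a, rfl⟩, fun e => h1 (map_injective
      Y0.subtype_injective ?_), ha, (le_sup_right.trans h3.le).trans hle, ?_⟩
    · rw [map_cj, hm, cj_cj]
      exact (congrArg Subtype.val e).symm
    · rintro ⟨_, c, rfl⟩ hk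
      exact (le0 c hk).trans h3.ge
  · rintro ⟨_, a, rfl⟩ ⟨_, b, rfl⟩ e
    have e' : P ⊔ cj (a⁻¹ * b) P = ⊤ := by
      rw [← cj_eq_top (g := a), CfsgFT.cj_sup, cj_cj, mul_inv_cancel_left]
      exact e
    refine hc ⟨_, fun e'' => ?_, e'⟩
    rw [e'', sup_idem] at e'
    exact h.nn (e' ▸ inferInstance)
  · obtain ⟨g, hg⟩ := ex_ne h.nn
    exact ⟨⟨_, g, rfl⟩, ⟨P, 1, (cj_one P).symm⟩, fun e => hg (congrArg Subtype.val e)⟩

end Red

theorem reduce (H : ∀ (G Ω : Type u) [Group G] [Finite G] [MulAction G Ω] [Finite Ω]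
    (P : Ω → Subgroup G), ¬ Geo G Ω P) {G : Type u} [Group G] [Finite G] (P : Subgroup G)
    (hP : Nat.card P = 11) (hn : ¬ P.Normal) (hgen : normalClosure (P : Set G) = ⊤)
    (hpair : ∀ g, cj g P ≠ P → TyA (P ⊔ cj g P) ∨ TyB (P ⊔ cj g P)) :
    ∃ g, cj g P ≠ P ∧ P ⊔ cj g P = ⊤ :=
  Red.main H _ G rfl P ⟨hP, hn, hgen, hpair⟩

end CfsgJ
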