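import Cfsg.Agent.H3.JBase
import Cfsg.Agent.H9.JRed

/-! S3403, piece (JA), part 1: the action of a line of type `A` on its twelve points. -/

set_option autoImplicit false

namespace CfsgJ

open CfsgH5 CfsgH6 CfsgFT Subgroup MulAction

universe u

/-- a line of type `A` -/
structure LA (G Ω : Type u) [Group G] [MulAction G Ω] (P : Ω → Subgroup G) (L : Subgroup G) : Prop
    extends Geo G Ω P where
  line : Line P L
  tA : TyA L

variable {G Ω : Type u} [Group G] [MulAction G Ω] {P : Ω → Subgroup G} {L : Subgroup G}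

theorem ncard_orb (X : Subgroup G) (j : Ω) :
    {k | ∃ x ∈ X, x • j = k}.ncard = (stabilizer G j).relIndex X := by
  have : {k | ∃ x ∈ X, x • j = k} = orbit X j := by
    ext k
    exact ⟨fun ⟨x, hx, e⟩ => ⟨⟨x, hx⟩, e⟩, fun ⟨x, e⟩ => ⟨x, x.2, e⟩⟩
  rw [this, ← index_stabilizer]
  rfl

variable [Finite G]

namespace LA

theorem perfL (h : LA G Ω P L) : D L = L := by
  obtain ⟨i, j, hij, rfl⟩ := h.line
  exact Red.perf (.inl h.tA) (h.card i) (h.card j) fun e => hij (h.inj e)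

theorem burn (h : LA G Ω P L) {p : ℕ} (hp : p.Prime) {S : Subgroup G} (hS : SylIn p S L)
    (hne : S ≠ ⊥) : ¬ L ⊓ N S ≤ C S := fun e => by
  have := hS.inf_D_eq_bot_of_le_C hp e
  rw [h.perfL, inf_of_le_left hS.le] at this
  exact hne this

theorem syl (h : LA G Ω P L) {i : Ω} (hi : P i ≤ L) : SylIn 11 (P i) L :=
  Red.Ty.syl (.inl h.tA) (h.card i) hi

theorem trL (h : LA G Ω P L) {i j : Ω} (hi : P i ≤ L) (hj : P j ≤ L) : ∃ g ∈ L, g • i = j := by
  obtain ⟨g, hg, e⟩ := Red.Ty.conj (.inl h.tA) (h.card i) (h.card j) hi hj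
  exact ⟨g, hg, h.inj ((h.smul g i).trans e)⟩

omit [Finite G] in
theorem stab_eq (h : LA G Ω P L) (i : Ω) : stabilizer G i = N (P i) := by
  ext g
  exact h.fix_iff

theorem idx (h : LA G Ω P L) {i : Ω} (hi : P i ≤ L) : (stabilizer G i).relIndex L = 12 := by
  have h1 := Red.syl_mod (by norm_num) (h.syl hi)
  have h2 : (N (P i)).relIndex L ∣ (P i).relIndex L := relIndex_dvd_of_le_left _ (le_N _)
  rw [relIndex_eq_of_mul hi (n := 60) (by rw [h.card, h.tA.1])] at h2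
  have h3 : (N (P i)).relIndex L ≠ 1 := fun e => by
    obtain ⟨j, hji, hj⟩ := h.line.two' i
    obtain ⟨g, hg, e'⟩ := h.trL hi hj
    exact hji (e'.symm.trans (h.fix_iff.2 (relIndex_eq_one.1 e hg)))
  rw [h.stab_eq]
  generalize (N (P i)).relIndex L = m at h1 h2 h3
  have := Nat.le_of_dvd (by norm_num) h2
  interval_cases m <;> omega

theorem npts (h : LA G Ω P L) : {i | P i ≤ L}.ncard = 12 := by
  obtain ⟨i, -, -, hi, -⟩ := h.line.two
  rw [← h.idx hi, ← ncard_orb]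
  congr 1
  ext k
  exact ⟨fun hk => h.trL hi hk, fun ⟨x, hx, e⟩ => e ▸ (h.on_mem hx).2 hi⟩

theorem stab (h : LA G Ω P L) {i : Ω} (hi : P i ≤ L) : Nat.card ↥(L ⊓ stabilizer G i) = 55 := by
  have := card_inf_mul_relIndex (stabilizer G i) L
  rw [h.idx hi, h.tA.1, inf_comm] at this
  omega

omit [Finite G] in
theorem ne_bot (h : LA G Ω P L) (i : Ω) : P i ≠ ⊥ := fun e => by
  have := h.card i
  rw [e, card_bot] at this
  omega

theorem cen (h : LA G Ω P L) {i : Ω} (hi : P i ≤ L) : L ⊓ C (P i) = P i := by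
  have h1 : P i ≤ L ⊓ C (P i) := le_inf hi (h.ab i)
  have h2 : L ⊓ C (P i) ≤ L ⊓ N (P i) := inf_le_inf_left _ (C_le_N _)
  have h3 : (P i).relIndex (L ⊓ N (P i)) = 5 := relIndex_eq_of_mul (h1.trans h2) (by
    rw [← h.stab_eq, h.stab hi, h.card])
  refine (eq_or_eq_of_prime_relIndex (by rw [h3]; norm_num) h1 h2).resolve_right fun e => ?_
  exact h.burn (by norm_num) (h.syl hi) (h.ne_bot i) (e.ge.trans inf_le_right)

theorem reg (h : LA G Ω P L) {i j k : Ω} (hi : P i ≤ L) (hj : P j ≤ L) (hk : P k ≤ L)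
    (hji : j ≠ i) (hki : k ≠ i) : ∃ x ∈ P i, x • j = k := by
  have := h.finite
  have h1 : {k | ∃ x ∈ P i, x • j = k} ⊆ {k | P k ≤ L} \ {i} := by
    rintro _ ⟨x, hx, rfl⟩
    refine ⟨(h.on_mem (hi hx)).2 hj, fun e => hji ?_⟩
    rw [Set.mem_singleton_iff, smul_eq_iff_eq_inv_smul, h.fix_P (inv_mem hx)] at e
    exact e
  have h2 := Set.eq_of_subset_of_ncard_le h1 (by
    rw [Set.ncard_sdiff_singleton_of_mem hi, h.npts, ncard_orb, relIndex_of_inf_eq_bot, h.card]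
    rw [eq_bot_iff]
    rintro x ⟨h3, h4⟩
    by_contra e
    exact hji (h.semireg h4 e h3))
  exact (h2.ge ⟨hk, hki⟩ :)

theorem gen (h : LA G Ω P L) {i j : Ω} (hij : i ≠ j) (hi : P i ≤ L) (hj : P j ≤ L) :
    P i ⊔ P j = L := by
  have key : ∀ k, P k ≤ L → P k ≤ P i ⊔ P j := fun k hk => by
    by_cases e : k = i
    · exact e ▸ le_sup_left
    · obtain ⟨x, hx, rfl⟩ := h.reg hi hj hk hij.symm e
      exact (h.on_mem (mem_sup_left hx)).2 le_sup_right
  refine le_antisymm (sup_le hi hj) ?_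
  obtain ⟨a, b, -, e⟩ := h.line
  exact e.le.trans (sup_le (key a (e ▸ le_sup_left)) (key b (e ▸ le_sup_right)))

theorem fpf (h : LA G Ω P L) {s : G} (hs : s ∈ L) (h2 : s * s = 1) {i : Ω} (hi : P i ≤ L)
    (e : s • i = i) : s = 1 := by
  have h1 := orderOf_dvd_card' (X := L ⊓ stabilizer G i) ⟨hs, e⟩
  rw [h.stab hi] at h1
  have h3 : orderOf s ∣ 2 := orderOf_dvd_of_pow_eq_one (by rw [pow_two, h2])
  exact orderOf_eq_one_iff.1 (Nat.eq_one_of_dvd_coprimes (by norm_num) h1 h3)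

theorem comm_one (h : LA G Ω P L) {g x : G} {i : Ω} (hc : g ∉ C (P i)) (hx : x ∈ P i)
    (e : x * g = g * x) : x = 1 := by
  by_contra h1
  refine hc ?_
  rw [h.eq_zpowers hx h1, C_zpowers, mem_C1]
  exact e.symm

theorem fix2u (h : LA G Ω P L) {g : G} {i j k : Ω} (hi : P i ≤ L) (hg : g • i = i)
    (hc : g ∉ C (P i)) (hj : P j ≤ L) (hk : P k ≤ L) (hji : j ≠ i) (hki : k ≠ i) (h1 : g • j = j)
    (h2 : g • k = k) : k = j := by
  obtain ⟨x, hx, rfl⟩ := h.reg hi hj hk hji hki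
  have h3 : x⁻¹ * (g * x * g⁻¹) = 1 := by
    by_contra e
    refine hji (h.semireg (mul_mem (inv_mem hx) (conj_mem_of_mem_N (h.fix_iff.1 hg) hx)) e ?_)
    rw [mul_smul, mul_smul, mul_smul, inv_smul_eq_iff.2 h1.symm, h2, inv_smul_smul]
  rw [h.comm_one hc hx (by rw [inv_mul_eq_one, eq_mul_inv_iff_mul_eq] at h3; exact h3), one_smul]

theorem fix2 (h : LA G Ω P L) {g : G} (hN : g ∈ N L) {i : Ω} (hi : P i ≤ L) (hg : g • i = i)
    (hc : g ∉ C (P i)) : ∃! j, P j ≤ L ∧ j ≠ i ∧ g • j = j := by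
  obtain ⟨j, hji, hj⟩ := h.line.two' i
  obtain ⟨y, hy, e⟩ := h.reg hi hj ((h.on_N hN).2 hj) hji fun e =>
    hji (smul_left_cancel g (e.trans hg.symm))
  let f : P i → P i := fun x => ⟨x.1⁻¹ * (g * x * g⁻¹),
    mul_mem (inv_mem x.2) (conj_mem_of_mem_N (h.fix_iff.1 hg) x.2)⟩
  have hf : Function.Injective f := fun a b hab => by
    have h1 : a.1⁻¹ * (g * a * g⁻¹) = b.1⁻¹ * (g * b * g⁻¹) := congrArg Subtype.val hab
    have h2 := h.comm_one hc (mul_mem b.2 (inv_mem a.2)) (by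
      calc b.1 * a.1⁻¹ * g = b * (a.1⁻¹ * (g * a * g⁻¹)) * g * a.1⁻¹ := by group
        _ = _ := by rw [h1]; group)
    exact Subtype.ext (mul_inv_eq_one.1 h2).symm
  obtain ⟨x, hx⟩ := Finite.surjective_of_injective hf ⟨y⁻¹, inv_mem hy⟩
  have h1 : x.1⁻¹ * (g * x * g⁻¹) = y⁻¹ := congrArg Subtype.val hx
  have h2 : x.1 • j ≠ i := fun e' => hji (by
    rw [smul_eq_iff_eq_inv_smul, h.fix_P (inv_mem x.2)] at e'; exact e')
  have h3 : g • x.1 • j = x.1 • j := by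
    rw [← mul_smul, show g * x = x * y⁻¹ * g by rw [← h1]; group, mul_smul, ← e, mul_smul,
      inv_smul_smul]
  exact ⟨x.1 • j, ⟨(h.on_mem (hi x.2)).2 hj, h2, h3⟩, fun k hk =>
    h.fix2u hi hg hc ((h.on_mem (hi x.2)).2 hj) hk.1 h2 hk.2.1 h3 hk.2.2⟩

theorem three (h : LA G Ω P L) (i j : Ω) : ∃ k, P k ≤ L ∧ k ≠ i ∧ k ≠ j := by
  by_contra e
  push Not at e
  have h1 : {k | P k ≤ L} ⊆ {i, j} := fun k hk => by
    by_cases e' : k = i
    exacts [.inl e', .inr (e k hk e')]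
  have h2 := Set.ncard_le_ncard h1
  have h3 := Set.ncard_insert_le i ({j} : Set Ω)
  rw [Set.ncard_singleton] at h3
  rw [h.npts] at h2
  omega

theorem faith (h : LA G Ω P L) {l : G} (hl : l ∈ L) (e : ∀ k, P k ≤ L → l • k = k) : l = 1 := by
  obtain ⟨i, j, hij, hi, hj⟩ := h.line.two
  obtain ⟨k, hk, h1, h2⟩ := h.three i j
  by_contra h0
  by_cases hc : l ∈ C (P i)
  · exact hij (h.semireg (h.cen hi ▸ (⟨hl, hc⟩ : l ∈ L ⊓ C (P i))) h0 (e j hj)).symm
  · exact h2 (h.fix2u hi (e i hi) hc hj hk hij.symm h1 (e j hj) (e k hk))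

theorem fixall (h : LA G Ω P L) {g : G} (hN : g ∈ N L) (e : ∀ k, P k ≤ L → g • k = k) :
    g ∈ C L := mem_C.2 fun l hl => by
  have := h.faith (mul_mem (inv_mem hl) (conj_mem_of_mem_N hN hl)) fun k hk => by
    rw [mul_smul, mul_smul, mul_smul, inv_smul_eq_iff.2 (e k hk).symm, e _ ((h.on_mem hl).2 hk),
      inv_smul_smul]
  rwa [inv_mul_eq_one, eq_mul_inv_iff_mul_eq] at this

theorem star (h : LA G Ω P L) {k : G} (hN : k ∈ N L) {i j : Ω} (hi : P i ≤ L) (hj : P j ≤ L)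
    (hji : j ≠ i) (hc : k ∈ C (P i)) (e : k • j = j) : k ∈ C L := h.fixall hN fun m hm => by
  by_cases e' : m = i
  · exact e' ▸ h.fix_C hc
  · obtain ⟨x, hx, rfl⟩ := h.reg hi hj hm hji e'
    rw [← mul_smul, ← mem_C.1 hc x hx, mul_smul, e]

theorem b (h : LA G Ω P L) {i : Ω} (hi : P i ≤ L) {k : G} (hc : k ∈ C (P i)) (hN : k ∈ N L) :
    ∃ p ∈ P i, ∃ c ∈ C L, k = p * c := by
  obtain ⟨j, hji, hj⟩ := h.line.two' i
  obtain ⟨y, hy, e⟩ := h.reg hi hj ((h.on_N hN).2 hj) hji fun e =>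
    hji (smul_left_cancel k (e.trans (h.fix_C hc).symm))
  exact ⟨y, hy, y⁻¹ * k, h.star (mul_mem (inv_mem (le_N _ (hi hy))) hN) hi hj hji
    (mul_mem (inv_mem (h.ab i hy)) hc) (by rw [mul_smul, ← e, inv_smul_smul]),
    (mul_inv_cancel_left _ _).symm⟩

theorem two_tr (h : LA G Ω P L) {i j a b : Ω} (hij : i ≠ j) (hi : P i ≤ L) (hj : P j ≤ L)
    (hab : a ≠ b) (ha : P a ≤ L) (hb : P b ≤ L) : ∃ g ∈ L, g • a = i ∧ g • b = j := by
  obtain ⟨g, hg, e⟩ := h.trL ha hi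
  obtain ⟨x, hx, e'⟩ := h.reg hi ((h.on_mem hg).2 hb) hj
    (fun f => hab (smul_left_cancel g (e.trans f.symm))) hij.symm
  exact ⟨x * g, mul_mem (hi hx) hg, by rw [mul_smul, e, h.fix_P hx], by rw [mul_smul, e']⟩

theorem notC (h : LA G Ω P L) {i j : Ω} (hij : i ≠ j) (hi : P i ≤ L) {t : G} (ht : t ∈ L)
    (h1 : t ≠ 1) (hj : t • j = j) : t ∉ C (P i) := fun hc =>
  hij (h.semireg (h.cen hi ▸ (⟨ht, hc⟩ : t ∈ L ⊓ C (P i))) h1 hj).symm

theorem torus (h : LA G Ω P L) {i j : Ω} (hij : i ≠ j) (hi : P i ≤ L) (hj : P j ≤ L) :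
    ∃ t ∈ L, orderOf t = 5 ∧ t • i = i ∧ t • j = j ∧
      ∀ g ∈ L, g • i = i → g • j = j → g ∈ zpowers t := by
  have := h.finite
  have h1 : (stabilizer G j).relIndex (L ⊓ stabilizer G i) = 11 := by
    rw [← ncard_orb, show 11 = 12 - 1 from rfl, ← h.npts,
      ← Set.ncard_sdiff_singleton_of_mem (s := {k | P k ≤ L}) hi]
    congr 1
    ext k
    refine ⟨?_, fun ⟨hk, hki⟩ => ?_⟩
    · rintro ⟨x, hx, rfl⟩
      exact ⟨(h.on_mem hx.1).2 hj, fun e => hij (smul_left_cancel x (hx.2.trans e.symm))⟩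
    · obtain ⟨x, hx, e⟩ := h.reg hi hj hk hij.symm hki
      exact ⟨x, ⟨hi hx, h.fix_P hx⟩, e⟩
  have h2 := card_inf_mul_relIndex (stabilizer G j) (L ⊓ stabilizer G i)
  rw [h1, h.stab hi] at h2
  have h3 : Nat.card ↥(stabilizer G j ⊓ (L ⊓ stabilizer G i)) = 5 := by omega
  obtain ⟨t, ht, ho⟩ := exists_mem_orderOf_eq (p := 5) (by norm_num) h3.symm.dvd
  refine ⟨t, ht.2.1, ho, ht.2.2, ht.1, fun g hg e1 e2 => ?_⟩
  rw [← eq_zpowers_of_prime_card (by rw [h3]; norm_num) ht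
    (fun e => by rw [e, orderOf_one] at ho; omega)]
  exact ⟨e2, hg, e1⟩

theorem tor (h : LA G Ω P L) {i j : Ω} (hij : i ≠ j) (hi : P i ≤ L) (hj : P j ≤ L) :
    ∃ t ∈ L, orderOf t = 5 ∧ t • i = i ∧ t • j = j ∧
      (∀ g ∈ L, g • i = i → g • j = j → g ∈ zpowers t) ∧
      ∃ s ∈ L, orderOf s = 2 ∧ s • i = j ∧ s * t * s⁻¹ = t⁻¹ := by
  obtain ⟨t, ht, ho, ti, tj, hT⟩ := h.torus hij hi hj
  refine ⟨t, ht, ho, ti, tj, hT, ?_⟩
  have : Fact (Nat.Prime 5) := ⟨by norm_num⟩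
  have t1 : t ≠ 1 := fun e => by rw [e, orderOf_one] at ho; omega
  obtain ⟨g, hg, g1, g2⟩ := h.two_tr hij.symm hj hi hij hi hj
  have e1 : (g * g) ^ 5 = 1 := orderOf_dvd_iff_pow_eq_one.1 (ho ▸ orderOf_dvd_of_mem_zpowers
    (hT _ (mul_mem hg hg) (by rw [mul_smul, g1, g2]) (by rw [mul_smul, g2, g1])))
  obtain ⟨s, hs, s2, s1, s3⟩ : ∃ s ∈ L, s * s = 1 ∧ s • i = j ∧ s • j = i :=
    ⟨g * g * g * g * g, mul_mem (mul_mem (mul_mem (mul_mem hg hg) hg) hg) hg,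
      by rw [← e1]; simp only [pow_succ, mul_assoc,
      pow_zero, one_mul], by simp only [mul_smul, g1, g2], by simp only [mul_smul, g1, g2]⟩
  have si : s⁻¹ = s := inv_eq_of_mul_eq_one_right s2
  refine ⟨s, hs, orderOf_eq_prime (by rw [pow_two, s2]) fun e => hij (by rw [← s1, e, one_smul]),
    s1, ?_⟩
  have hn : s * t * s⁻¹ ∈ zpowers t := hT _ (mul_mem (mul_mem hs ht) (inv_mem hs))
    (by rw [si, mul_smul, mul_smul, s1, tj, s3]) (by rw [si, mul_smul, mul_smul, s3, ti, s1])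
  have hc : s ∉ C1 t := fun hc => by
    refine h.burn (p := 5) (by norm_num) (S := zpowers t) (sylIn_of_not_dvd (zpowers_le.2 ht)
      (IsPGroup.of_card (n := 1) (by rw [Nat.card_zpowers, ho, pow_one])) ?_)
      (by rwa [ne_eq, zpowers_eq_bot]) ?_
    · rw [relIndex_eq_of_mul (zpowers_le.2 ht) (n := 132) (by rw [Nat.card_zpowers, ho, h.tA.1])]
      norm_num
    · rintro n ⟨hn, hn'⟩
      have key : ∀ k, P k ≤ L → t • k = k → n • k = i ∨ n • k = j := fun k hk e => by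
        by_contra e'
        push Not at e'
        refine e'.2 (h.fix2u hi ti (h.notC hij hi ht t1 tj) hj ((h.on_mem hn).2 hk) hij.symm e'.1
          tj ?_)
        have : n⁻¹ * t * n⁻¹⁻¹ ∈ stabilizer G k :=
          zpowers_le.2 (show t ∈ stabilizer G k from e)
            (conj_mem_of_mem_N (inv_mem hn') (mem_zpowers t))
        rw [mem_stabilizer_iff, inv_inv, mul_smul, mul_smul, inv_smul_eq_iff] at this
        exact this
      have hT' : zpowers t ≤ C1 t := zpowers_le.2 (self_mem_C1 t)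
      rw [C_zpowers]
      rcases key i hi ti with a | a <;> rcases key j hj tj with b | b
      · exact absurd (smul_left_cancel n (a.trans b.symm)) hij
      · exact hT' (hT n hn a b)
      · exact (mul_mem_cancel_left hc).1 (hT' (hT _ (mul_mem hs hn) (by rw [mul_smul, a, s3])
          (by rw [mul_smul, b, s1])))
      · exact absurd (smul_left_cancel n (a.trans b.symm)) hij
  have hu : t * (s * t * s⁻¹) ∈ zpowers t := mul_mem (mem_zpowers t) hn
  have hcm : t * (s * t * s⁻¹) = (s * t * s⁻¹) * t :=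
    (ab_zpowers t).comm (mem_zpowers t) hn
  rw [← mul_eq_one_iff_eq_inv', eq_comm]
  by_contra e
  refine hc ?_
  rw [← C_zpowers, eq_zpowers_of_prime_card (by rw [Nat.card_zpowers, ho]; norm_num) hu (Ne.symm e),
    C_zpowers, mem_C1_iff_conj]
  calc s * (t * (s * t * s⁻¹)) * s⁻¹ = s * t * s⁻¹ * (s * s * t * (s * s)⁻¹) := by group
    _ = _ := by rw [s2, hcm]; group

end LA

end CfsgJ
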