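import Cfsg.Agent.H8.SC3d
import Cfsg.Agent.H6.BaerSuzuki
import Cfsg.Agent.FT.Base6

set_option autoImplicit false
set_option linter.unusedSectionVars false
set_option maxHeartbeats 400000

/-! S3717: the local configuration `3² : SD₁₆`. -/

namespace CfsgM11

open Subgroup CfsgH5 CfsgH6 CfsgFT

variable {G : Type*} [Group G] [Finite G]

/-- `z = a⁴`, `s = z t`, `w = a² t`, `h = w g w`. -/
structure Cf (M : Subgroup G) (g h a t s z w : G) : Prop where
  simp : ∀ N : Subgroup G, N.index ≠ 2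
  card : Nat.card M = 9
  ab : ∀ x ∈ M, ∀ y ∈ M, x * y = y * x
  m3 : ∀ x ∈ M, x ^ 3 = 1
  na : ∀ m ∈ M, a * m * a⁻¹ ∈ M
  nt : ∀ m ∈ M, t * m * t⁻¹ ∈ M
  ez : z = a ^ 4
  es : s = z * t
  ew : w = a ^ 2 * t
  eh : h = w * g * w
  a8 : a ^ 8 = 1
  z1 : z ≠ 1
  tt : t * t = 1
  t1 : t ≠ 1
  ta : t * a * t = a ^ 3
  gM : g ∈ M
  g1 : g ≠ 1
  tg : t * g = g * t
  zM : ∀ m ∈ M, z * m * z = m⁻¹
  CM : ∀ x, (∀ m ∈ M, x * m = m * x) → x ∈ M
  Cg : ∀ x, x * g = g * x → ∃ i j : ℕ, x = g ^ i * h ^ j ∨ x = g ^ i * h ^ j * t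
  conj3 : ∀ y, y ^ 3 = 1 → y ≠ 1 → ∃ x, x * g * x⁻¹ = y

theorem inv_of_sq {x : G} (h : x * x = 1) : x⁻¹ = x := inv_eq_of_mul_eq_one_right h

theorem mul_sq_l {x : G} (h : x * x = 1) (y : G) : x * (x * y) = y := by rw [← mul_assoc, h, one_mul]

theorem comm_of_sq {x y : G} (hx : x * x = 1) (hy : y * y = 1) (h : x * y * (x * y) = 1) :
    x * y = y * x := by
  rw [← inv_of_sq h, mul_inv_rev, inv_of_sq hx, inv_of_sq hy]

theorem cj1 {c x : G} (e : c⁻¹ * x * c = 1) : x = 1 := by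
  calc x = c * (c⁻¹ * x * c) * c⁻¹ := by group
    _ = 1 := by rw [e]; group

theorem sq_of_six {X : Subgroup G} (hX : IsPGroup 2 X) {u : G} (hu : u ∈ X) (h6 : u ^ 6 = 1) :
    u * u = 1 := by
  obtain ⟨k, hk⟩ := hX ⟨u, hu⟩
  have a : u ^ 2 ^ k = 1 := congrArg Subtype.val hk
  have b := (Nat.dvd_gcd (orderOf_dvd_of_pow_eq_one a) (orderOf_dvd_of_pow_eq_one h6))
  have c : Nat.gcd (2 ^ k) 6 ∣ 2 := (Nat.Coprime.dvd_mul_right (k := Nat.gcd (2 ^ k) 6) (n := 3) (m := 2)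
    ((Nat.Coprime.pow_left k (by norm_num)).coprime_dvd_left (Nat.gcd_dvd_left _ _))).1
    (Nat.gcd_dvd_right _ _)
  rw [← pow_two]; exact orderOf_dvd_iff_pow_eq_one.1 (b.trans c)

theorem closure_comm {k : Set G} (c : ∀ x ∈ k, ∀ y ∈ k, x * y = y * x) :
    ∀ p ∈ closure k, ∀ q ∈ closure k, p * q = q * p := fun p hp q hq =>
  congrArg Subtype.val ((isMulCommutative_closure c).is_comm.comm (⟨p, hp⟩ : closure k) ⟨q, hq⟩)

theorem closure_sq {k : Set G} (c : ∀ x ∈ k, ∀ y ∈ k, x * y = y * x) (sq : ∀ x ∈ k, x * x = 1) :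
    ∀ p ∈ closure k, p * p = 1 := fun p hp => by
  induction hp using closure_induction with
  | mem x hx => exact sq x hx
  | one => simp
  | mul p q hp hq a b =>
    rw [mul_assoc, ← mul_assoc q, ← closure_comm c p hp q hq, mul_assoc, b, mul_one, a]
  | inv p _ a => rw [← mul_inv_rev, a, inv_one]

theorem pg_of_sq {X : Subgroup G} (sq : ∀ x ∈ X, x * x = 1) : IsPGroup 2 X :=
  fun p => ⟨1, Subtype.ext (by simpa [pow_two] using sq p p.2)⟩

theorem mem_N_closure {k : Set G} {g : G} (h : ∀ x ∈ k, g * x * g⁻¹ ∈ closure k) :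
    g ∈ N (closure k) := mem_N_of_conj fun x hx => by
  induction hx using closure_induction with
  | mem x hx => exact h x hx
  | one => simp
  | mul p q _ _ a b => rw [← conj_mul]; exact mul_mem a b
  | inv p _ a => rw [← conj_inv]; exact inv_mem a

theorem sq_conj {x : G} (h : x * x = 1) (c : G) : c * x * c⁻¹ * (c * x * c⁻¹) = 1 := by
  rw [conj_mul, h]; group

theorem comm_conj' {x y : G} (h : x * y = y * x) (c : G) :
    c * x * c⁻¹ * (c * y * c⁻¹) = c * y * c⁻¹ * (c * x * c⁻¹) := by rw [conj_mul, conj_mul, h]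

theorem tri {e y v : G} (e2 : e * e = 1) (y3 : y ^ 3 = 1) (h : (e * y) ^ 3 = v) :
    y⁻¹ * e * y = y * e * y⁻¹ * e * v := by
  have yi : y⁻¹ = y * y := by rw [eq_comm, ← mul_eq_one_iff_eq_inv, ← pow_three', y3]
  rw [← h, pow_three']
  calc y⁻¹ * e * y = y * y * e * y := by rw [yi]
    _ = _ := by simp [mul_assoc, mul_sq_l e2]

namespace Cf

variable {M : Subgroup G} {g h a t s z w : G} (H : Cf M g h a t s z w)
include H

theorem ti : t⁻¹ = t := inv_of_sq H.tt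
theorem tan (n : ℕ) : t * a ^ n * t = a ^ (3 * n) := by
  have := conj_pow (a := t) (b := a) (i := n)
  rw [H.ti, H.ta] at this
  rw [← this, pow_mul]
theorem tan' (n : ℕ) : t * a ^ n = a ^ (3 * n) * t := by rw [← H.tan, mul_assoc, mul_assoc, H.tt, mul_one]
theorem zz : z * z = 1 := by rw [H.ez, ← pow_add, H.a8]
theorem az : a * z = z * a := by rw [H.ez, ← pow_succ, ← pow_succ']
theorem tz : t * z = z * t := by
  rw [H.ez, H.tan', show 3 * 4 = 8 + 4 from rfl, pow_add, H.a8, one_mul]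
theorem ss : s * s = 1 := by
  rw [H.es, mul_assoc, ← mul_assoc t, H.tz, mul_assoc, H.tt, mul_one, H.zz]
theorem st : s * t = z := by rw [H.es, mul_assoc, H.tt, mul_one]
theorem ts : t * s = z := by rw [H.es, ← mul_assoc, H.tz, mul_assoc, H.tt, mul_one]
theorem ts' : t * s = s * t := by rw [H.st, H.ts]
theorem ww : w * w = 1 := by
  rw [H.ew, mul_assoc, ← mul_assoc t, H.tan', mul_assoc, H.tt, mul_one, ← pow_add, H.a8]
theorem wi : w⁻¹ = w := inv_of_sq H.ww
theorem wtw : w * t * w = s := by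
  rw [H.es, H.ew, H.ez, mul_assoc (a ^ 2), H.tt, mul_one, ← mul_assoc, ← pow_add]
theorem wsw : w * s * w = t := by
  rw [← H.wtw, mul_assoc, mul_assoc, mul_assoc, H.ww, mul_one, mul_sq_l H.ww]
theorem wz : w * z = z * w := by
  rw [H.ew, mul_assoc, H.tz, H.ez, ← mul_assoc, ← mul_assoc, ← pow_add, ← pow_add]
theorem atw : a⁻¹ * t * a = w := by
  have := H.tan' 1
  rw [pow_one] at this
  rw [mul_assoc, this, H.ew]; group
theorem s1 : s ≠ 1 := fun e => H.t1 (by rw [← H.wsw, e, mul_one, H.ww])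
theorem zt : z ≠ t := fun e => H.s1 (by rw [H.es, e, H.tt])
theorem sNt : s ≠ t := fun e => H.z1 (by rw [← H.st, e, H.tt])
theorem zs : z ≠ s := fun e => H.t1 (mul_left_cancel (a := s) (by rw [H.st, e, mul_one]))
theorem hM : h ∈ M := by
  have := H.na _ (H.na _ (H.nt g H.gM))
  rw [H.eh]; nth_rewrite 2 [← H.wi]; rw [H.ew]
  convert this using 1
  rw [pow_two]; group
theorem g3 : g ^ 3 = 1 := H.m3 g H.gM
theorem h3 : h ^ 3 = 1 := H.m3 h H.hM
theorem gh : g * h = h * g := H.ab g H.gM h H.hM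
theorem h1 : h ≠ 1 := fun e => H.g1 (by
  have := H.eh; rw [e] at this
  exact cj1 (c := w) (by rw [H.wi, ← this]))
theorem whw : w * h * w = g := by
  rw [H.eh, mul_assoc, mul_assoc, mul_assoc, H.ww, mul_one, mul_sq_l H.ww]
theorem sgs : s * g * s = g⁻¹ := by
  rw [← H.zM g H.gM]; nth_rewrite 1 [H.es]
  rw [mul_assoc z, H.tg, mul_assoc, mul_assoc, H.ts, mul_assoc]
theorem sh : s * h = h * s := by
  rw [← H.wtw, H.eh]
  calc w * t * w * (w * g * w) = w * (t * g) * w := by simp [mul_assoc, mul_sq_l H.ww]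
    _ = _ := by rw [H.tg]; simp [mul_assoc, mul_sq_l H.ww]
theorem tht : t * h * t = h⁻¹ := by
  rw [← H.wsw, H.eh]
  calc w * s * w * (w * g * w) * (w * s * w) = w * (s * g * s) * w := by
        simp [mul_assoc, mul_sq_l H.ww]
    _ = _ := by rw [H.sgs]; simp [mul_assoc, H.wi]
theorem thn (n : ℕ) : t * h ^ n = (h ^ n)⁻¹ * t := by
  have := conj_pow (a := t) (b := h) (i := n)
  rw [H.ti, H.tht, inv_pow] at this
  rw [this, mul_assoc, mul_assoc, H.tt, mul_one]

theorem sq_Cg (i j : ℕ) : g ^ i * h ^ j * t * (g ^ i * h ^ j * t) = (g ^ i) ^ 2 := by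
  have c1 : t * g ^ i = g ^ i * t := (Commute.pow_right H.tg i).eq
  have c2 : h ^ j * g ^ i = g ^ i * h ^ j := (Commute.pow_pow H.gh i j).eq.symm
  calc _ = g ^ i * (h ^ j * (t * g ^ i)) * h ^ j * t := by group
    _ = g ^ i * (h ^ j * g ^ i) * (t * h ^ j) * t := by rw [c1]; group
    _ = _ := by rw [c2, H.thn, pow_two]; simp [mul_assoc, H.tt]

theorem one_of_M {m : G} (hm : m ∈ M) (e : m * m = 1) : m = 1 := by
  have := H.m3 m hm
  rwa [pow_succ, pow_two, e, one_mul] at this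

theorem six_g {x : G} (e : x * g = g * x) : x ^ 6 = 1 := by
  obtain ⟨i, j, rfl | rfl⟩ := H.Cg x e
  · rw [show 6 = 3 * 2 from rfl, pow_mul, H.m3 _ (mul_mem (pow_mem H.gM i) (pow_mem H.hM j)), one_pow]
  · rw [show 6 = 2 * 3 from rfl, pow_mul, pow_two, H.sq_Cg, H.m3 _ (pow_mem (pow_mem H.gM i) 2)]

theorem inv_g {x : G} (e : x * g = g * x) (x2 : x * x = 1) (x1 : x ≠ 1) : ∃ j : ℕ, x = h ^ j * t := by
  obtain ⟨i, j, rfl | rfl⟩ := H.Cg x e
  · exact (x1 (H.one_of_M (mul_mem (pow_mem H.gM i) (pow_mem H.hM j)) x2)).elim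
  · rw [H.sq_Cg, pow_two] at x2
    exact ⟨j, by rw [H.one_of_M (pow_mem H.gM i) x2, one_mul]⟩

omit H in
theorem conj_comm {c x y : G} (e : x * (c * y * c⁻¹) = c * y * c⁻¹ * x) :
    c⁻¹ * x * c * y = y * (c⁻¹ * x * c) := by
  calc _ = c⁻¹ * (x * (c * y * c⁻¹)) * c := by group
    _ = _ := by rw [e]; group

/-- an element commuting with an element of order `3` has order dividing `6`. -/
theorem six {x y : G} (y3 : y ^ 3 = 1) (y1 : y ≠ 1) (e : x * y = y * x) : x ^ 6 = 1 := by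
  obtain ⟨c, rfl⟩ := H.conj3 y y3 y1
  have := H.six_g (conj_comm e)
  rw [show c⁻¹ * x * c = c⁻¹ * x * c⁻¹⁻¹ by simp, conj_pow] at this
  exact cj1 (by simpa using this)

/-- an involution commuting with an element of order `3` is conjugate to `t`. -/
theorem inv_conj {x y : G} (y3 : y ^ 3 = 1) (y1 : y ≠ 1) (e : x * y = y * x) (x2 : x * x = 1)
    (x1 : x ≠ 1) : ∃ c, c * t * c⁻¹ = x := by
  obtain ⟨c, rfl⟩ := H.conj3 y y3 y1
  obtain ⟨j, hj⟩ := H.inv_g (conj_comm e) (by simp [mul_assoc, mul_sq_l x2])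
    (fun e => x1 (cj1 e))
  refine ⟨c * (h ^ j) ^ 2, ?_⟩
  have a1 : (h ^ j) ^ 2 * t * ((h ^ j) ^ 2)⁻¹ = h ^ j * t := by
    have b := H.thn (j * 2)
    rw [pow_mul] at b
    have b' : t * ((h ^ j) ^ 2)⁻¹ = (h ^ j) ^ 2 * t := by
      rw [mul_inv_eq_iff_eq_mul, mul_assoc, b, mul_inv_cancel_left]
    rw [mul_assoc, b', ← mul_assoc, ← pow_add, show 2 + 2 = 3 + 1 from rfl, pow_succ,
      H.m3 _ (pow_mem H.hM j), one_mul]
  calc _ = c * ((h ^ j) ^ 2 * t * ((h ^ j) ^ 2)⁻¹) * c⁻¹ := by group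
    _ = _ := by rw [a1, ← hj]; group

/-- commuting involutions in the centraliser of an element of order `3` coincide. -/
theorem two_eq {u v y : G} (y3 : y ^ 3 = 1) (y1 : y ≠ 1) (eu : u * y = y * u) (ev : v * y = y * v)
    (u2 : u * u = 1) (v2 : v * v = 1) (u1 : u ≠ 1) (v1 : v ≠ 1) (c : u * v = v * u) : u = v := by
  obtain ⟨d, rfl⟩ := H.conj3 y y3 y1
  obtain ⟨j, hj⟩ := H.inv_g (conj_comm eu) (by simp [mul_assoc, mul_sq_l u2])
    (fun e => u1 (cj1 e))
  obtain ⟨k, hk⟩ := H.inv_g (conj_comm ev) (by simp [mul_assoc, mul_sq_l v2])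
    (fun e => v1 (cj1 e))
  have a : d⁻¹ * (u * v) * d = h ^ j * (h ^ k)⁻¹ := by
    have b : t * h ^ k * t = (h ^ k)⁻¹ := by rw [H.thn, mul_assoc, H.tt, mul_one]
    rw [← b, show d⁻¹ * (u * v) * d = d⁻¹ * u * d * (d⁻¹ * v * d) by group, hj, hk]; group
  have b : d⁻¹ * (u * v) * d = 1 := H.one_of_M (a ▸ mul_mem (pow_mem H.hM j) (inv_mem (pow_mem H.hM k)))
    (by
      have : u * v * (u * v) = 1 := by rw [mul_assoc, ← mul_assoc v, ← c, mul_assoc, v2, mul_one, u2]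
      calc _ = d⁻¹ * (u * v * (u * v)) * d := by group
        _ = 1 := by rw [this]; group)
  have : u * v = 1 := cj1 b
  rw [← inv_of_sq v2]; exact eq_inv_of_mul_eq_one_left this

theorem six' {u : G} (h3 : 3 ∣ orderOf u) : u ^ 6 = 1 ∧ u ^ 2 ≠ 1 := by
  obtain ⟨k, hk⟩ := h3
  have k0 : 0 < k := Nat.pos_of_ne_zero fun e => (orderOf_pos u).ne' (by rw [hk, e])
  refine ⟨H.six (y := u ^ k) (by rw [← pow_mul, mul_comm, ← hk, pow_orderOf_eq_one]) (fun e => ?_)
    (Commute.self_pow u k).eq, fun e => ?_⟩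
  · have := Nat.le_of_dvd k0 (orderOf_dvd_of_pow_eq_one e); omega
  · have := Nat.le_of_dvd two_pos (orderOf_dvd_of_pow_eq_one e); omega

/-- CUBE -/
theorem cube {u v : G} (h3 : 3 ∣ orderOf u) (v2 : v * v = 1) (v1 : v ≠ 1) (c : u * v = v * u) :
    u ^ 3 = 1 ∨ u ^ 3 = v := by
  obtain ⟨a1, a2⟩ := H.six' h3
  refine or_iff_not_imp_left.2 fun e => H.two_eq (y := u ^ 2) (by rw [← pow_mul, a1]) a2
    (Commute.pow_pow_self u 3 2).eq (Commute.pow_left c 2).eq.symm (by rw [← pow_add, a1]) v2 e v1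
    (Commute.pow_left c 3).eq

theorem inC {u y y' : G} (y3 : y ^ 3 = 1) (y1 : y ≠ 1) (y3' : y' ^ 3 = 1) (c : y' * y = y * y')
    (eu : u * y = y * u) (eu' : u * y' = y' * u) (u2 : u * u = 1) (u1 : u ≠ 1) : y' ∈ zpowers y := by
  obtain ⟨d, rfl⟩ := H.conj3 y y3 y1
  obtain ⟨j, hj⟩ := H.inv_g (conj_comm eu) (by simp [mul_assoc, mul_sq_l u2]) (fun e => u1 (cj1 e))
  have key : d⁻¹ * y' * d ∈ zpowers g := by
    have e3 : (d⁻¹ * y' * d) ^ 3 = 1 := by
      rw [show d⁻¹ * y' * d = d⁻¹ * y' * d⁻¹⁻¹ by simp, conj_pow, y3']; simp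
    have e4 : d⁻¹ * u * d * (d⁻¹ * y' * d) = d⁻¹ * y' * d * (d⁻¹ * u * d) := by
      calc _ = d⁻¹ * (u * y') * d := by group
        _ = _ := by rw [eu']; group
    obtain ⟨i, k, e | e⟩ := H.Cg _ (conj_comm c)
    · rw [hj, e] at e4
      have c1 : t * g ^ i = g ^ i * t := (Commute.pow_right H.tg i).eq
      have c2 : h ^ j * g ^ i = g ^ i * h ^ j := (Commute.pow_pow H.gh i j).eq.symm
      have c3 : h ^ j * h ^ k = h ^ k * h ^ j := (Commute.pow_pow_self h j k).eq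
      have e5 : (h ^ k)⁻¹ = h ^ k := by
        have : g ^ i * h ^ j * ((h ^ k)⁻¹ * t) = g ^ i * h ^ j * (h ^ k * t) := by
          calc _ = h ^ j * (g ^ i * t) * h ^ k := by rw [← H.thn, ← c2]; group
            _ = h ^ j * t * (g ^ i * h ^ k) := by rw [← c1]; group
            _ = g ^ i * (h ^ k * h ^ j) * t := by rw [e4]; group
            _ = _ := by rw [← c3]; group
        exact mul_right_cancel (mul_left_cancel this)
      rw [e, H.one_of_M (pow_mem H.hM k) (by nth_rewrite 1 [← e5]; simp), mul_one]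
      exact npow_mem_zpowers g i
    · have e5 := H.sq_Cg i k
      rw [← e] at e5
      rw [pow_succ, pow_two, e5] at e3
      rw [eq_inv_of_mul_eq_one_right e3]
      exact inv_mem (pow_mem (npow_mem_zpowers g i) 2)
  obtain ⟨n, hn⟩ := key
  exact ⟨n, by simp only at hn ⊢; rw [conj_zpow, hn]; group⟩

/-- `M`-type groups normalise no 2-group. -/
theorem noM {X : Subgroup G} (hX : IsPGroup 2 X) (hne : X ≠ ⊥) {y y' : G} (y3 : y ^ 3 = 1)
    (y1 : y ≠ 1) (y3' : y' ^ 3 = 1) (c : y * y' = y' * y) (n : y ∈ N X) (n' : y' ∈ N X) :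
    y' ∈ zpowers y := by
  haveI := Fact.mk Nat.prime_three
  by_contra hn
  let A := closure ({y, y'} : Set G)
  have yA : y ∈ A := subset_closure (by simp)
  have yA' : y' ∈ A := subset_closure (by simp)
  have ab : ∀ p ∈ A, ∀ q ∈ A, p * q = q * p := fun p hp q hq => by
    have := isMulCommutative_closure (k := ({y, y'} : Set G)) (by
      rintro _ (rfl | rfl) _ (rfl | rfl) <;> simp [c])
    exact congrArg Subtype.val (this.is_comm.comm (⟨p, hp⟩ : A) ⟨q, hq⟩)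
  have a3 : ∀ p ∈ A, p ^ 3 = 1 := fun p hp => by
    induction hp using closure_induction with
    | mem x hx => rcases hx with rfl | rfl <;> assumption
    | one => simp
    | mul p q hp hq a b => rw [Commute.mul_pow (ab p hp q hq), a, b, one_mul]
    | inv p _ a => rw [inv_pow, a, inv_one]
  have pA : IsPGroup 3 A := fun p => ⟨1, Subtype.ext (by simpa using a3 p p.2)⟩
  have nA : Nrm A X := nrm_of_le_N ((closure_le _).2 (by rintro _ (rfl | rfl) <;> assumption))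
  obtain ⟨b, b1, b2, b3⟩ := exists_inf_C1_ne_bot (A := A) (fun p hp q hq => ab q hq p hp) (fun hc => by
    obtain ⟨c, hc⟩ := hc.exists_generator
    have e1 : Nat.card A ≤ 3 := by
      rw [← orderOf_eq_card_of_forall_mem_zpowers hc]
      exact Nat.le_of_dvd three_pos (orderOf_dvd_of_pow_eq_one (Subtype.ext (a3 c c.2)))
    have := eq_of_le_of_card_ge (zpowers_le.2 yA)
      (by rwa [Nat.card_zpowers, orderOf_eq_prime y3 y1])
    exact hn (this ▸ yA')) nA (IsPGroup.coprime_card_of_ne 2 3 (by norm_num) X A hX pA) hne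
  obtain ⟨u, ⟨u1, u2⟩, u3⟩ := (bot_or_exists_ne_one _).resolve_left b3
  have sq : ∀ v ∈ X, v ∈ C1 b → v * v = 1 := fun v v1 v2 =>
    sq_of_six hX v1 (H.six (a3 b b1) b2 (mem_C1.1 v2))
  have cc : ∀ p ∈ A, u * p = p * u := fun p hp => by
    have p1 : p * u * p⁻¹ ∈ C1 b := mem_C1.2 (by
      calc _ = p * u * (b * p⁻¹) := by rw [ab b b1 _ (inv_mem hp)]; group
        _ = p * (u * b) * p⁻¹ := by group
        _ = _ := by rw [mem_C1.1 u2, ← mul_assoc, ab p hp b b1]; group)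
    have p2 := nA p hp u u1
    have := H.two_eq (a3 b b1) b2 (mem_C1.1 p1) (mem_C1.1 u2) (sq _ p2 p1) (sq _ u1 u2)
      (fun e => u3 (cj1 (c := p⁻¹) (by simpa using e))) u3
      (comm_of_sq (sq _ p2 p1) (sq _ u1 u2) (sq _ (mul_mem p2 u1) (mul_mem p1 u2)))
    nth_rewrite 1 [← this]; group
  exact hn (H.inC y3 y1 y3' c.symm (cc y yA) (cc y' yA') (sq _ u1 u2) u3)

theorem hg : h ∉ zpowers g := fun ⟨n, hn⟩ => H.h1 (H.one_of_M H.hM (by
  have : t * h = h * t := by rw [← hn]; exact (Commute.zpow_right H.tg n).eq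
  nth_rewrite 1 [← inv_inv h]
  rw [← H.tht, this, mul_assoc, H.tt, mul_one, inv_mul_cancel]))

/-- GRID -/
theorem grid {e : G} (e2 : e * e = 1) (h1 : (e * g) ^ 3 = 1) (h2 : (e * h) ^ 3 = 1) : e = 1 := by
  have r1 := tri e2 H.g3 h1
  have r2 := tri e2 H.h3 h2
  rw [mul_one] at r1 r2
  have c := H.gh
  obtain ⟨A, hA⟩ : ∃ A, A = g * e * g⁻¹ := ⟨_, rfl⟩
  obtain ⟨B, hB⟩ : ∃ B, B = h * e * h⁻¹ := ⟨_, rfl⟩
  obtain ⟨D, hD⟩ : ∃ D, D = g * B * g⁻¹ := ⟨_, rfl⟩
  have hD' : D = h * A * h⁻¹ := by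
    calc D = g * h * e * (g * h)⁻¹ := by rw [hD, hB]; group
      _ = _ := by rw [c, hA]; group
  rw [← hA] at r1; rw [← hB] at r2
  have A2 : A * A = 1 := hA ▸ sq_conj e2 g
  have B2 : B * B = 1 := hB ▸ sq_conj e2 h
  have D2 : D * D = 1 := hD ▸ sq_conj B2 g
  have Ae : A * e = e * A := comm_of_sq A2 e2 (by rw [← r1]; simpa using sq_conj e2 g⁻¹)
  have Be : B * e = e * B := comm_of_sq B2 e2 (by rw [← r2]; simpa using sq_conj e2 h⁻¹)
  have gi : g⁻¹ = g * g := by rw [eq_comm, ← mul_eq_one_iff_eq_inv, ← pow_three', H.g3]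
  have hi : h⁻¹ = h * h := by rw [eq_comm, ← mul_eq_one_iff_eq_inv, ← pow_three', H.h3]
  have gA : g * A * g⁻¹ = A * e := by
    rw [← r1, hA, show g * (g * e * g⁻¹) * g⁻¹ = g * g * e * (g * g)⁻¹ by group, ← gi, inv_inv]
  have hB' : h * B * h⁻¹ = B * e := by
    rw [← r2, hB, show h * (h * e * h⁻¹) * h⁻¹ = h * h * e * (h * h)⁻¹ by group, ← hi, inv_inv]
  have gD : g * D * g⁻¹ = D * B := by
    calc _ = g * h * A * (g * h)⁻¹ := by rw [hD']; group
      _ = h * (g * A * g⁻¹) * h⁻¹ := by rw [c]; group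
      _ = _ := by rw [gA, ← conj_mul, ← hD', ← hB]
  have hD2 : h * D * h⁻¹ = D * A := by
    calc _ = h * g * B * (h * g)⁻¹ := by rw [hD]; group
      _ = g * (h * B * h⁻¹) * g⁻¹ := by rw [← c]; group
      _ = _ := by rw [hB', ← conj_mul, ← hD, ← hA]
  have AB : A * B = B * A := by
    have a1 : h * (g * D * g⁻¹) * h⁻¹ = g * (h * D * h⁻¹) * g⁻¹ := by
      calc _ = h * g * D * (h * g)⁻¹ := by group
        _ = _ := by rw [← c]; group
    rw [gD, hD2, ← conj_mul, ← conj_mul, hD2, hB', gD, gA, mul_assoc, mul_assoc, mul_right_inj,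
      ← mul_assoc, ← mul_assoc, mul_left_inj] at a1
    exact a1
  have DA : D * A = A * D := by rw [hD, hA]; exact comm_conj' Be g
  have DB : D * B = B * D := by rw [hD', hB]; exact comm_conj' Ae h
  have De : D * e = e * D := by
    have := comm_conj' AB g
    rw [gA, ← hD, ← mul_assoc, DA, mul_assoc, mul_assoc, mul_right_inj] at this
    exact this.symm
  by_contra e1
  have m1 : e ∈ closure {e, A, B, D} := subset_closure (by simp)
  have m2 : A ∈ closure {e, A, B, D} := subset_closure (by simp)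
  have m3 : B ∈ closure {e, A, B, D} := subset_closure (by simp)
  have m4 : D ∈ closure {e, A, B, D} := subset_closure (by simp)
  refine H.hg (H.noM (X := closure {e, A, B, D}) (pg_of_sq (closure_sq ?_ ?_))
    (fun e0 => e1 (mem_bot.1 (e0 ▸ m1))) H.g3 H.g1 H.h3 c (mem_N_closure ?_) (mem_N_closure ?_))
  · rintro _ (rfl | rfl | rfl | rfl) _ (rfl | rfl | rfl | rfl) <;>
      first | rfl | assumption | (symm; assumption)
  · rintro _ (rfl | rfl | rfl | rfl) <;> assumption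
  · rintro _ (rfl | rfl | rfl | rfl)
    exacts [hA ▸ m2, gA ▸ mul_mem m2 m1, hD ▸ m4, gD ▸ mul_mem m4 m3]
  · rintro _ (rfl | rfl | rfl | rfl)
    exacts [hB ▸ m3, hD' ▸ m4, hB' ▸ mul_mem m3 m1, hD2 ▸ mul_mem m4 m2]

end Cf

/-- the output of the grid step: `x = g e g⁻¹`, `y = w x w`. -/
structure GS (s t e x y : G) : Prop where
  x2 : x * x = 1
  y2 : y * y = 1
  xe : x * e = e * x
  ye : y * e = e * y
  xt : x * t = t * x
  ys : y * s = s * y
  xs : x * s * x = s * e * t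
  yt : y * t * y = t * e * s
  c3 : ((x * y) ^ 2) ^ 3 = 1
  c1 : (x * y) ^ 2 ≠ 1

theorem Cf.gridstep {M : Subgroup G} {g h a t s z w : G} (H : Cf M g h a t s z w) {e : G}
    (e2 : e * e = 1) (e1 : e ≠ 1) (et : e * t = t * e) (es : e * s = s * e) (ew : e * w = w * e)
    (h3 : 3 ∣ orderOf (e * g)) :
    (e * g) ^ 3 = t ∧ GS s t e (g * e * g⁻¹) (w * (g * e * g⁻¹) * w) := by
  have wew : w * e * w = e := by rw [← ew, mul_assoc, H.ww, mul_one]
  have k : (e * g) ^ 3 = t := (H.cube h3 H.tt H.t1 (by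
      rw [mul_assoc, ← H.tg, ← mul_assoc, et, mul_assoc])).resolve_left fun k => e1 (H.grid e2 k (by
    have : e * h = w * (e * g) * w⁻¹ := by
      rw [H.eh, H.wi, ← mul_assoc, ← mul_assoc, ← mul_assoc, ew]
    rw [this, conj_pow, k]; simp))
  have r := tri e2 H.g3 k
  obtain ⟨x, hx⟩ : ∃ x, x = g * e * g⁻¹ := ⟨_, rfl⟩
  rw [← hx] at r ⊢
  have x2 : x * x = 1 := hx ▸ sq_conj e2 g
  have xt : x * t = t * x := by
    have := comm_conj' et g
    rwa [← hx, ← H.tg, mul_inv_cancel_right] at this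
  have xe : x * e = e * x := comm_of_sq x2 e2 (by
    have a := sq_conj e2 g⁻¹
    rw [inv_inv, r] at a
    calc _ = x * e * (t * t) * (x * e) := by rw [H.tt, mul_one]
      _ = x * e * t * (t * x * e) := by group
      _ = _ := by rw [← xt, mul_assoc x t, ← et, ← mul_assoc x e t, a])
  have xs : x * s * x = s * e * t := by
    have a : s * x * s = x * e * t := by
      have b : s * e * s⁻¹ = e := by rw [← es, mul_inv_cancel_right]
      have b' : s * g * s⁻¹ = g⁻¹ := by rw [inv_of_sq H.ss, H.sgs]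
      rw [← r, hx]; nth_rewrite 2 [← inv_of_sq H.ss]
      rw [← conj_mul, ← conj_mul, ← conj_inv, b, b', inv_inv]
    calc x * s * x = s * (s * x * s) * x := by rw [← mul_assoc, ← mul_assoc, H.ss, one_mul]
      _ = s * (x * e) * (t * x) := by rw [a]; group
      _ = _ := by rw [xe, ← xt]; simp [mul_assoc, mul_sq_l x2]
  have cw : ∀ p q : G, w * p * w * (w * q * w) = w * (p * q) * w := fun p q => by
    simp [mul_assoc, mul_sq_l H.ww]
  have y2 : w * x * w * (w * x * w) = 1 := by rw [cw, x2, mul_one, H.ww]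
  have ye : w * x * w * e = e * (w * x * w) := by rw [← wew, cw, cw, xe]
  have ys : w * x * w * s = s * (w * x * w) := by rw [← H.wtw, cw, cw, xt]
  have yt : w * x * w * t * (w * x * w) = t * e * s := by
    calc _ = w * x * w * (w * s * w) * (w * x * w) := by rw [H.wsw]
      _ = w * s * w * (w * e * w) * (w * t * w) := by rw [cw, cw, cw, cw, xs]
      _ = _ := by rw [H.wsw, wew, H.wtw]
  obtain ⟨y, hy⟩ : ∃ y, y = w * x * w := ⟨_, rfl⟩
  rw [← hy] at y2 ye ys yt ⊢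
  have ui : (x * y)⁻¹ = y * x := by rw [mul_inv_rev, inv_of_sq x2, inv_of_sq y2]
  have u1 : x * y * s * (x * y)⁻¹ = s * e * t := by
    rw [ui, ← xs, mul_assoc x, ys]; simp [mul_assoc, mul_sq_l y2]
  have u2 : x * y * t * (x * y)⁻¹ = s := by
    calc _ = x * (y * t * y) * x := by rw [ui]; group
      _ = x * t * e * (x * x) * s * x := by rw [yt, x2]; group
      _ = t * (x * e) * x * (x * s * x) := by rw [xt]; group
      _ = t * e * (s * e) * t := by rw [xs, xe]; simp [mul_assoc, mul_sq_l x2]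
      _ = _ := by
        rw [← es, mul_assoc t, mul_sq_l e2, H.ts', mul_assoc, H.tt, mul_one]
  have ue : x * y * e * (x * y)⁻¹ = e := by
    rw [mul_assoc x, ye, ← mul_assoc, xe, mul_assoc e, mul_inv_cancel_right]
  have u3 : x * y * (s * e * t) * (x * y)⁻¹ = t := by
    rw [← conj_mul, ← conj_mul, u1, u2, ue, mul_assoc (s * e), ← et, ← mul_assoc, mul_assoc s, e2,
      mul_one, mul_assoc, H.ts', mul_sq_l H.ss]
  have d3 : 3 ∣ orderOf (x * y) := by
    by_contra hn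
    have c3 : (x * y) ^ 3 ∈ C1 t := mem_C1_iff_conj.2 (by
      calc _ = x * y * (x * y * (x * y * t * (x * y)⁻¹) * (x * y)⁻¹) * (x * y)⁻¹ := by
            rw [pow_three']; group
        _ = t := by rw [u2, u1, u3])
    have := CfsgH8.mem_of_pow_coprime ((Nat.prime_three.coprime_iff_not_dvd).2 hn) c3
      (by rw [pow_orderOf_eq_one]; exact one_mem _)
    exact H.sNt (u2.symm.trans (mem_C1_iff_conj.1 this))
  obtain ⟨b1, b2⟩ := H.six' d3
  exact ⟨k, x2, y2, xe, ye, xt, ys, xs, yt, by rw [← pow_mul, b1], b2⟩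

end CfsgM11
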