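import Cfsg.Agent.H9.MA

set_option autoImplicit false
set_option linter.unusedSectionVars false
set_option maxHeartbeats 400000

/-! S3717: the configuration from the hypotheses of the statement. -/

namespace CfsgM11

open Subgroup CfsgH5 CfsgH6 CfsgFT

variable {G : Type*} [Group G] [Finite G]

theorem no_index_two [IsSimpleGroup G] (hG : ¬ IsMulCommutative G) (N : Subgroup G) :
    N.index ≠ 2 := fun e => by
  rcases (normal_of_index_eq_two e).eq_bot_or_eq_top with rfl | rfl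
  · rw [index_bot] at e
    haveI := Fact.mk Nat.prime_two
    haveI := isCyclic_of_prime_card e
    exact hG inferInstance
  · simp at e

theorem from_stmt (simp : ∀ N : Subgroup G, N.index ≠ 2) {M : Subgroup G} (syl : SylIn 3 M ⊤)
    (card : Nat.card M = 9) (m3 : ∀ m ∈ M, m ^ 3 = 1) (hC : C M = M)
    (hCg : ∀ g ∈ M, g ≠ 1 → C1 g ≤ N M) {a t : G} (aN : a ∈ N M) (tN : t ∈ N M)
    (oa : orderOf a = 8) (ot : orderOf t = 2) (ta : t * a * t⁻¹ = a ^ 3) :
    ∃ g h s z w, Cf M g h a t s z w := by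
  haveI := Fact.mk Nat.prime_three
  have nM : ∀ x ∈ N M, ∀ m ∈ M, x * m * x⁻¹ ∈ M := nrm_of_le_N le_rfl
  have ab : ∀ x ∈ M, ∀ y ∈ M, x * y = y * x := fun x hx y hy =>
    (mem_centralizer_iff.1 (hC.ge hx) y hy).symm
  have CM : ∀ x, (∀ m ∈ M, x * m = m * x) → x ∈ M := fun x hx =>
    hC.le (mem_centralizer_iff.2 fun m hm => (hx m hm).symm)
  have one : ∀ m ∈ M, m * m = 1 → m = 1 := fun m hm e => by
    have := m3 m hm
    rwa [pow_succ, pow_two, e, one_mul] at this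
  have a8 : a ^ 8 = 1 := oa ▸ pow_orderOf_eq_one a
  have tt : t * t = 1 := by rw [← pow_two, ← ot, pow_orderOf_eq_one]
  have t1 : t ≠ 1 := fun e => by simp [e] at ot
  have ti := inv_of_sq tt
  have z1 : a ^ 4 ≠ 1 := pow_ne_one_of_lt_orderOf (by norm_num) (by omega)
  have zz : a ^ 4 * a ^ 4 = 1 := by rw [← pow_add, a8]
  have zi := inv_of_sq zz
  obtain ⟨m, m1, m2⟩ : ∃ m ∈ M, a ^ 4 ∉ C1 m := by
    by_contra hn
    push Not at hn
    exact z1 (one _ (CM _ fun m hm => mem_C1.1 (hn m hm)) zz)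
  have m0 : m ≠ 1 := fun e => m2 (mem_C1.2 (by simp [e]))
  have fr : ∀ k, 0 < k → k < 8 → a ^ k ∉ C1 m := fun k k1 k2 e => m2 (by
    have p : ∀ n, a ^ (k * n % 8) ∈ C1 m := fun n => by
      rw [← oa, pow_mod_orderOf, pow_mul]; exact pow_mem e n
    interval_cases k
    exacts [p 4, p 2, p 4, p 1, p 4, p 2, p 4])
  let f : Option (Fin 8) → M := fun o => o.elim 1 fun i => ⟨_, nM _ (pow_mem aN i) m m1⟩
  have ne : ∀ i : ℕ, a ^ i * m * (a ^ i)⁻¹ ≠ 1 := fun i e => m0 (cj1 (c := (a ^ i)⁻¹) (by simpa using e))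
  have lt : ∀ i j : ℕ, i < j → j < 8 → a ^ i * m * (a ^ i)⁻¹ ≠ a ^ j * m * (a ^ j)⁻¹ :=
    fun i j ij j8 e => fr (j - i) (by omega) (by omega) (mem_C1_iff_conj.2 (by
      obtain ⟨k, rfl⟩ := Nat.exists_eq_add_of_le ij.le
      rw [Nat.add_sub_cancel_left]
      calc _ = (a ^ i)⁻¹ * (a ^ (i + k) * m * (a ^ (i + k))⁻¹) * a ^ i := by rw [pow_add]; group
        _ = m := by rw [← e]; group))
  have fi : Function.Injective f := by
    rintro (_ | i) (_ | j) e
    · rfl
    · exact (ne j (congrArg Subtype.val e).symm).elim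
    · exact (ne i (congrArg Subtype.val e)).elim
    · rcases lt_trichotomy i j with l | l | l
      · exact (lt i j l j.2 (congrArg Subtype.val e)).elim
      · rw [l]
      · exact (lt j i l i.2 (congrArg Subtype.val e).symm).elim
  have tr : ∀ x ∈ M, x ≠ 1 → ∃ i : ℕ, a ^ i * m * (a ^ i)⁻¹ = x := fun x hx x1 => by
    obtain ⟨_ | i, e⟩ := (fi.bijective_of_nat_card_le (by simp [card])).2 ⟨x, hx⟩
    · exact (x1 (congrArg Subtype.val e).symm).elim
    · exact ⟨i, congrArg Subtype.val e⟩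
  have inv : ∀ u ∈ N M, u * u = 1 → (∀ x ∈ M, u * x = x * u → x = 1) → ∀ x ∈ M, u * x * u = x⁻¹ :=
    fun u uN uu fp x hx => by
    have b : u * x * u ∈ M := by have := nM u uN x hx; rwa [inv_of_sq uu] at this
    refine eq_inv_of_mul_eq_one_left (fp _ (mul_mem b hx) ?_)
    calc _ = x * (u * x * u) * u := by simp only [mul_assoc, mul_sq_l uu, uu, mul_one]
      _ = _ := by rw [ab _ b x hx]
  have zM : ∀ x ∈ M, a ^ 4 * x * a ^ 4 = x⁻¹ := inv _ (pow_mem aN 4) zz fun x hx e => by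
    by_contra x1
    obtain ⟨i, rfl⟩ := tr x hx x1
    refine m2 (mem_C1.2 ?_)
    have := Cf.conj_comm e
    rwa [show (a ^ i)⁻¹ * a ^ 4 * a ^ i = a ^ 4 by group] at this
  have ta' : t * a * t = a ^ 3 := by rw [← ta, ti]
  have tz : t * a ^ 4 = a ^ 4 * t := by
    have := conj_pow (a := t) (b := a) (i := 4)
    rw [ta, ← pow_mul, show 3 * 4 = 8 + 4 from rfl, pow_add, a8, one_mul] at this
    nth_rewrite 2 [this]; rw [inv_mul_cancel_right]
  obtain ⟨g, gM, g1, tg⟩ : ∃ g ∈ M, g ≠ 1 ∧ t * g = g * t := by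
    by_contra hn
    push Not at hn
    have b := inv t tN tt fun x hx e => by_contra fun x1 => hn x hx x1 e
    have c : t * a ^ 4 = 1 := one _ (CM _ fun x hx => by
      calc _ = t * (a ^ 4 * x * a ^ 4) * a ^ 4 := by simp only [mul_assoc, zz, mul_one]
        _ = t * x⁻¹ * t * (t * a ^ 4) := by rw [zM x hx]; simp only [mul_assoc, mul_sq_l tt]
        _ = _ := by rw [b _ (inv_mem hx), inv_inv]) (by
      rw [mul_assoc, ← mul_assoc (a ^ 4), ← tz, mul_assoc, zz, mul_one, tt])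
    rw [eq_inv_of_mul_eq_one_left c, show (a ^ 4)⁻¹ * a * (a ^ 4)⁻¹⁻¹ = a by group] at ta
    apply z1
    calc a ^ 4 = (a⁻¹ * a ^ 3) ^ 2 := by group
      _ = 1 := by rw [← ta]; simp
  have t2 : t * a ^ 2 * t = a ^ 6 := by
    have := conj_pow (a := t) (b := a) (i := 2)
    rw [ta, ← pow_mul, ti] at this
    exact this.symm
  have a6 : (a ^ 2)⁻¹ = a ^ 6 := inv_eq_of_mul_eq_one_right (by rw [← pow_add, a8])
  obtain ⟨h, eh⟩ : ∃ h, h = a ^ 2 * t * g * (a ^ 2 * t) := ⟨_, rfl⟩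
  have eh' : h = a ^ 2 * g * (a ^ 2)⁻¹ := by
    rw [eh, a6, ← t2, mul_assoc (a ^ 2) t g, tg]; group
  have hM : h ∈ M := eh' ▸ nM _ (pow_mem aN 2) g gM
  have tht : t * h * t⁻¹ = h⁻¹ := by
    rw [← zM h hM, ti]
    calc _ = t * a ^ 2 * t * g * (a ^ 2 * (t * t)) := by rw [eh]; group
      _ = a ^ 4 * (a ^ 2 * g * (a ^ 2)⁻¹) * a ^ 4 := by rw [t2, tt]; group
      _ = _ := by rw [eh']
  have hg : h ∉ zpowers g := fun ⟨n, hn⟩ => by
    have c : t * h = h * t := by rw [← hn]; exact (Commute.zpow_right tg n).eq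
    rw [c, mul_inv_cancel_right] at tht
    exact g1 (cj1 (c := (a ^ 2)⁻¹) (by
      rw [inv_inv, ← eh']; exact one h hM (by nth_rewrite 1 [tht]; simp)))
  have gh := ab g gM h hM
  have eM : closure {g, h} = M := by
    have l : closure {g, h} ≤ M := (closure_le _).2 (by rintro _ (rfl | rfl) <;> assumption)
    have l2 : zpowers g ≤ closure {g, h} := zpowers_le.2 (subset_closure (by simp))
    have c3 : Nat.card (zpowers g) = 3 := by rw [Nat.card_zpowers, orderOf_eq_prime (m3 g gM) g1]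
    have d1 := card_dvd_of_le l
    have d2 := card_le_of_le l2
    rw [card, show 9 = 3 ^ 2 from rfl, Nat.dvd_prime_pow Nat.prime_three] at d1
    obtain ⟨k, k1, k2⟩ := d1
    interval_cases k
    · omega
    · exact (hg (eq_of_le_of_card_ge l2 (by omega) ▸ subset_closure (by simp))).elim
    · exact eq_of_le_of_card_ge l (by omega)
  have mM : ∀ x ∈ M, ∃ i j : ℕ, x = g ^ i * h ^ j := fun x hx => by
    rw [← eM] at hx
    induction hx using closure_induction with
    | mem x hx => rcases hx with rfl | rfl; exacts [⟨1, 0, by simp⟩, ⟨0, 1, by simp⟩]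
    | one => exact ⟨0, 0, by simp⟩
    | mul p q _ _ a b =>
      obtain ⟨i, j, rfl⟩ := a
      obtain ⟨k, l, rfl⟩ := b
      exact ⟨i + k, j + l, by
        rw [pow_add, pow_add, mul_assoc, mul_assoc, ← mul_assoc (h ^ j),
          ← (Commute.pow_pow gh k j).eq, mul_assoc]⟩
    | inv p hp a =>
      obtain ⟨i, j, rfl⟩ := a
      refine ⟨i * 2, j * 2, inv_eq_of_mul_eq_one_right ?_⟩
      rw [pow_mul, pow_mul, ← Commute.mul_pow (Commute.pow_pow gh i j), ← pow_succ']
      exact m3 _ (eM ▸ hp)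
  have L : ∀ x ∈ N M, x * g = g * x → ∀ i : ℕ, x * h * x⁻¹ = g ^ i * h → x ∈ M := fun x xN c i e => by
    have c' : x * g ^ i * x⁻¹ = g ^ i := by rw [(Commute.pow_right c i).eq]; simp
    have b : x ^ 3 * h * (x ^ 3)⁻¹ = h := by
      calc _ = x * (x * (x * h * x⁻¹) * x⁻¹) * x⁻¹ := by rw [pow_three']; group
        _ = (g ^ i) ^ 3 * h := by
          have d : ∀ k, x * (g ^ i * k) * x⁻¹ = g ^ i * (x * k * x⁻¹) := fun k => by
            rw [← conj_mul, c']
          rw [e, d, e, d, d, e, pow_three']; group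
        _ = h := by rw [m3 _ (pow_mem gM i), one_mul]
    have b3 : x ^ 3 ∈ M := CM _ fun y hy => by
      obtain ⟨k, l, rfl⟩ := mM y hy
      exact (Commute.mul_right (Commute.pow_pow c 3 k)
        (Commute.pow_right (mul_inv_eq_iff_eq_mul.1 b) l)).eq
    refine (syl.eq_of_le le_top (Nrm.isPGroup_sup (nrm_of_le_N (zpowers_le.2 xN)) ?_ syl.isPGroup)
      le_sup_right).le (mem_sup_left (mem_zpowers x))
    obtain ⟨k, -, hk⟩ := (Nat.dvd_prime_pow Nat.prime_three).1 (orderOf_dvd_of_pow_eq_one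
      (show x ^ 3 ^ 2 = 1 by rw [pow_two, pow_mul]; exact m3 _ b3))
    exact IsPGroup.of_card (by rw [Nat.card_zpowers, hk])
  refine ⟨g, h, _, _, _, simp, card, ab, m3, nM a aN, nM t tN, rfl, rfl, rfl, eh, a8, z1, tt, t1, ta',
    gM, g1, tg, zM, CM, fun x c => ?_, fun y y3 y1 => ?_⟩
  · have xN := hCg g gM g1 (mem_C1.2 c)
    obtain ⟨i, j, e⟩ := mM _ (nM x xN h hM)
    rw [← pow_mod_orderOf h, orderOf_eq_prime (m3 h hM) (fun e => hg (e ▸ one_mem _))] at e
    have j3 := Nat.mod_lt j three_pos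
    interval_cases j % 3
    · refine (hg ⟨i, ?_⟩).elim
      have c' : x⁻¹ * g ^ i * x = g ^ i := by rw [mul_assoc, ← (Commute.pow_right c i).eq]; simp
      simp only [zpow_natCast]
      rw [← c', ← mul_one (g ^ i), ← pow_zero h, ← e]; group
    · obtain ⟨k, l, e⟩ := mM x (L x xN c i (by simpa using e))
      exact ⟨k, l, Or.inl e⟩
    · obtain ⟨k, l, e⟩ := mM _ (L (x * t) (mul_mem xN tN) (by rw [mul_assoc, tg, ← mul_assoc, c, mul_assoc])
        (i * 2) (by
          calc _ = x * (t * h * t⁻¹) * x⁻¹ := by group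
            _ = (g ^ i * h ^ 2)⁻¹ := by rw [tht, ← e]; group
            _ = _ := inv_eq_of_mul_eq_one_right (by
              rw [pow_mul, mul_assoc, ← mul_assoc (h ^ 2), ← (Commute.pow_pow
                (Commute.pow_left gh i) 2 2).eq, mul_assoc, ← pow_succ, m3 h hM, mul_one, ← pow_succ',
                m3 _ (pow_mem gM i)])))
      exact ⟨k, l, Or.inr (by rw [← e, mul_assoc, tt, mul_one])⟩
  · obtain ⟨c, -, hc⟩ := syl.exists_le_cj (X := zpowers y) le_top
      (IsPGroup.of_card (n := 1) (by rw [Nat.card_zpowers, orderOf_eq_prime y3 y1]; rfl))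
    obtain ⟨i, ei⟩ := tr _ (mem_cj.1 (hc (mem_zpowers y))) fun e => y1 (cj1 e)
    obtain ⟨j, ej⟩ := tr g gM g1
    refine ⟨c * a ^ i * (a ^ j)⁻¹, ?_⟩
    calc _ = c * (a ^ i * m * (a ^ i)⁻¹) * c⁻¹ := by rw [← ej]; group
      _ = y := by rw [ei]; group

/-- the statement of S3717 follows from the local theorem. -/
theorem stmt_of [IsSimpleGroup G] (hG : ¬ IsMulCommutative G) (M : Sylow 3 G)
    (hM9 : Nat.card ↥(M : Subgroup G) = 9) (hMel : ∀ m ∈ (M : Subgroup G), m ^ 3 = 1)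
    (hCM : Subgroup.centralizer ((M : Subgroup G) : Set G) = (M : Subgroup G))
    (N : Subgroup G) (hN : N = Subgroup.normalizer ((M : Subgroup G) : Set G))
    (hCg : ∀ g ∈ (M : Subgroup G), g ≠ 1 → Subgroup.centralizer ({g} : Set G) ≤ N)
    (hS : ∀ S : Sylow 2 ↥N, Nat.card ↥(S : Subgroup ↥N) = 16 ∧
      ∃ a ∈ (S : Subgroup ↥N), ∃ b ∈ (S : Subgroup ↥N), orderOf a = 8 ∧ orderOf b = 2 ∧
        b * a * b⁻¹ = a ^ 3) :
    ∃ g h a t s z w, Cf (M : Subgroup G) g h a t s z w := by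
  subst hN
  obtain ⟨-, a, -, b, -, oa, ob, e⟩ := hS default
  obtain ⟨g, h, s, z, w, H⟩ := from_stmt (no_index_two hG) (sylIn_top_of_sylow M) hM9 hMel hCM hCg
    a.2 b.2 (by rwa [orderOf_coe]) (by rwa [orderOf_coe]) (congrArg Subtype.val e)
  exact ⟨g, h, a, b, s, z, w, H⟩

end CfsgM11
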