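import Cfsg.Agent.H9.MA

set_option autoImplicit false
set_option linter.unusedSectionVars false
set_option maxHeartbeats 400000

/-! S3717: the trichotomy for `C(t)/⟨t⟩`, and the 2-local structure of `L₂(7)`. -/

namespace CfsgM11

open Subgroup CfsgH5 CfsgH6 CfsgFT CfsgH8 Matrix

/-- the 2-local data of `L₂(7)` -/
structure L7 {K : Type*} [Group K] (z u v c d : K) : Prop where
  zz : z * z = 1
  z1 : z ≠ 1
  uu : u * u = 1
  vv : v * v = 1
  uv : u * v * (u * v) = z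
  c3 : c ^ 3 = 1
  d3 : d ^ 3 = 1
  cz : c * z * c⁻¹ = u
  dz : d * z * d⁻¹ = v
  vc : v * c * v * c = 1
  ud : u * d * u * d = 1
  conj : ∀ y, y * y = 1 → y ≠ 1 → ∃ x, x * z * x⁻¹ = y
  cent : ∀ y, y * z = z * y → y = 1 ∨ y = z ∨ y = u ∨ y = z * u ∨ y = v ∨ y = z * v ∨ y = u * v ∨
    y = z * (u * v)

abbrev S7 := SpecialLinearGroup (Fin 2) (ZMod 7)
abbrev P7 := ProjectiveSpecialLinearGroup (Fin 2) (ZMod 7)

theorem p7_eq (A B : S7) : (A : P7) = B ↔ A.1 = B.1 ∨ A.1 = -B.1 := by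
  rw [eq_comm, QuotientGroup.eq, Matrix.SpecialLinearGroup.mem_center_iff]
  constructor
  · rintro ⟨r, r1, r2⟩
    have a : A.1 = B.1 * scalar (Fin 2) r := by
      rw [r2, ← Matrix.SpecialLinearGroup.coe_mul, mul_inv_cancel_left]
    have b : ∀ r : ZMod 7, r ^ 2 = 1 → r = 1 ∨ r = -1 := by decide
    rcases b r (by simpa using r1) with rfl | rfl
    · left; simpa using a
    · right; rw [a, map_neg, map_one, mul_neg, mul_one]
  · rintro (e | e)
    · exact ⟨1, by simp, by rw [Subtype.ext e]; simp⟩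
    · refine ⟨-1, by simp, ?_⟩
      rw [Matrix.SpecialLinearGroup.coe_mul, e, mul_neg, ← Matrix.SpecialLinearGroup.coe_mul, map_neg]; simp

def m7 (a b c d : ZMod 7) (h : a * d - b * c = 1 := by decide) : S7 :=
  ⟨!![a, b; c, d], by rw [det_fin_two_of, h]⟩

theorem p7_a : ∀ a b c d : ZMod 7, a * d - b * c = 1 →
    (!![a, b; c, d] * !![a, b; c, d] = 1 ∨ !![a, b; c, d] * !![a, b; c, d] = -1) →
    (!![a, b; c, d] = 1 ∨ !![a, b; c, d] = -1) ∨ ∃ p q : ZMod 7, ∃ r : ZMod 7, - p * q = 1 ∧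
      (!![0, p; q, r] * !![0, 1; 6, 0] = !![a, b; c, d] * !![0, p; q, r] ∨
       !![0, p; q, r] * !![0, 1; 6, 0] = -(!![a, b; c, d] * !![0, p; q, r])) := by
  decide +kernel

theorem p7_b : ∀ a b c d : ZMod 7, a * d - b * c = 1 →
    (!![a, b; c, d] * !![0, 1; 6, 0] = !![0, 1; 6, 0] * !![a, b; c, d] ∨
      !![a, b; c, d] * !![0, 1; 6, 0] = -(!![0, 1; 6, 0] * !![a, b; c, d])) →
    ∃ X ∈ [1, m7 0 1 6 0, m7 2 3 3 5, m7 0 1 6 0 * m7 2 3 3 5, m7 2 4 4 5, m7 0 1 6 0 * m7 2 4 4 5,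
      m7 2 3 3 5 * m7 2 4 4 5, m7 0 1 6 0 * (m7 2 3 3 5 * m7 2 4 4 5)],
      !![a, b; c, d] = X.1 ∨ !![a, b; c, d] = -X.1 := by
  decide +kernel

theorem l7_p7 : L7 (K := P7) (m7 0 1 6 0) (m7 2 3 3 5) (m7 2 4 4 5) (m7 2 0 1 4) (m7 2 0 6 4) := by
  have o : (1 : P7) = (1 : S7) := rfl
  have s : ∀ y : P7, ∃ a b c d : ZMod 7, ∃ h : a * d - b * c = 1, y = m7 a b c d h := fun y => by
    obtain ⟨Y, rfl⟩ := QuotientGroup.mk_surjective y
    exact ⟨Y 0 0, Y 0 1, Y 1 0, Y 1 1, by rw [← det_fin_two]; exact Y.2,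
      congrArg _ (Subtype.ext (eta_fin_two _))⟩
  refine ⟨?_, ?_, ?_, ?_, ?_, ?_, ?_, ?_, ?_, ?_, ?_, fun y a b => ?_, fun y a => ?_⟩
  iterate 11
    simp only [o, pow_three', mul_inv_eq_iff_eq_mul, ← QuotientGroup.mk_mul, Ne, p7_eq]
    decide +kernel
  · obtain ⟨a1, a2, a3, a4, h, rfl⟩ := s y
    rw [o, ← QuotientGroup.mk_mul, p7_eq] at a
    rw [o, Ne, p7_eq] at b
    obtain ⟨p, q, r, e, f⟩ := (p7_a _ _ _ _ h a).resolve_left b
    refine ⟨m7 0 p q r (by simpa using e), ?_⟩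
    rw [mul_inv_eq_iff_eq_mul, ← QuotientGroup.mk_mul, ← QuotientGroup.mk_mul, p7_eq]
    exact f
  · obtain ⟨a1, a2, a3, a4, h, rfl⟩ := s y
    rw [← QuotientGroup.mk_mul, ← QuotientGroup.mk_mul, p7_eq] at a
    obtain ⟨X, x1, x2⟩ := p7_b _ _ _ _ h a
    have := (p7_eq (m7 a1 a2 a3 a4 h) X).2 x2
    simp only [List.mem_cons, List.not_mem_nil, or_false] at x1
    simp only [o, ← QuotientGroup.mk_mul, this]
    rcases x1 with rfl | rfl | rfl | rfl | rfl | rfl | rfl | rfl <;> simp only [true_or, or_true]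

theorem L7.map {K K' : Type*} [Group K] [Group K'] {z u v c d : K} (h : L7 z u v c d) (e : K ≃* K') :
    L7 (e z) (e u) (e v) (e c) (e d) := by
  refine ⟨?_, by simpa using h.z1, ?_, ?_, ?_, ?_, ?_, ?_, ?_, ?_, ?_, fun y a b => ?_, fun y a => ?_⟩
  iterate 10
    simp only [← map_mul, ← map_pow, ← map_inv, h.zz, h.uu, h.vv, h.uv, h.c3, h.d3, h.cz, h.dz,
      h.vc, h.ud, map_one]
  · obtain ⟨y, rfl⟩ := e.surjective y
    obtain ⟨x, hx⟩ := h.conj y (e.injective (by simpa using a)) (by simpa using b)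
    exact ⟨e x, by rw [← hx]; simp⟩
  · obtain ⟨y, rfl⟩ := e.surjective y
    simpa only [← map_mul, e.injective.eq_iff, map_eq_one_iff e e.injective] using
      h.cent y (e.injective (by simpa using a))

variable {G : Type*} [Group G] [Finite G] {M : Subgroup G} {g h a t s z w : G}

/-- `⟨t⟩` in `C(t)` -/
def Zt (t : G) : Subgroup (C1 t) := zpowers ⟨t, mem_C1.2 rfl⟩

instance (t : G) : (Zt t).Normal := ⟨fun n ⟨i, hi⟩ k => by
  have : k * n = n * k := by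
    rw [← hi]; exact (Commute.zpow_right (Subtype.ext (mem_C1.1 k.2)) i).eq
  rw [this, mul_inv_cancel_right]; exact ⟨i, hi⟩⟩

/-- the projection `C(t) → C(t)/⟨t⟩` -/
abbrev pt (t : G) : C1 t →* C1 t ⧸ Zt t := QuotientGroup.mk' (Zt t)

theorem pt_surj (t : G) : Function.Surjective (pt t) := QuotientGroup.mk'_surjective _

theorem pt_eq_one (tt : t * t = 1) (k : C1 t) : pt t k = 1 ↔ k.1 = 1 ∨ k.1 = t := by
  rw [QuotientGroup.mk'_apply, QuotientGroup.eq_one_iff]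
  constructor
  · rintro ⟨i, rfl⟩
    simp only [SubgroupClass.coe_zpow]
    have h2 : t ^ (2 : ℤ) = 1 := by rw [zpow_two, tt]
    rcases Int.even_or_odd' i with ⟨j, rfl | rfl⟩
    · left; rw [_root_.zpow_mul, h2, _root_.one_zpow]
    · right; rw [_root_.zpow_add, _root_.zpow_mul, h2, _root_.one_zpow, one_mul, zpow_one]
  · rintro (e | e)
    · exact (Subtype.ext e : k = 1) ▸ one_mem _
    · exact (Subtype.ext e : k = ⟨t, mem_C1.2 rfl⟩) ▸ mem_zpowers _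

theorem pt_eq (tt : t * t = 1) (k l : C1 t) : pt t k = pt t l ↔ k.1 = l.1 ∨ k.1 = l.1 * t := by
  rw [eq_comm, ← inv_mul_eq_one, ← map_inv, ← map_mul, pt_eq_one tt, coe_mul, coe_inv,
    inv_mul_eq_one, inv_mul_eq_iff_eq_mul, eq_comm]

theorem Cf.gC (H : Cf M g h a t s z w) : g ∈ C1 t := mem_C1.2 H.tg.symm
theorem Cf.sC (H : Cf M g h a t s z w) : s ∈ C1 t := mem_C1.2 H.ts'.symm

theorem Cf.sc (H : Cf M g h a t s z w) : SC (pt t ⟨g, H.gC⟩) := by
  have gt : g ≠ t := fun e => H.g1 (H.one_of_M H.gM (by rw [e, H.tt]))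
  refine ⟨fun e => ((pt_eq_one H.tt _).1 e).elim H.g1 gt,
    by rw [← map_pow, pt_eq_one H.tt]; exact Or.inl H.g3, fun k e => ?_⟩
  obtain ⟨k, rfl⟩ := pt_surj t k
  rw [← map_mul, ← map_mul, pt_eq H.tt] at e
  have c : k.1 * g = g * k.1 := e.resolve_right fun e => by
    have e1 : k.1 * g * (k.1)⁻¹ = g * t := by
      rw [show k.1 * g = g * k.1 * t from e, mul_assoc g, mem_C1.1 k.2]; group
    have e2 : (g * t) ^ 3 = 1 := by rw [← e1, conj_pow, H.g3]; simp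
    rw [Commute.mul_pow H.tg.symm, H.g3, one_mul, pow_three', H.tt, one_mul] at e2
    exact H.t1 e2
  have hj : ∀ i j : ℕ, g ^ i * h ^ j ∈ C1 t → h ^ j = 1 := fun i j e => by
    have e1 := mem_C1.1 ((mul_mem_cancel_left (pow_mem H.gC i)).1 e)
    rw [H.thn, mul_left_inj] at e1
    exact H.one_of_M (pow_mem H.hM j) (by nth_rewrite 1 [e1]; simp)
  have : ∃ i : ℕ, pt t k = pt t ⟨g, H.gC⟩ ^ i := by
    obtain ⟨i, j, e | e⟩ := H.Cg _ c
    · exact ⟨i, by rw [← map_pow, pt_eq H.tt]; left; rw [e, hj i j (e ▸ k.2), mul_one]; rfl⟩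
    · exact ⟨i, by
        rw [← map_pow, pt_eq H.tt]; right
        rw [e, hj i j ((mul_mem_cancel_right (mem_C1.2 rfl)).1 (e ▸ k.2)), mul_one]; rfl⟩
  obtain ⟨i, hi⟩ := this
  have c3 : pt t ⟨g, H.gC⟩ ^ 3 = 1 := by rw [← map_pow, pt_eq_one H.tt]; exact Or.inl H.g3
  rw [hi, ← Nat.div_add_mod i 3, pow_add, pow_mul, c3, one_pow, one_mul]
  have := Nat.mod_lt i three_pos
  interval_cases i % 3
  · simp
  · simp
  · exact Or.inr (Or.inr (eq_inv_of_mul_eq_one_left (by rw [← pow_succ, c3])))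

/-- the trichotomy -/
theorem Cf.tri (H : Cf M g h a t s z w) :
    (∃ f : C1 t →* Equiv.Perm (Fin 3), Function.Surjective f ∧ ∀ k, f k = 1 → k ^ 3 = 1 → k = 1) ∨
    (∃ f : C1 t →* alternatingGroup (Fin 5), Function.Surjective f ∧ ∀ k, f k = 1 →
      (k.1 * k.1 = 1 ∨ k.1 * k.1 = t) ∧ ∀ l, f l = 1 → k.1 * l.1 = l.1 * k.1 ∨ k.1 * l.1 = l.1 * k.1 * t) ∨
    ∃ z u v c d : C1 t ⧸ Zt t, L7 z u v c d := by
  refine (con_main _ _ rfl _ H.sc).imp (fun hc => ?_) fun hc => ?_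
  · obtain ⟨N, hN, -, cop, hq⟩ := hc.final H.sc
    have k3 : ∀ k : C1 t, pt t k ∈ N → k ^ 3 = 1 → k = 1 := fun k hk e => by
      have a1 : pt t k = 1 := by
        have b1 : orderOf (pt t k) ∣ 3 := orderOf_dvd_of_pow_eq_one (by rw [← map_pow, e, map_one])
        exact orderOf_eq_one_iff.1 (Nat.eq_one_of_dvd_coprimes cop (N.orderOf_dvd_natCard hk) b1)
      refine Subtype.ext (((pt_eq_one H.tt k).1 a1).resolve_right fun e1 => H.t1 ?_)
      have : k.1 ^ 3 = 1 := congrArg Subtype.val e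
      rwa [e1, pow_three', H.tt, one_mul] at this
    rcases hq with hq | ⟨⟨e⟩⟩
    · exfalso
      haveI := Fact.mk Nat.prime_three
      haveI := isCyclic_of_prime_card hq
      letI : CommGroup ((C1 t ⧸ Zt t) ⧸ N) := IsCyclic.commGroup
      let φ := (QuotientGroup.mk' N).comp (pt t)
      have b : (⟨s, H.sC⟩ * ⟨g, H.gC⟩ * ⟨s, H.sC⟩⁻¹ : C1 t) = ⟨g, H.gC⟩⁻¹ :=
        Subtype.ext (by simpa [inv_of_sq H.ss] using H.sgs)
      have b1 := congrArg φ b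
      rw [map_mul, map_mul, map_inv, map_inv, mul_inv_cancel_comm] at b1
      have b2 : φ (⟨g, H.gC⟩ * ⟨g, H.gC⟩) = 1 := by rw [map_mul]; nth_rewrite 1 [b1]; simp
      have b3 := k3 _ ((QuotientGroup.eq_one_iff _).1 b2) (Subtype.ext (H.m3 _ (mul_mem H.gM H.gM)))
      exact H.g1 (H.one_of_M H.gM (congrArg Subtype.val b3))
    · exact ⟨(e.toMonoidHom.comp (QuotientGroup.mk' N)).comp (pt t),
        (e.surjective.comp (QuotientGroup.mk'_surjective N)).comp (pt_surj t), fun k hk =>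
        k3 k ((QuotientGroup.eq_one_iff _).1 ((map_eq_one_iff e e.injective).1 hk))⟩
  rcases hc.final H.sc with ⟨N, hN, ab, sq, ⟨e⟩⟩ | ⟨⟨e⟩⟩
  · refine Or.inl ⟨(e.toMonoidHom.comp (QuotientGroup.mk' N)).comp (pt t),
      (e.surjective.comp (QuotientGroup.mk'_surjective N)).comp (pt_surj t), fun k hk => ?_⟩
    have m : ∀ k, ((e.toMonoidHom.comp (QuotientGroup.mk' N)).comp (pt t)) k = 1 → pt t k ∈ N :=
      fun k hk => (QuotientGroup.eq_one_iff _).1 ((map_eq_one_iff e e.injective).1 hk)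
    refine ⟨(pt_eq_one H.tt (k * k)).1 (by rw [map_mul, ← pow_two, sq _ (m k hk)]), fun l hl =>
      (pt_eq H.tt (k * l) (l * k)).1 ?_⟩
    rw [map_mul, map_mul]
    exact congrArg Subtype.val (ab.is_comm.comm (⟨_, m k hk⟩ : N) ⟨_, m l hl⟩)
  · exact Or.inr ⟨_, _, _, _, _, l7_p7.map e.symm⟩

end CfsgM11
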