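import Cfsg.Agent.H9.MC

set_option autoImplicit false
set_option linter.unusedSectionVars false
set_option maxHeartbeats 800000

/-! S3717: the case `C(t)/⟨t⟩ ≅ L₂(7)`, local data. -/

namespace CfsgM11

open Subgroup CfsgH5 CfsgH6 CfsgFT CfsgH8

variable {G : Type*} [Group G] [Finite G]

theorem comm_sq {y r : G} (e : y * y = r) : y * r = r * y := by rw [← e, mul_assoc]

theorem asc {p q r : G} (e : p * q = r) (y : G) : p * (q * y) = r * y := by rw [← mul_assoc, e]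

/-- `T⟨x⟩` for `x` normalising `T` with `x² ∈ T` -/
def ext2 (T : Subgroup G) (x : G) (n : x ∈ N T) (s : x * x ∈ T) : Subgroup G where
  carrier := {y | y ∈ T ∨ ∃ k ∈ T, y = k * x}
  one_mem' := Or.inl T.one_mem
  mul_mem' := by
    have n1 : ∀ k ∈ T, x * k * x⁻¹ ∈ T := nrm_of_le_N le_rfl x n
    rintro p q (a | ⟨k, a, rfl⟩) (b | ⟨l, b, rfl⟩)
    · exact Or.inl (mul_mem a b)
    · exact Or.inr ⟨p * l, mul_mem a b, by group⟩
    · exact Or.inr ⟨k * (x * q * x⁻¹), mul_mem a (n1 q b), by group⟩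
    · exact Or.inl (by convert mul_mem (mul_mem a (n1 l b)) s using 1; group)
  inv_mem' := by
    have n1 : ∀ k ∈ T, x * k * x⁻¹ ∈ T := nrm_of_le_N le_rfl x n
    rintro p (a | ⟨k, a, rfl⟩)
    · exact Or.inl (inv_mem a)
    · exact Or.inr ⟨(x * x)⁻¹ * (x * k⁻¹ * x⁻¹), mul_mem (inv_mem s) (n1 _ (inv_mem a)), by group⟩

section
variable {T : Subgroup G} {x : G} {n : x ∈ N T} {s : x * x ∈ T}

theorem le_ext2 : T ≤ ext2 T x n s := fun _ h => Or.inl h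
theorem self_ext2 : x ∈ ext2 T x n s := Or.inr ⟨1, one_mem _, by simp⟩
theorem ext2_le {K : Subgroup G} (h1 : T ≤ K) (h2 : x ∈ K) : ext2 T x n s ≤ K := by
  rintro y (a | ⟨k, a, rfl⟩)
  exacts [h1 a, mul_mem (h1 a) h2]
theorem pg_ext2 (h : IsPGroup 2 T) : IsPGroup 2 (ext2 T x n s) := fun y => by
  have a : y.1 * y.1 ∈ T := by
    obtain ⟨y, a | ⟨k, a, rfl⟩⟩ := y
    · exact mul_mem a a
    · convert mul_mem (mul_mem a (nrm_of_le_N le_rfl x n k a)) s using 1; group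
  obtain ⟨k, hk⟩ := h ⟨_, a⟩
  exact ⟨k + 1, Subtype.ext (by
    have : (y.1 * y.1) ^ 2 ^ k = 1 := congrArg Subtype.val hk
    simpa [pow_succ', pow_mul, pow_two] using this)⟩
theorem N_ext2 {y : G} (h1 : y ∈ N T) (h2 : y * x * y⁻¹ ∈ ext2 T x n s) : y ∈ N (ext2 T x n s) :=
  mem_N_of_conj fun p hp => by
    rcases hp with a | ⟨k, a, rfl⟩
    · exact le_ext2 (nrm_of_le_N le_rfl y h1 p a)
    · rw [← conj_mul]; exact mul_mem (le_ext2 (nrm_of_le_N le_rfl y h1 k a)) h2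
end

/-- conjugate of `t` -/
def Tc (t y : G) : Prop := ∃ x, x * t * x⁻¹ = y

theorem Tc.conj {t y : G} (h : Tc t y) (c : G) : Tc t (c * y * c⁻¹) := by
  obtain ⟨x, rfl⟩ := h; exact ⟨c * x, by group⟩
theorem Tc.of_conj {t y c : G} (h : Tc t (c * y * c⁻¹)) : Tc t y := by
  simpa [mul_assoc] using h.conj c⁻¹
theorem Tc.rfl {t : G} : Tc t t := ⟨1, by simp⟩
theorem Tc.sq {t y : G} (tt : t * t = 1) (h : Tc t y) : y * y = 1 := by
  obtain ⟨x, rfl⟩ := h; exact sq_conj tt x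

/-- Thompson transfer, final form. -/
theorem transfer_fin (simp : ∀ N : Subgroup G, N.index ≠ 2) {P : Subgroup G} {t : G} (tt : t * t = 1)
    (hP : IsPGroup 2 P) (n : t ∈ N P) (no : ∀ y ∈ P, ¬ Tc t y)
    (sn : ∀ y ∈ N (ext2 P t n (tt ▸ P.one_mem)), y ∈ ext2 P t n (tt ▸ P.one_mem)) : False := by
  have a : SylIn 2 (ext2 P t n (tt ▸ P.one_mem)) ⊤ := sylIn_of_sylIn_N Nat.prime_two
    ⟨le_inf le_top le_normalizer, pg_ext2 hP, fun T h1 _ h3 => le_antisymm (fun y hy => sn y (h1 hy).2) h3⟩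
  obtain ⟨c, hc⟩ := thompson_transfer' a le_ext2 (relIndex_eq_two_iff.2 ⟨t, self_ext2, fun b hb => by
    by_cases e : b ∈ P
    · exact Or.inr ⟨e, fun e' => no t ((mul_mem_cancel_left e).1 e') Tc.rfl⟩
    · obtain ⟨k, a, rfl⟩ := hb.resolve_left e
      exact Or.inl ⟨by rwa [mul_assoc, tt, mul_one], e⟩⟩) simp tt
  exact no _ hc ⟨c, rfl⟩

/-- local data for `C(t) = ⟨t⟩ × L₂(7)` -/
structure LC (t z u v c d : G) : Prop where
  tt : t * t = 1
  t1 : t ≠ 1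
  zz : z * z = 1
  z1 : z ≠ 1
  uu : u * u = 1
  vv : v * v = 1
  tz : t * z = z * t
  tu : t * u = u * t
  tv : t * v = v * t
  tc : c * t * c⁻¹ = t
  td : d * t * d⁻¹ = t
  uz : u * z = z * u
  vz : v * z = z * v
  vu : v * u = z * (u * v)
  cz : c * z * c⁻¹ = u
  cu : c * u * c⁻¹ = z * u
  dz : d * z * d⁻¹ = v
  dv : d * v * d⁻¹ = z * v
  vc : v * c * v = c⁻¹
  ud : u * d * u = d⁻¹
  conj : ∀ y, y * t = t * y → (y * y = 1 ∨ y * y = t) → y = 1 ∨ y = t ∨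
    ∃ x, x * t * x⁻¹ = t ∧ (x * z * x⁻¹ = y ∨ x * (z * t) * x⁻¹ = y)
  cent : ∀ y, y * t = t * y → y * z = z * y → ∃ k, (k = 1 ∨ k = z ∨ k = u ∨ k = z * u ∨ k = v ∨
    k = z * v ∨ k = u * v ∨ k = z * (u * v)) ∧ (y = k ∨ y = k * t)
  nz : ¬ Tc t z
  zt : Tc t (z * t)

theorem Cf.lc {M : Subgroup G} {g h a t s z w : G} (H : Cf M g h a t s z w)
    {z0 u0 v0 c0 d0 : C1 t ⧸ Zt t} (L : L7 z0 u0 v0 c0 d0) : ∃ u v c d, LC t z u v c d := by
  have zC : z ∈ C1 t := mem_C1.2 H.tz.symm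
  have pe := pt_eq H.tt
  have p1 := pt_eq_one H.tt
  obtain ⟨x, hx⟩ := L.conj (pt t ⟨z, zC⟩) (by rw [← map_mul, p1]; exact Or.inl H.zz)
    fun e => ((p1 _).1 e).elim H.z1 H.zt
  replace L := L.map (MulAut.conj x)
  rw [MulAut.conj_apply, hx] at L
  generalize MulAut.conj x u0 = u1, MulAut.conj x v0 = v1, MulAut.conj x c0 = c1,
    MulAut.conj x d0 = d1 at L
  have l3 : ∀ y : C1 t ⧸ Zt t, y ^ 3 = 1 → ∃ c : C1 t, pt t c = y ∧ c.1 ^ 3 = 1 := fun y e => by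
    obtain ⟨c, rfl⟩ := pt_surj t y
    refine ⟨c ^ 4, by rw [map_pow, pow_succ, e, one_mul], ?_⟩
    rw [← map_pow, p1] at e
    have : (c.1 ^ 3) ^ 2 = 1 := by
      rcases e with e | e <;> rw [show c.1 ^ 3 = _ from e]
      exacts [one_pow _, by rw [pow_two, H.tt]]
    rw [SubgroupClass.coe_pow, ← pow_mul, show 4 * 3 = 3 * 2 * 2 from rfl, pow_mul, pow_mul, this, one_pow]
  obtain ⟨c, rfl, c3⟩ := l3 c1 L.c3
  obtain ⟨d, rfl, d3⟩ := l3 d1 L.d3
  obtain ⟨u, hu⟩ : ∃ u : C1 t, u = c * ⟨z, zC⟩ * c⁻¹ := ⟨_, rfl⟩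
  obtain ⟨v, hv⟩ : ∃ v : C1 t, v = d * ⟨z, zC⟩ * d⁻¹ := ⟨_, rfl⟩
  obtain rfl : pt t u = u1 := by rw [← L.cz, hu]; simp
  obtain rfl : pt t v = v1 := by rw [← L.dz, hv]; simp
  have cz : c.1 * z * (c.1)⁻¹ = u := by rw [hu]; rfl
  have dz : d.1 * z * (d.1)⁻¹ = v := by rw [hv]; rfl
  have uu : u.1 * u = 1 := cz ▸ sq_conj H.zz _
  have vv : v.1 * v = 1 := dz ▸ sq_conj H.zz _
  have tu := (mem_C1.1 u.2).symm
  have tv := (mem_C1.1 v.2).symm
  have cent : ∀ y, y * t = t * y → (y * z = z * y ∨ y * z = z * y * t) → ∃ k, (k = 1 ∨ k = z ∨ k = u ∨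
      k = z * u ∨ k = v ∨ k = z * v ∨ k = u * v ∨ k = z * (u * v)) ∧ (y = k ∨ y = k * t) :=
    fun y e1 e2 => by
    have := L.cent (pt t ⟨y, mem_C1.2 e1⟩) (by rw [← map_mul, ← map_mul, pe]; exact e2)
    rw [← map_one (pt t)] at this
    simp only [← map_mul, pe] at this
    rcases this with e | e | e | e | e | e | e | e <;> exact ⟨_, by simp, e⟩
  have q : u.1 * v * (u * v) = z ∨ u.1 * v * (u * v) = z * t := by
    have := L.uv
    simp only [← map_mul] at this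
    exact (pe _ _).1 this
  have uz : u.1 * z = z * u := by
    have e : u.1 * (u * v * (u * v)) * u = (u.1 * v * (u * v))⁻¹ := by
      simp [mul_assoc, mul_sq_l uu, inv_of_sq uu, inv_of_sq vv]
    rcases q with q | q <;> rw [q] at e
    · rw [inv_of_sq H.zz] at e; nth_rewrite 2 [← e]; rw [mul_assoc, uu, mul_one]
    · rw [← H.es, inv_of_sq H.ss, H.es, mul_assoc, mul_assoc, tu, ← mul_assoc, ← mul_assoc,
        mul_left_inj] at e
      nth_rewrite 2 [← e]; rw [mul_assoc, uu, mul_one]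
  have vz : v.1 * z = z * v := by
    have e : u.1 * v * (u * v * (u * v)) = u.1 * v * (u * v) * (u * v) := by group
    have : u.1 * v * z = z * (u * v) := by
      rcases q with q | q <;> rw [q] at e
      · exact e
      · rw [← mul_assoc, mul_assoc z, ← mul_assoc t, tu, mul_assoc u.1 t, tv, ← mul_assoc u.1,
          ← mul_assoc z, mul_left_inj] at e; exact e
    rwa [← mul_assoc, ← uz, mul_assoc, mul_assoc, mul_right_inj] at this
  have vu' : ∀ r, u.1 * v * (u * v) = r → r * r = 1 → v.1 * u = r * (u * v) := fun r e r2 => by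
    rw [← inv_of_sq r2, ← e]; simp [mul_assoc, inv_of_sq uu, inv_of_sq vv, mul_sq_l uu, vv]
  have q' : u.1 * v * (u * v) = z := q.resolve_right fun q => by
    have vu := vu' _ q (H.es ▸ H.ss)
    have y2 : w * (u * v) * w * (w * (u * v) * w) = t := by
      refine Eq.trans ?_ H.wsw
      rw [H.es, ← q]; simp [mul_assoc, mul_sq_l H.ww]
    obtain ⟨k, k1, k2⟩ := cent (w * (u * v) * w) (comm_sq y2)
      (Or.inl (by
        have : u.1 * v * z = z * (u * v) := by rw [mul_assoc, vz, ← mul_assoc, uz, mul_assoc]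
        calc _ = w * (u * v) * (w * z) := by group
          _ = w * (u * v * z) * w := by rw [H.wz]; group
          _ = _ := by rw [this, ← mul_assoc, H.wz]; group))
    have t1 := H.t1; have z1 := H.z1
    clear hu hv cz dz cent
    rcases k2 with e | e <;> rw [e] at y2 <;>
      rcases k1 with rfl | rfl | rfl | rfl | rfl | rfl | rfl | rfl <;>
      simp [mul_assoc, H.tt, H.zz, uu, vv, asc H.tt, asc H.zz, asc uu, asc vv, H.tz, asc H.tz, tu, asc tu,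
        tv, asc tv, uz, asc uz, vz, asc vz, vu, asc vu, t1, t1.symm, z1] at y2
  have vu := vu' _ q' H.zz
  have iv : ∀ (p k : C1 t), p.1 * p = 1 → k.1 ^ 3 = 1 → pt t p * pt t k * pt t p * pt t k = 1 →
      p.1 * k * p = (k.1)⁻¹ := fun p k p2 k3 e => by
    simp only [← map_mul, p1] at e
    refine eq_inv_of_mul_eq_one_left (e.resolve_right fun e => H.t1 ?_)
    have e1 : p.1 * k * (p.1)⁻¹ = t * (k.1)⁻¹ := by
      rw [inv_of_sq p2, eq_mul_inv_iff_mul_eq]; exact e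
    have e2 : (t * (k.1)⁻¹) ^ 3 = 1 := by rw [← e1, conj_pow, k3]; simp
    rwa [Commute.mul_pow (mem_C1.1 (inv_mem k.2)).symm, inv_pow, k3, inv_one, mul_one, pow_three',
      H.tt, one_mul] at e2
  have vc := iv v c vv c3 L.vc
  have ud := iv u d uu d3 L.ud
  have cc : ∀ k p r : G, k ^ 3 = 1 → p * p = 1 → p * k * p = k⁻¹ → p * z = z * p →
      k * z * k⁻¹ = r → k * r * k⁻¹ = p * r * p := fun k p r k3 p2 e1 e2 e3 => by
    have ki : k⁻¹ = k * k := by rw [eq_comm, ← mul_eq_one_iff_eq_inv, ← pow_three', k3]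
    have e4 : k = p * k⁻¹ * p := by rw [← e1]; simp [mul_assoc, mul_sq_l p2, p2]
    calc _ = k * k * z * (k * k)⁻¹ := by rw [← e3]; group
      _ = p * k * p * z * (p * k⁻¹ * p) := by rw [← ki, inv_inv, e1, ← e4]
      _ = _ := by rw [mul_assoc _ p z, e2, ← e3]; simp [mul_assoc, mul_sq_l p2]
  have cj : ∀ y, y * t = t * y → (y * y = 1 ∨ y * y = t) → y = 1 ∨ y = t ∨
      ∃ x, x * t * x⁻¹ = t ∧ (x * z * x⁻¹ = y ∨ x * (z * t) * x⁻¹ = y) := fun y e1 e2 => by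
    by_cases e : pt t ⟨y, mem_C1.2 e1⟩ = 1
    · exact ((p1 _).1 e).imp_right Or.inl
    obtain ⟨x, hx⟩ := L.conj _ (by rw [← map_mul, p1]; exact e2) e
    obtain ⟨x, rfl⟩ := pt_surj t x
    rw [← map_inv, ← map_mul, ← map_mul, eq_comm, pe] at hx
    have xt := mem_C1_iff_conj.1 x.2
    refine Or.inr (Or.inr ⟨x, xt, hx.imp Eq.symm fun e => ?_⟩)
    rw [← conj_mul, xt]; exact e.symm
  refine ⟨u, v, c, d, H.tt, H.t1, H.zz, H.z1, uu, vv, H.tz, tu, tv, mem_C1_iff_conj.1 c.2,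
    mem_C1_iff_conj.1 d.2, uz, vz, vu, cz, ?_, dz, ?_, vc, ud, cj, fun y e1 e2 => cent y e1 (Or.inl e2),
    ?_, ⟨w, by rw [H.wi, H.wtw, H.es]⟩⟩
  · rw [cc _ _ _ c3 vv vc vz cz, vu]; simp [mul_assoc, vv]
  · rw [cc _ _ _ d3 uu ud uz dz, mul_assoc, vu]; simp [mul_assoc, asc uz, asc uu]
  · rintro ⟨x, hx⟩
    have a4 : (x⁻¹ * a ^ 2 * x) * (x⁻¹ * a ^ 2 * x) = t := by
      calc _ = x⁻¹ * a ^ 4 * x := by group
        _ = t := by rw [← H.ez, ← hx]; group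
    rcases cj (x⁻¹ * a ^ 2 * x) (comm_sq a4) (Or.inr a4) with
      e | e | ⟨y, -, e | e⟩
    · exact H.t1 (by rw [← a4, e, one_mul])
    · exact H.t1 (by rw [← a4, e, H.tt])
    · exact H.t1 (by rw [← a4, ← e, sq_conj H.zz])
    · exact H.t1 (by rw [← a4, ← e, sq_conj (H.es ▸ H.ss)])

end CfsgM11
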