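import Cfsg.Agent.H9.MD

set_option autoImplicit false
set_option linter.unusedSectionVars false
set_option maxHeartbeats 800000

/-! S3717: the case `C(t)/⟨t⟩ ≅ L₂(7)`, derived local facts. -/

namespace CfsgM11

open Subgroup CfsgH5 CfsgH6 CfsgFT CfsgH8

variable {G : Type*} [Group G] [Finite G]

namespace LC
variable {t z u v c d : G} (L : LC t z u v c d)
include L

theorem ut : Tc t (u * t) := by have := L.zt.conj c; rwa [← conj_mul, L.cz, L.tc] at this
theorem zut : Tc t (z * u * t) := by have := L.ut.conj c; rwa [← conj_mul, L.cu, L.tc] at this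
theorem vt : Tc t (v * t) := by have := L.zt.conj d; rwa [← conj_mul, L.dz, L.td] at this
theorem zvt : Tc t (z * v * t) := by have := L.vt.conj d; rwa [← conj_mul, L.dv, L.td] at this
theorem nu : ¬ Tc t u := fun h => L.nz (Tc.of_conj (c := c) (by rwa [L.cz]))
theorem nzu : ¬ Tc t (z * u) := fun h => L.nu (Tc.of_conj (c := c) (by rwa [L.cu]))
theorem nv : ¬ Tc t v := fun h => L.nz (Tc.of_conj (c := d) (by rwa [L.dz]))
theorem nzv : ¬ Tc t (z * v) := fun h => L.nv (Tc.of_conj (c := d) (by rwa [L.dv]))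

theorem uv4 : u * v * u * v = z := by
  simp [mul_assoc, asc L.vu, asc L.uz, L.uu, asc L.uu, L.vv]

theorem hT (y : G) (e1 : y * t = t * y) (e2 : y * z = z * y) :
    ∃ k ∈ [1, z, u, u * z, v, v * z, u * v, v * u], y = k ∨ y = k * t := by
  obtain ⟨k, k1, k2⟩ := L.cent y e1 e2
  exact ⟨k, by rw [L.uz, L.vz, L.vu]; simpa using k1, k2⟩

theorem hinv (e : G) (e1 : e * t = t * e) (e2 : e * e = 1) (e3 : e ≠ 1) (e4 : ∀ x, x * t * x⁻¹ ≠ e) :
    ∃ c, c * t = t * c ∧ c * z * c⁻¹ = e := by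
  rcases L.conj e e1 (Or.inl e2) with a | a | ⟨x, a, b | b⟩
  · exact (e3 a).elim
  · exact (e4 1 (by simp [a])).elim
  · exact ⟨x, by rw [← mul_inv_eq_iff_eq_mul, a], b⟩
  · obtain ⟨y, hy⟩ := L.zt.conj x
    exact (e4 y (hy.trans b)).elim

/-- the involutions of `T` not conjugate to `t` -/
theorem cls {y : G} (e1 : y * t = t * y) (e2 : y * z = z * y) (y2 : y * y = 1) (y1 : y ≠ 1)
    (yz : y ≠ z) (n : ¬ Tc t y) : y = u ∨ y = z * u ∨ y = v ∨ y = z * v := by
  obtain ⟨k, k1, k2⟩ := L.cent y e1 e2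
  have z1 := L.z1
  have q : ∀ r, r = u * v ∨ r = z * (u * v) → r * r ≠ 1 ∧ r * t * (r * t) ≠ 1 := by
    rintro r (rfl | rfl) <;>
    simp [mul_assoc, asc L.vu, asc L.uz, asc L.vz, asc L.uu, asc L.vv, asc L.zz, L.vv, L.zz, L.uu, L.tt,
      asc L.tu, asc L.tv, asc L.tz, L.uz, L.vz, L.vu, z1]
  rcases k2 with e | e <;> rcases k1 with a | a | a | a | a | a | a | a <;> rw [a] at e
  exacts [(y1 e).elim, (yz e).elim, by simp [e], by simp [e], by simp [e], by simp [e],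
    ((q _ (Or.inl e)).1 y2).elim, ((q _ (Or.inr e)).1 y2).elim, (n (by rw [e, one_mul]; exact Tc.rfl)).elim,
    (n (e ▸ L.zt)).elim, (n (e ▸ L.ut)).elim, (n (e ▸ L.zut)).elim, (n (e ▸ L.vt)).elim,
    (n (e ▸ L.zvt)).elim, ((q _ (Or.inl rfl)).2 (e ▸ y2)).elim, ((q _ (Or.inr rfl)).2 (e ▸ y2)).elim]

theorem wcls {w y : G} (ww : w * w = 1) (wtw : w * t * w = z * t) (wz : w * z = z * w)
    (e1 : y * t = t * y) (e2 : y * z = z * y) (y2 : y * y = 1) (y1 : y ≠ 1)
    (yz : y ≠ z) (n : ¬ Tc t y) :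
    w * y * w = u ∨ w * y * w = z * u ∨ w * y * w = v ∨ w * y * w = z * v := by
  have wi := inv_of_sq ww
  have a : w * z * w = z := by rw [wz, mul_assoc, ww, mul_one]
  have b : w * (z * t) * w = t := by rw [← wtw]; simp [mul_assoc, asc ww, ww]
  have m : ∀ p q, w * p * w * (w * q * w) = w * (p * q) * w := fun p q => by simp [mul_assoc, asc ww]
  refine L.cls ?_ ?_ (by rw [m, y2, mul_one, ww]) (fun e => y1 ?_) (fun e => yz ?_)
    fun e => n (Tc.of_conj (c := w) (by rwa [wi]))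
  · rw [← b, m, m, ← mul_assoc y, e2, mul_assoc z y, e1, mul_assoc z t]
  · rw [← a, m, m, e2]
  · exact cj1 (c := w) (by rwa [wi])
  · rwa [← a, mul_left_inj, mul_right_inj] at e

theorem u1 : u ≠ 1 := fun e => L.z1 (cj1 (c := c⁻¹) (by rw [inv_inv, L.cz, e]))
theorem v1 : v ≠ 1 := fun e => L.z1 (cj1 (c := d⁻¹) (by rw [inv_inv, L.dz, e]))
theorem uz' : u ≠ z := fun e => by
  have := L.vu; rw [e, L.vz, asc L.zz] at this; exact L.z1 (by simpa using this)
theorem vz' : v ≠ z := fun e => by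
  have := L.vu; rw [e, L.uz] at this; exact L.z1 (by simpa using this)

end LC

theorem Cf.no3 {M : Subgroup G} {g h a t s z w : G} (H : Cf M g h a t s z w) (nz : ¬ Tc t z)
    {y : G} (y3 : y ^ 3 = 1) (yz : y * z = z * y) : y = 1 := by
  by_contra y1
  exact nz (H.inv_conj y3 y1 yz.symm H.zz H.z1)

end CfsgM11
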