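import Cfsg.Agent.H9.ME0
import Cfsg.Agent.H1.ME4
import Cfsg.Agent.H8.ME1

set_option autoImplicit false
set_option linter.unusedSectionVars false

/-! S3717: the case `C(t)/⟨t⟩ ≅ L₂(7)` is impossible. -/

namespace CfsgM11

open Subgroup CfsgH5 CfsgH6 CfsgFT CfsgH8

variable {G : Type*} [Group G] [Finite G]

theorem LC.e1 {t z u v c d w : G} (L : LC t z u v c d) (simp : ∀ N : Subgroup G, N.index ≠ 2)
    (ww : w * w = 1) (wtw : w * t * w = z * t) (wz : w * z = z * w)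
    (e : w * u * w = v ∨ w * u * w = z * v) : False :=
  E1 simp L.tt L.t1 L.zz L.z1 L.uu L.vv L.uv4 L.tu L.tv L.hT (fun x e => L.nz ⟨x, e⟩) L.cz ww wtw wz
    (by rwa [L.vz])

theorem Cf.caseL7 {M : Subgroup G} {g h a t s z w : G} (H : Cf M g h a t s z w)
    {z0 u0 v0 c0 d0 : C1 t ⧸ Zt t} (L0 : L7 z0 u0 v0 c0 d0) : False := by
  obtain ⟨u, v, c, d, L⟩ := H.lc L0
  have wtw : w * t * w = z * t := by rw [H.wtw, H.es]
  have L' : LC t z v u d c :=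
    ⟨L.tt, L.t1, L.zz, L.z1, L.vv, L.uu, L.tz, L.tv, L.tu, L.td, L.tc, L.vz, L.uz,
      by rw [L.vu, asc L.zz, one_mul], L.dz, L.dv, L.cz, L.cu, L.ud, L.vc, L.conj,
      fun y e1 e2 => by
        obtain ⟨k, k1, k2⟩ := L.cent y e1 e2
        refine ⟨k, ?_, k2⟩
        rw [L.vu, asc L.zz, one_mul]; tauto, L.nz, L.zt⟩
  have a := L.wcls H.ww wtw H.wz L.tu.symm L.uz L.uu L.u1 L.uz' L.nu
  have b := L'.wcls H.ww wtw H.wz L.tv.symm L.vz L.vv L.v1 L.vz' L.nv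
  rw [← or_assoc] at a b
  refine a.elim (fun a => b.elim (fun b => ?_) (L'.e1 H.simp H.ww wtw H.wz)) (L.e1 H.simp H.ww wtw H.wz)
  exact E2 (w := w) H.simp L.tt L.zz L.z1 L.uu L.vv L.uv4 L.tu L.tv L.hT (fun x e => L.nz ⟨x, e⟩) L.hinv
    (fun y => H.no3 L.nz) (by rw [← mul_inv_eq_iff_eq_mul, L.tc]) L.cz L.cu
    (by rw [← mul_inv_eq_iff_eq_mul, L.td]) L.dz L.dv (by rwa [H.wi]) H.wz (by rwa [H.wi, L.uz])
    (by rwa [H.wi, L.vz])

end CfsgM11
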