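import Cfsg.Agent.H9.Pres5
import Cfsg.Agent.H8.Pres

/-! Substitution of words for letters. -/

set_option autoImplicit false

namespace CfsgH9

open Subgroup CfsgH3.TC

variable {K G : Type*} [Group K] [Group G]

/-- new letters given by words -/
def sub (W : List (List ℕ)) (val : ℕ → G) : ℕ → G := fun i => wval val (W.getD i [])

/-- substitution in a word -/
def subW (W : List (List ℕ)) (w : List ℕ) : List ℕ :=
  w.flatMap fun c => if c % 2 = 0 then W.getD (c / 2) [] else invW (W.getD (c / 2) [])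

theorem wval_sub (W : List (List ℕ)) (val : ℕ → G) (w : List ℕ) :
    wval (sub W val) w = wval val (subW W w) := by
  induction w with
  | nil => rfl
  | cons c w ih =>
    rw [wval_cons, subW, List.flatMap_cons, wval_append, ih, sval]
    split_ifs <;> simp [sub, subW, wval_invW]

theorem RelsHold.sub {W R : List (List ℕ)} {val : ℕ → G} (h : RelsHold val (R.map (subW W))) :
    RelsHold (sub W val) R := fun w hw => (wval_sub W val w).trans (h _ (List.mem_map_of_mem hw))

theorem sub_zero (W : List (List ℕ)) (val : ℕ → G) : sub ([] :: W) val 0 = 1 := rfl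

theorem gcl_sub_le {W : List (List ℕ)} {val : ℕ → G} (h0 : val 0 = 1) {n : ℕ} (hW : WLt n W)
    (k : ℕ) : gcl (sub W val) k ≤ gcl val n := gcl_le fun a _ _ => wval_mem_gcl h0 (getD_lt hW a)

theorem gcl_le_sub {W : List (List ℕ)} {val : ℕ → G} {n k : ℕ}
    (h : ∀ a ≤ n, 1 ≤ a → ∃ i ≤ k, 1 ≤ i ∧ W.getD i [] = [2 * a]) : gcl val n ≤ gcl (sub W val) k :=
  gcl_le fun a h1 h2 => by
    obtain ⟨i, h3, h4, e⟩ := h a h2 h1
    have := mem_gcl (val := sub W val) h4 h3
    rwa [sub, e, wval_single] at this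

theorem Bd.mono {A B : Subgroup G} {N : ℕ} (h : Bd B N) (e : A ≤ B) : Bd A N :=
  have := h.1
  ⟨Finite.of_injective _ (inclusion_injective e), (card_le_of_le e).trans h.2⟩

theorem check_of_big {R S : List (List ℕ)} {n : ℕ} {C : Cert}
    (h1 : CfsgH9.allLt C.nfacts (checkFact R S C) = true) (h2 : checkFinAll C n = true) :
    check R S n C = true := by
  rw [check, h2, Bool.and_true]
  have key : ∀ (f : ℕ → Bool) (n : ℕ), (∀ i, i < n → f i = true) → CfsgH3.TC.allLt f n = true := by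
    intro f n
    induction n with
    | zero => exact fun _ => rfl
    | succ n ih =>
      intro h
      rw [CfsgH3.TC.allLt, h n n.lt_succ_self, ih fun i hi => h i (hi.trans n.lt_succ_self)]
      rfl
  exact key _ _ (allLt_iff.1 h1)

theorem rels_of_eqs' {val : ℕ → G} {L : List (List ℕ × List ℕ)}
    (h : ∀ e ∈ L, wval val e.1 = wval val e.2) :
    RelsHold val (L.map fun e => e.1 ++ invW e.2) := fun w hw => by
  obtain ⟨e, he, rfl⟩ := List.mem_map.1 hw
  rw [wval_append, wval_invW, h e he, mul_inv_cancel]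

variable {M : Model K}

/-- the table of a substituted alphabet -/
theorem Model.Tab.sub {T T' : NT} {vK : ℕ → K} {m r : ℕ} (h : M.Tab T vK (2 * m))
    {W : List (List ℕ)} (hW : ∀ w ∈ W, ∀ c ∈ w, c < 2 * m)
    (e : allLt r (fun a => band (Nat.beq (T'.get (2 * a)) (M.wcode T (W.getD a [])))
      (Nat.beq (T'.get (2 * a + 1)) (M.wcode T (invW (W.getD a []))))) = true) :
    M.Tab T' (sub W vK) (2 * r) := by
  intro c hc
  obtain ⟨h1, h2⟩ := band_iff.1 (allLt_iff.1 e (c / 2) (by omega))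
  unfold sval
  split_ifs with h4
  · rw [CfsgH9.sub, h.enc_wval (getD_lt hW _), ← Nat.eq_of_beq_eq_true h1]
    congr 1; omega
  · rw [CfsgH9.sub, ← wval_invW, h.enc_wval (invW_lt (getD_lt hW _)), ← Nat.eq_of_beq_eq_true h2]
    congr 1; omega

namespace WM

variable {T : NT} {vK : ℕ → K} {m n : ℕ} {val : ℕ → G} {ψ : gcl vK n →* G}
  (h : WM M T vK m n val ψ)
include h

theorem imS_sub {W : List (List ℕ)} (hW : WLt n W) (k : ℕ) :
    imS ψ (gcl (sub W vK) k) = gcl (sub W val) k := by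
  have h1 : (gcl (sub W vK) k).subgroupOf (gcl vK n) = gcl (sub W (subVal vK n)) k := by
    apply map_injective (gcl vK n).subtype_injective
    rw [subgroupOf_map_subtype, inf_eq_left.2 (gcl_sub_le h.k0 hW k), map_gcl]
    exact gcl_congr fun a _ _ => (coe_wval_subVal h.k0 (getD_lt hW a)).symm
  rw [imS, h1, map_gcl]
  exact gcl_congr fun a _ _ => map_wval_eq (subVal_zero _ _) h.g0 h.hv (getD_lt hW a)

theorem imS_gen {W : List (List ℕ)} (hW : WLt n W) {r : ℕ} {s : NT}
    (e : allLt r (fun a => Nat.beq (s.get a) (M.wcode T (W.getD (a + 1) []))) = true) :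
    imS ψ (M.gen r s) = gcl (sub W val) r := by
  have key : ∀ a, a < r → M.enc (sub W vK (a + 1)) = s.get a := fun a ha => by
    rw [Nat.eq_of_beq_eq_true (allLt_iff.1 e a ha), sub, h.tab.enc_wval fun c hc => by
      have := getD_lt hW _ c hc; have := h.lt; omega]
  rw [← h.imS_sub hW, Model.gen_eq_closure (S := {x | ∃ a, 1 ≤ a ∧ a ≤ r ∧ sub W vK a = x}) ?_
    fun a ha => ⟨_, ⟨a + 1, by omega, by omega, rfl⟩, key a ha⟩]
  · rfl
  rintro _ ⟨a, h1, h2, rfl⟩
  exact ⟨a - 1, by omega, by rw [← key _ (by omega), Nat.sub_add_cancel h1]⟩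

theorem rep_sub {W : List (List ℕ)} (hW : WLt n W) {T' : NT} {r : ℕ} (ht : M.Tab T' (sub W vK) r)
    (w : List ℕ) (hw : ∀ c ∈ w, c < r) : Rep M ψ (wval (sub W val) w) (M.wcode T' w) := by
  have h1 : ∀ c ∈ subW W w, c < 2 * n + 2 := fun c hc => by
    obtain ⟨d, -, hd⟩ := List.mem_flatMap.1 hc
    split_ifs at hd
    exacts [getD_lt hW _ c hd, invW_lt (n := n + 1) (getD_lt hW _) c hd]
  rw [wval_sub, ← ht.enc_wval hw, wval_sub, h.tab.enc_wval fun c hc => by
    have := h1 c hc; have := h.lt; omega]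
  exact h.rep _ h1

end WM

/-- a bound three times too large suffices if there is no small normal subgroup -/
theorem bd_of_triple {vK : ℕ → K} {vG : ℕ → G} {n N : ℕ}
    (hb : Bd (gcl (fun a => (vK a, vG a)) n) (3 * N)) (hK : N ≤ Nat.card K) (ht : gcl vK n = ⊤)
    (hz : ∀ z ∈ gcl vG n, z ^ 6 = 1 → (∀ g ∈ gcl vG n, g * g * z = z * (g * g)) → z = 1) :
    Bd (gcl (fun a => (vK a, vG a)) n) (Nat.card K) := by
  have := hb.1
  set D := gcl (fun a => (vK a, vG a)) n with hD
  let f : D →* K := (MonoidHom.fst K G).comp D.subtype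
  have hs : Function.Surjective f := by
    intro k
    have : k ∈ D.map (MonoidHom.fst K G) := by
      rw [map_gcl]
      exact ht.ge (mem_top k)
    obtain ⟨p, hp, rfl⟩ := this
    exact ⟨⟨p, hp⟩, rfl⟩
  have h1 : Nat.card f.ker * Nat.card K = Nat.card D := by
    rw [← card_mul_index f.ker, index_ker, MonoidHom.range_eq_top.2 hs, card_top]
  have hsnd : D.map (MonoidHom.snd K G) = gcl vG n := map_gcl _ _ _
  have : Finite K := Finite.of_surjective f hs
  have h4 : Nat.card f.ker ≤ 3 := by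
    have := hb.2
    have := Nat.card_pos (α := K)
    nlinarith
  have h2 : f.ker = ⊥ := (eq_bot_iff_forall _).2 fun y hy => by
    have h5 : Nat.card f.ker ∣ 6 := by
      have := Nat.card_pos (α := f.ker)
      interval_cases Nat.card f.ker <;> norm_num
    have h6 : y ^ 6 = 1 := congrArg Subtype.val ((orderOf_dvd_iff_pow_eq_one (x := (⟨y, hy⟩ : f.ker))).1
      ((_root_.orderOf_dvd_natCard _).trans h5))
    refine Subtype.ext (Prod.ext hy (hz _ (hsnd ▸ mem_map_of_mem _ y.2)
      (congrArg (fun x : D => x.1.2) h6) ?_))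
    rw [← hsnd]
    rintro _ ⟨p, hp, rfl⟩
    let c : f.ker ≃* f.ker := MulAut.conjNormal (⟨p, hp⟩ : D)
    have h7 : c (c ⟨y, hy⟩) = ⟨y, hy⟩ := by
      by_contra h7
      have h8 : c ⟨y, hy⟩ ≠ ⟨y, hy⟩ := fun e => h7 (by rw [e, e])
      have h9 : (⟨y, hy⟩ : f.ker) ≠ 1 := fun e => h8 (by rw [e, map_one])
      have k1 : c ⟨y, hy⟩ ≠ 1 := by simpa using h9
      have k2 : c (c ⟨y, hy⟩) ≠ 1 := by simpa using h9
      have k3 : c (c ⟨y, hy⟩) ≠ c ⟨y, hy⟩ := fun e => h8 (c.injective e)
      have := Nat.card_le_card_of_injective (![1, ⟨y, hy⟩, c ⟨y, hy⟩, c (c ⟨y, hy⟩)] : Fin 4 → f.ker)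
        (by intro i j; fin_cases i <;> fin_cases j <;> simp [*, Ne.symm])
      simp only [Nat.card_eq_fintype_card, Fintype.card_fin] at this
      omega
    have h8 : p.2 * (p.2 * y.1.2 * p.2⁻¹) * p.2⁻¹ = y.1.2 := congrArg (fun x : f.ker => x.1.1.2) h7
    change p.2 * p.2 * y.1.2 = y.1.2 * (p.2 * p.2)
    conv_rhs => rw [← h8]
    group
  rw [h2, card_bot, one_mul] at h1
  exact ⟨inferInstance, h1.ge⟩

end CfsgH9
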