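import Cfsg.Agent.H9.Q4C3
import Cfsg.Agent.H8.Q4E1
import Cfsg.Agent.L.Q4E2

set_option autoImplicit false

/-! S3404, case B3: a configuration of type I forces `S₇`. -/

namespace CfsgL.Q4B

open CfsgH1.Q4 CfsgH9.Q4C

universe u

theorem BB.caseI {G : Type u} {Ω : Type*} [Group G] [Finite G] [MulAction G Ω] [Finite Ω] (F : BB G Ω)
    (hn : Odd (Nat.card Ω))
    (hb : ∀ k t : G, k ^ F.κ = 1 → k ≠ 1 → (Fx Ω k).ncard % 2 = 0 → Iv t → t * k * t⁻¹ = k⁻¹ →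
      4 ≤ (Fx Ω t ∩ Fx Ω k).ncard → Fx Ω k ⊆ Fx Ω t)
    {τ j r : G} {x y a b e : Ω} (C : Cf τ x y a b) (hj : In τ x y a b j) (hr : F.Rm τ x y a b r)
    (h1 : τ • e = e) (h2 : j • e = e) (h3 : r • e ≠ e) : Nonempty (G ≃* Equiv.Perm (Fin 7)) := by
  obtain ⟨a', b', β, T, b1, b2, b3, b4, b5⟩ := (t1_of hn C hj hr h1 h2 h3).exists_beta
  have E := T.eg hb b1 b2 b3 b4 b5
  exact E.fin E.five.1 E.five.2

end CfsgL.Q4B
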