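import Cfsg.Agent.H9.Q4T1

set_option autoImplicit false
set_option linter.unusedSectionVars false

/-! S3404, case B3: from type I to the end-game configuration. -/

namespace CfsgH9.Q4C

open Subgroup CfsgH5 CfsgH6 CfsgFT CfsgH1.Q4 CfsgL.Q4B

universe u

variable {G : Type u} {Ω : Type*} [Group G] [Finite G] [MulAction G Ω] [Finite Ω]
variable {F : BB G Ω} {τ j r k k' t s β : G} {x y a b e p p' : Ω} {B B' : Set Ω}

/-- the conclusion of piece B1b. -/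
def HB (F : BB G Ω) : Prop := ∀ k t : G, k ^ F.κ = 1 → k ≠ 1 → (Fx Ω k).ncard % 2 = 0 → Iv t →
  t * k * t⁻¹ = k⁻¹ → 4 ≤ (Fx Ω t ∩ Fx Ω k).ncard → Fx Ω k ⊆ Fx Ω t

theorem HB.sub (hb : HB F) (hB : B.ncard = 4) (hk : k ∈ F.K B) (k1 : k ≠ 1)
    (he : (Fx Ω k).ncard % 2 = 0) (ht : Iv t) (h1 : t ∈ St G B) : Fx Ω k ⊆ Fx Ω t :=
  hb k t (F.pow hB hk) k1 he ht (F.inv hB ht h1 hk)
    (hB ▸ Set.ncard_le_ncard fun z hz => ⟨h1 z hz, F.le_St hB hk z hz⟩)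

theorem HB.eq (hb : HB F) (hB : B.ncard = 4) (hk : k ∈ F.K B) (k1 : k ≠ 1)
    (he : (Fx Ω k).ncard % 2 = 0) : Fx Ω k = FxS Ω (F.K B) := by
  obtain ⟨t, ht, h1⟩ := F.exists_iv hB
  refine Set.Subset.antisymm (fun z hz g hg => ?_) fun z hz => hz k hk
  have e := hb.sub hB hk k1 he (F.iv_mul hB ht h1 hg) (mul_mem h1 (F.le_St hB hg)) hz
  rw [mem_Fx, mul_smul] at e
  exact MulAction.injective t (e.trans (hb.sub hB hk k1 he ht h1 hz).symm)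

theorem blk_eq (hB : B.ncard = 4) (hB' : B'.ncard = 4) (h : B' ⊆ FxS Ω (F.K B)) :
    FxS Ω (F.K B') = FxS Ω (F.K B) := by
  rw [eq_of_le_of_card_le (F.le_of_sub hB hB' h) (by rw [F.card hB, F.card hB'])]

theorem blk_ncard (hB : B.ncard = 4) (hB' : B'.ncard = 4) :
    (FxS Ω (F.K B')).ncard = (FxS Ω (F.K B)).ncard := by
  obtain ⟨g, rfl⟩ := F.exists_conj hB hB'
  rw [F.smul_blk hB, ncard_smul]

namespace T1

variable (T : T1 F τ x y a b)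
include T

theorem Fx_R (hr : F.Rm τ x y a b r) (r1 : r ≠ 1) : Fx Ω r ∩ Fx Ω τ = {a, b} := by
  obtain ⟨e1, e2, -⟩ := rm_fix T.toCf hr
  refine Set.Subset.antisymm (fun z hz => by_contra fun e => ?_) ?_
  · simp only [Set.mem_insert_iff, Set.mem_singleton_iff, not_or] at e
    exact r1 (T.semi hr hz.2 hz.1 e.1 e.2)
  · rintro _ (rfl | rfl)
    exacts [⟨e1, T.fa⟩, ⟨e2, T.fb⟩]

theorem even (hr : F.Rm τ x y a b r) (r1 : r ≠ 1) : (Fx Ω r).ncard % 2 = 0 := by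
  rw [ncard_mod2 T.sq fun _ => smul_mem_Fx hr.cm.symm, T.Fx_R hr r1, Set.ncard_pair T.ab]

theorem blk (hb : HB F) (hB : B.ncard = 4) : (FxS Ω (F.K B)).ncard % 2 = 0 ∧
    ∀ t, Iv t → t ∈ St G B → FxS Ω (F.K B) ⊆ Fx Ω t := by
  obtain ⟨r, hr, r1⟩ := T.ex
  obtain ⟨g, rfl⟩ := F.exists_conj T.d4.ncard hB
  have m := (F.conj_mem (h := g) T.d4.ncard).2 hr.mem
  have e : (Fx Ω (g * r * g⁻¹)).ncard % 2 = 0 := by rw [ncard_Fx_conj, T.even hr r1]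
  rw [← hb.eq hB m (conj_ne_one r1) e]
  exact ⟨e, fun t => hb.sub hB m (conj_ne_one r1) e⟩

theorem dvd (hb : HB F) : ((FxS Ω (F.K {a, b, x, y})).ncard - 3) ∣ (Fx Ω τ).ncard - 3 ∧
    ((FxS Ω (F.K {a, b, x, y})).ncard - 2) ∣ (Fx Ω τ).ncard - 3 := by
  obtain ⟨j, hj⟩ := F.exists_In T.toCf
  obtain ⟨e, e1, e2, e3, e4⟩ := hj.third T.hn T.toCf
  have n3 := ncard3 T.ab e3.symm e4.symm
  have s3 : ({a, b, e} : Set Ω) ⊆ Fx Ω τ := by
    rintro _ (rfl | rfl | rfl)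
    exacts [T.fa, T.fb, e1]
  rw [← n3, ← Set.ncard_sdiff s3, n3]
  have d1 : ∀ p ∉ ({a, b, e} : Set Ω), D4 a b e p := fun p hp => by
    simp only [Set.mem_insert_iff, Set.mem_singleton_iff, not_or] at hp
    exact ⟨T.ab, e3.symm, Ne.symm hp.1, e4.symm, Ne.symm hp.2.1, Ne.symm hp.2.2⟩
  have d2 : ∀ p ∈ Fx Ω τ \ {a, b, e}, D4 a b p (j • p) := fun p hp => by
    obtain ⟨h1, -, h3, -⟩ := (d1 p hp.2).2.2
    exact ⟨T.ab, h1, hj.fa ▸ smul_ne h1, h3, hj.fb ▸ smul_ne h3,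
      fun h => hp.2 (F.In_fix T.toCf hj e1 e2 e3 e4 hp.1 h.symm)⟩
  constructor
  · refine dvd_of_blocks (fun p => FxS Ω (F.K {a, b, e, p}) \ {a, b, e}) _ _ (fun p hp => ?_)
      fun p hp q hq => ?_
    · have n := (d1 p hp.2).ncard
      have s := F.sub_blk n
      refine ⟨⟨s (by simp), hp.2⟩, Set.sdiff_subset_sdiff_left ((T.blk hb n).2 τ T.toIv
        (mem_St4.2 ⟨T.fa, T.fb, e1, hp.1⟩)), ?_⟩
      rw [Set.ncard_sdiff (fun z hz => s (by simp at hz ⊢; tauto)), n3, blk_ncard T.d4.ncard n]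
    · have n := (d1 p hp.2).ncard
      have s := F.sub_blk n
      rw [blk_eq n (d1 q hq.2).ncard]
      rintro _ (rfl | rfl | rfl | rfl)
      exacts [s (by simp), s (by simp), s (by simp), hq.1]
  · have k : ∀ p ∈ Fx Ω τ \ {a, b, e}, (∀ z ∈ FxS Ω (F.K {a, b, p, j • p}), j • z ∈ FxS Ω (F.K {a, b, p, j • p})) ∧
        FxS Ω (F.K {a, b, p, j • p}) \ {a, b} ⊆ Fx Ω τ \ {a, b, e} := fun p hp => by
      have n := (d2 p hp).ncard
      have s := F.sub_blk n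
      have h1 := (T.blk hb n).2 τ T.toIv (mem_St4.2 ⟨T.fa, T.fb, hp.1, hj.smul hp.1⟩)
      have h2 : ∀ z ∈ FxS Ω (F.K {a, b, p, j • p}), j • z ∈ FxS Ω (F.K {a, b, p, j • p}) := fun z hz => by
        rw [← ((hj.tt T.toCf).cf rfl (d2 p hp).2.2.2.2.2 hj.fa hj.fb T.ab).img, F.smul_blk n]
        exact ⟨z, hz, rfl⟩
      refine ⟨h2, fun z hz => ⟨h1 hz.1, ?_⟩⟩
      rintro (h | h | rfl)
      · exact hz.2 (.inl h)
      · exact hz.2 (.inr h)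
      have h3 := (T.blk hb n).1
      rw [ncard_mod2 hj.sq h2] at h3
      rcases eq_of_even ((Set.ncard_le_ncard (Set.inter_subset_inter_left _ h1)).trans
        (F.In_le T.toCf hj)) h3 T.ab ⟨s (by simp), hj.fa⟩ ⟨s (by simp), hj.fb⟩ ⟨hz.1, e2⟩ with h | h
      exacts [e3 h, e4 h]
    refine dvd_of_blocks (fun p => FxS Ω (F.K {a, b, p, j • p}) \ {a, b}) _ _ (fun p hp => ?_)
      fun p hp q hq => ?_
    · have n := (d2 p hp).ncard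
      have s := F.sub_blk n
      refine ⟨⟨s (by simp), fun h => hp.2 (by simp at h ⊢; tauto)⟩, (k p hp).2, ?_⟩
      rw [Set.ncard_sdiff (fun z hz => s (by simp at hz ⊢; tauto)), Set.ncard_pair T.ab,
        blk_ncard T.d4.ncard n]
    · have n := (d2 p hp).ncard
      have s := F.sub_blk n
      rw [blk_eq n (d2 q ((k p hp).2 hq)).ncard]
      rintro _ (rfl | rfl | rfl | rfl)
      exacts [s (by simp), s (by simp), hq.1, (k p hp).1 _ hq.1]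

theorem card_dvd : Nat.card (F.K {a, b, x, y} ⊓ C1 τ : Subgroup G) ∣ (Fx Ω τ).ncard - 2 := by
  rw [← Set.ncard_pair T.ab, ← Set.ncard_sdiff (by rintro _ (rfl | rfl); exacts [T.fa, T.fb])]
  refine card_dvd_of_free (fun r hr z hz => ⟨smul_mem_Fx (rm_iff.2 hr).cm hz.1, ?_⟩)
    fun r hr z hz e => T.semi (rm_iff.2 hr) hz.1 e (fun h => hz.2 (.inl h)) fun h => hz.2 (.inr h)
  obtain ⟨e1, e2, -⟩ := rm_fix T.toCf (rm_iff.2 hr)
  rintro (h | h)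
  exacts [hz.2 (.inl (MulAction.injective r (h.trans e1.symm))),
    hz.2 (.inr (MulAction.injective r (h.trans e2.symm)))]

theorem cen_dvd (hs : Iv s) (c : Commute s τ) (sx : s • x = x) (sa : s • a = b) :
    Nat.card (F.K {a, b, x, y} ⊓ C1 τ ⊓ C1 s : Subgroup G) ∣ 3 := by
  have h1 := F.ncard_le_of_comm T.toIv hs c.symm (by rintro rfl; exact T.xy (sx.symm.trans T.sw))
  have h2 := ncard_mod2 (S := Fx Ω τ) hs.sq fun _ => smul_mem_Fx c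
  rw [odd_Fx T.hn T.sq] at h2
  have h3 := card_dvd_of_free (E := F.K {a, b, x, y} ⊓ C1 τ ⊓ C1 s) (S := Fx Ω τ ∩ Fx Ω s)
    (fun r hr z hz => ⟨smul_mem_Fx (mem_C1.1 hr.1.2) hz.1, smul_mem_Fx (mem_C1.1 hr.2) hz.2⟩)
    fun r hr z hz e => T.semi (rm_iff.2 hr.1) hz.1 e
      (by rintro rfl; exact T.ab (hz.2.symm.trans sa))
      (by rintro rfl; exact T.ab ((swap_back hs.sq sa).symm.trans hz.2))
  refine h3.trans ?_
  obtain h | h : (Fx Ω τ ∩ Fx Ω s).ncard = 1 ∨ (Fx Ω τ ∩ Fx Ω s).ncard = 3 := by omega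
  all_goals simp [h]

theorem nine (hβ : Iv β) (c : Commute β τ) (h1 : β • x = x) (h2 : β • y = y) (h3 : β • a = b) :
    Nat.card (F.K {a, b, x, y} ⊓ C1 τ : Subgroup G) ∣ 9 ∧ ∀ r, F.Rm τ x y a b r → r ^ 3 = 1 := by
  obtain ⟨j, hj, cj⟩ := F.exists_In_comm T.toCf (⟨hβ, h1, h1, h1, h2, c⟩ : In τ x y x x β) h3
  have n := T.d4.ncard
  have d1 := T.cen_dvd hβ c h1 h3
  have d2 := T.cen_dvd (hβ.mul hj.toIv cj.symm (by rintro rfl; exact T.ab (hj.fa.symm.trans h3)))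
    (c.mul_left hj.cm) (by rw [mul_smul, hj.fx, h1]) (by rw [mul_smul, hj.fa, h3])
  obtain ⟨k1, k2⟩ := split (A := F.K {a, b, x, y} ⊓ C1 τ) (s := β) (t := j)
    (fun r hr => F.odd_ord (F.pow n hr.1)) (fun r hr s hs => F.comm n hr.1 hs.1) hβ.sq
    (fun r hr => rm_iff.1 ⟨F.conj_mem_of n (by
      simp [Set.image_insert_eq, h1, h2, h3, swap_back hβ.sq h3, Set.insert_comm]) hr.1,
      (c.mul_left (mem_C1.1 hr.2)).mul_left c.inv_left⟩) fun r hr => F.In_inv T.toCf hj hr.1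
  refine ⟨k2 ▸ Nat.mul_dvd_mul d1 d2, fun r hr => ?_⟩
  obtain ⟨u, hu, v, hv, rfl⟩ := k1 r (rm_iff.1 hr)
  rw [(F.comm n hu.1.1 hv.1.1).mul_pow, orderOf_dvd_iff_pow_eq_one.1 ((orderOf_dvd_natCard _ hu).trans d1),
    orderOf_dvd_iff_pow_eq_one.1 ((orderOf_dvd_natCard _ hv).trans d2), one_mul]

theorem d4k (hk : F.Rm τ x y a b k) (k1 : k ≠ 1) (k3 : k ^ 3 = 1) (h1 : τ • p = p) (h2 : p ≠ a)
    (h3 : p ≠ b) : D4 a p (k • p) (k • k • p) ∧ k • k • k • p = p := by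
  have e := (rm_fix T.toCf hk).1
  have e3 : k • k • k • p = p := by rw [← mul_smul, ← mul_smul, mul_assoc, ← pow_three, k3, one_smul]
  have n : p ≠ k • p := fun h => k1 (T.semi hk h1 h.symm h2 h3)
  have m : a ≠ k • p := e ▸ smul_ne h2.symm
  exact ⟨⟨h2.symm, m, e ▸ smul_ne m, n, fun h => n (e3.symm.trans (congrArg (k • ·) h.symm)),
    smul_ne n⟩, e3⟩

theorem move (h3 : 3 ∣ F.κ) (r3 : ∀ r, F.Rm τ x y a b r → r ^ 3 = 1) (hk : F.Rm τ x y a b k) (k1 : k ≠ 1)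
    (hk' : F.Rm τ x y a b k') (k1' : k' ≠ 1) (p1 : τ • p = p) (p2 : p ≠ a) (p3 : p ≠ b)
    (q1 : τ • p' = p') (q2 : p' ≠ a) (q3 : p' ≠ b) :
    ∃ g : G, Commute g τ ∧ g * k * g⁻¹ = k' ∧ g • a = a ∧ g • p = p' := by
  obtain ⟨d, e⟩ := T.d4k hk k1 (r3 _ hk) p1 p2 p3
  obtain ⟨d', e'⟩ := T.d4k hk' k1' (r3 _ hk') q1 q2 q3
  have f := smul_mem_Fx hk.cm p1
  have f' := smul_mem_Fx hk'.cm q1
  have f2 := smul_mem_Fx hk'.cm f'
  obtain ⟨g, hg, g1, g2, g3, g4⟩ := F.witt T.toIv d d' T.fa p1 f (smul_mem_Fx hk.cm f) T.fa q1 f' f2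
  replace hg : Commute g τ := mem_C1.1 hg
  have a1 := (rm_fix T.toCf hk').1
  have h : ∀ z ∈ ({a, p', k' • p', k' • k' • p'} : Set Ω), k' • z = (g * k * g⁻¹) • z := by
    rintro z (h | h | h | h) <;> rw [h]
    · rw [a1, ← g1, conj_smul (rm_fix T.toCf hk).1]
    · rw [← g3, ← g2, conj_smul rfl]
    · rw [← g4, ← g3, conj_smul rfl]
    · rw [e', ← g4, ← g2, conj_smul e]
  obtain ⟨w, hw, e⟩ := conj3 F h3 T.toIv d'.ncard (mem_St4.2 ⟨T.fa, q1, f', f2⟩)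
    ((hg.mul_left hk.cm).mul_left hg.inv_left) hk'.cm (by rw [conj_pow, r3 _ hk]; group) (r3 _ hk')
    (fun z hz => by
      rw [← h z hz]
      rcases hz with h | h | h | h <;> rw [h] <;> simp [a1, e']) h
  obtain ⟨w1, w2, -⟩ := mem_St4.1 hw.1
  exact ⟨w * g, Commute.mul_left (mem_C1.1 hw.2) hg, by rw [← e]; group, by rw [mul_smul, g1, w1],
    by rw [mul_smul, g2, w2]⟩

theorem ineq (h3 : 3 ∣ F.κ) (r3 : ∀ r, F.Rm τ x y a b r → r ^ 3 = 1) (hk : F.Rm τ x y a b k)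
    (k1 : k ≠ 1) : 2 * ((Fx Ω τ).ncard - 2) ≤
      Nat.card (F.K {a, b, x, y} ⊓ C1 τ : Subgroup G) * ((Fx Ω k).ncard - 2) := by
  let J := C1 τ ⊓ C1 k ⊓ MulAction.stabilizer G a
  obtain ⟨e1, e2, e3, e4⟩ := rm_fix T.toCf hk
  have s1 : ({a, b} : Set Ω) ⊆ Fx Ω τ := by rintro _ (rfl | rfl); exacts [T.fa, T.fb]
  have s2 : ({a, b} : Set Ω) ⊆ Fx Ω k := by rintro _ (rfl | rfl); exacts [e1, e2]
  have hb : ∀ g ∈ J, g • b = b := fun g hg => by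
    rcases (T.Fx_R hk k1).le ⟨smul_mem_Fx (mem_C1.1 hg.1.2) e2, smul_mem_Fx (mem_C1.1 hg.1.1) T.fb⟩
      with h | h
    exacts [absurd (MulAction.injective g (hg.2.trans h.symm)) T.ab, h]
  obtain ⟨p, p1, p2⟩ := exists_not_mem_of_lt (S := Fx Ω τ) (T := {a, b})
    (by have := T.four; rw [Set.ncard_pair T.ab]; omega)
  rw [← Set.ncard_pair T.ab, ← Set.ncard_sdiff s1, ← Set.ncard_sdiff s2, Set.ncard_pair T.ab]
  refine (Nat.mul_le_mul ?_ (Set.ncard_le_ncard fun q hq => ?_)).trans (((orb J p).trans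
    (orb J x).symm).le.trans (Nat.mul_le_mul (card_le_of_le fun g hg => ?_)
      (Set.ncard_le_ncard ?_)))
  · rw [← T.toIv.orderOf]
    exact Nat.le_of_dvd Nat.card_pos (orderOf_dvd_natCard _
      ⟨p1, ⟨self_mem_C1 τ, mem_C1.2 hk.cm.symm⟩, T.fa⟩)
  · obtain ⟨g, g1, g2, g3, g4⟩ := T.move h3 r3 hk k1 hk k1 p1 (fun h => p2 (.inl h))
      (fun h => p2 (.inr h)) hq.1 (fun h => hq.2 (.inl h)) fun h => hq.2 (.inr h)
    exact ⟨g, ⟨⟨mem_C1.2 g1, mem_C1_iff_conj.2 g2⟩, g3⟩, g4⟩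
  · refine ⟨F.cen T.d4.ncard hk.mem k1 (mem_St4.2 ⟨hg.2.2, hb g hg.2, hg.1, ?_⟩) (mem_C1.1 hg.2.1.2),
      hg.2.1.1⟩
    rw [← T.sw, ← mul_smul, mem_C1.1 hg.2.1.1, mul_smul, hg.1]
  · rintro _ ⟨g, hg, rfl⟩
    refine ⟨smul_mem_Fx (mem_C1.1 hg.1.2) e3, ?_⟩
    rintro (h | h)
    exacts [T.d4.2.1 (MulAction.injective g (hg.2.trans h.symm)),
      T.d4.2.2.2.1 (MulAction.injective g ((hb g hg).trans h.symm))]

theorem eg (hb : HB F) (hβ : Iv β) (c : Commute β τ) (h1 : β • x = x) (h2 : β • y = y) (h3 : β • a = b) :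
    EG F τ x y a b := by
  have := Fact.mk Nat.prime_three
  obtain ⟨d9, r3⟩ := T.nine hβ c h1 h2 h3
  obtain ⟨k, hk, k1⟩ := T.ex
  have n := T.d4.ncard
  have o := orderOf_eq_prime (r3 k hk) k1
  have t3 : 3 ∣ F.κ := o ▸ orderOf_dvd_of_pow_eq_one (F.pow n hk.mem)
  have i1 := T.ineq t3 r3 hk k1
  have i2 := T.card_dvd
  have i3 : 3 ∣ _ := o ▸ orderOf_dvd_natCard _ (rm_iff.1 hk)
  obtain ⟨i4, i5⟩ := T.dvd hb
  have i6 := (T.blk hb n).1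
  have i7 := T.four
  have i8 := Set.ncard_le_ncard (F.sub_blk n)
  rw [hb.eq n hk.mem k1 (T.even hk k1)] at i1
  have ec : {r | F.Rm τ x y a b r}.ncard = Nat.card (F.K {a, b, x, y} ⊓ C1 τ : Subgroup G) := by
    rw [← Nat.card_coe_set_eq]
    exact Nat.card_congr (Equiv.subtypeEquivRight fun _ => rm_iff)
  rw [n] at i8
  generalize hR : Nat.card (F.K {a, b, x, y} ⊓ C1 τ : Subgroup G) = m at *
  obtain ⟨d, hd⟩ := Nat.exists_eq_add_of_le' i8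
  obtain ⟨f, hf⟩ := Nat.exists_eq_add_of_le' i7
  rw [hd, hf] at i1 i4 i5
  rw [hf] at i2
  have j1 := Nat.le_of_dvd (by omega)
    (((Nat.coprime_self_add_right.2 (Nat.coprime_one_right _)) : (d + 1).Coprime (d + 1 + 1)).mul_dvd_of_dvd_of_dvd i4 i5)
  have j2 := Nat.le_of_dvd (by omega) d9
  have j3 : d = 0 := by
    have l : 2 * (f + 2) ≤ 9 * (d + 2) := i1.trans (Nat.mul_le_mul_right _ j2)
    have l2 : (d + 1) * (d + 1 + 1) ≤ f + 1 := j1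
    have : d < 4 := by nlinarith
    have := i3.trans i2
    interval_cases d <;> omega
  subst j3
  have j4 := Nat.le_of_dvd (by omega) i2
  have ev : ∀ {B : Set Ω} {k : G}, B.ncard = 4 → k ∈ F.K B → k ≠ 1 → (Fx Ω k).ncard % 2 = 0 →
      Fx Ω k = B := fun hB hk k1 he => (hb.eq hB hk k1 he).trans
    (Set.eq_of_subset_of_ncard_le (F.sub_blk hB) (by rw [blk_ncard n hB, hd, hB])).symm
  refine ⟨T.toCf, T.hn, T.semi, r3 _, t3, by omega, ?_, ev, fun hr r1 => ev n hr.mem r1 (T.even hr r1),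
    T.move t3 r3⟩
  interval_cases m <;> omega

end T1

end CfsgH9.Q4C
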