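import Cfsg.Agent.H9.Q4C2
import Cfsg.Agent.H6.Q4B1

set_option autoImplicit false
set_option linter.unusedSectionVars false

/-! S3404, case B3: an involution swapping the pair of a type I configuration. -/

namespace CfsgH9.Q4C

open Subgroup CfsgH5 CfsgH6 CfsgFT CfsgH1.Q4 CfsgL.Q4B

universe u

variable {G : Type u} {Ω : Type*} [Group G] [Finite G] [MulAction G Ω] [Finite Ω]
variable {F : BB G Ω} {τ j r : G} {x y a b e : Ω}

theorem card_dvd3 (C : Cf τ x y a b) (hr : F.Rm τ x y a b r) (r1 : r ≠ 1) (h1 : τ • e = e)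
    (h2 : r • e = e) (ha : e ≠ a) (hb : e ≠ b) :
    Nat.card (F.K {a, b, x, y} ⊓ C1 τ : Subgroup G) ∣ (Fx Ω τ).ncard - 3 := by
  obtain ⟨j, hj⟩ := F.exists_In C
  have k : ∀ s ∈ F.K {a, b, x, y} ⊓ C1 τ, s ∈ St G ({a, b, e} : Set Ω) := fun s hs => by
    obtain ⟨e1, e2, -⟩ := rm_fix C (rm_iff.2 hs)
    have e3 := lemA C hr r1 h1 h2 ha hb (F.In_mul_R C hj (rm_iff.2 hs))
    rw [mul_smul] at e3
    rintro _ (rfl | rfl | rfl)
    exacts [e1, e2, MulAction.injective j (e3.trans (lemA C hr r1 h1 h2 ha hb hj).symm)]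
  rw [← ncard3 C.ab ha.symm hb.symm,
    ← Set.ncard_sdiff (by rintro _ (rfl | rfl | rfl); exacts [C.fa, C.fb, h1])]
  refine card_dvd_of_free (fun s hs z hz => ⟨smul_mem_Fx (mem_C1.1 hs.2) hz.1,
    fun h => hz.2 (by rwa [(smul_left_cancel_iff s).1 (k s hs _ h)] at h)⟩) fun s hs z hz e => by_contra fun s1 =>
      hz.2 (eq_of_three (F.Rm_le C (rm_iff.2 hs) s1) C.ab ha.symm hb.symm ⟨C.fa, k s hs _ (by simp)⟩
        ⟨C.fb, k s hs _ (by simp)⟩ ⟨h1, k s hs _ (by simp)⟩ ⟨hz.1, e⟩)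

theorem T1.of_sq (T : T1 F τ x y a b) (h : Nat.card (F.K {a, b, x, y} ⊓ C1 τ : Subgroup G) *
    Nat.card (F.K {a, b, x, y} ⊓ C1 τ : Subgroup G) = F.κ) {p q : Ω} (C : Cf τ x y p q) :
    T1 F τ x y p q := by
  have n := T.d4.ncard
  refine ⟨C, T.hn, by_contra fun H => ?_, fun {r e} hr h1 h2 h3 h4 => by_contra fun r1 => r1 ?_⟩
  · push Not at H
    obtain ⟨z, hz, -⟩ := F.hz_of C H x y a b T.d4
    have c := hz.comm (g := τ) (by rw [T.sw, T.sw', T.fa, T.fb]; exact hz.symm1)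
    by_cases e : z = τ
    · rw [inf_eq_left.2 fun k hk => mem_C1.2 (e ▸ hz.cen k hk).symm, F.card n] at h
      have := F.one_lt
      nlinarith
    obtain ⟨r, hr, r1⟩ := T.ex
    refine r1 (F.eq_one' (F.pow n hr.mem) ?_)
    rw [← F.inv n (hz.toIv.mul T.toIv c.symm e) (hz.mul_mem T.sq T.sw T.fa T.fb) hr.mem,
      ((hz.cen r hr.mem).mul_left hr.cm.symm).eq, mul_inv_cancel_right]
  have d1 := (orderOf_dvd_natCard _ (rm_iff.1 hr)).trans (card_dvd3 C hr r1 h1 h2 h3 h4)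
  have d2 := orderOf_dvd_of_pow_eq_one (F.pow C.d4.ncard hr.mem)
  have d3 := T.card_dvd
  obtain ⟨f, hf⟩ := Nat.exists_eq_add_of_le' T.four
  rw [hf] at d1 d3
  have c : (f + 1).Coprime (f + 1 + 1) := Nat.coprime_self_add_right.2 (Nat.coprime_one_right _)
  rw [← h] at d2
  exact orderOf_eq_one_iff.1 (Nat.eq_one_of_dvd_coprimes (c.mul_right c) d1
    (d2.trans (Nat.mul_dvd_mul d3 d3)))

theorem T1.exists_beta (T : T1 F τ x y a b) : ∃ (a' b' : Ω) (β : G), T1 F τ x y a' b' ∧ Iv β ∧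
    Commute β τ ∧ β • x = x ∧ β • y = y ∧ β • a' = b' := by
  have n := T.d4.ncard
  obtain ⟨g, g1, g2, g3, g4⟩ := F.tr4 T.d4 (D4.sw3 T.d4)
  have C := T.toCf.conj g
  rw [g1, g2, g3, g4] at C
  generalize g * τ * g⁻¹ = σ at C
  have r1 : (τ * σ) • a = b := by rw [mul_smul, C.sw, T.fb]
  have r2 : (τ * σ) • b = a := by rw [mul_smul, C.sw', T.fa]
  have r3 : (τ * σ) • x = y := by rw [mul_smul, C.fa, T.sw]
  have r4 : (τ * σ) • y = x := by rw [mul_smul, C.fb, T.sw']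
  have m : τ * σ * (τ * σ) ∈ St G ({a, b, x, y} : Set Ω) := mem_St4.2 ⟨by rw [mul_smul, r1, r2],
    by rw [mul_smul, r2, r1], by rw [mul_smul, r3, r4], by rw [mul_smul, r4, r3]⟩
  obtain ⟨z, -, z1, z2, z3, -, c, ⟨i, rfl⟩, hc⟩ := CfsgSZ.pt_dihedral T.sq C.sq fun o =>
    T.ab ((mem_St4.1 (CfsgSZ.pt_mem_of_sq o m)).1.symm.trans r1)
  have hP : ∀ c, c = (τ * σ) ^ i → (c • a = a ∧ c • b = b ∧ c • x = x ∧ c • y = y) ∨
      (c • a = b ∧ c • b = a ∧ c • x = y ∧ c • y = x) := fun c hc => by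
    obtain ⟨k, rfl | rfl⟩ := Int.even_or_odd' i
    · rw [hc, zpow_mul, zpow_two]; exact .inl (mem_St4.1 (zpow_mem m k))
    · obtain ⟨e1, e2, e3, e4⟩ := mem_St4.1 (zpow_mem m k)
      rw [hc, zpow_add_one, zpow_mul, zpow_two]
      exact .inr ⟨by rw [mul_smul, r1, e2], by rw [mul_smul, r2, e1], by rw [mul_smul, r3, e4],
        by rw [mul_smul, r4, e3]⟩
  replace hP := hP _ rfl
  simp only at hc
  generalize (τ * σ) ^ i = c at hP hc
  rcases hc with hc | hc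
  · have k : ∀ {u v : Ω}, τ • u = v → τ • c • v = c • u → z • c • v = c • v := fun h1 h2 => by
      rw [← smul_left_cancel_iff τ, ← mul_smul, hc, conj_smul (swap_back T.sq h1), h2]
    have hz : z ∈ St G ({a, b, x, y} : Set Ω) := by
      rcases hP with ⟨e1, e2, e3, e4⟩ | ⟨e1, e2, e3, e4⟩
      · exact mem_St4.2 ⟨e1 ▸ k T.fa (by rw [e1, T.fa]), e2 ▸ k T.fb (by rw [e2, T.fb]),
          e3 ▸ k T.sw' (by rw [e3, e4, T.sw]), e4 ▸ k T.sw (by rw [e3, e4, T.sw'])⟩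
      · exact mem_St4.2 ⟨e2 ▸ k T.fb (by rw [e2, T.fa]), e1 ▸ k T.fa (by rw [e1, T.fb]),
          e4 ▸ k T.sw (by rw [e3, e4, T.sw]), e3 ▸ k T.sw' (by rw [e3, e4, T.sw'])⟩
    have hi : (c • ·) '' ({a, b, x, y} : Set Ω) = {a, b, x, y} := by
      refine image_eq_of_maps ?_
      rcases hP with ⟨e1, e2, e3, e4⟩ | ⟨e1, e2, e3, e4⟩ <;> intro u hu <;>
        rcases hu with h | h | h | h <;> rw [h] <;> simp [e1, e2, e3, e4]
    have h := (split (A := F.K {a, b, x, y}) (fun r hr => F.odd_ord (F.pow n hr))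
      (fun r hr s hs => F.comm n hr hs) T.sq (fun r hr => F.conj_mem_of n T.img hr)
      fun r hr => F.inv n ⟨z2, z1⟩ hz hr).2
    have e : cj c (F.K {a, b, x, y}) = F.K {a, b, x, y} := (eq_of_le_of_card_le
      (fun _ h => by obtain ⟨u, hu, rfl⟩ := mem_cj'.1 h; exact F.conj_mem_of n hi hu) (card_cj _ _).ge)
    rw [hc, ← cj_C1, F.card n] at h
    nth_rewrite 2 [← e] at h
    rw [← cj_inf, card_cj] at h
    obtain ⟨j, hj⟩ := F.exists_In T.toCf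
    obtain ⟨p, p1, p2⟩ := exists_not_mem_of_lt (S := Fx Ω τ) (T := Fx Ω τ ∩ Fx Ω j)
      ((F.In_le T.toCf hj).trans_lt T.four)
    exact ⟨p, _, j, T.of_sq h (T.other p1 (hj.smul p1) fun e => p2 ⟨p1, e.symm⟩), hj.toIv, hj.cm,
      hj.fx, hj.fy, rfl⟩
  · refine ⟨a, b, τ * z, T, hc ▸ C.toIv.conj c, (Commute.refl τ).mul_left z3, ?_⟩
    rw [hc]
    rcases hP with ⟨e1, e2, e3, e4⟩ | ⟨e1, e2, e3, e4⟩
    · exact ⟨e3 ▸ conj_smul C.fa, e4 ▸ conj_smul C.fb, by simpa only [e1, e2] using conj_smul (g := c) C.sw⟩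
    · exact ⟨e4 ▸ conj_smul C.fb, e3 ▸ conj_smul C.fa, by simpa only [e1, e2] using conj_smul (g := c) C.sw'⟩

end CfsgH9.Q4C
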