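import Cfsg.Agent.H9.Q4C
import Cfsg.Agent.H6.Q4Bo

set_option autoImplicit false

/-! S3404, case B. -/

universe u

open CfsgL.Q4B in
theorem CfsgH1.Q4.caseB {G : Type u} {Ω : Type*} [Group G] [Finite G] [MulAction G Ω] [Finite Ω]
    (F : Fr G Ω) (hκ : Odd F.κ) (ht : ∃ t : G, orderOf t = 2 ∧ 4 ≤ (Fx Ω t).ncard) :
    Nonempty (G ≃* Equiv.Perm (Fin 7)) :=
  caseB_of (fun F _ _ _ _ _ _ _ _ C hj hr h1 h2 h3 =>
    F.caseI F.odd_n (fun _ _ => F.b1b) C hj hr h1 h2 h3) F hκ ht
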