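import Cfsg.Agent.H9.Q4C1

set_option autoImplicit false
set_option linter.unusedSectionVars false

/-! S3404, case B3: configurations of type I. -/

namespace CfsgH9.Q4C

open Subgroup CfsgH5 CfsgH6 CfsgFT CfsgH1.Q4 CfsgL.Q4B

universe u

variable {G : Type u} {Ω : Type*} [Group G] [Finite G] [MulAction G Ω] [Finite Ω]

/-- a configuration of type I: `R ≠ 1` is semiregular on `Φ ∖ {a, b}`. -/
structure T1 (F : BB G Ω) (τ : G) (x y a b : Ω) : Prop extends Cf τ x y a b where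
  hn : Odd (Nat.card Ω)
  ex : ∃ r, F.Rm τ x y a b r ∧ r ≠ 1
  semi : ∀ {r : G} {p : Ω}, F.Rm τ x y a b r → τ • p = p → r • p = p → p ≠ a → p ≠ b → r = 1

variable {F : BB G Ω} {τ j r : G} {x y a b e p : Ω}

theorem rm_iff : F.Rm τ x y a b r ↔ r ∈ F.K {a, b, x, y} ⊓ C1 τ :=
  ⟨fun h => ⟨h.mem, mem_C1.2 h.cm⟩, fun h => ⟨h.1, mem_C1.1 h.2⟩⟩

theorem rm_fix (C : Cf τ x y a b) (hr : F.Rm τ x y a b r) :
    r • a = a ∧ r • b = b ∧ r • x = x ∧ r • y = y := ((F.memK4 C.d4).1 hr.mem).1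

/-- a third point of `Φ` fixed by a non-trivial element of `R` is fixed by all of `I_{ab}`. -/
theorem lemA (C : Cf τ x y a b) (hr : F.Rm τ x y a b r) (r1 : r ≠ 1) (h1 : τ • p = p) (h2 : r • p = p)
    (ha : p ≠ a) (hb : p ≠ b) (hj : In τ x y a b j) : j • p = p := by
  obtain ⟨e1, e2, -⟩ := rm_fix C hr
  rcases eq_of_three (F.Rm_le C hr r1) C.ab ha.symm hb.symm ⟨C.fa, e1⟩ ⟨C.fb, e2⟩ ⟨h1, h2⟩
    ⟨hj.smul h1, fix_of_inv (F.In_inv C hj hr.mem) h2⟩ with e | e | e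
  exacts [absurd (MulAction.injective j (e.trans hj.fa.symm)) ha,
    absurd (MulAction.injective j (e.trans hj.fb.symm)) hb, e]

theorem t1_of (hn : Odd (Nat.card Ω)) (C : Cf τ x y a b) (hj : In τ x y a b j) (hr : F.Rm τ x y a b r)
    (h1 : τ • e = e) (h2 : j • e = e) (h3 : r • e ≠ e) : T1 F τ x y a b := by
  obtain ⟨e1, e2, -⟩ := rm_fix C hr
  refine ⟨C, hn, ⟨r, hr, by rintro rfl; exact h3 (one_smul G e)⟩, fun {s p} hs p1 p2 pa pb => ?_⟩
  by_contra s1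
  have k1 := lemA C hs s1 p1 p2 pa pb hj
  have k2 := lemA C hs s1 p1 p2 pa pb (F.In_mul_R C hj hr)
  rw [mul_smul] at k2
  rcases F.In_fix C hj p1 k1 pa pb h1 h2 with rfl | rfl | rfl
  exacts [h3 e1, h3 e2, h3 (MulAction.injective j (k2.trans k1.symm))]

end CfsgH9.Q4C
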