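import Cfsg.Agent.H9.E7Mod

/-! Finite facts about `S₆` on Coxeter generators. -/

set_option autoImplicit false
set_option maxRecDepth 100000

namespace CfsgH9.E7

open CfsgH3.TC Subgroup

def k720 : List (List ℕ) := [[], [], [6, 8, 10, 4, 6, 8, 2, 4, 6], [], [], [], [10, 8], [6, 8, 10, 4, 6, 8, 2, 4, 6, 2], [8], [10, 4, 6, 8, 2, 4, 6], [], [], [4, 6, 8, 2, 4, 6], [], [8, 4, 6, 2, 4], [], [], [], [], [], [], [], [], [], [], [], [], [], [8, 4, 6], [], [8, 10, 6, 8], [4, 6, 2, 4], [], [8, 10, 4, 6, 8, 2, 4, 6], [], [], [4, 6, 8, 2, 4, 6, 2], [], [10, 4, 6, 8, 2, 4, 6, 2], [6, 8], [10, 8, 2, 4, 6], [], [10, 6, 8], [8, 10, 4, 6, 8, 2, 4, 6, 2], [], [6, 8, 4, 6, 2, 4], [], [], [8, 2, 4, 6], [], [], [], [], [], [], [], [], [], [], [10, 8, 4, 6], [2, 4, 6], [], [], [], [], [], [], [], [], [6, 8, 2, 4], [], [], [10, 6, 8, 2, 4], [], [], [], [], [], [], [], [], [6, 8, 6, 2, 4], [],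 [], [], [], [6, 8, 6], [], [], [], [], [], [], [6], [], [], [], [], [], [], [], [], [], [10, 6], [], [], [], [8, 10, 8, 4, 6], [], [], [], [6, 8, 4], [], [], [], [], [], [], [], [], [6, 8, 10, 4, 6, 8], [2, 4], [], [], [], [], [10, 8, 2, 4], [], [8, 2, 4], [], [10, 6, 8, 2, 4, 6], [], [], [], [], [], [], [], [6, 8, 2, 4, 6], [], [8, 6, 2, 4], [], [], [], [], [], [], [8, 6], [], [], [2, 4, 6, 2], [], [], [], [8, 10, 6, 8, 2, 4, 6], [], [], [], [], [10, 8, 2, 4, 6, 2], [4, 6, 8], [10, 8, 6], [8, 2, 4, 6, 2], [], [], [], [10, 8, 6, 2, 4], [], [10, 4, 6, 8], [8, 10, 6, 8, 2, 4, 6, 2], [], [], [], [10, 8, 6], [8, 6], [], [], [], [], [], [8, 10, 4, 6, 8], [6, 2, 4], [], [], [], [], [6, 8, 2, 4, 6, 2], [], [10, 6, 8, 2, 4, 6, 2], [], [4, 6, 8, 2, 4], [], [], [], [], [], [], [10, 6, 8, 6], [10, 4, 6, 8, 2, 4], [], [], [], [4, 6, 8, 6, 2, 4], [], [], [], [], [], [], [], [6], [], [],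 [], [4, 6], [], [], [], [], [], [], [], [], [], [], [], [], [], [], [10, 4, 6], [], [], [4, 6, 8, 4], [], [], [], [8, 10, 4, 6], [], [], [], [], [], [], [], [], [], [], [8], [], [], [], [], [], [], [], [], [], [], [], [], [8, 4], [], [], [8, 2, 4, 6, 2], [], [], [], [], [], [], [], [], [], [], [], [], [], [], [], [], [4, 6, 8], [], [], [], [], [], [10, 8, 4], [], [10, 4, 6, 8], [], [], [], [], [], [], [], [], [4, 6, 8, 4, 6], [], [], [8, 10, 4, 6, 8], [4], [], [], [4, 6, 2], [], [], [], [], [], [], [], [], [], [8, 10, 4, 6, 2], [], [], [], [], [10, 4, 6, 2], [], [], [], [], [], [], [], [], [4, 6, 8, 6, 4], [], [], [], [], [], [], [], [], [], [], [], [4, 6, 8, 4], [], [], [], [], [4, 6, 8, 4, 6, 2], [], [], [10, 4, 6, 8, 4], [], [], [], [], [], [], [], [], [], [4, 6, 8, 2, 4], [], [4, 6, 8, 10, 2, 4, 6, 8], [], [], [], [], [], [10, 8], [], [8], [], [], [], [], [], [8], [],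 [], [], [], [], [], [], [], [], [], [], [], [], [], [8, 2, 4, 6], [8, 10, 6, 8], [], [], [], [], [], [], [], [], [6, 8], [], [10, 8, 4, 6], [10, 6, 8], [], [], [6, 8], [], [], [], [], [], [], [], [], [8, 4, 6], [], [], [], [6, 8, 4, 6], [], [], [], [], [6, 2], [], [], [], [], [], [], [], [], [], [10, 6, 2], [], [], [], [], [], [], [6, 8, 6, 2], [], [], [], [], [], [], [6, 8, 6, 4], [], [], [4, 6], [], [], [], [], [], [], [], [], [6, 8, 4], [], [], [10, 6, 8, 4], [], [], [], [6, 8, 4, 6, 2], [], [], [], [], [], [], [], [], [], [], [6, 8, 2, 4], [], [], [2], [], [2], [], [], [], [], [8, 2], [], [], [], [10, 6, 8, 4, 6], [], [], [], [], [], [], [], [], [], [8, 6, 2], [], [], [6, 8, 4, 6], [], [8, 6, 4], [], [], [], [], [], [], [], [], [8, 10, 6, 8, 4, 6], [], [], [], [], [10, 8, 6, 2], [2, 4, 6, 8], [], [], [], [], [], [10, 8, 6, 4], [8, 6, 2], [], [], [], [10, 8, 6, 2], [],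 [10, 2, 4, 6, 8], [8, 10, 6, 8, 4, 6, 2], [], [], [], [], [6, 2], [], [], [], [], [], [], [], [], [], [], [2, 4, 6, 8, 2, 4], [], [], [], [], [10, 6, 8, 6, 2], [], [], [], [], [], [], [10, 6, 8, 6, 4], [8, 10, 6, 8, 4], [], [], [], [], [], [8, 10, 2, 4, 6, 8], [6, 4], [], [], [], [2, 4, 6], [6, 8, 4, 6, 2], [], [10, 6, 8, 4, 6, 2], [], [], [], [], [], [], [], [], [], [], [], [8, 10, 2, 4, 6], [], [], [10, 6, 8, 2, 4], [], [10, 2, 4, 6], [], [], [], [], [6, 8, 10, 2, 4, 6, 8], [4], [], [], [], [], [10, 8, 4], [], [8, 4], [], [], [], [], [], [], [], [], [], [], [], [], [], [8, 4, 6, 2], [], [], [], [8, 2, 4], [], [], [], [4, 6, 2], [], [], [], [], [], [], [], [], [10, 8, 4, 6, 2], [], [2, 4, 6, 8], [8, 4, 6, 2], [], [], [], [], [10, 8, 2, 4], [], [], [], [10, 8, 4, 6, 2], [], [], [10, 2, 4, 6, 8], [], [], [], [], [], [], [], [], [], [], [2, 4, 6, 2], [], [], [], [], [], [],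 [], [], [], [8, 10, 8, 4, 6, 2], [], [], [], [], [], [], [], [], [], [10, 2, 4, 6, 2], [], [], [], [2, 4, 6, 8, 6, 4], [8, 10, 2, 4, 6, 8], [2, 4], [], [], [], [], [], [], [], [], [], [2, 4, 6, 8, 4], [], [], [8, 10, 2, 4, 6, 2], [], [], [], [], [], [], [], [], [], [10, 2, 4, 6, 8, 4], [], [], [], [], [2, 4, 6, 8, 2, 4]]

def z30 : List (List ℕ) := [[10], [8, 10, 8], [6, 8, 10, 8, 6], [10, 8, 10, 8, 10], [4, 6, 8, 10, 8, 6, 4], [10, 6, 8, 10, 8, 6, 10], [2, 4, 6, 8, 10, 8, 6, 4, 2], [10, 4, 6, 8, 10, 8, 6, 4, 10], [8, 10, 6, 8, 10, 8, 6, 10, 8], [10, 2, 4, 6, 8, 10, 8, 6, 4, 2, 10], [8, 10, 4, 6, 8, 10, 8, 6, 4, 10, 8], [8, 10, 2, 4, 6, 8, 10, 8, 6, 4, 2, 10, 8], [6, 8, 10, 4, 6, 8, 10, 8, 6, 4, 10, 8, 6], [6, 8, 10, 2, 4, 6, 8, 10, 8, 6, 4, 2, 10, 8, 6], [4, 6, 8, 10, 2, 4, 6, 8, 10, 8, 6, 4, 2, 10, 8, 6, 4], [2, 6, 10], [4, 2, 6, 10, 4], [8, 2, 6, 10, 8], [2, 4, 2, 6, 10,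 4, 2], [8, 4, 2, 6, 10, 4, 8], [6, 8, 2, 6, 10, 8, 6], [8, 2, 4, 2, 6, 10, 4, 2, 8], [6, 8, 4, 2, 6, 10, 4, 8, 6], [10, 8, 4, 2, 6, 10, 4, 8, 10], [6, 8, 2, 4, 2, 6, 10, 4, 2, 8, 6], [10, 8, 2, 4, 2, 6, 10, 4, 2, 8, 10], [4, 6, 8, 4, 2, 6, 10, 4, 8, 6, 4], [4, 6, 8, 2, 4, 2, 6, 10, 4, 2, 8, 6, 4], [10, 6, 8, 2, 4, 2, 6, 10, 4, 2, 8, 6, 10], [2, 4, 6, 8, 2, 4, 2, 6, 10, 4, 2, 8, 6, 4, 2]]

def sub8 : List (List ℕ) := [[], [0], [1], [0, 1], [2], [0, 2], [1, 2], [0, 1, 2]]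

theorem chkU : eM.allC e7_lv5 (fun g => bimp (eM.cm g (wc [2])) (bimp (eM.cm g (wc [10]))
    (bimp (eM.o3 (eM.mul g (wc [8]))) (bor (Nat.beq g (wc [6]))
      (band (Nat.beq g (wc [10])) (bnot (eM.o3 (eM.mul g (wc [4]))))))))) = true := by
  decide +kernel

theorem chkI : allLt 720 (fun i => (fun g k => bimp (eM.o2 g) (bor (Nat.beq g eM.one)
    (bor (Nat.beq (eM.mul k (wc [10])) (eM.mul g k)) (bor (Nat.beq (eM.mul k (wc [2, 10])) (eM.mul g k))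
      (band (Nat.beq (eM.mul k (wc [2, 6, 10])) (eM.mul g k)) (bimp (eM.cm g (wc [10]))
        (memL ([[2, 6], [4, 2, 6, 4], [2, 6, 4, 2, 6, 4]].map (eM.wcode e7T)) (eM.mul g (wc [10])))))))))
    (eM.elt e7_lv5 i) (wc (k720.getD i []))) = true := by
  decide +kernel

theorem chkP : allLt 720 (fun i => (fun g k => bimp (eM.o3 g) (bor (Nat.beq g eM.one)
    (bor (Nat.beq (eM.mul k (wc [2, 4])) (eM.mul g k)) (Nat.beq (eM.mul k (wc [2, 4, 8, 10])) (eM.mul g k)))))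
    (eM.elt e7_lv5 i) (wc (k720.getD i []))) = true := by
  decide +kernel

theorem chkV : eM.allC e7_lv5 (fun g => bimp (eM.cm g (wc [2, 6])) (bimp (eM.cm g (wc [4, 2, 6, 4]))
    (bimp (eM.cm g (wc [10]))
      (memL ((sub8.map (blk [[2, 6], [4, 2, 6, 4], [10]])).map (eM.wcode e7T)) g)))) = true := by
  decide +kernel

theorem chkE : eM.allC e7_lv5 (fun g => bimp (eM.cm g (wc [10]))
    (band (Nat.beq (eM.pow 5 g 12) eM.one) (bor (memL ([[], [10]].map (eM.wcode e7T)) g)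
      (bor (memL ([[2, 6], [2, 6, 10]].map (eM.wcode e7T)) g)
      (bor (memL ([[2, 6], [2, 6, 10]].map (eM.wcode e7T)) (eM.mul (eM.mul (wc [2, 4]) g) (wc [5, 3])))
      (bor (memL ([[2, 6], [2, 6, 10]].map (eM.wcode e7T)) (eM.mul (eM.mul (wc [5, 3]) g) (wc [2, 4])))
      ((fun y => band (bnot (Nat.beq y eM.one)) (eM.o3 y))
        (eM.mul g (eM.mul (eM.mul (wc [2, 4]) g) (wc [5, 3])))))))))) = true := by
  decide +kernel

theorem chkC : eM.allC e7_lv5 (fun g => band (bimp (eM.cm g (wc [2])) (bimp (eM.cm g (wc [4]))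
    (bimp (eM.cm g (wc [6])) (memL ([[], [10]].map (eM.wcode e7T)) g))))
    (band (bimp (bor (eM.cm g (wc [2, 10])) (eM.cm g (wc [2, 10, 4, 8, 6, 8, 4, 10, 2, 4, 8, 6, 8, 4])))
      (eM.o2 (eM.mul g g)))
    (bimp (eM.cm g (wc [6])) (bimp (eM.cm g (wc [2, 10, 4, 8, 6, 8, 4, 10, 2]))
      (bimp (eM.cm g (wc [4, 8, 6, 8, 4])) (memL ((sub8.map (blk [[6], [2, 10, 4, 8, 6, 8, 4, 10, 2],
        [4, 8, 6, 8, 4]])).map (eM.wcode e7T)) g)))))) = true := by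
  decide +kernel

noncomputable def tupF (p : ℕ) : Bool := eM.allC e7_lv5 fun q => bimp (eM.cm p q) (bimp (eM.o3 q)
  (bor (memL [eM.one, p, eM.mul p p] q) (eM.allC e7_lv5 fun s => bimp (eM.o2 s) (bimp (eM.cm s q)
    (bimp (eM.o2 (eM.mul s p)) (eM.allC e7_lv5 fun t => bimp (eM.o2 t) (bimp (eM.cm s t)
      (bimp (eM.cm t p) (bimp (eM.o2 (eM.mul t q)) (anyL (z30.map (eM.wcode e7T)) fun z =>
        band (eM.cm s z) (band (eM.cm z t) (band (eM.o3 (eM.mul (eM.mul s p) z))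
          (band (eM.o3 (eM.mul z (eM.mul t q))) (eM.o2 z))))))))))))))

theorem chkT0 : tupF (wc [2, 4]) = true := by decide +kernel

theorem chkT1 : tupF (wc [2, 4, 8, 10]) = true := by decide +kernel

variable {G : Type*} [Group G]

theorem repw {n : ℕ} {val : ℕ → G} {ψ : gcl e7val n →* G} (h : WM eM e7T e7val 8 n val ψ) {g : G}
    (w : List ℕ) (hw : ∀ c ∈ w, c < 2 * n + 2) (e : wval val w = g) : Rep eM ψ g (wc w) :=
  e ▸ h.rep w hw

theorem rep1 {n : ℕ} {val : ℕ → G} {ψ : gcl e7val n →* G} (h : WM eM e7T e7val 8 n val ψ) (i : ℕ)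
    (hw : ∀ c ∈ [2 * i], c < 2 * n + 2) : Rep eM ψ (val i) (wc [2 * i]) :=
  repw h _ hw (wval_single _ _)

/-- the subgroup generated by five elements -/
def K6 (a b c d e : G) : Subgroup G := gcl (lv [a, b, c, d, e]) 5

theorem K6_le {a b c d e : G} {K : Subgroup G} (h1 : a ∈ K) (h2 : b ∈ K) (h3 : c ∈ K) (h4 : d ∈ K)
    (h5 : e ∈ K) : K6 a b c d e ≤ K := gcl_le fun i _ _ => by interval_cases i <;> assumption

theorem mem_K6 (a b c d e : G) : a ∈ K6 a b c d e ∧ b ∈ K6 a b c d e ∧ c ∈ K6 a b c d e ∧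
    d ∈ K6 a b c d e ∧ e ∈ K6 a b c d e :=
  ⟨mem_gcl (a := 1) (by norm_num) (by norm_num), mem_gcl (a := 2) (by norm_num) (by norm_num),
    mem_gcl (a := 3) (by norm_num) (by norm_num), mem_gcl (a := 4) (by norm_num) (by norm_num),
    mem_gcl (a := 5) (by norm_num) (by norm_num)⟩

theorem K6_symm (a b c d e : G) : K6 e d c b a = K6 a b c d e := by
  obtain ⟨h1, h2, h3, h4, h5⟩ := mem_K6 a b c d e
  obtain ⟨k1, k2, k3, k4, k5⟩ := mem_K6 e d c b a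
  exact le_antisymm (K6_le h5 h4 h3 h2 h1) (K6_le k5 k4 k3 k2 k1)

/-- an elementary abelian group of order nine with two commuting reflections -/
structure Tup (p q s t : G) : Prop where
  p3 : p ^ 3 = 1
  q3 : q ^ 3 = 1
  pq : p * q = q * p
  p1 : p ≠ 1
  ind : q ∉ zpowers p
  ss : s * s = 1
  tt : t * t = 1
  st : s * t = t * s
  sp : s * p * (s * p) = 1
  sq : s * q = q * s
  tp : t * p = p * t
  tq : t * q * (t * q) = 1

theorem Tup.conj {p q s t : G} (h : Tup p q s t) (g : G) :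
    Tup (g * p * g⁻¹) (g * q * g⁻¹) (g * s * g⁻¹) (g * t * g⁻¹) := by
  refine ⟨?_, ?_, ?_, ?_, fun e => h.ind ?_, ?_, ?_, ?_, ?_, ?_, ?_, ?_⟩
  on_goal 5 =>
    obtain ⟨n, e⟩ := mem_zpowers_iff.1 e
    rw [conj_zpow, mul_left_inj, mul_right_inj] at e
    exact e ▸ zpow_mem (mem_zpowers p) n
  all_goals simp only [conj_mul, conj_pow, ne_eq, conj_eq_one_iff, h.p3, h.q3, h.pq, h.p1, h.ss, h.tt,
    h.st, h.sp, h.sq, h.tp, h.tq, not_false_eq_true]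

theorem Tup.s6 {p q s t z : G} (h : Tup p q s t) (h0 : z * z = 1) (h1 : s * z = z * s)
    (h2 : z * t = t * z) (h3 : (s * p * z) ^ 3 = 1) (h4 : (z * (t * q)) ^ 3 = 1) :
    S6 s (s * p) z (t * q) t := by
  have c1 : Commute s t := h.st
  have c2 : Commute s q := h.sq
  have c3 : Commute p t := h.tp.symm
  have c4 : Commute p q := h.pq
  have e1 : s * (s * p) = p := by rw [← mul_assoc, h.ss, one_mul]
  refine ⟨h.ss, h.sp, h0, h.tq, h.tt, by rw [e1, h.p3], h3, h4, cube_symm ?_, h1, c1.mul_right c2, c1,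
    (c1.mul_right c2).mul_left (c3.mul_right c4), c1.mul_left c3, h2, e1.symm ▸ h.p1⟩
  rw [← mul_assoc, h.tt, one_mul, h.q3]

variable [Finite G]

namespace S6

variable {a b c d e : G} (h : S6 a b c d e)
include h

theorem wm : ∃ ψ, WM eM e7T e7val 8 5 (lv [a, b, c, d, e]) ψ ∧ Function.Injective ψ :=
  exists_wm5 rfl h

omit [Finite G] in
theorem card_K6 : Nat.card (K6 a b c d e) = 720 := S6.card (val := lv [a, b, c, d, e]) h

theorem eqw (w w' : List ℕ) (hw : (∀ c ∈ w, c < 2 * 5 + 2) ∧ ∀ c ∈ w', c < 2 * 5 + 2)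
    (e1 : Nat.beq (wc w) (wc w') = true) :
    wval (lv [a, b, c, d, e]) w = wval (lv [a, b, c, d, e]) w' := by
  obtain ⟨ψ, hψ, -⟩ := h.wm
  exact hψ.eq_of w w' hw e1

theorem new (w w' : List ℕ) (hw : (∀ c ∈ w, c < 2 * 5 + 2) ∧ ∀ c ∈ w', c < 2 * 5 + 2)
    (e1 : bnot (Nat.beq (wc w) (wc w')) = true) :
    wval (lv [a, b, c, d, e]) w ≠ wval (lv [a, b, c, d, e]) w' := by
  obtain ⟨ψ, hψ, hi⟩ := h.wm
  exact (hψ.rep w hw.1).ne hi (hψ.rep w' hw.2) e1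

theorem uniq {g : G} (hg : g ∈ K6 a b c d e) (h1 : g * a = a * g) (h2 : g * e = e * g)
    (h3 : (g * d) ^ 3 = 1) : g = c ∨ (g = e ∧ (g * b) ^ 3 ≠ 1) := by
  obtain ⟨ψ, hψ, hi⟩ := h.wm
  obtain ⟨x, hx, e1⟩ := hψ.all le_rfl e7_ch5 chkU hg
  have r := rep1 hψ
  refine (bor_iff.1 (bimp_iff.1 (bimp_iff.1 (bimp_iff.1 e1 (hx.cm hi (r 1 (by decide)) h1))
    (hx.cm hi (r 5 (by decide)) h2)) ((hx.mul (r 4 (by decide))).o3 hi h3))).imp
    (hx.eq' (r 3 (by decide))) fun e2 => ⟨hx.eq' (r 5 (by decide)) (band_iff.1 e2).1, fun e3 =>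
      bnot_iff.1 (band_iff.1 e2).2 ((hx.mul (r 2 (by decide))).o3 hi e3)⟩

theorem invol {g : G} (hg : g ∈ K6 a b c d e) (h1 : g * g = 1) : g = 1 ∨ ∃ k ∈ K6 a b c d e,
    k * e * k⁻¹ = g ∨ k * (a * e) * k⁻¹ = g ∨ (k * (a * c * e) * k⁻¹ = g ∧ (g * e = e * g →
      g * e = a * c ∨ g * e = b * (a * c) * b ∨ g * e = a * c * (b * (a * c) * b))) := by
  obtain ⟨ψ, hψ, hi⟩ := h.wm
  obtain ⟨i, h2, hx⟩ := rep_of_chain e7_ch5 (n := 720) (by decide +kernel) ((hψ.imS_gcl le_rfl).ge hg)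
  have hk := getD_lt (n := 2 * 5 + 2) (Ws := k720) (by decide +kernel) i
  have rk := hψ.rep _ hk
  refine (bor_iff.1 (bimp_iff.1 (allLt_iff.1 chkI i h2) (hx.o2 hi h1))).imp (hx.eq' Rep.one)
    fun e1 => ⟨_, hψ.mem _ hk, ?_⟩
  have re : Rep eM ψ e (wc [10]) := rep1 hψ 5 (by decide)
  refine (bor_iff.1 e1).imp (rk.conj re hx) fun e1 => (bor_iff.1 e1).imp (fun e1 => ?_) fun e1 =>
    ⟨?_, fun e2 => ?_⟩
  · simpa [sval, lv] using rk.conj (hψ.rep [2, 10] (by decide)) hx e1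
  · simpa [sval, lv, mul_assoc] using rk.conj (hψ.rep [2, 6, 10] (by decide)) hx (band_iff.1 e1).1
  · simpa [sval, lv, mul_assoc] using hψ.of_memL _ (by decide) (hx.mul re)
      (bimp_iff.1 (band_iff.1 e1).2 (hx.cm hi re e2))

theorem cent_V {g : G} (hg : g ∈ K6 a b c d e) (h1 : g * (a * c) = a * c * g)
    (h2 : g * (b * (a * c) * b) = b * (a * c) * b * g) (h3 : g * e = e * g) {K : Subgroup G}
    (k1 : a * c ∈ K) (k2 : b * (a * c) * b ∈ K) (k3 : e ∈ K) : g ∈ K := by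
  obtain ⟨ψ, hψ, hi⟩ := h.wm
  obtain ⟨x, hx, e1⟩ := hψ.all le_rfl e7_ch5 chkV hg
  obtain ⟨w, hw, rfl⟩ := hψ.of_memL _ (by decide) hx (bimp_iff.1 (bimp_iff.1 (bimp_iff.1 e1
    (hx.cm hi (hψ.rep [2, 6] (by decide)) (by simpa [sval, lv] using h1)))
    (hx.cm hi (hψ.rep [4, 2, 6, 4] (by decide)) (by simpa [sval, lv, mul_assoc] using h2)))
    (hx.cm hi (hψ.rep [10] (by decide)) (by simpa [sval, lv] using h3)))
  obtain ⟨l, -, rfl⟩ := List.mem_map.1 hw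
  exact wval_blk_mem (by simpa [sval, lv, mul_assoc] using And.intro k1 (And.intro k2 k3)) l

theorem cent_e {g : G} (hg : g ∈ K6 a b c d e) (h1 : g * e = e * g) : g ^ 12 = 1 ∧
    ((g = 1 ∨ g = e) ∨ (∃ k, (k = g ∨ k = a * b * g * (a * b)⁻¹ ∨ k = (a * b)⁻¹ * g * (a * b)) ∧
      (k = a * c ∨ k = a * c * e)) ∨
      (g * (a * b * g * (a * b)⁻¹) ≠ 1 ∧ (g * (a * b * g * (a * b)⁻¹)) ^ 3 = 1)) := by
  obtain ⟨ψ, hψ, hi⟩ := h.wm
  obtain ⟨x, hx, e1⟩ := hψ.all le_rfl e7_ch5 chkE hg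
  obtain ⟨e2, e3⟩ := band_iff.1 (bimp_iff.1 e1 (hx.cm hi (hψ.rep [10] (by decide))
    (by simpa [sval, lv] using h1)))
  have rp : Rep eM ψ (a * b) (wc [2, 4]) := repw hψ _ (by decide) (by simp [sval, lv])
  have ri : Rep eM ψ (a * b)⁻¹ (wc [5, 3]) := repw hψ _ (by decide) (by simp [sval, lv])
  have key : ∀ {k y}, Rep eM ψ k y → memL ([[2, 6], [2, 6, 10]].map (eM.wcode e7T)) y = true →
      k = a * c ∨ k = a * c * e := fun hk e => by
    simpa [sval, lv, mul_assoc] using hψ.of_memL _ (by decide) hk e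
  refine ⟨(hx.pow 5 12 (by norm_num) (by norm_num)).eq' Rep.one e2, (bor_iff.1 e3).imp (fun e4 => ?_)
    fun e4 => ?_⟩
  · simpa [sval, lv] using hψ.of_memL _ (by decide) hx e4
  rcases bor_iff.1 e4 with e4 | e4
  · exact Or.inl ⟨_, Or.inl rfl, key hx e4⟩
  rcases bor_iff.1 e4 with e4 | e4
  · exact Or.inl ⟨_, Or.inr (Or.inl rfl), key ((rp.mul hx).mul ri) e4⟩
  rcases bor_iff.1 e4 with e4 | e4
  · exact Or.inl ⟨_, Or.inr (Or.inr rfl), key ((ri.mul hx).mul rp) e4⟩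
  · have r := hx.mul ((rp.mul hx).mul ri)
    exact Or.inr ⟨r.ne hi Rep.one (band_iff.1 e4).1, r.of_o3 (band_iff.1 e4).2⟩

theorem cent_abc {g : G} (hg : g ∈ K6 a b c d e) (h1 : g * a = a * g) (h2 : g * b = b * g)
    (h3 : g * c = c * g) : g = 1 ∨ g = e := by
  obtain ⟨ψ, hψ, hi⟩ := h.wm
  obtain ⟨x, hx, e1⟩ := hψ.all le_rfl e7_ch5 chkC hg
  have r := rep1 hψ
  simpa [sval, lv] using hψ.of_memL _ (by decide) hx (bimp_iff.1 (bimp_iff.1 (bimp_iff.1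
    (band_iff.1 e1).1 (hx.cm hi (r 1 (by decide)) h1)) (hx.cm hi (r 2 (by decide)) h2))
    (hx.cm hi (r 3 (by decide)) h3))

theorem cent_ae {g : G} (hg : g ∈ K6 a b c d e) (h1 : g * (a * e) = a * e * g ∨
    g * (a * e * (b * d * c * d * b) * e * a * (b * d * c * d * b)) =
      a * e * (b * d * c * d * b) * e * a * (b * d * c * d * b) * g) : g ^ 4 = 1 := by
  obtain ⟨ψ, hψ, hi⟩ := h.wm
  obtain ⟨x, hx, e1⟩ := hψ.all le_rfl e7_ch5 chkC hg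
  rw [show (4 : ℕ) = 2 * 2 by rfl, pow_mul, pow_two, pow_two]
  exact (hx.mul hx).of_o2 (bimp_iff.1 (band_iff.1 (band_iff.1 e1).2).1 (bor_iff.2 (h1.imp
    (fun e => hx.cm hi (hψ.rep _ (by decide)) (by simpa [sval, lv] using e))
    fun e => hx.cm hi (hψ.rep _ (by decide)) (by simpa [sval, lv, mul_assoc] using e))))

theorem cent_U {g : G} (hg : g ∈ K6 a b c d e) (h1 : g * c = c * g)
    (h2 : g * (a * e * (b * d * c * d * b) * e * a) = a * e * (b * d * c * d * b) * e * a * g)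
    (h3 : g * (b * d * c * d * b) = b * d * c * d * b * g) {K : Subgroup G} (k1 : c ∈ K)
    (k2 : a * e * (b * d * c * d * b) * e * a ∈ K) (k3 : b * d * c * d * b ∈ K) : g ∈ K := by
  obtain ⟨ψ, hψ, hi⟩ := h.wm
  obtain ⟨x, hx, e1⟩ := hψ.all le_rfl e7_ch5 chkC hg
  obtain ⟨w, hw, rfl⟩ := hψ.of_memL _ (by decide) hx (bimp_iff.1 (bimp_iff.1 (bimp_iff.1
    (band_iff.1 (band_iff.1 e1).2).2
    (hx.cm hi (hψ.rep [6] (by decide)) (by simpa [sval, lv] using h1)))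
    (hx.cm hi (hψ.rep _ (by decide)) (by simpa [sval, lv, mul_assoc] using h2)))
    (hx.cm hi (hψ.rep _ (by decide)) (by simpa [sval, lv, mul_assoc] using h3)))
  obtain ⟨l, -, rfl⟩ := List.mem_map.1 hw
  exact wval_blk_mem (by simpa [sval, lv, mul_assoc] using And.intro k1 (And.intro k2 k3)) l

theorem eq_one_of_cent {g : G} (hg : g ∈ K6 a b c d e) (h1 : g * a = a * g) (h2 : g * b = b * g)
    (h3 : g * c = c * g) (h4 : g * d = d * g) : g = 1 :=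
  (h.cent_abc hg h1 h2 h3).resolve_right fun e1 => by
    have := h.new [10, 8] [8, 10] (by decide) (by decide +kernel)
    exact this (by simpa [sval, lv, e1] using h4)

theorem ne_ed : e * d ≠ 1 := by
  simpa [sval, lv] using h.new [10, 8] [] (by decide) (by decide +kernel)

theorem exists_z (ht : K6 a b c d e = ⊤) {p q s t : G} (hT : Tup p q s t) :
    ∃ z, S6 s (s * p) z (t * q) t := by
  obtain ⟨ψ, hψ, hi⟩ := h.wm
  have hm : ∀ g, g ∈ imS ψ (gcl e7val 5) := fun g => by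
    rw [hψ.imS_gcl le_rfl]; exact ht.ge (mem_top g)
  have key : ∀ {p q s t : G} {cp : ℕ}, Rep eM ψ p cp → tupF cp = true → Tup p q s t →
      ∃ z, S6 s (s * p) z (t * q) t := by
    intro p q s t cp rp e1 hT
    obtain ⟨cq, rq, e1⟩ := rep_of_allC e7_ch5 e1 (hm q)
    rcases bor_iff.1 (bimp_iff.1 (bimp_iff.1 e1 (rp.cm hi rq hT.pq)) (rq.o3 hi hT.q3)) with e1 | e1
    · refine absurd ?_ hT.ind
      simp only [memL_iff, List.mem_cons, List.not_mem_nil, or_false] at e1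
      rcases e1 with rfl | rfl | rfl
      · exact rq.eq Rep.one ▸ one_mem _
      · exact rq.eq rp ▸ mem_zpowers _
      · exact rq.eq (rp.mul rp) ▸ mul_mem (mem_zpowers _) (mem_zpowers _)
    obtain ⟨cs, rs, e1⟩ := rep_of_allC e7_ch5 e1 (hm s)
    obtain ⟨ct, rt, e1⟩ := rep_of_allC e7_ch5 (bimp_iff.1 (bimp_iff.1 (bimp_iff.1 e1 (rs.o2 hi hT.ss))
      (rs.cm hi rq hT.sq)) ((rs.mul rp).o2 hi hT.sp)) (hm t)
    obtain ⟨cz, hz, e1⟩ := anyL_iff.1 (bimp_iff.1 (bimp_iff.1 (bimp_iff.1 (bimp_iff.1 e1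
      (rt.o2 hi hT.tt)) (rs.cm hi rt hT.st)) (rt.cm hi rp hT.tp)) ((rt.mul rq).o2 hi hT.tq))
    obtain ⟨w, hw, rfl⟩ := List.mem_map.1 hz
    have rz := hψ.rep w ((by decide : WLt 5 z30) w hw)
    simp only [band_iff] at e1
    exact ⟨_, hT.s6 (rz.of_o2 e1.2.2.2.2) (rs.comm rz e1.1) (rz.comm rt e1.2.1)
      (((rs.mul rp).mul rz).of_o3 e1.2.2.1) ((rz.mul (rt.mul rq)).of_o3 e1.2.2.2.1)⟩
  obtain ⟨i, h2, hx⟩ := rep_of_chain e7_ch5 (n := 720) (by decide +kernel) (hm p)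
  have rk := hψ.rep _ (getD_lt (n := 2 * 5 + 2) (Ws := k720) (by decide +kernel) i)
  have e1 := (bor_iff.1 (bimp_iff.1 (allLt_iff.1 chkP i h2) (hx.o3 hi hT.p3))).resolve_left
    fun e => hT.p1 (hx.eq' Rep.one e)
  generalize wval (lv [a, b, c, d, e]) (k720.getD i []) = k at rk
  have h3 : ∃ z, S6 (k⁻¹ * s * k⁻¹⁻¹) (k⁻¹ * s * k⁻¹⁻¹ * (k⁻¹ * p * k⁻¹⁻¹)) z
      (k⁻¹ * t * k⁻¹⁻¹ * (k⁻¹ * q * k⁻¹⁻¹)) (k⁻¹ * t * k⁻¹⁻¹) := by
    rcases bor_iff.1 e1 with e1 | e1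
    · refine key (repw hψ _ (by decide) ?_) chkT0 (hT.conj k⁻¹)
      rw [← rk.conj (hψ.rep [2, 4] (by decide)) hx e1]; group
    · refine key (repw hψ _ (by decide) ?_) chkT1 (hT.conj k⁻¹)
      rw [← rk.conj (hψ.rep [2, 4, 8, 10] (by decide)) hx e1]; group
  obtain ⟨z, h3⟩ := h3
  exact ⟨k * z * k⁻¹, by simpa [mul_assoc] using h3.conj k⟩

end S6

theorem exists_z_of_perm (φ : G ≃* Equiv.Perm (Fin 6)) {p q s t : G} (hT : Tup p q s t) :
    ∃ z, S6 s (s * p) z (t * q) t ∧ K6 s (s * p) z (t * q) t = ⊤ := by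
  have hc : Nat.card G = 720 := by
    rw [Nat.card_congr φ.toEquiv, Nat.card_perm]; simp [Nat.factorial]
  have ht : ∀ {a b c d e : G}, S6 a b c d e → K6 a b c d e = ⊤ := fun h =>
    eq_of_le_of_card_ge le_top (by rw [card_top, hc, h.card_K6])
  have h : S6 (φ.symm (adjSwap 5 0)) (φ.symm (adjSwap 5 1)) (φ.symm (adjSwap 5 2))
      (φ.symm (adjSwap 5 3)) (φ.symm (adjSwap 5 4)) := by
    constructor <;> simp only [← map_mul, ← map_pow, ne_eq, map_eq_one_iff _ φ.symm.injective,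
      φ.symm.injective.eq_iff] <;> decide
  obtain ⟨z, hz⟩ := h.exists_z (ht h) hT
  exact ⟨z, hz, ht hz⟩

end CfsgH9.E7
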