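import Cfsg.Agent.H9.SE1

set_option autoImplicit false
set_option linter.unusedSectionVars false
set_option maxHeartbeats 400000

/-! SE library, part 2: the group `E_α`, bad elements, orders of two-point stabilisers,
S-configurations, one `Fix2` pair gives 2-transitivity, quotients. -/

namespace CfsgSE

open Subgroup CfsgH5 CfsgH6 CfsgFT CfsgSZ CfsgSZ.PS

universe u

variable {G Ω : Type u} [Group G] [Finite G] [MulAction G Ω]
  {α β γ δ ε : Ω} {X X' Y R T V : Subgroup G} {u s d t x y z j k g : G} {p r : ℕ}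

variable (G) in
/-- the subgroup generated by the involutions fixing `α`. -/
def EE (α : Ω) : Subgroup G := closure {t : G | Iv t ∧ t • α = α}

theorem mem_EE (h : Iv t) (h1 : t • α = α) : t ∈ EE G α := subset_closure ⟨h, h1⟩
theorem EE_le_iff : EE G α ≤ X ↔ ∀ t : G, Iv t → t • α = α → t ∈ X :=
  (closure_le _).trans ⟨fun h t a b => h (show t ∈ {t : G | Iv t ∧ t • α = α} from ⟨a, b⟩),
    fun h t a => h t a.1 a.2⟩
theorem EE_le : EE G α ≤ St G α := EE_le_iff.2 fun _ _ h => h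
theorem cj_EE (g : G) (α : Ω) : cj g (EE G α) = EE G (g • α) := by
  have a : ∀ (g : G) (α : Ω), EE G α ≤ cj g⁻¹ (EE G (g • α)) := fun g α =>
    EE_le_iff.2 fun t h1 h2 => mem_cj.2 (by
      simpa using mem_EE (h1.conj g) (conj_smul h2 g))
  refine le_antisymm (cj_le_iff.2 (a g α)) ?_
  simpa using a g⁻¹ (g • α)
theorem nrm_EE (α : Ω) : Nrm (St G α) (EE G α) :=
  nrm_of_le_N fun g hg => by rw [CfsgFT.mem_N, cj_EE, show g • α = α from hg]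

/-- if the elements inverted by `y` in `X ≤ X'` are equally many, `X' = X C_{X'}(y)`. -/
theorem le_sup_of_idx (hy : y * y = 1) (h : X ≤ X') (h1 : y ∈ N X) (h2 : y ∈ N X')
    (ho : Odd (Nat.card X')) (hi : (C1 y).relIndex X' ≤ (C1 y).relIndex X) :
    X' ≤ X ⊔ C1 y := fun g hg => by
  have ho' : Odd (Nat.card X) := ho.of_dvd_nat (card_dvd_of_le h)
  rw [← pt_ncard_inv hy h2 ho, ← pt_ncard_inv hy h1 ho'] at hi
  have e := Set.eq_of_subset_of_ncard_le (s := {k | k ∈ X ∧ y * k * y⁻¹ = k⁻¹})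
    (t := {k | k ∈ X' ∧ y * k * y⁻¹ = k⁻¹}) (fun k hk => ⟨h hk.1, hk.2⟩) hi (Set.toFinite _)
  have a : g * y * g⁻¹ * y ∈ X := (e.ge ⟨pt_comm_mem hy h2 hg, pt_inv_comm hy g⟩).1
  obtain ⟨c, c1, c2⟩ := pt_conj_of_inv' (pt_inv_comm hy g) (pt_odd_mem ho' a)
  rw [mul_assoc, hy, mul_one] at c2
  have b : c⁻¹ * g ∈ C1 y := mem_C1_iff_conj.2 (by
    rw [show c⁻¹ * g * y * (c⁻¹ * g)⁻¹ = c⁻¹ * (g * y * g⁻¹) * c by group, c2]; group)
  have := mul_mem (mem_sup_left (zpowers_le.2 a c1) : c ∈ X ⊔ C1 y) (mem_sup_right b)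
  simpa using this

theorem pow_le_of_not_dvd (hp : p.Prime) {a b m : ℕ} (ha : ∃ i, a = p ^ i) (hb : ∃ i, b = p ^ i)
    (h1 : a ∣ m) (h2 : ¬ p * b ∣ m) : a ≤ b := by
  obtain ⟨i, rfl⟩ := ha
  obtain ⟨j, rfl⟩ := hb
  by_contra! e
  have := (Nat.pow_lt_pow_iff_right hp.one_lt).1 e
  exact h2 ((show p * p ^ j ∣ p ^ i by rw [← pow_succ']; exact pow_dvd_pow p this).trans h1)

namespace SE

variable (S : SE G Ω)
include S

/-- bad elements: inverted by one involution and centralised by another one. -/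
theorem N_le_of_bad (ht : Iv t) (h1 : t • α = α) (k1 : k ≠ 1) (ho : Odd (orderOf k))
    (h : t * k * t⁻¹ = k⁻¹) (hs : Iv s) (hc : k * s = s * k) : N (zpowers k) ≤ St G α := by
  by_contra e
  have a : s ∈ C (zpowers k) := by rw [C_zpowers, mem_C1, hc]
  have b : t ∈ N (zpowers k) := mem_N_of_conj fun x hx => pt_inv_zp h hx ▸ inv_mem hx
  obtain ⟨c, c1, c2⟩ := S.conj_of_not_le ht b h1 e hs ht (C_le_N _ a) b
  have := conj_mem_of_mem_N ((nrm_N_C _).le_N c1) a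
  rw [c2, C_zpowers, mem_C1_iff_conj, h] at this
  exact k1 (pt_eq_one ho (by nth_rewrite 1 [← this]; exact inv_mul_cancel k))

theorem C1_le_of_bad (ht : Iv t) (h1 : t • α = α) (k1 : k ≠ 1) (ho : Odd (orderOf k))
    (h : t * k * t⁻¹ = k⁻¹) (hs : Iv s) (hc : k * s = s * k) : C1 k ≤ St G α :=
  (C_zpowers k ▸ C_le_N _).trans (S.N_le_of_bad ht h1 k1 ho h hs hc)

theorem inf_C1_eq (hs : Iv s) (h1 : s • α = α) (β : Ω) :
    C1 s ⊓ (St G α ⊓ St G β) = C1 s ⊓ (St G β ⊓ St G (s • β)) := by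
  ext g
  exact ⟨fun h => ⟨h.1, h.2.2, smul_of_comm h.2.2 (mem_C1.1 h.1).symm⟩,
    fun h => ⟨h.1, S.C1_le hs h1 h.1, h.2.1⟩⟩

/-- `|G_{αβ}| = |G_{β, sβ}|` for `s` at `α`. -/
theorem card_D_eq (hs : Iv s) (h1 : s • α = α) (h : α ≠ β) :
    Nat.card ↥(St G α ⊓ St G β) = Nat.card ↥(St G β ⊓ St G (s • β)) := by
  obtain ⟨d, d1, d2⟩ := S.ev β
  rw [← card_inf_mul_relIndex (C1 s), ← card_inf_mul_relIndex (C1 s) (St G β ⊓ St G (s • β)),
    S.inf_C1_eq hs h1, S.idx_D' h hs h1, S.idx_D hs (S.moves hs h1 h.symm) d1 d2,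
    S.m_eq h hs h1 d1 d2]

/-- good pairs. -/
theorem sylIn_of_good (hp : p.Prime) (hs : Iv s) (h1 : s • α = α) (h : α ≠ β)
    (hR : SylIn p R (St G β ⊓ St G (s • β))) (h2 : R ≤ St G α) : SylIn p R (St G α ⊓ St G β) := by
  have := Fact.mk hp
  obtain ⟨T, -, hT⟩ := exists_sylIn_ge (p := p) (bot_le (a := St G α ⊓ St G β)) IsPGroup.of_bot
  refine hT.of_card_le (le_inf h2 (hR.le.trans inf_le_left)) hR.isPGroup ?_
  rw [hT.card_eq_pow hp, hR.card_eq_pow hp, S.card_D_eq hs h1 h]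

/-- `|X' : C(y)| ≤ m_p`. -/
theorem idx_le_mp (hp : p.Prime) (hu : Iv u) (h1 : u • γ ≠ γ) (hR : SylIn p R (St G γ ⊓ St G (u • γ)))
    (h2 : u ∈ N R) (hy : Iv y) (h3 : y • δ ≠ δ) (hX : IsPGroup p X)
    (h4 : X ≤ St G δ ⊓ St G (y • δ)) (h5 : y ∈ N X) :
    (C1 y).relIndex X ≤ (C1 u).relIndex R := by
  obtain ⟨s, s1, s2⟩ := S.ev γ
  obtain ⟨d, d1, d2⟩ := S.ev δ
  have a := pt_not_dvd hu.sq (mem_N_D hu.sq γ) (S.odd_D h1.symm) hp hR h2
  have b := pt_idx_dvd hy.sq (mem_N_D hy.sq δ) (S.odd_D h3.symm) hp h4 hX h5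
  rw [S.idx_D hu h1 s1 s2] at a
  rw [S.idx_D hy h3 d1 d2, ← S.m_eq h1.symm s1 s2 d1 d2] at b
  exact pow_le_of_not_dvd hp (pt_relIndex_pow hp hX _) (pt_relIndex_pow hp hR.isPGroup _) b a

/-- a `y`-invariant `p`-subgroup of `G_{ε δ}` with `m_p` inverted elements lies in an
S-configuration. -/
theorem exists_sconf (hp : p.Prime) (hu : Iv u) (h1 : u • γ ≠ γ)
    (hR : SylIn p R (St G γ ⊓ St G (u • γ))) (h2 : u ∈ N R) (hy : Iv y) (h3 : y • ε = ε)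
    (h : δ ≠ ε) (hX : IsPGroup p X) (h4 : X ≤ St G ε) (h4' : X ≤ St G δ) (h5 : y ∈ N X)
    (hi : (C1 u).relIndex R ≤ (C1 y).relIndex X) :
    ∃ X', X ≤ X' ∧ SylIn p X' (St G δ ⊓ St G (y • δ)) ∧ y ∈ N X' ∧ X' ≤ St G ε := by
  have m := S.moves hy h3 h
  obtain ⟨X', a, b, c⟩ := pt_exists_syl hy.sq (mem_N_D hy.sq δ) (S.odd_D m.symm) hp
    (le_inf h4' (le_St_smul h4' h5)) hX h5
  refine ⟨X', a, b, c, (le_sup_of_idx hy.sq a h5 c (S.odd_of_le m.symm (b.le.trans inf_le_left)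
    (b.le.trans inf_le_right)) ((S.idx_le_mp hp hu h1 hR h2 hy m b.isPGroup b.le c).trans hi)).trans
    (sup_le h4 (S.C1_le hy h3))⟩

end SE

/-- S-configuration. -/
def SConf (Ω : Type u) [MulAction G Ω] (p : ℕ) (X : Subgroup G) : Prop :=
  ∃ (y : G) (ε δ : Ω), Iv y ∧ y • ε = ε ∧ δ ≠ ε ∧ SylIn p X (St G δ ⊓ St G (y • δ)) ∧ y ∈ N X ∧
    X ≤ St G ε

/-- `X` fixes three points and is a Sylow subgroup of all two-point stabilisers it lies in. -/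
structure Full (Ω : Type u) [MulAction G Ω] (p : ℕ) (X : Subgroup G) : Prop where
  fix : Fix3 Ω X
  syl : ∀ γ δ : Ω, γ ≠ δ → X ≤ St G γ → X ≤ St G δ → SylIn p X (St G γ ⊓ St G δ)

theorem Full.grp (h : Full Ω p X) : IsPGroup p X :=
  let ⟨a, b, _, d, _, _, i, j, _⟩ := h.fix; (h.syl a b d i j).isPGroup
theorem Full.eq (h : Full Ω p X) (hY : IsPGroup p Y) (h1 : X ≤ Y) (h2 : γ ≠ δ) (h3 : Y ≤ St G γ)
    (h4 : Y ≤ St G δ) : Y = X :=
  (h.syl γ δ h2 (h1.trans h3) (h1.trans h4)).eq_of_le (le_inf h3 h4) hY h1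
theorem Full.maxF3 (h : Full Ω p X) : MaxF3 Ω p X :=
  ⟨h.grp, h.fix, fun _ a ⟨_, _, _, d, _, _, i, j, _⟩ c => h.eq a c d i j⟩
theorem Full.cjj (h : Full Ω p X) (g : G) : Full Ω p (cj g X) := by
  obtain ⟨a, b, c, d, e, f, i, j, k⟩ := h.fix
  refine ⟨⟨g • a, g • b, g • c, (MulAction.injective g).ne d, (MulAction.injective g).ne e,
    (MulAction.injective g).ne f, cj_St g a ▸ cj_mono i, cj_St g b ▸ cj_mono j,
    cj_St g c ▸ cj_mono k⟩, fun γ δ n h1 h2 => ?_⟩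
  rw [cj_le_iff, cj_St] at h1 h2
  have := (h.syl _ _ ((MulAction.injective g⁻¹).ne n) h1 h2).cjj g
  rwa [cj_inf, cj_St, cj_St, smul_inv_smul, smul_inv_smul] at this

namespace SE

variable (S : SE G Ω)
include S

theorem full_swap (hp : p.Prime) (h : Full Ω p X) (h2 : γ ≠ δ) (h3 : X ≤ St G γ)
    (h4 : X ≤ St G δ) : ∃ j, Iv j ∧ j • γ = δ ∧ j ∈ N X := S.syl_J hp h2 (h.syl γ δ h2 h3 h4)

/-- `N(X)` has an involution at every fixed point of a full `X`. -/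
theorem full_iv (hp : p.Prime) (h2 : p ≠ 2) (h : Full Ω p X) (h3 : X ≤ St G γ) :
    ∃ y, Iv y ∧ y • γ = γ ∧ y ∈ N X := by
  obtain ⟨y, ε, a, b, c, d⟩ := S.step1 hp h2 h.maxF3
  by_cases e : ε = γ
  · exact ⟨y, a, e ▸ c, b⟩
  obtain ⟨j, -, j2, j3⟩ := S.full_swap hp h e d h3
  exact ⟨_, a.conj j, j2 ▸ conj_smul c j, mul_mem (mul_mem j3 b) (inv_mem j3)⟩

/-- every involution normalising a full `X` has its point in `Fix X`. -/
theorem full_pt (hp : p.Prime) (h2 : p ≠ 2) (h : Full Ω p X) (hj : Iv j) (h3 : j ∈ N X)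
    (h4 : j • ε = ε) : X ≤ St G ε := by
  obtain ⟨a, b, -, d, -, -, i, i', -⟩ := h.fix
  obtain ⟨y, y1, y2, y3⟩ := S.full_iv hp h2 h i
  obtain ⟨u, u1, u2, u3⟩ := S.full_swap hp h d i i'
  obtain ⟨c, c1, c2⟩ := S.conj_of_two y1 hj y1 u1 y3 h3 y3 u3 y2 (u2 ▸ d.symm)
  have := S.smul_of_conj (g := c) (β := ε) y1 y2 (by rw [c2]; exact h4)
  rw [← this]
  exact le_St_smul i c1

/-- (SD) -/
theorem sconf_of_fix3 (hp : p.Prime) (h2 : p ≠ 2) (h : α ≠ β)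
    (hR : SylIn p R (St G α ⊓ St G β)) (h3 : Fix3 Ω R) : ∃ X : Subgroup G, R ≤ X ∧ SConf Ω p X := by
  obtain ⟨u, hu, rfl, un⟩ := S.syl_J hp h hR
  obtain ⟨Y, y1, y2⟩ := h3.exists_max hR.isPGroup
  obtain ⟨y, ε, hy, yn, ye, y3⟩ := S.step1 hp h2 y2
  by_cases e : u • ε = ε
  · exact ⟨R, le_rfl, u, ε, α, hu, e, fun f => h (f ▸ e.symm), hR, un, y1.trans y3⟩
  obtain ⟨δ, d1, d2⟩ := y2.fix.exists_ne ε
  obtain ⟨X, a, b, c, d⟩ := S.exists_sconf hp hu h.symm hR un hy ye d1 y2.grp y3 d2 yn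
    ((S.idx_le hu e hy ye (pt_odd_of_isPGroup hp h2 hR.isPGroup) (y1.trans y3) un).trans
      (relIndex_le_of_le_right y1 (relIndex_ne_zero' _ _)))
  exact ⟨X, y1.trans a, y, ε, δ, hy, ye, d1, b, c, d⟩

/-- a maximal S-configuration is full. -/
theorem full_of_sconf (hp : p.Prime) (h : SConf Ω p X) : ∃ Y : Subgroup G, X ≤ Y ∧ Full Ω p Y := by
  obtain ⟨Y, y1, ⟨y, ε, δ, hy, ye, d1, b, c, d⟩, y3⟩ := exists_maximal_ge h
  have m := S.moves hy ye d1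
  have a : ∀ (t : G) (η : Ω), Iv t → t • η = η → t ∈ N Y → Y ≤ St G η →
      (C1 y).relIndex Y ≤ (C1 t).relIndex Y → ∀ γ, γ ≠ η → Y ≤ St G γ →
      SylIn p Y (St G η ⊓ St G γ) := fun t η t1 t2 t3 t4 t5 γ n h1 => by
    obtain ⟨X', a1, a2, a3, a4⟩ := S.exists_sconf hp hy m b c t1 t2 n b.isPGroup t4 h1 t3 t5
    obtain rfl := y3 X' ⟨t, η, γ, t1, t2, n, a2, a3, a4⟩ a1
    exact S.sylIn_of_good hp t1 t2 n.symm a2 a4
  refine ⟨Y, y1, ⟨ε, δ, y • δ, d1.symm, (S.moves' hy ye d1).symm, m.symm, d,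
    b.le.trans inf_le_left, b.le.trans inf_le_right⟩, fun γ η n h1 h2 => ?_⟩
  by_cases e : γ = ε
  · exact e ▸ a y ε hy ye c d le_rfl η (e ▸ n.symm) h2
  obtain ⟨j, -, j2, j3⟩ := S.syl_J hp (Ne.symm e) (a y ε hy ye c d le_rfl γ e h1)
  refine a (j * y * j⁻¹) γ (hy.conj j) (j2 ▸ conj_smul ye j) (mul_mem (mul_mem j3 c) (inv_mem j3))
    h1 ?_ η n.symm h2
  rw [← cj_C1, ← mem_N.1 j3, relIndex_cj, mem_N.1 j3]

/-- a Sylow subgroup of a two-point stabiliser with three fixed points lies in a full one. -/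
theorem full_of_fix3 (hp : p.Prime) (h2 : p ≠ 2) (h : α ≠ β)
    (hR : SylIn p R (St G α ⊓ St G β)) (h3 : Fix3 Ω R) : ∃ Y : Subgroup G, R ≤ Y ∧ Full Ω p Y :=
  let ⟨_, a, b⟩ := S.sconf_of_fix3 hp h2 h hR h3
  let ⟨Y, c, d⟩ := S.full_of_sconf hp b
  ⟨Y, a.trans c, d⟩

/-- (SC): one `Fix2` pair makes all pairs `Fix2`. -/
theorem fix2_all (hp : p.Prime) (h2 : p ≠ 2) (hR : SylIn p R (St G α ⊓ St G β))
    (hf : Fix2 R α β) (h : γ ≠ δ) (hT : SylIn p T (St G γ ⊓ St G δ)) : Fix2 T γ δ := by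
  refine (fix2_or_fix3 h (hT.le.trans inf_le_left) (hT.le.trans inf_le_right)).resolve_right
    fun h3 => ?_
  have := Fact.mk hp
  obtain ⟨Y, -, y⟩ := S.full_of_fix3 hp h2 h hT h3
  obtain ⟨g, -, e⟩ := (hf.sylIn hp h2 hR).exists_le_cj le_top y.grp
  have f := hf.cjj g
  have := y.eq (isPGroup_cj hR.isPGroup g) e f.ne f.l f.r
  obtain ⟨a, b, c, n1, n2, n3, i, j, k⟩ := y.fix
  rw [← this] at i j k
  rcases f.only a i with rfl | rfl <;> rcases f.only b j with rfl | rfl <;>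
    rcases f.only c k with rfl | rfl <;> simp_all

/-- one `Fix2` pair gives 2-transitivity. -/
theorem two_of_fix2 (hp : p.Prime) (h2 : p ≠ 2) (hR : SylIn p R (St G α ⊓ St G β))
    (hf : Fix2 R α β) (h : γ ≠ δ) : ∃ g : G, g • α = γ ∧ g • β = δ := by
  obtain ⟨T, -, hT⟩ := exists_sylIn_ge (p := p) (bot_le (a := St G γ ⊓ St G δ)) IsPGroup.of_bot
  have := Fact.mk hp
  have a := S.fix2_all hp h2 hR hf h hT
  obtain ⟨g, -, e⟩ := (hf.sylIn hp h2 hR).exists_le_cj le_top hT.isPGroup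
  have f := hf.cjj g
  obtain ⟨u, u1, u2⟩ := S.exists_J h
  rcases a.only _ (e.trans f.l) with b | b <;> rcases a.only _ (e.trans f.r) with c | c
  · exact (f.ne (b.trans c.symm)).elim
  · exact ⟨g, b, c⟩
  · exact ⟨u * g, by rw [mul_smul, b, swap_back u1.sq u2], by rw [mul_smul, c, u2]⟩
  · exact (f.ne (b.trans c.symm)).elim

/-- without `Fix2` pairs every `p`-subgroup with two fixed points lies in a full one. -/
theorem fix2_or_full (hp : p.Prime) (h2 : p ≠ 2) :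
    (∀ γ δ : Ω, γ ≠ δ → ∀ T : Subgroup G, SylIn p T (St G γ ⊓ St G δ) → Fix2 T γ δ) ∨
    ∀ γ δ : Ω, γ ≠ δ → ∀ X : Subgroup G, IsPGroup p X → X ≤ St G γ → X ≤ St G δ →
      ∃ Y : Subgroup G, X ≤ Y ∧ Full Ω p Y := by
  rw [or_iff_not_imp_left]
  intro hn γ δ h X x1 x2 x3
  obtain ⟨R, a, b⟩ := exists_sylIn_ge (le_inf x2 x3) x1
  rcases fix2_or_fix3 h (b.le.trans inf_le_left) (b.le.trans inf_le_right) with f | f
  · exact (hn fun _ _ n _ t => S.fix2_all hp h2 b f n t).elim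
  · exact let ⟨Y, c, d⟩ := S.full_of_fix3 hp h2 h b f; ⟨Y, a.trans c, d⟩

end SE

end CfsgSE
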