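import Cfsg.Agent.H9.Q4C1
import Cfsg.Agent.H5.Der2

set_option autoImplicit false
set_option linter.unusedSectionVars false

/-! S3580: sets of Sylow subgroups fixing given points, and sets on which they act as `p`-cycles. -/

namespace CfsgH9.Sy

open Subgroup Pointwise MulAction

universe u

variable {G : Type u} [Group G] [Finite G] {p : ℕ} [hp : Fact p.Prime] {T : Type*} [MulAction G T]
  [Finite T] {T' : Type*} [MulAction G T'] [Finite T']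

def Fx (R : Subgroup G) (T : Type*) [MulAction G T] : Set T := {t | ∀ x ∈ R, x • t = t}
variable (G p) in
def Ev (t : T) : Set (Sylow p G) := {Q | t ∈ Fx Q.1 T}
def Orb (X : Subgroup G) (t : T) : Set T := {s | ∃ g ∈ X, g • t = s}
def Inv (X : Subgroup G) (A : Set T) : Prop := ∀ g ∈ X, ∀ t ∈ A, g • t ∈ A
def Cl (e : Set (Sylow p G)) : Prop := ∃ H : Subgroup G, ∀ Q : Sylow p G, Q ∈ e ↔ Q.1 ≤ H
def XX (e : Set (Sylow p G)) : Subgroup G := ⨆ Q ∈ e, Q.1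

variable {e e' : Set (Sylow p G)} {Q Q' : Sylow p G} {A : Set T} {B : Set T'} {s t : T} {g x : G}
  {X R : Subgroup G} {a b c : ℕ}

theorem mem_smul : x ∈ (g • Q).1 ↔ g⁻¹ * x * g ∈ Q.1 := by
  rw [Sylow.coe_subgroup_smul, mem_pointwise_smul_iff_inv_smul_mem]
  simp

theorem smul_Ev (g : G) (t : T) : g • Ev G p t = Ev G p (g • t) := by
  ext Q
  rw [Set.mem_smul_set_iff_inv_smul_mem]
  refine ⟨fun h x hx => ?_, fun h x hx => ?_⟩
  · have := h (g⁻¹ * x * g) (mem_smul.2 (by simpa [mul_assoc] using hx))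
    rwa [mul_smul, mul_smul, inv_smul_eq_iff] at this
  · have := h _ (mem_smul.1 hx)
    simpa [mul_smul] using this

theorem smul_Ev_inter (h : g • e = e) (t : T) : g • (e ∩ Ev G p t) = e ∩ Ev G p (g • t) := by
  rw [Set.smul_set_inter, h, smul_Ev]

theorem cl_Ev (t : T) : Cl (Ev G p t) := ⟨stabilizer G t, fun _ => Iff.rfl⟩
theorem Cl.inter (h : Cl e) (h' : Cl e') : Cl (e ∩ e') :=
  let ⟨H, h⟩ := h; let ⟨K, h'⟩ := h'; ⟨H ⊓ K, fun Q => by rw [le_inf_iff, ← h, ← h']; rfl⟩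

theorem le_XX (h : Q ∈ e) : Q.1 ≤ XX e := le_iSup₂_of_le Q h le_rfl
theorem XX_le (h : ∀ Q ∈ e, Q.1 ≤ X) : XX e ≤ X := iSup₂_le h
theorem XX_mono (h : e' ⊆ e) : XX e' ≤ XX e := XX_le fun _ hQ => le_XX (h hQ)
theorem XX_fix (h : e ⊆ Ev G p t) (hg : g ∈ XX e) : g • t = t :=
  XX_le (X := stabilizer G t) (fun _ hQ => h hQ) hg
theorem Cl.mem (h : Cl e) : Q ∈ e ↔ Q.1 ≤ XX e :=
  ⟨le_XX, fun hQ => let ⟨H, h⟩ := h; (h Q).2 (hQ.trans (XX_le fun Q => (h Q).1))⟩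

theorem Inv.mono (h : Inv X A) (hR : R ≤ X) : Inv R A := fun g hg => h g (hR hg)
theorem Inv.diff {A' : Set T} (h : Inv X A) (h' : Inv X A') : Inv X (A \ A') := fun g hg t ht =>
  ⟨h g hg t ht.1, fun e => ht.2 (by simpa using h' _ (inv_mem hg) _ e)⟩
theorem Inv.smul (h : Inv X A) (hg : g ∈ X) : g • A = A :=
  Set.Subset.antisymm (by rintro _ ⟨t, ht, rfl⟩; exact h g hg t ht) fun t ht =>
    Set.mem_smul_set_iff_inv_smul_mem.2 (h _ (inv_mem hg) t ht)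
theorem inv_XX (h : ∀ Q ∈ e, Inv Q.1 A) : Inv (XX e) A := fun g hg t ht =>
  (XX_fix (T := Set T) (fun Q hQ _ hx => (h Q hQ).smul hx) hg).le (Set.smul_mem_smul_set ht)
theorem inv_Orb : Inv X (Orb X t) := by
  rintro g hg _ ⟨k, hk, rfl⟩; exact ⟨g * k, mul_mem hg hk, mul_smul _ _ _⟩
theorem mem_Orb : t ∈ Orb X t := ⟨1, one_mem _, one_smul _ _⟩
theorem Inv.orb (h : Inv X A) (ht : t ∈ A) : Orb X t ⊆ A := by rintro _ ⟨g, hg, rfl⟩; exact h g hg t ht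
theorem Orb_tr {u : T} (hs : s ∈ Orb X u) (ht : t ∈ Orb X u) : ∃ g ∈ X, g • s = t := by
  obtain ⟨g, hg, rfl⟩ := hs
  obtain ⟨k, hk, rfl⟩ := ht
  exact ⟨k * g⁻¹, mul_mem hk (inv_mem hg), by simp [mul_smul]⟩
theorem Orb_eq (hs : s ∈ Orb X t) : Orb X s = Orb X t :=
  Set.Subset.antisymm (inv_Orb.orb hs) fun _ h => Orb_tr hs h
theorem inv_single (h : ∀ g ∈ X, g • t = t) : Inv X {t} := by rintro g hg _ rfl; exact h g hg

theorem Cl.smul (h : Cl e) (hg : g ∈ XX e) : g • e = e :=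
  Inv.smul (X := XX e) (fun g hg Q hQ => h.mem.2 fun x hx => by
    simpa [mul_assoc] using mul_mem (mul_mem hg (le_XX hQ (mem_smul.1 hx))) (inv_mem hg)) hg

theorem mem_XX_smul (hx : x ∈ XX e) (g : G) : g * x * g⁻¹ ∈ XX (g • e) :=
  XX_le (X := (XX (g • e)).comap (MulAut.conj g).toMonoidHom) (fun Q hQ y hy =>
    le_XX (Set.smul_mem_smul_set hQ) (mem_smul.2 (by simpa [mul_assoc] using hy))) hx

theorem conj (h : Q ∈ e) (h' : Q' ∈ e) : ∃ g ∈ XX e, g • Q = Q' := by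
  obtain ⟨g, hg⟩ := exists_smul_eq (XX e) (Q.subtype (le_XX h)) (Q'.subtype (le_XX h'))
  rw [Sylow.smul_subtype] at hg
  exact ⟨g, g.2, Sylow.subtype_injective hg⟩

theorem modEq (hR : IsPGroup p R) (h : Inv R A) : A.ncard ≡ (A ∩ Fx R T).ncard [MOD p] := by
  let S : SubMulAction R T := ⟨A, fun g t ht => h g g.2 t ht⟩
  have := hR.card_modEq_card_fixedPoints S
  rw [Nat.card_coe_set_eq, ← Set.ncard_image_of_injective _ Subtype.val_injective] at this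
  refine this.trans (Eq.subst (motive := (Nat.ModEq p _ ·)) (congrArg _ (Set.ext fun t => ?_)) rfl)
  symm
  exact ⟨fun ⟨h1, h2⟩ => ⟨⟨t, h1⟩, fun x => Subtype.ext (h2 x x.2), rfl⟩, by
    rintro ⟨t, h, rfl⟩; exact ⟨t.2, fun x hx => congrArg Subtype.val (h ⟨x, hx⟩)⟩⟩

/-- a `p`-element normalising a closed event lies in its group. -/
theorem Cl.pel (h : Cl e) (n : e.Nonempty) (hx : x ∈ Q.1) (hs : x • e = e) : x ∈ XX e := by
  obtain ⟨Q0, h0⟩ := n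
  have z : IsPGroup p (zpowers x) := Q.2.to_le (zpowers_le.2 hx)
  have m1 := modEq Q0.2 (A := e) fun g hg Q hQ => (h.smul (le_XX h0 hg)).le (Set.smul_mem_smul_set hQ)
  have m2 := modEq z (A := e) fun g hg Q hQ =>
    (show g • e = e from zpowers_le.2 (show x ∈ stabilizer G e from hs) hg).le (Set.smul_mem_smul_set hQ)
  have k : ∀ {R : Subgroup G}, IsPGroup p R → ∀ Q : Sylow p G, Q ∈ Fx R _ → R ≤ Q := fun hR Q hQ =>
    hR.sylow_mem_fixedPoints_iff.1 fun y => hQ y y.2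
  rw [show e ∩ Fx Q0.1 _ = {Q0} from Set.eq_singleton_iff_unique_mem.2 ⟨⟨h0, fun y hy =>
    Q0.2.sylow_mem_fixedPoints_iff.2 le_rfl ⟨y, hy⟩⟩, fun Q hQ =>
      Sylow.ext (Q0.3 Q.2 (k Q0.2 Q hQ.2))⟩, Set.ncard_singleton] at m1
  obtain ⟨Q1, h1, h2⟩ := Set.nonempty_of_ncard_ne_zero (s := e ∩ Fx (zpowers x) _) fun e0 => by
    rw [e0] at m2
    exact hp.out.one_lt.ne' (Nat.dvd_one.1 ((Nat.modEq_zero_iff_dvd).1 (m1.symm.trans m2)))
  exact le_XX h1 (k z Q1 h2 (mem_zpowers x))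

theorem Cl.Ev_eq (h : Cl e) (n : e.Nonempty) : Ev G p e = e :=
  Set.ext fun _ => ⟨fun hQ => h.mem.2 fun x hx => h.pel n hx (hQ x hx), fun hQ _ hx => h.smul (le_XX hQ hx)⟩

theorem fx_smul (g : G) (A : Set T) (Q : Sylow p G) :
    (g • A ∩ Fx (g • Q).1 T).ncard = (A ∩ Fx Q.1 T).ncard := by
  rw [← Set.ncard_smul_set g (A ∩ _), Set.smul_set_inter]
  congr 2
  ext t
  rw [Set.mem_smul_set_iff_inv_smul_mem]
  change g • Q ∈ Ev G p t ↔ Q ∈ Ev G p (g⁻¹ • t)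
  rw [← smul_Ev, Set.mem_smul_set_iff_inv_smul_mem, inv_inv]

theorem fx_eq (hA : Inv (XX e) A) (h : Q ∈ e) (h' : Q' ∈ e) :
    (A ∩ Fx Q'.1 T).ncard = (A ∩ Fx Q.1 T).ncard := by
  obtain ⟨g, hg, rfl⟩ := conj h h'
  rw [← fx_smul g A Q, hA.smul hg]

theorem ratio (hA : Inv (XX e) A) (h : Q ∈ e) (hc : ∀ t ∈ A, (e ∩ Ev G p t).ncard = c) :
    (A ∩ Fx Q.1 T).ncard * e.ncard = A.ncard * c := by
  rw [mul_comm]
  exact le_antisymm (CfsgH5.Der.dc e A (fun Q t => Q ∈ Ev G p t) (fun _ h' => (fx_eq hA h h').ge)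
    fun t ht => (hc t ht).le) (CfsgH5.Der.dc A e (fun t Q => Q ∈ Ev G p t) (fun t ht => (hc t ht).ge)
    fun _ h' => (fx_eq hA h h').le)

theorem nu_smul (h : g • e = e) (t : T) : (e ∩ Ev G p (g • t)).ncard = (e ∩ Ev G p t).ncard := by
  rw [← smul_Ev_inter h, Set.ncard_smul_set]

theorem ratio_orb (hX : ∀ g ∈ X, g • e = e) (h1 : XX e ≤ X) (h : Q ∈ e) (t : T) :
    (Orb X t ∩ Fx Q.1 T).ncard * e.ncard = (Orb X t).ncard * (e ∩ Ev G p t).ncard :=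
  ratio (inv_Orb.mono h1) h (by rintro _ ⟨g, hg, rfl⟩; exact nu_smul (hX g hg) t)

theorem dvd_mv (hA : Inv Q.1 A) : p ∣ (A \ Fx Q.1 T).ncard := by
  have := modEq Q.2 hA
  rw [← Set.ncard_inter_add_ncard_sdiff_eq_ncard A (Fx Q.1 T)] at this
  exact (Nat.modEq_zero_iff_dvd).1 (Nat.ModEq.add_left_cancel' _ this)

theorem le_orb (ht : t ∉ Fx Q.1 T) : Orb Q.1 t ∩ Fx Q.1 T = ∅ ∧ p ≤ (Orb Q.1 t).ncard := by
  have e : Orb Q.1 t ∩ Fx Q.1 T = ∅ := Set.eq_empty_of_forall_notMem (by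
    rintro _ ⟨⟨g, hg, rfl⟩, h⟩
    exact ht fun x hx => by
      simpa [mul_smul] using h (g * x * g⁻¹) (mul_mem (mul_mem hg hx) (inv_mem hg)))
  have := dvd_mv (Q := Q) (inv_Orb (t := t))
  rw [sdiff_eq_left.2 (Set.disjoint_iff_inter_eq_empty.2 e)] at this
  exact ⟨e, Nat.le_of_dvd ((Set.ncard_pos (Set.toFinite _)).2 ⟨t, mem_Orb⟩) this⟩

/-- the Sylow subgroups in `e` act on `A` as `p`-cycles with `a` fixed points. -/
structure Cyc (e : Set (Sylow p G)) (A : Set T) (a : ℕ) : Prop where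
  cl : Cl e
  ne : e.Nonempty
  inv : Inv (XX e) A
  tr : ∀ s ∈ A, ∀ t ∈ A, ∃ g ∈ XX e, g • s = t
  card : A.ncard = p + a
  fx : ∀ Q ∈ e, (A ∩ Fx Q.1 T).ncard = a
  lt : a < p

namespace Cyc

variable (h : Cyc e A a)
include h

theorem nu (ht : t ∈ A) : (e ∩ Ev G p t).ncard * (p + a) = a * e.ncard := by
  obtain ⟨Q, hQ⟩ := h.ne
  rw [mul_comm, ← h.card, ← ratio h.inv hQ fun s hs => ?_, h.fx Q hQ]
  obtain ⟨g, hg, rfl⟩ := h.tr t ht s hs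
  exact nu_smul (h.cl.smul hg) t

theorem pos : 0 < e.ncard := (Set.ncard_pos (Set.toFinite _)).2 h.ne

theorem ne_of (ha : a ≠ 0) (ht : t ∈ A) : (e ∩ Ev G p t).Nonempty :=
  Set.nonempty_of_ncard_ne_zero fun e0 => by
    have := h.nu ht
    rw [e0, zero_mul] at this
    exact mul_ne_zero ha h.pos.ne' this.symm

theorem not_sub (ht : t ∈ A) : ¬ e ⊆ Ev G p t := fun hs => by
  have := h.nu ht
  rw [Set.inter_eq_left.2 hs] at this
  have := h.pos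
  have := hp.out.pos
  nlinarith

theorem mv (hQ : Q ∈ e) : (A \ Fx Q.1 T).ncard = p := by
  have := Set.ncard_inter_add_ncard_sdiff_eq_ncard A (Fx Q.1 T)
  rw [h.fx Q hQ, h.card] at this
  omega

theorem orb_eq (hQ : Q ∈ e) (ht : t ∈ A \ Fx Q.1 T) : Orb Q.1 t = A \ Fx Q.1 T :=
  Set.eq_of_subset_of_ncard_le (fun s hs => ⟨(h.inv.mono (le_XX hQ)).orb ht.1 hs, fun e =>
    (le_orb ht.2).1.le ⟨hs, e⟩⟩) ((h.mv hQ).trans_le (le_orb ht.2).2)

theorem exists_fx (ha : a ≠ 0) (hQ : Q ∈ e) : ∃ t ∈ A, Q ∈ Ev G p t :=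
  Set.nonempty_of_ncard_ne_zero (s := A ∩ Fx Q.1 T) (by rwa [h.fx Q hQ])

theorem exists_mv (hQ : Q ∈ e) : ∃ t ∈ A, Q ∉ Ev G p t :=
  Set.nonempty_of_ncard_ne_zero (s := A \ Fx Q.1 T) (by rw [h.mv hQ]; exact hp.out.ne_zero)

/-- the big orbit of a smaller event. -/
theorem restr (hc : Cl e') (n : e'.Nonempty) (hs : e' ⊆ e) :
    ∃ O ⊆ A, ∃ b, Cyc e' O b ∧ ∀ t ∈ A \ O, e' ⊆ Ev G p t := by
  obtain ⟨Q, hQ⟩ := n
  obtain ⟨t, ht, hm⟩ := h.exists_mv (hs hQ)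
  have s1 : Orb (XX e') t ⊆ A := (h.inv.mono (XX_mono hs)).orb ht
  have s2 : ∀ Q' ∈ e', A \ Fx Q'.1 T ⊆ Orb (XX e') t := fun Q' hQ' s hs' => by
    obtain ⟨g, hg, rfl⟩ := conj hQ hQ'
    refine (smul_inv_smul g s) ▸ inv_Orb g hg _ ((inv_Orb.mono (le_XX hQ)).orb mem_Orb
      ((h.orb_eq (hs hQ) ⟨ht, hm⟩).ge ⟨h.inv _ (XX_mono hs (inv_mem hg)) s hs'.1, fun e => hs'.2 ?_⟩))
    have := Set.smul_mem_smul_set (a := g) (show Q ∈ Ev G p (g⁻¹ • s) from e)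
    rwa [smul_Ev, smul_inv_smul] at this
  have s3 : (Orb (XX e') t \ Fx Q.1 T).ncard = p := (congrArg _ (Set.Subset.antisymm
    (Set.sdiff_subset_sdiff_left s1) fun s hs => ⟨s2 Q hQ hs, hs.2⟩)).trans (h.mv (hs hQ))
  refine ⟨_, s1, _, ⟨hc, ⟨Q, hQ⟩, inv_Orb, fun _ a _ b => Orb_tr a b, ?_, fun Q' h' => fx_eq inv_Orb hQ h',
    ((Set.ncard_le_ncard (Set.inter_subset_inter_left _ s1)).trans_eq (h.fx Q (hs hQ))).trans_lt h.lt⟩,
    fun s hs Q' h' => by_contra fun n => hs.2 (s2 Q' h' ⟨hs.1, n⟩)⟩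
  rw [← Set.ncard_inter_add_ncard_sdiff_eq_ncard _ (Fx Q.1 T), s3, add_comm]

theorem restr' (hc : Cl e') (n : e'.Nonempty) (hs : e' ⊆ e) (ht : t ∈ A) (hb : b ≠ 0)
    (hn : (e' ∩ Ev G p t).ncard * (p + b) = b * e'.ncard) :
    ∃ O ⊆ A, t ∈ O ∧ Cyc e' O b ∧ ∀ t ∈ A \ O, e' ⊆ Ev G p t := by
  obtain ⟨O, h1, c, h2, h3⟩ := h.restr hc n hs
  have := h2.pos
  have := hp.out.pos
  have m : t ∈ O := by_contra fun m => by
    rw [Set.inter_eq_left.2 (h3 t ⟨ht, m⟩)] at hn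
    nlinarith
  have k := h2.nu m
  obtain rfl : c = b := by
    have : p * e'.ncard * c = p * e'.ncard * b := by
      zify at *
      linear_combination (p + c) * hn - (p + b) * k
    exact Nat.eq_of_mul_eq_mul_left (by positivity) this
  exact ⟨O, h1, m, h2, h3⟩

theorem eq_of (hO : Cyc e' B a) (f : T' → T) (hf : Set.MapsTo f B A) (hi : Set.InjOn f B) : f '' B = A :=
  Set.eq_of_subset_of_ncard_le hf.image_subset (by rw [hi.ncard_image, h.card, hO.card])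

theorem uniq (hs : s ∈ A) (ht : t ∈ A) (n : (e ∩ Ev G p s).Nonempty) (hst : e ∩ Ev G p s ⊆ Ev G p t) :
    s = t := by
  have e1 : e ∩ Ev G p s = e ∩ Ev G p t := Set.eq_of_subset_of_ncard_le (fun Q hQ => ⟨hQ.1, hst hQ⟩)
    (Nat.le_of_mul_le_mul_right ((h.nu ht).trans (h.nu hs).symm).le (Nat.add_pos_left hp.out.pos _))
  obtain ⟨Q, hQ⟩ := h.ne
  obtain ⟨u, hu, hm⟩ := h.exists_mv hQ
  obtain ⟨g, hg, rfl⟩ := h.tr s hs u hu
  have e2 : e ∩ Ev G p (g • s) = e ∩ Ev G p (g • t) := by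
    rw [← smul_Ev_inter (h.cl.smul hg), e1, smul_Ev_inter (h.cl.smul hg)]
  obtain ⟨x, hx, e3⟩ := (h.orb_eq hQ ⟨hu, hm⟩).ge
    ⟨h.inv g hg t ht, fun e => hm (e2.ge ⟨hQ, e⟩).2⟩
  have := XX_fix Set.inter_subset_right ((h.cl.inter (cl_Ev (g • s))).pel
    (smul_Ev_inter (h.cl.smul hg) s ▸ n.smul_set) hx (by
      rw [smul_Ev_inter (h.cl.smul (le_XX hQ hx)), e3, e2]))
  exact smul_left_cancel g (this.symm.trans e3)

omit h in
/-- the stabiliser of a point. -/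
theorem stab (h : Cyc e A (a + 1)) (ht : t ∈ A) : Cyc (e ∩ Ev G p t) (A \ {t}) a := by
  have n := h.ne_of a.succ_ne_zero ht
  obtain ⟨O, h1, b, h2, h3⟩ := h.restr (h.cl.inter (cl_Ev t)) n Set.inter_subset_left
  obtain rfl : O = A \ {t} := Set.Subset.antisymm
    (fun s hs => ⟨h1 hs, by rintro rfl; exact h2.not_sub hs Set.inter_subset_right⟩)
    fun s hs => by_contra fun m => hs.2 (h.uniq ht hs.1 n (h3 s ⟨hs.1, m⟩)).symm
  have := h2.card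
  rw [Set.ncard_sdiff_singleton_of_mem ht, h.card] at this
  rwa [show a = b by omega]

/-- independence is symmetric. -/
theorem ind {t : T'} (hB : Cyc e B b) (hs : s ∈ A) (ht : t ∈ B) (ha : a ≠ 0) (hb : b ≠ 0)
    (h1 : Cyc (e ∩ Ev G p s) B b) : Cyc (e ∩ Ev G p t) A a := by
  have k1 := h1.nu ht
  have k2 := h.nu hs
  have k3 := hB.nu ht
  obtain ⟨O, a1, -, a3, -⟩ := h.restr' (h.cl.inter (cl_Ev t)) (hB.ne_of hb ht) Set.inter_subset_left hs ha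
    (Nat.eq_of_mul_eq_mul_right (Nat.add_pos_left hp.out.pos b) (by
      rw [Set.inter_right_comm]
      zify at *
      linear_combination (p + a) * k1 + b * k2 - a * k3))
  rwa [Set.eq_of_subset_of_ncard_le a1 (by rw [h.card, a3.card])] at a3

theorem smul (g : G) : Cyc (g • e) (g • A) a where
  cl := let ⟨H, k⟩ := h.cl; ⟨MulAut.conj g • H, fun Q => by
    rw [Set.mem_smul_set_iff_inv_smul_mem, k, Sylow.coe_subgroup_smul, subset_pointwise_smul_iff, map_inv]⟩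
  ne := h.ne.smul_set
  inv := fun x hx t ht => by
    have := h.inv _ (by simpa using mem_XX_smul hx g⁻¹) _ (Set.mem_smul_set_iff_inv_smul_mem.1 ht)
    exact Set.mem_smul_set_iff_inv_smul_mem.2 (by simpa [mul_smul] using this)
  tr := by
    rintro _ ⟨s, hs, rfl⟩ _ ⟨t, ht, rfl⟩
    obtain ⟨x, hx, rfl⟩ := h.tr s hs t ht
    exact ⟨_, mem_XX_smul hx g, by simp [mul_smul]⟩
  card := by rw [Set.ncard_smul_set, h.card]
  fx := by rintro _ ⟨Q, hQ, rfl⟩; exact (fx_smul g A Q).trans (h.fx Q hQ)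
  lt := h.lt

end Cyc

end CfsgH9.Sy
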