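import Cfsg.Agent.H9.SyA

set_option autoImplicit false
set_option linter.unusedSectionVars false

/-! S3580: lines, low ratios and cliques. -/

namespace CfsgH9.Sy

open Subgroup Pointwise MulAction

universe u

variable {G : Type u} [Group G] [Finite G] {p : ℕ} [hp : Fact p.Prime] {Ω : Type*} [MulAction G Ω]
  [Finite Ω]

/-- the deficiency. -/
noncomputable def dl (Q : Sylow p G) (A : Set Ω) : ℤ :=
  (p - 1) * (A \ Fx Q.1 Ω).ncard - p * (A ∩ Fx Q.1 Ω).ncard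

variable (G p) in
def Ln (α β : Ω) : Set (Sylow p G) := Ev G p α ∩ Ev G p β
variable (G p) in
abbrev NN (α : Ω) : Subgroup G := XX (Ev G p α)
variable (G p) in
def Cs (α β : Ω) : Set (Set (Sylow p G)) := Orb (NN G p α) (Ln G p α β)
variable (G p) in
def Bad (α β : Ω) (a : ℕ) : Prop := α ≠ β ∧ Cyc (Ev G p α) (Cs G p α β) (a + 1)
variable (G p) in
def Two (α β : Ω) : Prop := ∀ γ, γ ≠ α → Ln G p α γ = Ln G p α β → γ = β
variable (G p) in
def Clq (C : Set Ω) (a : ℕ) : Prop := ∀ ω ∈ C, Cyc (Ev G p ω) (C \ {ω}) (a + 1)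

variable (G p Ω) in
structure Core : Prop where
  tr : ∀ α β : Ω, ∃ g : G, g • α = β
  prim : ∀ C : Set Ω, (∀ g : G, (g • C ∩ C).Nonempty → g • C = C) → C.Subsingleton ∨ C = Set.univ
  cl : ∀ α β : Ω, Ev G p α ⊆ Ev G p β → α = β
  star : ∀ α : Ω, ∀ Q ∈ Ev G p α, ∀ A, Inv (NN G p α) A → α ∉ A → 0 ≤ dl Q A ∧ dl Q A < 2 * p * (p - 1)
  good : ∀ α β : Ω, α ≠ β → (¬ ∃ a, Bad G p α β a) → ∀ Q ∈ Ev G p α,
    p * (p - 1) ≤ dl Q (Orb (NN G p α) β)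
  odd : 2 < p
  big : ∀ Q : Sylow p G, p < (Fx Q.1 Ω).ncard

variable {e : Set (Sylow p G)} {Q : Sylow p G} {A B C C' : Set Ω} {α β γ δ ω : Ω} {g : G} {a b : ℕ}
  {l : Set (Sylow p G)}

theorem dl_diff (h : B ⊆ A) : dl Q A = dl Q B + dl Q (A \ B) := by
  have e1 := Set.ncard_sdiff_add_ncard_of_subset (Set.sdiff_subset_sdiff_left (t := Fx Q.1 Ω) h)
  have e2 := Set.ncard_sdiff_add_ncard_of_subset (Set.inter_subset_inter_left (Fx Q.1 Ω) h)
  rw [show (A \ Fx Q.1 Ω) \ (B \ Fx Q.1 Ω) = (A \ B) \ Fx Q.1 Ω by ext; simp; tauto] at e1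
  rw [show (A ∩ Fx Q.1 Ω) \ (B ∩ Fx Q.1 Ω) = (A \ B) ∩ Fx Q.1 Ω by ext; simp; tauto] at e2
  simp only [dl, ← e1, ← e2]
  push_cast
  ring

theorem Ln_comm (α β : Ω) : Ln G p α β = Ln G p β α := Set.inter_comm _ _
theorem cl_Ln : Cl (Ln G p α β) := (cl_Ev α).inter (cl_Ev β)
theorem smul_Ln (g : G) (α β : Ω) : g • Ln G p α β = Ln G p (g • α) (g • β) := by
  rw [Ln, Set.smul_set_inter, smul_Ev, smul_Ev, Ln]
theorem NN_fix (h : g ∈ NN G p α) : g • α = α := XX_fix le_rfl h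
theorem smul_Ln' (h : g • α = α) (β : Ω) : g • Ln G p α β = Ln G p α (g • β) := by rw [smul_Ln, h]
theorem ne_of_orb {X : Subgroup G} (h : ∀ g ∈ X, g • α = α) (n : α ≠ β) : α ∉ Orb X β := by
  rintro ⟨g, hg, e⟩
  exact n (smul_left_cancel g ((h g hg).trans e.symm))

theorem smul_Orb {T : Type*} [MulAction G T] (g : G) (e : Set (Sylow p G)) (t : T) :
    g • Orb (XX e) t = Orb (XX (g • e)) (g • t) := by
  refine Set.Subset.antisymm ?_ ?_
  · rintro _ ⟨_, ⟨x, hx, rfl⟩, rfl⟩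
    exact ⟨_, mem_XX_smul hx g, by simp [mul_smul]⟩
  · rintro _ ⟨x, hx, rfl⟩
    exact Set.mem_smul_set_iff_inv_smul_mem.2 ⟨_, by simpa using mem_XX_smul hx g⁻¹, by simp [mul_smul]⟩

theorem Inv.smul_ev (h : Inv (XX e) A) (hg : g • A = A) : Inv (XX (g • e)) A := fun x hx t ht => by
  have := h _ (by simpa using mem_XX_smul hx g⁻¹) _ (Set.mem_smul_set_iff_inv_smul_mem.1 (hg.ge ht))
  exact hg.le (Set.mem_smul_set_iff_inv_smul_mem.2 (by simpa [mul_smul] using this))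

theorem Cyc.up {e' : Set (Sylow p G)} (h : Cyc e' A a) (hs : e' ⊆ e) (hc : Cl e) (hi : Inv (XX e) A) :
    Cyc e A a :=
  let ⟨Q, hQ⟩ := h.ne
  ⟨hc, ⟨Q, hs hQ⟩, hi, fun s h1 t h2 => let ⟨g, hg, k⟩ := h.tr s h1 t h2; ⟨g, XX_mono hs hg, k⟩, h.card,
    fun _ h' => (fx_eq hi (hs hQ) h').trans (h.fx Q hQ), h.lt⟩

theorem Cyc.orb (h : Cyc e A a) (ht : α ∈ A) : Orb (XX e) α = A :=
  Set.Subset.antisymm (h.inv.orb ht) fun s hs => h.tr α ht s hs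

theorem mem_Cs : Ln G p α β ∈ Cs G p α β := mem_Orb
theorem Ln_mem (h : γ ∈ Orb (NN G p α) β) : Ln G p α γ ∈ Cs G p α β := by
  obtain ⟨g, hg, rfl⟩ := h
  exact ⟨g, hg, smul_Ln' (NN_fix hg) β⟩
theorem exists_Ln (h : l ∈ Cs G p α β) : ∃ γ ∈ Orb (NN G p α) β, Ln G p α γ = l := by
  obtain ⟨g, hg, rfl⟩ := h
  exact ⟨_, ⟨g, hg, rfl⟩, (smul_Ln' (NN_fix hg) β).symm⟩
theorem Cs_eq (h : Ln G p α γ ∈ Cs G p α β) : Cs G p α γ = Cs G p α β := Orb_eq h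

theorem Two.smul (h : Two G p α β) (g : G) : Two G p (g • α) (g • β) := fun γ h1 h2 => by
  rw [← smul_inv_smul g γ] at h1 h2 ⊢
  rw [← smul_Ln, ← smul_Ln, smul_left_cancel_iff] at h2
  rw [h _ (fun e => h1 (by rw [e])) h2]

theorem Two.orb (h : Two G p α β) (hγ : γ ∈ Orb (NN G p α) β) : Two G p α γ := by
  obtain ⟨g, hg, rfl⟩ := hγ
  simpa only [NN_fix hg] using h.smul g

/-- from lines to points. -/
theorem Cyc.lift {L : Set (Set (Sylow p G))} (h : Cyc e L a) (h1 : e ⊆ Ev G p β) (h2 : Ln G p β α ∈ L)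
    (h3 : ∀ l ∈ L, Ev G p l = l) (h4 : ∀ g ∈ XX e, Ln G p β (g • α) = Ln G p β α → g • α = α) :
    Cyc e (Orb (XX e) α) a ∧ Set.BijOn (Ln G p β) (Orb (XX e) α) L := by
  have k : Set.BijOn (Ln G p β) (Orb (XX e) α) L := by
    refine ⟨?_, ?_, fun l hl => ?_⟩
    · rintro _ ⟨g, hg, rfl⟩
      exact smul_Ln' (p := p) (XX_fix h1 hg) α ▸ h.inv g hg _ h2
    · rintro _ ⟨g, hg, rfl⟩ _ ⟨k, hk, rfl⟩ e1
      refine (inv_smul_eq_iff.1 ((mul_smul _ _ _).symm.trans (h4 _ (mul_mem (inv_mem hk) hg) ?_)))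
      rw [mul_smul, ← smul_Ln' (p := p) (XX_fix h1 (inv_mem hk)), e1, smul_Ln' (XX_fix h1 (inv_mem hk)),
        inv_smul_smul]
    · obtain ⟨g, hg, rfl⟩ := h.tr _ h2 l hl
      exact ⟨_, ⟨g, hg, rfl⟩, (smul_Ln' (XX_fix h1 hg) α).symm⟩
  refine ⟨⟨h.cl, h.ne, inv_Orb, fun _ a _ b => Orb_tr a b, k.ncard_eq.trans h.card, fun Q hQ =>
    (Set.BijOn.ncard_eq (f := Ln G p β) (t := L ∩ Fx Q.1 _) ⟨fun t ht => ⟨k.1 ht.1,
      (h3 _ (k.1 ht.1)).ge (⟨h1 hQ, ht.2⟩ : Q ∈ Ln G p β t)⟩,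
      k.2.1.mono Set.inter_subset_left, fun l hl => ?_⟩).trans (h.fx Q hQ), h.lt⟩, k⟩
  obtain ⟨t, ht, rfl⟩ := k.2.2 hl.1
  exact ⟨t, ⟨ht, ((h3 _ hl.1).le hl.2).2⟩, rfl⟩

namespace Bad

variable (h : Bad G p α β a)
include h

theorem smul (g : G) : Bad G p (g • α) (g • β) a :=
  ⟨fun e => h.1 (smul_left_cancel g e), by simpa only [Cs, smul_Orb, smul_Ev, smul_Ln] using h.2.smul g⟩

theorem orb {X : Subgroup G} (hX : ∀ g ∈ X, g • α = α) (hγ : γ ∈ Orb X β) : Bad G p α γ a := by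
  obtain ⟨g, hg, rfl⟩ := hγ
  simpa only [hX g hg] using h.smul g

theorem congr (h1 : γ ≠ α) (h2 : Ln G p α γ ∈ Cs G p α β) : Bad G p α γ a :=
  ⟨h1.symm, Cs_eq h2 ▸ h.2⟩

theorem ev (hl : l ∈ Cs G p α β) : Ev G p l = l := by
  obtain ⟨γ, -, rfl⟩ := exists_Ln hl
  refine cl_Ln.Ev_eq (Set.nonempty_iff_ne_empty.2 fun e => h.2.not_sub hl fun _ _ _ _ => ?_)
  rw [e, Set.smul_set_empty]

theorem ev' (hl : l ∈ Cs G p α β) : Ev G p α ∩ Ev G p l = l := by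
  rw [h.ev hl]
  obtain ⟨γ, -, rfl⟩ := exists_Ln hl
  exact Set.inter_eq_right.2 Set.inter_subset_left

theorem nu' (hl : l ∈ Cs G p α β) : l.ncard * (p + (a + 1)) = (a + 1) * (Ev G p α).ncard := by
  simpa only [h.ev' hl] using h.2.nu hl

theorem ne : (Ln G p α β).Nonempty := h.ev' mem_Cs ▸ h.2.ne_of a.succ_ne_zero mem_Cs

theorem stab : Cyc (Ln G p α β) (Cs G p α β \ {Ln G p α β}) a := by
  simpa only [h.ev' mem_Cs] using h.2.stab mem_Cs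

theorem pt (h2 : Two G p α β) : Cyc (Ev G p α) (Orb (NN G p α) β) (a + 1) :=
  (h.2.lift le_rfl mem_Cs (fun _ => h.ev) fun g hg =>
    h2 _ fun e => ne_of_orb (fun _ => NN_fix) h.1 ⟨g, hg, e⟩).1

end Bad

theorem Clq.smul (h : Clq G p C a) (g : G) : Clq G p (g • C) a := by
  rintro _ ⟨ω, hω, rfl⟩
  simpa only [smul_Ev, Set.smul_set_sdiff, Set.smul_set_singleton] using (h ω hω).smul g

theorem Clq.eq (h : Clq G p C a) (h' : Clq G p C' a) (h1 : α ∈ C ∩ C') (h2 : β ∈ C ∩ C') (n : β ≠ α) :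
    C = C' := by
  rw [← Set.insert_sdiff_self_of_mem h1.1, ← Set.insert_sdiff_self_of_mem h1.2, ← (h α h1.1).orb ⟨h2.1, n⟩,
    (h' α h1.2).orb ⟨h2.2, n⟩]

theorem Clq.inv (h : Clq G p C a) (h1 : α ∈ C) : Inv (NN G p α) C := fun g hg t ht => by
  by_cases e : t = α
  exacts [e ▸ (NN_fix hg).symm ▸ h1, ((h α h1).inv g hg t ⟨ht, e⟩).1]

theorem Clq.third (h : Clq G p C a) (h1 : α ∈ C) (β : Ω) : ∃ γ ∈ C, γ ≠ α ∧ γ ≠ β := by
  obtain ⟨γ, h2, h3⟩ := Set.exists_ne_of_one_lt_ncard (s := C \ {α})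
    (by rw [(h α h1).card]; have := hp.out.pos; omega) β
  exact ⟨γ, h2.1, h2.2, h3⟩

namespace Core

variable (H : Core G p Ω)
include H

theorem nu1 (α β : Ω) : (Ev G p α).ncard = (Ev G p β).ncard := by
  obtain ⟨g, rfl⟩ := H.tr α β
  rw [← smul_Ev, Set.ncard_smul_set]

theorem ne (α : Ω) : (Ev G p α).Nonempty := by
  obtain ⟨β, h⟩ := Set.nonempty_of_ncard_ne_zero ((Nat.zero_le _).trans_lt (H.big default)).ne'
  obtain ⟨g, rfl⟩ := H.tr β α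
  exact smul_Ev (p := p) g β ▸ Set.Nonempty.smul_set ⟨default, h⟩

theorem pos (α : Ω) : 0 < (Ev G p α).ncard := (Set.ncard_pos (Set.toFinite _)).2 (H.ne α)

theorem le_dl (hQ : Q ∈ Ev G p α) (h1 : Inv (NN G p α) A) (h2 : α ∉ A) (h3 : Inv (NN G p α) B) (h : B ⊆ A) :
    dl Q B ≤ dl Q A := by
  rw [dl_diff h]
  exact le_add_of_nonneg_right (H.star α Q hQ _ (h1.diff h3) fun e => h2 e.1).1

theorem add_lt (hQ : Q ∈ Ev G p α) (h1 : Inv (NN G p α) A) (h2 : α ∉ A) (h3 : Inv (NN G p α) B)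
    (h4 : α ∉ B) (h : Disjoint A B) : dl Q A + dl Q B < 2 * p * (p - 1) := by
  have := (H.star α Q hQ (A ∪ B) (fun g hg t ht => ht.imp (h1 g hg t) (h3 g hg t)) fun e => e.elim h2 h4).2
  rwa [dl_diff Set.subset_union_left, Set.union_sdiff_left, sdiff_eq_left.2 h.symm] at this

theorem l1 (h : Bad G p α β a) (h1 : Ln G p α β ⊆ Ev G p γ) (h2 : γ ≠ α) : Ln G p α γ = Ln G p α β := by
  have s : Ln G p α β ⊆ Ln G p α γ := fun Q hQ => ⟨hQ.1, h1 hQ⟩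
  refine Set.Subset.antisymm (fun Q hQ => (h.ev mem_Cs).le fun x hx => by_contra fun n => ?_) s
  refine h2 (H.cl α γ fun Q' h' => ?_).symm
  obtain ⟨l, hl, k⟩ := h.2.exists_fx a.succ_ne_zero h'
  rw [h.ev hl] at k
  by_cases e : l = Ln G p α β
  · exact h1 (e ▸ k)
  obtain ⟨y, hy, rfl⟩ := h.stab.tr _ ⟨h.2.inv x (le_XX hQ.1 hx) _ mem_Cs, n⟩ l ⟨hl, e⟩
  rw [← mul_smul] at k
  exact ((cl_Ln.smul (mul_mem (XX_mono s hy) (le_XX hQ hx))).le (Set.smul_set_mono s k)).2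

theorem rev (h : Bad G p α β a) : Bad G p β α a := by
  have hs : ∀ {α : Ω}, NN G p α ≤ stabilizer G α := fun {_} _ h => NN_fix h
  obtain ⟨b, k⟩ : ∃ b, Bad G p β α b := by_contra fun n => by
    obtain ⟨Q, hQ⟩ := h.ne
    obtain ⟨g, rfl⟩ := H.tr β α
    have r : ∀ α β : Ω, Q ∈ Ev G p α → _ := fun α β hQ => ratio_orb (X := stabilizer G α)
      (fun g hg => (smul_Ev g α).trans (congrArg _ hg)) hs hQ β
    have c : (Orb (stabilizer G (g • β)) β).ncard = (Orb (stabilizer G β) (g • β)).ncard := by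
      have c1 := CfsgH9.Q4C.orb (stabilizer G (g • β)) β
      have c2 := CfsgH9.Q4C.orb (stabilizer G β) (g • β)
      rw [Nat.card_congr (stabilizerEquivStabilizer (g := g) rfl).symm.toEquiv, ← c2, inf_comm] at c1
      exact Nat.eq_of_mul_eq_mul_left Nat.card_pos c1
    have c' := r _ β hQ.1
    rw [c, Set.inter_comm (Ev G p (g • β)), ← r _ _ hQ.2, H.nu1 _ β] at c'
    replace c' := Nat.eq_of_mul_eq_mul_right (H.pos β) c'
    have d : dl Q (Orb (stabilizer G (g • β)) β) = dl Q (Orb (stabilizer G β) (g • β)) := by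
      rw [← Set.ncard_inter_add_ncard_sdiff_eq_ncard _ (Fx Q.1 Ω),
        ← Set.ncard_inter_add_ncard_sdiff_eq_ncard (Orb (stabilizer G β) _) (Fx Q.1 Ω), c'] at c
      rw [dl, dl, c', Nat.add_left_cancel c]
    have n' : ¬ ∃ b, Bad G p (g • β) (g • g • β) b := fun ⟨b, k⟩ => n ⟨b, by simpa using k.smul g⁻¹⟩
    have n1 : g • β ≠ g • g • β := fun e => h.1 (smul_left_cancel g e).symm
    have d1 := (H.good _ _ h.1.symm n Q hQ.2).trans (H.le_dl hQ.2 (inv_Orb.mono hs)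
      (ne_of_orb (fun _ h => h) h.1.symm) inv_Orb ((inv_Orb.mono hs).orb mem_Orb))
    have d2 := H.good _ _ n1 n' Q hQ.1
    have := H.add_lt hQ.1 (inv_Orb.mono hs) (ne_of_orb (fun _ h => h) h.1) inv_Orb
      (ne_of_orb (fun _ => NN_fix) n1) (Set.disjoint_left.2 fun t h1 h2 =>
        n' ⟨a, (h.orb (fun _ h => h) h1).orb (fun _ => NN_fix) ((Orb_eq h2).ge mem_Orb)⟩)
    linarith
  have k1 := h.nu' mem_Cs
  have k2 := k.nu' mem_Cs
  rw [Ln_comm, H.nu1 β α] at k2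
  have := H.pos α
  have := hp.out.pos
  rwa [show a = b from Nat.eq_of_mul_eq_mul_left (show 0 < p * (Ev G p α).ncard by positivity) (by
    zify at *
    linear_combination (p + b + 1) * k1 * (-1) + (p + a + 1) * k2)]

theorem two_rev (h : Bad G p α β a) (h2 : Two G p α β) : Two G p β α := fun γ h3 h4 =>
  by_contra fun n => h3 (h2 γ n (H.l1 h (fun _ hQ => (h4.ge ⟨hQ.2, hQ.1⟩).2) n))

/-- an orbit with a low ratio has a large deficiency. -/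
theorem low {u v : ℕ} (n : β ≠ γ) (hu : u < p) (hv : v < p) (v0 : v ≠ 0)
    (h : (Ln G p β γ).ncard * (p + u) * (p + v) = u * v * (Ev G p β).ncard) (hQ : Q ∈ Ev G p β)
    (hf : v ≤ (Orb (NN G p β) γ ∩ Fx Q.1 Ω).ncard) : False := by
  have r := ratio_orb (fun _ => (cl_Ev β).smul) le_rfl hQ γ
  have s := (H.star β Q hQ _ inv_Orb (ne_of_orb (fun _ => NN_fix) n)).2
  obtain ⟨k, hk⟩ := dvd_mv (Q := Q) ((inv_Orb (t := γ)).mono (le_XX hQ))
  rw [← Set.ncard_inter_add_ncard_sdiff_eq_ncard (Orb _ γ) (Fx Q.1 Ω), hk] at r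
  rw [dl, hk] at s
  generalize (Orb (NN G p β) γ ∩ Fx Q.1 Ω).ncard = f at *
  have := H.pos β
  have := hp.out.pos
  have e : f * (p + u + v) = k * (u * v) :=
    Nat.eq_of_mul_eq_mul_left (show 0 < p * (Ev G p β).ncard by positivity) (by
      rw [Ln] at h
      zify at *
      linear_combination (p + u) * (p + v) * r + (f + p * k) * h)
  have k3 : 3 ≤ k := by
    by_contra k3
    have : v * (p + u + v) ≤ v * (2 * u) := by
      nlinarith [Nat.mul_le_mul_right (p + u + v) hf, Nat.mul_le_mul_right (u * v) (show k ≤ 2 by omega)]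
    have := Nat.le_of_mul_le_mul_left this (by omega)
    omega
  obtain ⟨q, rfl⟩ : ∃ q, p = q + 1 := ⟨p - 1, by omega⟩
  have k4 : 3 * f ≤ k * q := Nat.le_of_mul_le_mul_right (c := q + 1 + u + v) (by
    have : 3 * (u * v) ≤ q * (q + 1 + u + v) := by
      nlinarith [Nat.mul_le_mul (show u ≤ q by omega) (show v ≤ q by omega),
        Nat.mul_le_mul_right v (show u ≤ q by omega), Nat.mul_le_mul_left u (show v ≤ q by omega)]
    nlinarith [Nat.mul_le_mul_left k this]) (by omega)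
  push_cast at s
  have : (q : ℤ) * k - f < 2 * q := by nlinarith
  zify at k3 k4
  nlinarith

theorem clique (h : Clq G p C a) (h1 : α ∈ C) : False := by
  have p2 := H.odd
  have d : ∀ β ∈ C, ∃ C', Clq G p C' a ∧ β ∈ C' ∧ C ≠ C' := fun β hβ => by
    obtain ⟨g, ⟨ω, h2, h3⟩, n⟩ : ∃ g : G, (g • C ∩ C).Nonempty ∧ g • C ≠ C := by
      by_contra! n
      rcases H.prim C n with e | rfl
      · obtain ⟨γ, h2, h3, -⟩ := h.third h1 α
        exact h3 (e h2 h1)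
      · obtain ⟨Q, hQ⟩ := H.ne α
        have := H.big Q
        have := (h α h1).lt
        have k := (h α h1).fx Q hQ
        rw [Set.inter_comm, ← Set.inter_sdiff_assoc, Set.inter_univ, Set.ncard_sdiff_singleton_of_mem (s := Fx Q.1 Ω) hQ] at k
        omega
    obtain ⟨γ, h4, h5, h6⟩ := h.third h3 β
    obtain ⟨k, hk, rfl⟩ := (h γ h4).tr ω ⟨h3, h5.symm⟩ β ⟨hβ, h6.symm⟩
    exact ⟨_, (h.smul g).smul k, Set.smul_mem_smul_set h2, fun e =>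
      n (smul_left_cancel k (e.symm.trans ((h.inv h4).smul hk).symm))⟩
  have z : ∀ β ∈ C, β ≠ α → ∃ C', Clq G p C' a ∧ β ∈ C' ∧ C ≠ C' ∧
      {ω | Ln G p α ω = ∅} ⊆ C' ∧ {ω | Ln G p α ω = ∅}.ncard = p := fun β hβ n => by
    obtain ⟨C', h2, h3, h4⟩ := d β hβ
    have m : α ∈ C \ {β} := ⟨h1, n.symm⟩
    obtain ⟨O, h5, b, h6, -⟩ := (h2 β h3).restr cl_Ln ((h β hβ).ne_of a.succ_ne_zero m) Set.inter_subset_left
    have k : ∀ γ ∈ O, Ln G p α γ = Ln G p β α ∩ Ev G p γ := fun γ hγ => Set.Subset.antisymm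
      (fun Q hQ => ⟨⟨fun x hx => by_contra fun n => h4 (h.eq h2 ⟨hβ, h3⟩ ⟨h.inv h1 x (le_XX hQ.1 hx) β hβ,
        h2.inv (h5 hγ).1 x (le_XX hQ.2 hx) β h3⟩ n), hQ.1⟩, hQ.2⟩) fun Q hQ => ⟨hQ.1.2, hQ.2⟩
    obtain ⟨Q, hQ⟩ := h6.ne
    obtain rfl : b = 0 := by_contra fun b0 => by
      obtain ⟨γ, h7, -⟩ := h6.exists_fx b0 hQ
      refine H.low (γ := γ) (fun e => h4 (h.eq h2 ⟨hβ, h3⟩ ⟨h1, (show α = γ from e) ▸ (h5 h7).1⟩ n.symm)) (h β hβ).lt h6.lt b0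
        ?_ hQ.2 ((h6.fx Q hQ).ge.trans (Set.ncard_le_ncard (Set.inter_subset_inter_left _ fun t ht =>
          let ⟨g, hg, e⟩ := h6.tr γ h7 t ht; ⟨g, XX_mono Set.inter_subset_right hg, e⟩)))
      rw [k γ h7, mul_right_comm, h6.nu h7, mul_assoc, Ln, (h β hβ).nu m, H.nu1 β α]
      ring
    have s : O ⊆ {ω | Ln G p α ω = ∅} := fun γ hγ => (k γ hγ).trans ((Set.ncard_eq_zero (Set.toFinite _)).1
      (by simpa [hp.out.ne_zero] using h6.nu hγ))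
    have i : Inv (NN G p α) {ω | Ln G p α ω = ∅} := fun g hg t ht =>
      (smul_Ln' (NN_fix hg) t).symm.trans (by rw [show Ln G p α t = ∅ from ht, Set.smul_set_empty])
    have e0 : Disjoint {ω | Ln G p α ω = ∅} (Fx Q.1 Ω) := Set.disjoint_left.2 fun t ht h' => ht.le ⟨hQ.2, h'⟩
    have l := (H.star α Q hQ.2 _ i fun e => e.le ⟨hQ.2, hQ.2⟩).2
    obtain ⟨c, hc⟩ := dvd_mv (Q := Q) (i.mono (le_XX hQ.2))
    rw [dl, hc, e0.inter_eq, Set.ncard_empty] at l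
    rw [sdiff_eq_left.2 e0] at hc
    have c1 : c ≤ 1 := by
      by_contra c1
      have : (2 : ℤ) ≤ c := by omega
      have : (2 : ℤ) < p := by omega
      push_cast at l
      nlinarith [mul_le_mul_of_nonneg_left ‹(2 : ℤ) ≤ c› (show (0 : ℤ) ≤ (p - 1) * p by nlinarith)]
    have e := Set.eq_of_subset_of_ncard_le s (by rw [hc, h6.card]; nlinarith)
    exact ⟨C', h2, h3, h4, e ▸ fun t ht => (h5 ht).1, e ▸ h6.card⟩
  obtain ⟨β, a1, a2, -⟩ := h.third h1 α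
  obtain ⟨γ, b1, b2, b3⟩ := h.third h1 β
  obtain ⟨C1, c1, c2, c3, c4, c5⟩ := z β a1 a2
  obtain ⟨C2, d1, d2, -, d4, -⟩ := z γ b1 b2
  obtain ⟨s, t, e1, e2, e3⟩ := (Set.one_lt_ncard (Set.toFinite _)).1 (c5.symm ▸ hp.out.one_lt)
  exact c3 (h.eq c1 ⟨a1, c2⟩ ⟨b1, c1.eq d1 ⟨c4 t, d4 t⟩ ⟨c4 e2, d4 e2⟩ e3.symm ▸ d2⟩ b3)

theorem clique' (h : Bad G p α β a) (h2 : Two G p α β) (h3 : δ ∈ Orb (NN G p α) β)
    (h4 : δ ∈ Orb (NN G p β) α) : False := by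
  have c1 := h.pt h2
  have c2 := (H.rev h).pt (H.two_rev h h2)
  have n := ne_of_orb (X := NN G p α) (fun _ => NN_fix) h.1
  refine H.clique (a := a) (fun ω hω => ?_) (Set.mem_insert α (Orb (NN G p α) β))
  obtain rfl | ⟨g, hg, rfl⟩ := hω
  · rwa [Set.insert_sdiff_self_of_notMem n]
  have e : insert α (Orb (NN G p α) β) \ {β} = Orb (NN G p β) α := by
    refine Set.eq_of_subset_of_ncard_le ?_ (by
      rw [Set.ncard_sdiff_singleton_of_mem (Set.mem_insert_of_mem _ mem_Orb), Set.ncard_insert_of_notMem n,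
        c1.card, c2.card]; rfl)
    rintro t ⟨rfl | ht, n⟩
    · exact mem_Orb
    obtain ⟨y, hy, rfl⟩ := (c1.stab mem_Orb).tr δ
      ⟨h3, fun e => ne_of_orb (fun _ => NN_fix) h.1.symm (e ▸ h4)⟩ t ⟨ht, n⟩
    exact inv_Orb y (XX_mono Set.inter_subset_right hy) δ h4
  have := (e ▸ c2).smul g
  rwa [smul_Ev, Set.smul_set_sdiff, Set.smul_set_insert, NN_fix hg, inv_Orb.smul hg,
    Set.smul_set_singleton] at this

end Core

end CfsgH9.Sy
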