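import Cfsg.Agent.H9.SyB

set_option autoImplicit false
set_option linter.unusedSectionVars false

/-! S3580: there are no bad pairs. -/

namespace CfsgH9.Sy

open Subgroup Pointwise MulAction

universe u

variable {G : Type u} [Group G] [Finite G] {p : ℕ} [hp : Fact p.Prime] {Ω : Type*} [MulAction G Ω]
  [Finite Ω]

variable (G p) in
/-- `β` and `γ` lie on different lines of one class at `α`. -/
structure Tri (α β γ : Ω) (a : ℕ) : Prop where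
  bad : Bad G p α β (a + 1)
  mem : Ln G p α γ ∈ Cs G p α β
  ne : Ln G p α γ ≠ Ln G p α β
  ne' : γ ≠ α

variable (G p) in
abbrev MM (β γ α : Ω) : Set Ω := Orb (XX (Ln G p β γ)) α

variable {Q : Sylow p G} {α β γ δ α' α'' : Ω} {g : G} {a b : ℕ}

theorem Tri.symm (h : Tri G p α β γ a) : Tri G p α γ β a :=
  ⟨h.bad.congr h.ne' h.mem, Cs_eq h.mem ▸ mem_Cs, h.ne.symm, h.bad.1.symm⟩

theorem Tri.smul (h : Tri G p α β γ a) (g : G) : Tri G p (g • α) (g • β) (g • γ) a :=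
  ⟨h.bad.smul g, by simpa only [Cs, smul_Orb, smul_Ev, smul_Ln] using Set.smul_mem_smul_set (a := g) h.mem,
    fun e => h.ne (smul_left_cancel g (by rwa [smul_Ln, smul_Ln])), fun e => h.ne' (smul_left_cancel g e)⟩

theorem Tri.ev (h : Tri G p α β γ a) : Ln G p α β ∩ Ev G p (Ln G p α γ) = Ln G p α β ∩ Ev G p γ := by
  rw [h.bad.ev h.mem]
  exact Set.ext fun _ => ⟨fun k => ⟨k.1, k.2.2⟩, fun k => ⟨k.1, k.1.1, k.2⟩⟩

theorem Tri.nu (h : Tri G p α β γ a) :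
    (Ln G p α β ∩ Ev G p γ).ncard * (p + (a + 1)) = (a + 1) * (Ln G p α β).ncard :=
  h.ev ▸ h.bad.stab.nu ⟨h.mem, h.ne⟩

theorem Tri.ne3 (h : Tri G p α β γ a) : (Ln G p α β ∩ Ev G p γ).Nonempty :=
  h.ev ▸ h.bad.stab.ne_of a.succ_ne_zero ⟨h.mem, h.ne⟩

theorem Tri.conj (hu : g ∈ XX (Ln G p β γ)) (h : Tri G p α β γ a) : Tri G p (g • α) β γ a := by
  simpa only [XX_fix Set.inter_subset_left hu, XX_fix Set.inter_subset_right hu] using h.smul g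

theorem MM_comm : MM G p β γ α = MM G p γ β α := by rw [MM, Ln_comm]

theorem smul_MM (g : G) : g • MM G p β γ α = MM G p (g • β) (g • γ) (g • α) := by rw [smul_Orb, smul_Ln]

namespace Core

variable (H : Core G p Ω)
include H

theorem tri_ne (h : Tri G p α β γ a) : Ln G p β γ ≠ Ln G p β α := fun e =>
  h.ne (H.l1 h.bad (fun _ k => (e.ge ⟨k.2, k.1⟩).2) h.ne')

theorem dich (h : Tri G p α β γ a) :
    Ln G p β γ ∈ Cs G p β α ∨ Cyc (Ln G p β γ) (Cs G p β α) (a + 2) := by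
  have r := H.rev h.bad
  obtain ⟨Q, hQ⟩ := h.ne3
  have k1 := h.nu
  have k2 := h.bad.nu' mem_Cs
  obtain ⟨O, h1, b, h2, h3⟩ := r.2.restr (cl_Ln (α := β) (β := γ)) ⟨Q, hQ.1.2, hQ.2⟩ Set.inter_subset_left
  have e3 : Ln G p β γ ∩ Ev G p (Ln G p β α) = Ln G p α β ∩ Ev G p γ := by
    rw [r.ev mem_Cs]
    exact Set.ext fun _ => ⟨fun k => ⟨⟨k.2.2, k.1.1⟩, k.1.2⟩, fun k => ⟨⟨k.1.2, k.2⟩, k.1.2, k.1.1⟩⟩
  have m : Ln G p β α ∈ O := by_contra fun m => by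
    rw [Set.inter_eq_left.2 (h3 _ ⟨mem_Cs, m⟩)] at e3
    refine H.low (γ := γ) (fun e => h.ne (by rw [e])) r.2.lt h.bad.stab.lt a.succ_ne_zero ?_ hQ.1.2 ?_
    · rw [e3, mul_right_comm, k1, mul_assoc, k2, H.nu1 α β]
      ring
    · refine (h.bad.stab.fx Q hQ.1).ge.trans ((Set.ncard_le_ncard fun l hl => ?_).trans
        (Set.ncard_image_le (f := Ln G p α)))
      obtain ⟨y, hy, rfl⟩ := h.bad.stab.tr _ ⟨h.mem, h.ne⟩ l hl.1
      have := (h.bad.ev hl.1.1).le hl.2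
      rw [smul_Ln' (XX_fix Set.inter_subset_left hy)] at this ⊢
      exact ⟨_, ⟨⟨y, XX_mono Set.inter_subset_right hy, rfl⟩, this.2⟩, rfl⟩
  by_cases e : O = Cs G p β α
  · have := h2.card
    rw [e, r.2.card] at this
    exact .inr (by rwa [e, ← show a + 2 = b by omega] at h2)
  obtain ⟨l, l1, l2⟩ := Set.exists_of_ssubset (h1.ssubset_of_ne e)
  have c := Set.ncard_lt_ncard (h1.ssubset_of_ne e)
  have k3 := h2.nu m
  have k4 := r.nu' l1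
  rw [h2.card, r.2.card] at c
  rw [e3] at k3
  rw [H.nu1 β α, ← k2] at k4
  refine .inl (Set.eq_of_subset_of_ncard_le ((h3 l ⟨l1, l2⟩).trans (r.ev l1).le) ?_ ▸ l1)
  rw [Nat.eq_of_mul_eq_mul_right (by omega) k4]
  have := (Set.ncard_pos (Set.toFinite _)).2 ⟨Q, hQ⟩
  have := hp.out.pos
  by_contra! n
  obtain ⟨d, hd⟩ : ∃ d, a + 1 = b + d := ⟨a + 1 - b, by omega⟩
  rw [hd] at k1
  generalize (Ln G p α β ∩ Ev G p γ).ncard = x, (Ln G p α β).ncard = y, (Ln G p β γ).ncard = z at *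
  have : x * (p + b) * (b + d) < x * (p + (b + d)) * b + x * p * d + 1 := by nlinarith
  have : b * z ≤ b * y := Nat.mul_le_mul_left _ n.le
  have b0 : 0 < b := Nat.pos_of_ne_zero (by rintro rfl; simp at k3; omega)
  nlinarith [mul_pos (mul_pos b0 (show 0 < b + d by omega)) (Nat.sub_pos_of_lt n), Nat.sub_add_cancel n.le,
    Nat.zero_le (x * p * d)]

theorem noI (h : Tri G p α β γ a) : Ln G p β γ ∉ Cs G p β α := fun hI => by
  have r := H.rev h.bad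
  have n := H.tri_ne h
  have n1 : γ ≠ β := fun e => h.ne (by rw [e])
  have t : Two G p α γ := fun δ h1 h2 => by_contra fun h3 => by
    have s : ∀ Q ∈ Ln G p β α, Q ∈ Ev G p γ ↔ Q ∈ Ev G p δ := fun Q k =>
      ⟨fun k' => (h2.ge ⟨k.2, k'⟩).2, fun k' => (h2.le ⟨k.2, k'⟩).2⟩
    have h' : Tri G p α β δ a := ⟨h.bad, h2 ▸ h.mem, h2 ▸ h.ne, h1⟩
    rcases H.dich h' with k | k
    · have e := r.stab.uniq ⟨hI, n⟩ ⟨k, H.tri_ne h'⟩ (r.stab.ne_of a.succ_ne_zero ⟨hI, n⟩) (by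
        rw [r.ev hI, r.ev k]; exact fun Q k => ⟨k.1.1, (s Q k.1).1 k.2.2⟩)
      refine H.tri_ne h.symm ((H.l1 (H.rev (r.congr n1 hI)) (fun Q k => (e.le ⟨k.2, k.1⟩).2) h3).symm.trans
        (H.l1 (H.rev h.symm.bad) (fun Q k => (h2.ge ⟨k.2, k.1⟩).2) h3))
    · exact n (k.uniq mem_Cs hI (k.ne_of (by omega) mem_Cs) (by
        rw [r.ev hI, r.ev mem_Cs]; exact fun Q k => ⟨k.1.1, (s Q k.2).2 k.1.2⟩)).symm
  obtain ⟨δ, d1, d2⟩ := exists_Ln h.mem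
  obtain rfl := t δ (fun e => ne_of_orb (fun _ => NN_fix) h.bad.1 (e ▸ d1)) d2
  have t' := t.orb ((Orb_eq d1).ge mem_Orb)
  obtain ⟨ω, o1, o2⟩ := exists_Ln hI
  obtain rfl := (H.two_rev h.bad t').orb o1 δ n1 o2.symm
  exact H.clique' h.bad t' d1 o1

theorem jj (h : Tri G p α β γ a) : Cyc (Ln G p β γ) (Cs G p β α) (a + 2) := (H.dich h).resolve_left (H.noI h)

theorem mm (h : Tri G p α β γ a) : Cyc (Ln G p β γ) (MM G p β γ α) (a + 2) ∧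
    Set.BijOn (Ln G p β) (MM G p β γ α) (Cs G p β α) := by
  have r := H.rev h.symm.bad
  refine (H.jj h).lift Set.inter_subset_left mem_Cs (fun _ => (H.rev h.bad).ev) fun u hu e =>
    by_contra fun n => ?_
  have m : Ln G p γ (u • α) ∈ Cs G p γ α := Ln_mem ⟨u, XX_mono Set.inter_subset_right hu, rfl⟩
  have k := (H.jj h.symm).uniq mem_Cs m ((H.jj h.symm).ne_of (by omega) mem_Cs) (by
    rw [r.ev m, r.ev mem_Cs]; exact fun Q k => ⟨k.1.1, (e.ge ⟨k.1.2, k.2.2⟩).2⟩)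
  exact h.ne ((H.l1 h.symm.bad (fun Q k' => (k.le ⟨k'.2, k'.1⟩).2) n).symm.trans
    (H.l1 h.bad (fun Q k' => (e.ge ⟨k'.2, k'.1⟩).2) n))

theorem tri' (h : Tri G p α β γ a) (h1 : α' ∈ MM G p β γ α) (n : α' ≠ α) : Tri G p β α α' a :=
  ⟨H.rev h.bad, (H.mm h).2.1 h1, fun e => n ((H.mm h).2.2.1 h1 mem_Orb e), fun e =>
    ne_of_orb (fun _ => XX_fix Set.inter_subset_left) h.bad.1.symm (e ▸ h1)⟩

theorem mem_mm (h : Tri G p α β γ a) (h1 : α' ∈ MM G p β γ α) (n : α' ≠ α) : γ ∈ MM G p α α' β := by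
  have t1 := H.tri' h h1 n
  have t2 := H.tri' h.symm (by rwa [MM_comm]) n
  have t3 : Tri G p α' β γ a := by obtain ⟨u, hu, rfl⟩ := h1; exact h.conj hu
  obtain ⟨δ, d1, d2⟩ := (H.mm t1).2.2.2 h.mem
  by_contra n'
  have n1 : δ ≠ γ := fun e => n' (e ▸ d1)
  have m : Ln G p α' δ ∈ Cs G p α' γ := Cs_eq t3.mem ▸ (H.mm t1.symm).2.1 (by rwa [MM_comm])
  have r := t3.symm.bad
  have k := (H.jj t2.symm).uniq mem_Cs m ((H.jj t2.symm).ne_of (by omega) mem_Cs) (by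
    rw [r.ev m, r.ev mem_Cs]; exact fun Q k => ⟨k.1.1, (d2.ge ⟨k.1.2, k.2.2⟩).2⟩)
  exact t2.ne ((H.l1 t2.symm.bad (fun Q k' => (k.le ⟨k'.2, k'.1⟩).2) n1).symm.trans
    (H.l1 t2.bad (fun Q k' => (d2.ge ⟨k'.2, k'.1⟩).2) n1))

theorem reg (h : Tri G p α β γ a) (h0 : a ≠ 0 ∨ Two G p α β) (h1 : α' ∈ MM G p β γ α) (n1 : α' ≠ α)
    (h2 : α'' ∈ MM G p β γ α) (n2 : α'' ≠ α) : MM G p α α' β ⊆ MM G p α α'' β := fun δ hδ => by
  have t1 := H.tri' h h1 n1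
  have m := (H.mm t1).2.1 hδ
  have s : ∀ {ω : Ω}, MM G p α ω β ⊆ Orb (NN G p α) β := fun {_} =>
    (inv_Orb.mono (XX_mono Set.inter_subset_left)).orb mem_Orb
  rcases h0 with h0 | h0
  · obtain ⟨a, rfl⟩ := Nat.exists_eq_succ_of_ne_zero h0
    by_cases e1 : δ = β
    · exact e1 ▸ mem_Orb
    by_cases e2 : δ = γ
    · exact e2 ▸ H.mem_mm h h2 n2
    have m' : Ln G p α δ ∈ (Cs G p α β \ {Ln G p α β}) \ {Ln G p α γ} :=
      ⟨⟨m, fun e => e1 ((H.mm t1).2.2.1 hδ mem_Orb e)⟩, fun e => e2 ((H.mm t1).2.2.1 hδ (H.mem_mm h h1 n1) e)⟩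
    have c1 := (H.mm h).1.stab mem_Orb
    have c2 := h.bad.stab.stab ⟨h.mem, h.ne⟩
    have c3 := ((H.jj t1).stab mem_Cs).stab ⟨h.mem, h.ne⟩
    have e3 : Ln G p α β ∩ Ev G p γ = Ln G p β γ ∩ Ev G p α :=
      Set.ext fun _ => ⟨fun k => ⟨⟨k.1.2, k.2⟩, k.1.1⟩, fun k => ⟨⟨k.2, k.1.1⟩, k.1.2⟩⟩
    rw [h.ev, e3] at c2
    rw [h.bad.ev mem_Cs, h.bad.ev h.mem, show Ln G p α α' ∩ Ln G p α β ∩ Ln G p α γ =
      Ln G p β γ ∩ Ev G p α ∩ Ev G p α' from Set.ext fun _ => ⟨fun k => ⟨⟨⟨k.1.2.2, k.2.2⟩, k.2.1⟩, k.1.1.2⟩,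
        fun k => ⟨⟨⟨k.1.2, k.2⟩, k.1.2, k.1.1.1⟩, k.1.2, k.1.1.2⟩⟩] at c3
    obtain ⟨z, hz, rfl⟩ := (c1.ind c2 ⟨h1, n1⟩ m' (by omega) (by omega) c3).tr _ ⟨h1, n1⟩ _ ⟨h2, n2⟩
    rw [h.bad.ev m] at hz
    have := Set.smul_mem_smul_set (a := z) hδ
    rwa [smul_MM, XX_fix (fun _ k => k.1.2) hz, XX_fix (t := β) (fun _ k => k.1.1.1) hz,
      XX_fix (t := δ) (fun _ k => k.2.2) hz] at this
  · obtain ⟨ω, o1, o2⟩ := (H.mm (H.tri' h h2 n2)).2.2.2 m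
    exact h0.orb (s o1) δ (fun e => ne_of_orb (fun _ => NN_fix) h.bad.1 (e ▸ s hδ)) o2.symm ▸ o1

theorem not_reg (h : Tri G p α β γ a) (h0 : a ≠ 0 ∨ Two G p α β) : False := by
  obtain ⟨c, b1⟩ := H.mm h
  obtain ⟨α', h1, n1⟩ := Set.exists_ne_of_one_lt_ncard (s := MM G p β γ α) (by rw [c.card]; omega) α
  have t1 := H.tri' h h1 n1
  obtain ⟨c', b2⟩ := H.mm t1
  have r : ∀ ω ∈ MM G p β γ α, ∀ α' ∈ MM G p β γ α, α' ≠ ω → ∀ α'' ∈ MM G p β γ α, α'' ≠ ω →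
      MM G p ω α' β = MM G p ω α'' β := by
    rintro _ m α' k1 k2 α'' k3 k4
    rw [MM, ← Orb_eq m] at k1 k3
    obtain ⟨u, hu, rfl⟩ := m
    have := h0.imp id fun k => XX_fix Set.inter_subset_left hu ▸ k.smul u
    exact Set.Subset.antisymm (H.reg (h.conj hu) this k1 k2 k3 k4) (H.reg (h.conj hu) this k3 k4 k1 k2)
  have i1 : Inv (XX (Ln G p β γ)) (MM G p α α' β) := fun u hu t ht => by
    have m := c.inv u hu α mem_Orb
    have m' := c.inv u hu α' h1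
    have n : u • α' ≠ u • α := fun e => n1 (smul_left_cancel u e)
    have := Set.smul_mem_smul_set (a := u) ht
    rw [smul_MM, XX_fix Set.inter_subset_left hu] at this
    by_cases e : u • α = α
    · rwa [e, r α mem_Orb _ m' (e ▸ n) α' h1 n1] at this
    · rwa [r _ m _ m' n α mem_Orb (Ne.symm e), MM_comm, r α mem_Orb _ m e α' h1 n1] at this
  have i2 : Inv (XX (Ln G p β α)) (MM G p α α' β) := inv_XX fun Q hQ => by
    obtain ⟨l, hl, k⟩ := h.bad.stab.exists_fx a.succ_ne_zero (Q := Q) ⟨hQ.2, hQ.1⟩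
    obtain ⟨δ, d1, rfl⟩ := b2.2.2 hl.1
    obtain ⟨z, hz, rfl⟩ := (c'.stab mem_Orb).tr γ ⟨H.mem_mm h h1 n1, fun e => h.ne (by rw [show γ = β from e])⟩
      δ ⟨d1, fun e => hl.2 (by rw [show δ = β from e]; rfl)⟩
    refine (i1.smul_ev (c'.inv.smul (XX_mono Set.inter_subset_left hz))).mono (le_XX ?_)
    rw [smul_Ln' (XX_fix Set.inter_subset_right hz)]
    exact ⟨hQ.1, ((h.bad.ev hl.1).le k).2⟩
  have i3 : Inv (NN G p β) (MM G p α α' β) := inv_XX fun Q hQ => by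
    obtain ⟨l, hl, k⟩ := t1.bad.2.exists_fx (by omega) hQ
    obtain ⟨_, ⟨u, hu, rfl⟩, rfl⟩ := b1.2.2 hl
    refine (i2.smul_ev (i1.smul hu)).mono (le_XX ?_)
    rw [smul_Ln' (XX_fix Set.inter_subset_left hu)]
    exact (t1.bad.ev hl).le k
  refine H.clique (a := a) (C := MM G p α α' β) ?_ mem_Orb
  rintro _ ⟨u, hu, rfl⟩
  have := ((c'.stab mem_Orb).up Set.inter_subset_right (cl_Ev β)
    (i3.diff (inv_single fun _ => NN_fix))).smul u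
  rwa [smul_Ev, Set.smul_set_sdiff, c'.inv.smul hu, Set.smul_set_singleton] at this

omit H in
theorem two_le (h : Bad G p α β a) (n : ¬ Two G p α β) (hQ : Q ∈ Ev G p α) :
    p * 2 ≤ {δ | δ ≠ α ∧ Ln G p α δ ∈ Cs G p α β ∧ Q ∉ Ev G p δ}.ncard * 1 := by
  simp only [Two, not_forall] at n
  obtain ⟨γ, n1, n2, n3⟩ := n
  refine (h.2.mv hQ).ge.trans' le_rfl |> fun k => (Nat.mul_le_mul_right 2 k).trans
    (CfsgH5.Der.dc _ _ (fun l δ => Ln G p α δ = l) ?_ fun δ _ => (Set.ncard_le_one (Set.toFinite _)).2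
      fun _ k _ k' => k.2.symm.trans k'.2)
  rintro _ ⟨⟨g, hg, rfl⟩, hl⟩
  have m : g • Ln G p α β ∈ Cs G p α β := ⟨g, hg, rfl⟩
  have k : ∀ δ, δ ≠ α → Ln G p α δ = Ln G p α β → g • δ ∈ {δ | δ ∈ {δ | δ ≠ α ∧ Ln G p α δ ∈ Cs G p α β ∧
      Q ∉ Ev G p δ} ∧ Ln G p α δ = g • Ln G p α β} := fun δ d1 d2 => by
    have e : Ln G p α (g • δ) = g • Ln G p α β := by rw [← smul_Ln' (NN_fix hg), d2]
    exact ⟨⟨fun e => d1 (smul_left_cancel g (e.trans (NN_fix hg).symm)), e ▸ m, fun k =>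
      hl ((h.ev m).ge (e.le ⟨hQ, k⟩))⟩, e⟩
  exact (Set.one_lt_ncard (Set.toFinite _)).2 ⟨_, k γ n1 n2, _, k β h.1.symm rfl,
    fun e => n3 (smul_left_cancel g e)⟩

/-- sets of points of ratio `1 / (p + 1)`. -/
theorem rr (hQ : Q ∈ Ev G p β) {R : Set Ω} (h1 : Inv (NN G p β) R)
    (h2 : ∀ δ ∈ R, (Ln G p β δ).ncard * (p + 1) = (Ev G p β).ncard) :
    (R \ Fx Q.1 Ω).ncard = p * (R ∩ Fx Q.1 Ω).ncard := by
  rcases R.eq_empty_or_nonempty with rfl | ⟨δ, hδ⟩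
  · simp
  have r := ratio h1 hQ fun t ht => Nat.eq_of_mul_eq_mul_right p.succ_pos ((h2 t ht).trans (h2 δ hδ).symm)
  have := H.pos β
  rw [← h2 δ hδ, ← Set.ncard_inter_add_ncard_sdiff_eq_ncard R (Fx Q.1 Ω)] at r
  rw [← h2 δ hδ] at this
  exact Nat.eq_of_mul_eq_mul_right (Nat.pos_of_mul_pos_right this) (by linarith)

theorem not_gq (h : Bad G p α β 1) (n : ¬ Two G p α β) : False := by
  obtain ⟨Q, hQ⟩ := h.ne
  have k1 := two_le h n hQ.1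
  simp only [Two, not_forall] at n
  obtain ⟨γ, n1, n2, n3⟩ := n
  have r := H.rev h
  have e1 : Ln G p β γ = Ln G p β α := H.l1 r (fun _ k => (n2.ge ⟨k.2, k.1⟩).2) n3
  have h' := H.rev (r.congr n3 (e1 ▸ mem_Cs))
  have e2 : Ln G p γ α = Ln G p γ β := by rw [Ln_comm, n2, Ln_comm, ← e1, Ln_comm]
  have q' : Q ∈ Ev G p γ := (n2.ge hQ).2
  have k2 := two_le h' (fun k => h.1 (k α n1.symm e2)) q'
  let R := {δ | δ ≠ β ∧ (Ln G p β δ).ncard * (p + 1) = (Ev G p β).ncard}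
  have i : Inv (NN G p β) R := fun g hg δ hδ => ⟨fun e => hδ.1 (smul_left_cancel g (e.trans (NN_fix hg).symm)),
    by rw [← smul_Ln' (NN_fix hg), Set.ncard_smul_set, hδ.2]⟩
  have s : ∀ α, Bad G p α β 1 → Q ∈ Ev G p α →
      {δ | δ ≠ α ∧ Ln G p α δ ∈ Cs G p α β ∧ Q ∉ Ev G p δ} ⊆ R \ Fx Q.1 Ω := fun α h q δ hδ => by
    have t : Tri G p α β δ 0 := ⟨h, hδ.2.1, fun e => hδ.2.2 (e.ge ⟨q, hQ.2⟩).2, hδ.1⟩
    refine ⟨⟨fun e => hδ.2.2 (e ▸ hQ.2), ?_⟩, hδ.2.2⟩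
    have j1 := (H.jj t).nu mem_Cs
    have j2 := t.nu
    have j3 := h.nu' mem_Cs
    rw [(H.rev h).ev mem_Cs, show Ln G p β δ ∩ Ln G p β α = Ln G p α β ∩ Ev G p δ from Set.ext fun _ =>
      ⟨fun k => ⟨⟨k.2.2, k.1.1⟩, k.1.2⟩, fun k => ⟨⟨k.1.2, k.2⟩, k.1.2, k.1.1⟩⟩] at j1
    rw [← H.nu1 α β]
    nlinarith
  have c := Set.ncard_le_ncard (Set.union_subset (s α h hQ.1) (s γ h' q'))
  rw [Set.ncard_union_eq (Set.disjoint_left.2 fun δ d1 d2 => H.noI (γ := δ)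
    ⟨h.congr n1 (n2 ▸ mem_Cs), (Cs_eq (n2 ▸ mem_Cs)).symm ▸ d1.2.1, fun e => d1.2.2 (e.ge ⟨hQ.1, q'⟩).2, d1.1⟩
    ((Cs_eq (e2 ▸ mem_Cs)).symm ▸ d2.2.1))] at c
  have l := (H.star β Q hQ.2 R i fun e => e.1 rfl).2
  have v := H.rr hQ.2 i fun _ k => k.2
  have := H.odd
  rw [dl, v] at l
  rw [v] at c
  have : 4 ≤ (R ∩ Fx Q.1 Ω).ncard := Nat.le_of_mul_le_mul_left (by omega) hp.out.pos
  zify at *
  nlinarith [mul_le_mul_of_nonneg_left this (show (0 : ℤ) ≤ p * (p - 2) by nlinarith)]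

theorem eq_zero (h : Bad G p α β a) : a = 0 := by_contra fun n => by
  obtain ⟨a, rfl⟩ := Nat.exists_eq_succ_of_ne_zero n
  obtain ⟨l, h1, h2⟩ := Set.exists_ne_of_one_lt_ncard (s := Cs G p α β) (by rw [h.2.card]; omega) (Ln G p α β)
  obtain ⟨γ, h3, rfl⟩ := exists_Ln h1
  have t : Tri G p α β γ a := ⟨h, h1, h2, fun e => ne_of_orb (fun _ => NN_fix) h.1 (e ▸ h3)⟩
  by_cases e : a ≠ 0 ∨ Two G p α β
  · exact H.not_reg t e
  · obtain rfl : a = 0 := by tauto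
    exact H.not_gq h (by tauto)

end Core

end CfsgH9.Sy
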