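import Cfsg.Agent.H9.SyC

set_option autoImplicit false
set_option linter.unusedSectionVars false

/-! S3580: bad pairs with one fixed line. -/

namespace CfsgH9.Sy

open Subgroup Pointwise MulAction

universe u

variable {G : Type u} [Group G] [Finite G] {p : ℕ} [hp : Fact p.Prime] {Ω : Type*} [MulAction G Ω]
  [Finite Ω] {Q : Sylow p G} {α β γ δ : Ω} {g : G} {a : ℕ}

theorem inv_Bd : Inv (NN G p α) {β | Bad G p α β 0} := fun g hg _ h => by
  simpa only [NN_fix hg, Set.mem_ofPred_eq] using Bad.smul h g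

namespace Core

variable (H : Core G p Ω)
include H

theorem rr' (hQ : Q ∈ Ev G p α) :
    ({β | Bad G p α β 0} \ Fx Q.1 Ω).ncard = p * ({β | Bad G p α β 0} ∩ Fx Q.1 Ω).ncard :=
  H.rr hQ inv_Bd fun _ h => by simpa using Bad.nu' h mem_Cs

theorem small (h : Bad G p α β 0) (n : α ≠ δ) (n' : ¬ ∃ a, Bad G p α δ a) :
    Two G p α β ∧ Orb (NN G p α) β = {β | Bad G p α β 0} := by
  obtain ⟨Q, hQ⟩ := h.ne
  have v := H.rr' hQ.1
  have l := H.add_lt hQ.1 inv_Bd (fun e => e.1 rfl) inv_Orb (ne_of_orb (fun _ => NN_fix) n)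
    (Set.disjoint_left.2 fun t h1 h2 => n' ⟨0, Bad.orb h1 (fun _ => NN_fix) ((Orb_eq h2).ge mem_Orb)⟩)
  have := H.good α δ n n' Q hQ.1
  have c := Set.ncard_inter_add_ncard_sdiff_eq_ncard {β | Bad G p α β 0} (Fx Q.1 Ω)
  have := H.odd
  rw [dl, v] at l
  have b1 : ({β | Bad G p α β 0} ∩ Fx Q.1 Ω).ncard ≤ 1 := by
    by_contra! b1
    zify at *
    nlinarith [mul_le_mul_of_nonneg_left (show (2 : ℤ) ≤ _ from b1) (show (0 : ℤ) ≤ p * (p - 2) by nlinarith)]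
  have t : Two G p α β := by_contra fun k => by
    have := (two_le h k hQ.1).trans (Nat.mul_le_mul_right 1 (Set.ncard_le_ncard
      (t := {β | Bad G p α β 0} \ Fx Q.1 Ω) fun t ht => ⟨h.congr ht.1 ht.2.1, ht.2.2⟩))
    nlinarith
  exact ⟨t, Set.eq_of_subset_of_ncard_le (inv_Bd.orb h) (by rw [(h.pt t).card]; nlinarith)⟩

theorem caseA (h : Bad G p α β 0) (hN : ∀ α : Ω, ∃ δ, α ≠ δ ∧ ¬ ∃ a, Bad G p α δ a) : False := by
  have s : ∀ {α β : Ω}, Bad G p α β 0 → _ := fun {α β} h => let ⟨_, a, b⟩ := hN α; H.small (β := β) h a b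
  have c : ∀ {α β : Ω}, Bad G p α β 0 → Cyc (Ev G p α) {β | Bad G p α β 0} 1 := fun h =>
    (s h).2 ▸ h.pt (s h).1
  have r := H.rev h
  have := H.odd
  obtain ⟨Q, hQ⟩ := h.ne
  obtain ⟨δ, d1, d2⟩ := Set.exists_ne_of_one_lt_ncard (s := {γ | Bad G p β γ 0}) (by rw [(c r).card]; omega) α
  have d3 : ¬ ∃ a, Bad G p α δ a := fun ⟨a, k⟩ =>
    H.clique' h (s h).1 ((s h).2.ge (H.eq_zero k ▸ k)) ((s r).2.ge d1)
  have u : ∀ {α β γ : Ω}, Bad G p α β 0 → Bad G p α γ 0 → Q ∈ Ln G p α β → Q ∈ Ev G p γ → γ = β :=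
    fun h h' q q' => (Set.ncard_le_one (Set.toFinite _)).1 ((c h).fx Q q.1).le _ ⟨h', q'⟩ _ ⟨h, q.2⟩
  obtain ⟨γ, g1, g2⟩ : ∃ γ ∈ Fx Q.1 Ω, γ ∉ ({α, β} : Set Ω) := Set.not_subset.1 fun k => by
    have := (H.big Q).trans_le ((Set.ncard_le_ncard k).trans (Set.ncard_pair h.1).le)
    omega
  rw [Set.mem_insert_iff, not_or] at g2
  have g3 : ¬ ∃ a, Bad G p α γ a := fun ⟨a, k⟩ => g2.2 (u h (H.eq_zero k ▸ k) hQ g1)
  have l1 := H.good α δ d2.symm d3 Q hQ.1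
  have l2 := H.good α γ (Ne.symm g2.1) g3 Q hQ.1
  obtain ⟨g, hg, rfl⟩ : γ ∈ Orb (NN G p α) δ := by_contra fun n => by
    have := H.add_lt hQ.1 inv_Orb (ne_of_orb (fun _ => NN_fix) d2.symm) inv_Orb
      (ne_of_orb (fun _ => NN_fix) (Ne.symm g2.1)) (Set.disjoint_left.2 fun t h1 h2 =>
        n ((Orb_eq h1).le ((Orb_eq h2).ge mem_Orb)))
    linarith
  have b1 : Bad G p α (g • β) 0 := inv_Bd g hg β h
  have b2 : Bad G p (g • δ) (g • β) 0 := H.rev (Bad.smul d1 g)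
  have k : {β | Bad G p α β 0} \ Fx Q.1 Ω ⊆ {β | Bad G p (g • δ) β 0} := by
    rw [← (c h).orb_eq hQ.1 ⟨b1, fun q => g2.1 (u r (u h b1 hQ q ▸ H.rev b2) ⟨hQ.2, hQ.1⟩ g1)⟩]
    exact (inv_Bd.mono (le_XX g1)).orb b2
  have d := CfsgH5.Der.dc (Orb (NN G p α) (g • δ)) {β | Bad G p α β 0} (fun ω β => Bad G p ω β 0)
    (m := p) (n := p) (by
      rintro _ ⟨x, hx, rfl⟩
      refine ((c h).mv hQ.1).ge.trans ((Set.ncard_smul_set x _).ge.trans (Set.ncard_le_ncard ?_))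
      rintro _ ⟨t, ht, rfl⟩
      exact ⟨inv_Bd x hx t ht.1, Bad.smul (k ht) x⟩) fun t ht => (Set.ncard_le_ncard (t := _ \ {α}) fun ω hω =>
        ⟨H.rev hω.2, fun e => ne_of_orb (fun _ => NN_fix) (Ne.symm g2.1) (e ▸ hω.1)⟩).trans
        ((c (H.rev ht)).stab (H.rev ht)).card.le
  rw [(c h).card, ← Set.ncard_inter_add_ncard_sdiff_eq_ncard _ (Fx Q.1 Ω)] at d
  have := (Set.ncard_pos (s := Orb (NN G p α) (g • δ) ∩ Fx Q.1 Ω) (Set.toFinite _)).2 ⟨_, mem_Orb, g1⟩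
  have := Nat.le_of_mul_le_mul_right d hp.out.pos
  rw [dl] at l2
  zify at *
  nlinarith

theorem caseB (h : ∀ α β : Ω, α ≠ β → Bad G p α β 0) : False := by
  have e : ∀ α : Ω, {β | Bad G p α β 0} = {α}ᶜ := fun α => Set.ext fun β => ⟨fun k => k.1.symm, fun k => h α β (Ne.symm k)⟩
  have c : ∀ α : Ω, ∀ Q ∈ Ev G p α, (Fx Q.1 Ω \ {α}).ncard = 3 ∧ (Fx Q.1 Ω)ᶜ.ncard = 9 := fun α Q hQ => by
    have v := H.rr' hQ
    have l := (H.star α Q hQ _ inv_Bd fun e => e.1 rfl).2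
    have := H.odd
    have := H.big Q
    have c := Set.ncard_sdiff_singleton_of_mem (s := Fx Q.1 Ω) hQ
    rw [dl, v, e, Set.inter_comm, ← Set.sdiff_eq] at l
    rw [e, Set.inter_comm, ← Set.sdiff_eq, Set.sdiff_eq, Set.inter_eq_right.2 (Set.compl_subset_compl.2
      (Set.singleton_subset_iff.2 (show α ∈ Fx Q.1 Ω from hQ)))] at v
    rw [v]
    generalize (Fx Q.1 Ω \ {α}).ncard = k at *
    have k1 : (p : ℤ) ≤ k := by omega
    have k2 : (3 : ℤ) ≤ p := by omega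
    have k3 : ((p : ℤ) - 2) * k < 2 * (p - 1) := by push_cast at l; nlinarith
    have k4 : p = 3 := by have : (p : ℤ) < 4 := by nlinarith
                          omega
    rw [k4] at k1 k3 ⊢
    omega
  have t : ∀ α β : Ω, α ≠ β → ¬ Two G p α β := fun α β n t => by
    have b := h α β n
    have c2 := (H.rev b).pt (H.two_rev b t)
    obtain ⟨δ, d1, d2⟩ := Set.exists_ne_of_one_lt_ncard (s := Orb (NN G p β) α)
      (by rw [c2.card]; have := H.odd; omega) α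
    have b' := h α δ d2.symm
    by_cases m : Ln G p α δ ∈ Cs G p α β
    · obtain ⟨ω, o1, o2⟩ := exists_Ln m
      exact H.clique' b t (t.orb o1 δ d2 o2.symm ▸ o1) d1
    obtain ⟨O, o1, a, o2, o3⟩ := b'.2.restr cl_Ln b.ne Set.inter_subset_left
    have e : O = Cs G p α δ := o1.antisymm fun l hl => by_contra fun k => by
      obtain ⟨ω, a1, rfl⟩ := exists_Ln hl
      have := H.l1 b (fun Q q => ((b'.ev hl).le (o3 _ ⟨hl, k⟩ q)).2)
        fun e => ne_of_orb (fun _ => NN_fix) b'.1 (e ▸ a1)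
      exact m ((Cs_eq (this ▸ hl)).symm ▸ mem_Cs)
    have := o2.card
    rw [e, b'.2.card] at this
    obtain ⟨Q, q1, q2⟩ := o2.ne_of (by omega) (e ▸ mem_Cs)
    have := (c2.stab mem_Orb).nu ⟨d1, d2⟩
    rw [zero_mul, mul_eq_zero, Set.ncard_eq_zero (Set.toFinite _)] at this
    exact this.elim (fun k => k.le ⟨⟨q1.2, q1.1⟩, ((b'.ev mem_Cs).le q2).2⟩) hp.out.ne_zero
  have f : ∀ α β : Ω, α ≠ β → ∀ Q ∈ Ln G p α β, ∀ γ ∈ Fx Q.1 Ω, Ln G p α β ⊆ Ev G p γ :=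
    fun α β n Q hQ γ q => by_contra fun k => by
      have n' : α ≠ γ := fun e => k (e ▸ Set.inter_subset_left)
      have t1 := t α β n
      have t2 := t α γ n'
      simp only [Two, not_forall] at t1 t2
      obtain ⟨β', a1, a2, a3⟩ := t1
      obtain ⟨γ', b1, b2, b3⟩ := t2
      have m : ∀ s t, Ln G p α s = Ln G p α β → Ln G p α t = Ln G p α γ → s ≠ t := by
        rintro s _ e1 e2 rfl
        exact k fun Q q => (e2.le (e1.ge q)).2
      have := Set.ncard_le_ncard (show {β, β', γ, γ'} ⊆ Fx Q.1 Ω \ {α} by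
        rintro _ (rfl | rfl | rfl | rfl)
        exacts [⟨hQ.2, n.symm⟩, ⟨(a2.ge hQ).2, a1⟩, ⟨q, n'.symm⟩, ⟨(b2.ge ⟨hQ.1, q⟩).2, b1⟩])
      rw [(c α Q hQ.1).1, Set.ncard_insert_of_notMem (by simp [Ne.symm a3, m _ _ rfl rfl, m _ _ rfl b2]),
        Set.ncard_insert_of_notMem (by simp [m _ _ a2 rfl, m _ _ a2 b2]), Set.ncard_pair (Ne.symm b3)] at this
      omega
  obtain ⟨α, q⟩ := Set.nonempty_of_ncard_ne_zero ((Nat.zero_le _).trans_lt (H.big default)).ne'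
  generalize (default : Sylow p G) = Q at q
  obtain ⟨c1, c2⟩ := c α Q q
  obtain ⟨γ, hγ⟩ := Set.nonempty_of_ncard_ne_zero (s := (Fx Q.1 Ω)ᶜ) (by omega)
  have n : ∀ α ∈ Fx Q.1 Ω, α ≠ γ := fun α q e => hγ (e ▸ q)
  obtain ⟨x, hx, nx⟩ : ∃ x ∈ Q.1, x • γ ≠ γ := by simpa [Fx] using hγ
  have d := CfsgH5.Der.dc (Fx Q.1 Ω) (Set.univ \ {γ, x • γ}) (fun α δ => Ln G p α γ ⊆ Ev G p δ)
    (m := 3) (n := 1) (fun α q => by
      have b := h α γ (n α q)
      obtain ⟨R, hR⟩ := b.ne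
      refine (c γ R hR.2).1.ge.trans (Set.ncard_le_ncard fun δ hδ => ?_)
      have s := f α γ (n α q) R hR δ hδ.1
      refine ⟨⟨trivial, ?_⟩, s⟩
      rintro (e | rfl)
      · exact hδ.2 e
      exact nx (XX_fix Set.inter_subset_right (cl_Ln.pel b.ne hx ((smul_Ln' (q x hx) γ).trans
        (H.l1 b s fun e => n α q (smul_left_cancel x ((q x hx).trans e.symm)))))))
    fun δ hδ => (Set.ncard_le_one (Set.toFinite _)).2 fun α q β q' => by_contra fun k => by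
      have m : δ ≠ γ := fun e => hδ.2 (.inl e)
      have e := (H.l1 (h γ α (n α q.1).symm) (Ln_comm (G := G) (p := p) α γ ▸ q.2) m).symm.trans
        (H.l1 (h γ β (n β q'.1).symm) (Ln_comm (G := G) (p := p) β γ ▸ q'.2) m)
      exact hγ ((H.l1 (h α γ (n α q.1)) (fun R r => (e.le ⟨r.2, r.1⟩).2) (Ne.symm k)).le ⟨q.1, q'.1⟩).2
  have e1 := Set.ncard_add_ncard_compl (Fx Q.1 Ω)
  rw [Set.ncard_sdiff (Set.subset_univ _), Set.ncard_pair nx.symm, Set.ncard_univ] at d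
  rw [Set.ncard_sdiff_singleton_of_mem q] at c1
  omega

theorem noBad (h : Bad G p α β a) : False := by
  obtain rfl := H.eq_zero h
  by_cases k : ∀ α β : Ω, α ≠ β → ∃ a, Bad G p α β a
  · exact H.caseB fun α β n => let ⟨_, k⟩ := k α β n; H.eq_zero k ▸ k
  · simp only [not_forall] at k
    obtain ⟨γ, δ, n, k⟩ := k
    refine H.caseA h fun ω => ?_
    obtain ⟨g, rfl⟩ := H.tr γ ω
    exact ⟨g • δ, fun e => n (smul_left_cancel g e), fun ⟨a, b⟩ => k ⟨a, by simpa using b.smul g⁻¹⟩⟩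

end Core

end CfsgH9.Sy
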