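import Cfsg.Agent.H9.SyD

set_option autoImplicit false
set_option linter.unusedSectionVars false

/-! S3580: the induction. -/

namespace CfsgH9.Sy

open Subgroup Pointwise MulAction

universe u

def PC (p f m : ℕ) : Prop := p * (p * (f / p)) + 2 * p * (p - 1) ≤ (p - 1) * m

theorem PC.of {p f m : ℕ} (h : p * f + 2 * p * (p - 1) ≤ (p - 1) * m) : PC p f m :=
  le_trans (Nat.add_le_add_right (Nat.mul_le_mul_left _ (Nat.mul_div_le f p)) _) h

theorem PC.le {p f m : ℕ} (h : PC p f m) (hp : 0 < p) : p * f + p * (p - 1) ≤ (p - 1) * m := by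
  have := Nat.div_add_mod f p
  have := Nat.mul_le_mul_left p (Nat.le_sub_one_of_lt (Nat.mod_lt f hp))
  unfold PC at h
  nlinarith

/-- the statement for primitive actions of degree `< n`. -/
def Prim (p n : ℕ) [Fact p.Prime] : Prop := ∀ (G : Type u) [Group G] [Finite G] (Ω : Type u) [MulAction G Ω]
  [Finite Ω] [IsPreprimitive G Ω] (Q : Sylow p G), Nat.card Ω < n → (Fx Q.1 Ω)ᶜ.ncard ≠ 0 →
    p ≤ (Fx Q.1 Ω).ncard → PC p (Fx Q.1 Ω).ncard (Fx Q.1 Ω)ᶜ.ncard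

variable {G : Type u} [Group G] [Finite G] {p n : ℕ} [hp : Fact p.Prime] {T : Type*} [MulAction G T]
  [Finite T] {X M : Subgroup G} {Q : Sylow p G} {t : T}

abbrev bp (X : Subgroup G) : G ⧸ X := ((1 : G) : G ⧸ X)

theorem bp_fix {g : G} : g • bp X = bp X ↔ g ∈ X := by rw [← mem_stabilizer_iff, stabilizer_quotient]
theorem mem_bp : Q ∈ Ev G p (bp X) ↔ Q.1 ≤ X := forall₂_congr fun _ _ => bp_fix

theorem rat (h : Q.1 ≤ X) (t : T) : (Orb X t ∩ Fx Q.1 T).ncard * (Ev G p (bp X)).ncard =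
    (Orb X t).ncard * (Ev G p (bp X) ∩ Ev G p t).ncard :=
  ratio_orb (fun g hg => by rw [smul_Ev, bp_fix.2 hg]) (XX_le fun _ => mem_bp.1) (mem_bp.2 h) t

theorem step (ih : Prim.{u} p n) (h1 : Q.1 ≤ X) (h2 : Q ∈ Ev G p t) (h3 : ¬ X ≤ stabilizer G t)
    (h4 : (Orb X t).ncard < n) : ∃ M f m, stabilizer G t ⊓ X ≤ M ∧ M < X ∧ (∀ K, M ≤ K → K < X → K = M) ∧
      Nat.card M * (f + m) = Nat.card X ∧ f * (Ev G p (bp X)).ncard = (f + m) * (Ev G p (bp M)).ncard ∧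
      (Orb X t).ncard = (f + m) * (Orb M t).ncard ∧
      (Orb X t ∩ Fx Q.1 T).ncard = f * (Orb M t ∩ Fx Q.1 T).ncard ∧ p ∣ m ∧ (m ≠ 0 → p ≤ f → PC p f m) := by
  obtain ⟨M, ⟨a1, a2⟩, a3⟩ := exists_maximal_ge_of_wellFoundedGT (fun K : Subgroup G => K < X)
    (stabilizer G t ⊓ X) (inf_le_right.lt_of_ne fun e => h3 (e.ge.trans inf_le_left)) |>.imp
    fun _ h => And.intro (And.intro h.1 h.2.1) h.2.2
  have a4 : ∀ K, M ≤ K → K < X → K = M := fun K h h' => (a3 h' h).antisymm h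
  have q : Q.1 ≤ M := (le_inf h2 h1).trans a1
  have c := Set.ncard_inter_add_ncard_sdiff_eq_ncard (Orb X (bp M)) (Fx Q.1 _)
  have o1 := CfsgH9.Q4C.orb X (bp M)
  have o2 := CfsgH9.Q4C.orb X t
  have o3 := CfsgH9.Q4C.orb M t
  have r1 := rat h1 (bp M)
  have r2 := rat h1 t
  have r3 := rat q t
  rw [stabilizer_quotient, inf_eq_left.2 a2.le] at o1
  rw [show stabilizer G t ⊓ M = stabilizer G t ⊓ X from
    (inf_le_inf_left _ a2.le).antisymm (le_inf inf_le_left a1)] at o3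
  rw [Set.inter_eq_right.2 fun _ h => mem_bp.2 ((mem_bp.1 h).trans a2.le)] at r1
  rw [show Ev G p (bp M) ∩ Ev G p t = Ev G p (bp X) ∩ Ev G p t from Set.ext fun _ =>
    ⟨fun h => ⟨mem_bp.2 ((mem_bp.1 h.1).trans a2.le), h.2⟩,
      fun h => ⟨mem_bp.2 ((le_inf h.2 (mem_bp.1 h.1)).trans a1), h.2⟩⟩] at r3
  have e1 : (Orb X t).ncard = (Orb X (bp M)).ncard * (Orb M t).ncard :=
    Nat.eq_of_mul_eq_mul_left Nat.card_pos (o2.trans (by rw [← o1, ← o3]; exact mul_right_comm _ _ _ |>.trans (mul_assoc _ _ _)))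
  have p1 := (Set.ncard_pos (s := Ev G p (bp X)) (Set.toFinite _)).2 ⟨Q, mem_bp.2 h1⟩
  refine ⟨M, _, _, a1, a2, a4, c.symm ▸ o1, c.symm ▸ r1, c.symm ▸ e1, Nat.eq_of_mul_eq_mul_right p1 (by
    rw [r2, e1, mul_assoc, ← r3, mul_right_comm, r1]; ring), dvd_mv (inv_Orb.mono h1), fun m0 f0 => ?_⟩
  have e2 : Orb X (bp M) = orbit X (bp M) := Set.ext fun _ =>
    ⟨fun ⟨g, hg, e⟩ => ⟨⟨g, hg⟩, e⟩, fun ⟨g, e⟩ => ⟨g, g.2, e⟩⟩
  let b : orbit X (bp M) := ⟨_, mem_orbit_self _⟩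
  have e3 : stabilizer X b = M.subgroupOf X := Subgroup.ext fun g => Subtype.ext_iff.trans bp_fix
  have : Nontrivial (orbit X (bp M)) := let ⟨g, hg, n⟩ := SetLike.exists_of_lt a2
    ⟨_, b, fun e => n (e3.le (show (⟨g, hg⟩ : X) ∈ stabilizer X b from e))⟩
  have : IsPreprimitive X (orbit X (bp M)) := (isCoatom_stabilizer_iff_preprimitive X b).1 (e3 ▸
    ⟨fun e => a2.not_ge (subgroupOf_eq_top.1 e), fun K hK => by_contra fun k => hK.not_ge (by
      rw [← a4 (K.map X.subtype) ((map_subgroupOf_eq_of_le a2.le).ge.trans (map_mono hK.le))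
        ((map_subtype_le K).lt_of_ne fun e => k (map_injective X.subtype_injective
          (by rw [e, ← MonoidHom.range_eq_map, range_subtype])))]
      exact (comap_map_eq_self_of_injective X.subtype_injective K).ge)⟩)
  have e4 : Fx (Q.subtype h1).1 (orbit X (bp M)) = Subtype.val ⁻¹' Fx Q.1 _ := Set.ext fun s =>
    ⟨fun h x hx => congrArg Subtype.val (h ⟨x, h1 hx⟩ hx), fun h x hx => Subtype.ext (h x hx)⟩
  have e5 : ∀ S : Set (G ⧸ M), (Subtype.val ⁻¹' S : Set (orbit X (bp M))).ncard = (Orb X (bp M) ∩ S).ncard :=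
    fun S => by rw [← Set.ncard_image_of_injective _ Subtype.val_injective, Subtype.image_preimage_val, e2]
  have := ih X (orbit X (bp M)) (Q.subtype h1)
  rw [e4, ← Set.preimage_compl, e5, e5] at this
  refine this (lt_of_le_of_lt ?_ h4) m0 f0
  rw [e1, Nat.card_coe_set_eq, e2]
  exact Nat.le_mul_of_pos_right _ ((Set.ncard_pos (Set.toFinite _)).2 ⟨t, mem_Orb⟩)

theorem exists_ev (h1 : Q.1 ≤ X) (h : (Orb X t ∩ Fx Q.1 T).ncard ≠ 0) : ∃ R : Sylow p G, R.1 ≤ X ∧ R ∈ Ev G p t ∧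
    (Orb X t ∩ Fx Q.1 T).ncard = (Orb X t ∩ Fx R.1 T).ncard ∧
    (Orb X t \ Fx Q.1 T).ncard = (Orb X t \ Fx R.1 T).ncard := by
  obtain ⟨_, ⟨g, hg, rfl⟩, k⟩ := Set.nonempty_of_ncard_ne_zero h
  have e := fx_smul g⁻¹ (Orb X t) Q
  rw [inv_Orb.smul (inv_mem hg)] at e
  refine ⟨g⁻¹ • Q, fun x hx => by simpa [mul_assoc] using mul_mem (mul_mem (inv_mem hg) (h1 (mem_smul.1 hx))) hg,
    Set.mem_smul_set_iff_inv_smul_mem.1 ((smul_Ev g t).ge k), e.symm, Nat.add_left_cancel (n := (Orb X t ∩ Fx Q.1 T).ncard) ?_⟩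
  rw [Set.ncard_inter_add_ncard_sdiff_eq_ncard _ (Fx Q.1 T), ← e, Set.ncard_inter_add_ncard_sdiff_eq_ncard]

theorem two_le_idx {f m : ℕ} (h : M < X) (e : Nat.card M * (f + m) = Nat.card X) : 2 ≤ f + m := by
  have : Nat.card M < Nat.card X := (card_le_of_le h.le).lt_of_ne fun e => h.ne (eq_of_le_of_card_ge h.le e.ge)
  by_contra k
  nlinarith [Nat.mul_le_mul_left (Nat.card M) (show f + m ≤ 1 by omega)]

theorem trans (ih : Prim.{u} p n) (h1 : Q.1 ≤ X) (h4 : (Orb X t).ncard < n)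
    (h5 : (Orb X t \ Fx Q.1 T).ncard ≠ 0) :
    p * (Orb X t ∩ Fx Q.1 T).ncard ≤ (p - 1) * (Orb X t \ Fx Q.1 T).ncard := by
  induction hn : (Orb X t).ncard using Nat.strong_induction_on generalizing X Q with
  | _ k ih' =>
  by_cases h : (Orb X t ∩ Fx Q.1 T).ncard = 0
  · simp [h]
  obtain ⟨R, r1, r2, r3, r4⟩ := exists_ev h1 h
  rw [r4] at h5
  rw [r3, r4]
  obtain ⟨M, f, m, a1, a2, -, a4, -, a6, a7, a8, a9⟩ := step ih r1 r2 (fun e => by
    obtain ⟨_, ⟨g, hg, rfl⟩, k⟩ := Set.nonempty_of_ncard_ne_zero h5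
    exact k ((e hg).symm ▸ r2)) h4
  have := two_le_idx a2 a4
  have c1 := Set.ncard_inter_add_ncard_sdiff_eq_ncard (Orb X t) (Fx R.1 T)
  have c2 := Set.ncard_inter_add_ncard_sdiff_eq_ncard (Orb M t) (Fx R.1 T)
  have p0 := (Set.ncard_pos (s := Orb M t) (Set.toFinite _)).2 ⟨t, mem_Orb⟩
  have i := fun h => ih' _ (by nlinarith) (X := M) ((le_inf r2 r1).trans a1) (by nlinarith) h rfl
  rw [a6, a7, ← c2] at c1
  rw [a7]
  generalize (Orb M t ∩ Fx R.1 T).ncard = f2, (Orb M t \ Fx R.1 T).ncard = m2,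
    (Orb X t \ Fx R.1 T).ncard = m0 at *
  obtain rfl : m0 = f * m2 + m * (f2 + m2) := by linarith
  by_cases m0 : m = 0
  · subst m0
    nlinarith [Nat.mul_le_mul_left f (i (by rintro rfl; simp at h5))]
  have : p * f ≤ (p - 1) * m := by
    by_cases e : p ≤ f
    · exact le_of_add_le_left ((a9 m0 e).le hp.out.pos)
    · exact (mul_comm p f).trans_le (Nat.mul_le_mul (by omega) (Nat.le_of_dvd (by omega) a8))
  nlinarith [Nat.mul_le_mul_right f2 this, Nat.zero_le ((p - 1) * (f * m2 + m * m2))]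

theorem bad_or (ih : Prim.{u} p n) {α β : T} (hn : Nat.card T ≤ n) (h0 : ¬ Ev G p α ⊆ Ev G p β)
    (hQ : Q ∈ Ln G p α β) : (∃ a, Bad G p α β a) ∨
      PC p (Orb (NN G p α) β ∩ Fx Q.1 T).ncard (Orb (NN G p α) β \ Fx Q.1 T).ncard := by
  have n0 : α ≠ β := fun e => h0 (e ▸ le_rfl)
  have h4 : (Orb (NN G p α) β).ncard < n := (Set.ncard_lt_card fun e =>
    ne_of_orb (fun _ => NN_fix) n0 (e.ge trivial)).trans_le hn
  obtain ⟨M, f, m, a1, a2, a3, a4, a5, a6, a7, a8, a9⟩ := step ih (le_XX hQ.1) hQ.2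
    (fun e => h0 fun R hR => (le_XX hR).trans e) h4
  have e0 : Ev G p (bp (NN G p α)) = Ev G p α := Set.ext fun _ => mem_bp.trans (cl_Ev α).mem.symm
  have q : Q.1 ≤ M := (le_inf hQ.2 (le_XX hQ.1)).trans a1
  have s : Ev G p (bp M) ⊆ Ev G p α := fun _ h => (cl_Ev α).mem.2 ((mem_bp.1 h).trans a2.le)
  have p1 := (Set.ncard_pos (s := Ev G p (bp M)) (Set.toFinite _)).2 ⟨Q, mem_bp.2 q⟩
  have f0 := (Set.ncard_pos (s := Orb M β ∩ Fx Q.1 T) (Set.toFinite _)).2 ⟨β, mem_Orb, hQ.2⟩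
  have c1 := Set.ncard_inter_add_ncard_sdiff_eq_ncard (Orb (NN G p α) β) (Fx Q.1 T)
  have c2 := Set.ncard_inter_add_ncard_sdiff_eq_ncard (Orb M β) (Fx Q.1 T)
  have := two_le_idx a2 a4
  have i := trans ih q (t := β) (by nlinarith)
  have r := rat q β
  rw [e0] at a5
  have m0 : m ≠ 0 := by
    rintro rfl
    exact a2.not_ge (XX_le fun R hR => mem_bp.1 ((Set.eq_of_subset_of_ncard_le s
      (Nat.eq_of_mul_eq_mul_left (by omega) a5).le).ge hR))
  have pp := hp.out.two_le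
  rw [a6, a7, ← c2] at c1
  by_cases k : m = p ∧ (Orb M β \ Fx Q.1 T).ncard = 0
  · obtain ⟨rfl, k⟩ := k
    rw [← c2, k, add_zero] at r
    have e1 : Ev G m (bp M) = Ln G m α β := Set.Subset.antisymm (fun R hR => ⟨s hR,
      ((Set.eq_of_subset_of_ncard_le Set.inter_subset_left (Nat.eq_of_mul_eq_mul_left f0 r).le).ge hR).2⟩)
      fun R hR => mem_bp.2 ((le_inf hR.2 (le_XX hR.1)).trans a1)
    have e2 : stabilizer G (Ln G m α β) ⊓ NN G m α = M := a3 _ (le_inf (fun g hg => by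
      rw [mem_stabilizer_iff, ← e1, smul_Ev, bp_fix.2 hg]) a2.le) (inf_le_right.lt_of_ne fun e => h0 fun R hR => by
        obtain ⟨g, hg, rfl⟩ := conj hQ.1 hR
        exact ((show g • Ln G m α β = _ from (e.ge hg).1).le (Set.smul_mem_smul_set hQ)).2)
    have o := CfsgH9.Q4C.orb (NN G m α) (Ln G m α β)
    rw [e2, ← a4] at o
    replace o : (Cs G m α β).ncard = f + m := Nat.eq_of_mul_eq_mul_left Nat.card_pos o
    obtain ⟨a, rfl⟩ : ∃ a, f = a + 1 := Nat.exists_eq_succ_of_ne_zero (by rintro rfl; simp [p1.ne', m0] at a5)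
    refine .inl ⟨a, n0, cl_Ev α, ⟨Q, hQ.1⟩, inv_Orb, fun _ a _ b => Orb_tr a b, o.trans (add_comm _ _),
      fun R hR => ?_, not_le.1 fun e => ?_⟩
    · have r := ratio_orb (fun _ => (cl_Ev α).smul) le_rfl hR (Ln G m α β)
      rw [cl_Ln.Ev_eq ⟨Q, hQ⟩, Set.inter_eq_right.2 (show Ln G m α β ⊆ Ev G m α from Set.inter_subset_left), show Orb _ _ = Cs G m α β from rfl, o, ← e1, ← a5] at r
      exact Nat.eq_of_mul_eq_mul_right ((Set.ncard_pos (Set.toFinite _)).2 ⟨Q, hQ.1⟩) r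
    · have := (a9 m0 e).le hp.out.pos
      nlinarith
  right
  rw [a7]
  generalize (Orb M β ∩ Fx Q.1 T).ncard = f2, (Orb M β \ Fx Q.1 T).ncard = m2,
    (Orb (NN G p α) β \ Fx Q.1 T).ncard = m0 at *
  obtain rfl : m0 = f * m2 + m * (f2 + m2) := by linarith
  by_cases e : m = p
  · have m2' : m2 ≠ 0 := fun k' => k ⟨e, k'⟩
    refine PC.of ?_
    subst e
    nlinarith [Nat.mul_le_mul_left f (i m2'), Nat.mul_le_mul_left ((m - 1) * m) (show 2 ≤ f2 + m2 by omega)]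
  have P : PC p f m := by
    by_cases e' : p ≤ f
    · exact a9 m0 e'
    obtain ⟨c, rfl⟩ := a8
    have : 2 ≤ c := by
      rcases c with _ | _ | c
      exacts [absurd rfl m0, absurd (mul_one p) e, by omega]
    rw [PC, Nat.div_eq_of_lt (by omega)]
    nlinarith [Nat.mul_le_mul_left ((p - 1) * p) this]
  by_cases b : f2 + m2 = 1
  · obtain rfl : m2 = 0 := by omega
    obtain rfl : f2 = 1 := b
    simpa using P
  refine PC.of ?_
  nlinarith [Nat.mul_le_mul_right (f2 + m2) (P.le hp.out.pos), Nat.zero_le ((p - 1) * (f * m2)),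
    Nat.mul_le_mul_left ((p - 1) * p) (show 2 ≤ f2 + m2 by omega), Nat.zero_le (p * f * m2)]

theorem prim (p2 : p ≠ 2) (n : ℕ) : Prim.{u} p n := by
  induction n with
  | zero => exact fun _ _ _ _ _ _ _ _ h => absurd h (Nat.not_lt_zero _)
  | succ n ih =>
  intro G _ _ Ω _ _ _ Q hn m0 f0
  have pp := hp.out.two_le
  have tr : ∀ α β : Ω, ∃ g : G, g • α = β := exists_smul_eq G
  have pr : ∀ C : Set Ω, (∀ g : G, (g • C ∩ C).Nonempty → g • C = C) → C.Subsingleton ∨ C = Set.univ :=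
    fun C h => IsPreprimitive.isTrivialBlock_of_isBlock (isBlock_iff_smul_eq_of_nonempty.2 fun {g} => h g)
  have fx : ∀ R : Sylow p G, (Fx R.1 Ω).ncard = (Fx Q.1 Ω).ncard := fun R => by
    simpa using fx_eq (e := Set.univ) (A := (Set.univ : Set Ω)) (fun _ _ _ _ => trivial) (Q := Q) trivial trivial
  obtain ⟨α, hα⟩ := Set.nonempty_of_ncard_ne_zero (s := Fx Q.1 Ω) (by omega)
  have cl : ∀ α β : Ω, Ev G p α ⊆ Ev G p β → α = β := fun β γ h => by
    have e : Ev G p β = Ev G p γ := Set.eq_of_subset_of_ncard_le h (by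
      obtain ⟨g, rfl⟩ := tr β γ
      rw [← smul_Ev, Set.ncard_smul_set])
    refine (pr {ω | Ev G p ω = Ev G p β} ?_).elim (fun k => k rfl e.symm) fun k => absurd ?_ m0
    · rintro g ⟨_, ⟨ω, h1, rfl⟩, h2⟩
      refine Inv.smul (X := stabilizer G (Ev G p β)) (fun x hx t ht => ?_) ((congrArg _ h1.symm).trans
        ((smul_Ev g ω).trans h2))
      exact (smul_Ev x t).symm.trans ((congrArg _ ht).trans hx)
    · rw [Set.ncard_eq_zero (Set.toFinite _), Set.compl_empty_iff]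
      exact Set.eq_univ_of_forall fun ω => (Eq.trans (k.ge (Set.mem_univ α)) (Eq.symm (k.ge (Set.mem_univ ω)))).le hα
  have nd : ¬ p ∣ (Fx Q.1 Ω).ncard := fun d => by
    have d' := dvd_mv (Q := Q) (A := (Set.univ : Set Ω)) fun _ _ _ _ => trivial
    rw [← Set.compl_eq_univ_sdiff] at d'
    have := (Nat.dvd_add d d').trans (Set.ncard_add_ncard_compl _).dvd
    rw [← index_stabilizer_of_transitive G α] at this
    exact Q.not_dvd_index (this.trans (index_dvd_of_le (show Q.1 ≤ stabilizer G α from hα)))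
  have f1 : p < (Fx Q.1 Ω).ncard := f0.lt_of_ne fun e => nd (e ▸ dvd_rfl)
  have dv : ((Fx Q.1 Ω).ncard - 1) / p = (Fx Q.1 Ω).ncard / p := by
    obtain ⟨k, hk⟩ : ∃ k, (Fx Q.1 Ω).ncard = k + 1 := ⟨_, (Nat.sub_add_cancel (by omega)).symm⟩
    rw [hk] at nd ⊢
    rw [Nat.add_sub_cancel, Nat.succ_div_of_not_dvd nd]
  have e1 : ∀ α : Ω, ∀ R ∈ Ev G p α, ({α}ᶜ ∩ Fx R.1 Ω).ncard = (Fx Q.1 Ω).ncard - 1 ∧
      ({α}ᶜ \ Fx R.1 Ω).ncard = (Fx Q.1 Ω)ᶜ.ncard := fun α R hR => by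
    have hR' : α ∈ Fx R.1 Ω := hR
    rw [Set.inter_comm, ← Set.sdiff_eq, Set.ncard_sdiff_singleton_of_mem hR', fx, Set.sdiff_eq,
      Set.inter_eq_right.2 (Set.compl_subset_compl.2 (Set.singleton_subset_iff.2 hR')), Set.ncard_compl,
      Set.ncard_compl, fx R]
    exact ⟨rfl, rfl⟩
  have mv : ∀ α β : Ω, α ≠ β → ∀ R ∈ Ev G p α, (Orb (NN G p α) β \ Fx R.1 Ω).ncard ≠ 0 :=
    fun α β n R hR e => n (cl α β fun S hS => by
      obtain ⟨g, hg, rfl⟩ := conj hR hS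
      rw [Set.ncard_eq_zero (Set.toFinite _), Set.sdiff_eq_empty] at e
      simpa only [smul_Ev, smul_inv_smul] using Set.smul_mem_smul_set (a := g)
        (show R ∈ Ev G p (g⁻¹ • β) from e ⟨_, inv_mem hg, rfl⟩))
  have nn : ∀ α : Ω, ∀ R ∈ Ev G p α, ∀ A, Inv (NN G p α) A → α ∉ A → 0 ≤ dl R A := fun α R hR A => by
    induction hk : A.ncard using Nat.strong_induction_on generalizing A with
    | _ k ih' =>
    intro h1 h2
    rcases A.eq_empty_or_nonempty with rfl | ⟨β, hβ⟩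
    · simp [dl]
    have n : α ≠ β := fun e => h2 (e ▸ hβ)
    rw [dl_diff (h1.orb hβ)]
    refine add_nonneg ?_ (ih' _ (hk ▸ Set.ncard_lt_ncard (Set.sdiff_ssubset_left_iff.2 ⟨β, hβ, mem_Orb⟩)) _ rfl
      (h1.diff inv_Orb) fun e => h2 e.1)
    have := trans ih (le_XX hR) ((Set.ncard_lt_card fun e =>
      ne_of_orb (fun _ => NN_fix) n (e.ge trivial)).trans_le (Nat.le_of_lt_succ hn)) (mv α β n R hR)
    zify [hp.out.one_le] at this
    exact sub_nonneg.2 this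
  have bo := fun α β (n : α ≠ β) R => bad_or ih (Q := R) (Nat.le_of_lt_succ hn) fun e => n (cl α β e)
  by_contra k
  have H : Core G p Ω := ⟨tr, pr, cl, fun α R hR A h1 h2 => ⟨nn α R hR A h1 h2, by
      have i : Inv (NN G p α) ({α}ᶜ : Set Ω) := fun g hg t ht e =>
        ht (smul_left_cancel g (e.trans (NN_fix hg).symm))
      have := nn α R hR _ (i.diff h1) fun e => e.1 rfl
      have d := dl_diff (Q := R) (Set.subset_compl_singleton_iff.2 h2)
      rw [dl, (e1 α R hR).1, (e1 α R hR).2] at d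
      rw [PC, ← dv] at k
      have := Nat.mul_le_mul_left p (Nat.mul_div_le ((Fx Q.1 Ω).ncard - 1) p)
      zify [hp.out.one_le] at *
      linarith⟩,
    fun α β n b R hR => by
      by_cases h : (Orb (NN G p α) β ∩ Fx R.1 Ω).ncard = 0
      · have := Nat.le_of_dvd (Nat.pos_of_ne_zero (mv α β n R hR)) (dvd_mv (inv_Orb.mono (le_XX hR)))
        rw [dl, h]
        zify at *
        nlinarith
      obtain ⟨S, r1, r2, r3, r4⟩ := exists_ev (le_XX hR) h
      have := ((bo α β n S ⟨(cl_Ev α).mem.2 r1, r2⟩).resolve_left b).le hp.out.pos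
      rw [dl, r3, r4]
      zify [hp.out.one_le] at this
      linarith, by omega, fun R => fx R ▸ f1⟩
  obtain ⟨β, hβ, n⟩ := Set.exists_ne_of_one_lt_ncard (s := Fx Q.1 Ω) (by omega) α
  have b : ∀ α β : Ω, ¬ ∃ a, Bad G p α β a := fun _ _ ⟨_, h⟩ => H.noBad h
  have e : Orb (NN G p α) β = {α}ᶜ := Set.ext fun γ => ⟨fun h e => ne_of_orb (fun _ => NN_fix) n.symm (e ▸ h),
    fun h => by_contra fun m => by
      have := H.add_lt hα inv_Orb (ne_of_orb (fun _ => NN_fix) n.symm) inv_Orb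
        (ne_of_orb (fun _ => NN_fix) (Ne.symm h)) (Set.disjoint_left.2 fun t h1 h2 =>
          m ((Orb_eq h1).le ((Orb_eq h2).ge mem_Orb)))
      linarith [H.good α β n.symm (b _ _) Q hα, H.good α γ (Ne.symm h) (b _ _) Q hα]⟩
  have := (bo α β n.symm Q ⟨hα, hβ⟩).resolve_left (b _ _)
  rw [e, (e1 α Q hα).1, (e1 α Q hα).2, PC, dv] at this
  exact k this

/-- a Sylow `p`-subgroup (`p` odd) fixes at most `(p - 1) / (2 p - 1)` of the points of an orbit. -/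
theorem fix_le (p2 : p ≠ 2) (h1 : Q.1 ≤ X) (h5 : (Orb X t \ Fx Q.1 T).ncard ≠ 0) :
    p * (Orb X t ∩ Fx Q.1 T).ncard ≤ (p - 1) * (Orb X t \ Fx Q.1 T).ncard :=
  trans (prim p2 _) h1 (Nat.lt_succ_self _) h5

end CfsgH9.Sy
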