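import Cfsg.Agent.H9.U33Tab
import Cfsg.Agent.H7.PSU33

/-! The coded group is `SU₃(3)`. -/

set_option autoImplicit false
set_option maxRecDepth 100000

namespace CfsgH9.U33

open Cfsg CfsgH7 Matrix
open scoped MatrixGroups QuadraticAlgebra

/-- The matrix of multiplication by a scalar. -/
def ent (x : K9) : Matrix (Fin 2) (Fin 2) (ZMod 3) := !![x.re, 2 * x.im; x.im, x.re]

theorem ent_add (x y : K9) : ent (x + y) = ent x + ent y := by
  ext a b
  fin_cases a <;> fin_cases b <;> simp [ent, mul_add]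

theorem ent_mul (x y : K9) : ent (x * y) = ent x * ent y := by
  ext a b
  fin_cases a <;> fin_cases b <;> simp [ent, Matrix.mul_apply, Fin.sum_univ_two] <;> ring

/-- Restriction of scalars. -/
def rs (A : Matrix (Fin 3) (Fin 3) K9) : Matrix (Fin 6) (Fin 6) (ZMod 3) :=
  Matrix.of fun i j => ent (A ((finProdFinEquiv (m := 3) (n := 2)).symm i).1
    ((finProdFinEquiv (m := 3) (n := 2)).symm j).1) ((finProdFinEquiv (m := 3) (n := 2)).symm i).2
    ((finProdFinEquiv (m := 3) (n := 2)).symm j).2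

theorem rs_one : rs 1 = 1 := by decide +kernel

theorem rs_mul (A B : Matrix (Fin 3) (Fin 3) K9) : rs (A * B) = rs A * rs B := by
  ext i j
  rw [Matrix.mul_apply, ← (finProdFinEquiv (m := 3) (n := 2)).sum_comp, Fintype.sum_prod_type]
  simp only [rs, Matrix.of_apply, Equiv.symm_apply_apply, Matrix.mul_apply, Fin.sum_univ_three,
    ent_add, ent_mul, Matrix.add_apply]

theorem col0_eq {A B : Matrix (Fin 3) (Fin 3) K9} (h : ∀ i, rs A i 0 = rs B i 0) (i : Fin 3) :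
    A i 0 = B i 0 := by
  fin_cases i
  exacts [QuadraticAlgebra.ext (h 0) (h 1), QuadraticAlgebra.ext (h 2) (h 3),
    QuadraticAlgebra.ext (h 4) (h 5)]

theorem col1_eq {A B : Matrix (Fin 3) (Fin 3) K9} (h : ∀ i, rs A i 2 = rs B i 2) (i : Fin 3) :
    A i 1 = B i 1 := by
  fin_cases i
  exacts [QuadraticAlgebra.ext (h 0) (h 1), QuadraticAlgebra.ext (h 2) (h 3),
    QuadraticAlgebra.ext (h 4) (h 5)]

theorem col2_eq {A B : Matrix (Fin 3) (Fin 3) K9} (h : ∀ i, rs A i 4 = rs B i 4) (i : Fin 3) :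
    A i 2 = B i 2 := by
  fin_cases i
  exacts [QuadraticAlgebra.ext (h 0) (h 1), QuadraticAlgebra.ext (h 2) (h 3),
    QuadraticAlgebra.ext (h 4) (h 5)]

theorem rs_inj : Function.Injective rs := by
  intro A B h
  ext1 i j
  fin_cases j
  exacts [col0_eq (fun i => by rw [h]) i, col1_eq (fun i => by rw [h]) i, col2_eq (fun i => by rw [h]) i]

theorem all1 : ∀ a b c d e f : ZMod 3, (⟨a, b⟩ : K9) * ⟨a, b⟩ ^ 3 + ⟨c, d⟩ * ⟨c, d⟩ ^ 3 + ⟨e, f⟩ * ⟨e, f⟩ ^ 3 = 1 →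
    chk1 (col (encMat 6 3 (nat_lit 9) (rs !![⟨a, b⟩, 0, 0; ⟨c, d⟩, 0, 0; ⟨e, f⟩, 0, 0])) 0) = true := by
  decide +kernel

theorem all2 : ∀ c d e f : ZMod 3, (⟨c, d⟩ : K9) * ⟨c, d⟩ ^ 3 + ⟨e, f⟩ * ⟨e, f⟩ ^ 3 = 1 →
    chk2 (col (encMat 6 3 (nat_lit 9) (rs !![0, 0, 0; 0, ⟨c, d⟩, 0; 0, ⟨e, f⟩, 0])) 2) = true := by
  decide +kernel

theorem gens : u_s.get 0 = encMat 6 3 (nat_lit 9) (rs su33a) ∧ u_s.get 1 = encMat 6 3 (nat_lit 9) (rs su33b) := by
  decide +kernel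

theorem enc_MM (x : GL (Fin 6) (ZMod 3)) : MM.enc x = encMat 6 3 (nat_lit 9) x.1 := glModel_enc ok x

theorem col_iff (A B : Matrix (Fin 6) (Fin 6) (ZMod 3)) (b : Fin 6) {n : ℕ} (hn : b.val = n)
    (h : col (encMat 6 3 (nat_lit 9) A) n = col (encMat 6 3 (nat_lit 9) B) n) : ∀ i, A i b = B i b := by
  subst hn
  exact (colMat_eq_iff ok A B b b).1 h

theorem nonempty_equiv {F : Type*} [Field F] [Fintype F] (hF : Fintype.card F = 9) :
    Nonempty (SU 3 F 3 ≃* MM.gen 2 u_s) := by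
  haveI : Fact (Nat.Prime 3) := ⟨Nat.prime_three⟩
  haveI : CharP F 3 := charP_of_card_eq_prime_pow (f := 2) (by rw [hF]; norm_num)
  obtain ⟨e⟩ := exists_hom_K9 hF
  have hσ : ∀ x : F, frobenius F 3 x = x ^ 3 := fun x => rfl
  let φ : Matrix (Fin 3) (Fin 3) K9 ≃+* Matrix (Fin 3) (Fin 3) F := e.mapMatrix
  let f0 : SU 3 F 3 →* Matrix (Fin 6) (Fin 6) (ZMod 3) :=
    { toFun := fun A => rs (φ.symm A.1.1)
      map_one' := by rw [← rs_one, ← map_one φ.symm]; rfl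
      map_mul' := fun A B => by rw [← rs_mul, ← map_mul]; rfl }
  let f : SU 3 F 3 →* GL (Fin 6) (ZMod 3) := f0.toHomUnits
  have hf : ∀ A, MM.enc (f A) = encMat 6 3 (nat_lit 9) (rs (φ.symm A.1.1)) := fun A => enc_MM _
  have hinj : Function.Injective f := fun A B h =>
    Subtype.ext (Subtype.ext (φ.symm.injective (rs_inj (congrArg Units.val h))))
  have tr : ∀ a ∈ [su33a, su33b, su33c], ∃ A : SU 3 F 3, A.1.1 = φ a := by
    intro a ha
    obtain ⟨h1, h2⟩ := su33_facts.1 a ha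
    refine ⟨⟨⟨φ a, ?_⟩, (mem_SU_iff _ hσ _).2 ?_⟩, rfl⟩
    · exact (e.toRingHom.map_det a).symm.trans (by rw [h1, map_one])
    · have := congrArg φ h2
      rw [map_mul, map_one] at this
      rw [← this]
      congr 1
      ext i j
      simp [φ, frobenius_def]
  have hle : MM.gen 2 u_s ≤ f.range := by
    refine Model.gen_le fun a ha => ?_
    interval_cases a
    · obtain ⟨A, hA⟩ := tr su33a (by simp)
      exact ⟨_, ⟨A, rfl⟩, by rw [hf, hA, φ.symm_apply_apply, gens.1]⟩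
    · obtain ⟨A, hA⟩ := tr su33b (by simp)
      exact ⟨_, ⟨A, rfl⟩, by rw [hf, hA, φ.symm_apply_apply, gens.2]⟩
  have hT : ∀ j, j < 6048 → ∃ B : SU 3 F 3, f B ∈ MM.gen 2 u_s ∧
      encMat 6 3 (nat_lit 9) (rs (φ.symm B.1.1)) = u_T.get j := by
    intro j hj
    obtain ⟨x, hx, h⟩ := u_sys.1 j hj
    obtain ⟨B, rfl⟩ := hle hx
    exact ⟨B, hx, (hf B).symm.trans h⟩
  have hu : ∀ (A : SU 3 F 3) (i j : Fin 3), A.1.1 0 i * A.1.1 0 j ^ 3 + A.1.1 1 i * A.1.1 1 j ^ 3 +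
      A.1.1 2 i * A.1.1 2 j ^ 3 = (1 : Matrix (Fin 3) (Fin 3) F) i j := by
    intro A i j
    rw [← (mem_SU_iff _ hσ _).1 A.2]
    simp [Matrix.mul_apply, Fin.sum_univ_three, hσ]
  have hcol : ∀ (A B : SU 3 F 3) (j : Fin 3), (∀ i, B.1.1 i j = A.1.1 i j) →
      ∀ i, (B⁻¹ * A).1.1 i j = (1 : Matrix (Fin 3) (Fin 3) F) i j := by
    intro A B j h i
    have h1 : (B⁻¹ * B).1.1 i j = (1 : Matrix (Fin 3) (Fin 3) F) i j := by rw [inv_mul_cancel]; rfl
    rw [← h1]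
    change ((B⁻¹).1.1 * A.1.1) i j = ((B⁻¹).1.1 * B.1.1) i j
    simp only [Matrix.mul_apply, h]
  have s3 : ∀ A : SU 3 F 3, (∀ i, A.1.1 i 0 = (1 : Matrix (Fin 3) (Fin 3) F) i 0) →
      (∀ i, A.1.1 i 1 = (1 : Matrix (Fin 3) (Fin 3) F) i 1) → A = 1 := by
    intro A h0 h1
    have e1 := hu A 2 0
    have e2 := hu A 2 1
    have e3 := A.1.2
    rw [Matrix.det_fin_three] at e3
    simp [h0, h1] at e1 e2 e3
    apply Subtype.ext
    apply Subtype.ext
    ext i j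
    fin_cases j
    · exact h0 i
    · exact h1 i
    · fin_cases i <;> simp [e1, e2, e3]
  have s2 : ∀ A : SU 3 F 3, (∀ i, A.1.1 i 0 = (1 : Matrix (Fin 3) (Fin 3) F) i 0) →
      f A ∈ MM.gen 2 u_s := by
    intro A h0
    have e1 := hu A 1 0
    have e2 := hu A 1 1
    simp [h0] at e1
    simp only [e1, zero_mul, zero_add, Matrix.one_apply_eq] at e2
    have e3 := congrArg e.symm e2
    simp only [map_add, map_mul, map_pow, map_one] at e3
    have h := all2 (e.symm (A.1.1 1 1)).re (e.symm (A.1.1 1 1)).im (e.symm (A.1.1 2 1)).re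
      (e.symm (A.1.1 2 1)).im e3
    simp only [chk2, band_iff, Nat.ble_eq, Nat.beq_eq] at h
    obtain ⟨B, hB, hB'⟩ := hT _ h.1
    rw [← hB', ← MM.enc_one, enc_MM, Units.val_one, ← rs_one] at h
    have c1 := col1_eq (col_iff _ _ 2 rfl h.2.1)
    have c0 := col0_eq (col_iff _ _ 0 rfl h.2.2)
    have := s3 (B⁻¹ * A) (hcol A B 0 fun i => ?_) (hcol A B 1 fun i => ?_)
    · rw [← inv_mul_eq_one.1 this]
      exact hB
    · apply e.symm.injective
      rw [h0]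
      refine (c0 i).trans ?_
      rw [Matrix.one_apply, Matrix.one_apply, apply_ite e.symm, map_one, map_zero]
    · apply e.symm.injective
      refine (c1 i).trans ?_
      fin_cases i <;> simp [e1]
  have s1 : ∀ A : SU 3 F 3, f A ∈ MM.gen 2 u_s := by
    intro A
    have e3 := congrArg e.symm (hu A 0 0)
    simp only [map_add, map_mul, map_pow, map_one, Matrix.one_apply_eq] at e3
    have h := all1 (e.symm (A.1.1 0 0)).re (e.symm (A.1.1 0 0)).im (e.symm (A.1.1 1 0)).re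
      (e.symm (A.1.1 1 0)).im (e.symm (A.1.1 2 0)).re (e.symm (A.1.1 2 0)).im e3
    simp only [chk1, band_iff, Nat.ble_eq, Nat.beq_eq] at h
    obtain ⟨B, hB, hB'⟩ := hT _ h.1
    rw [← hB'] at h
    have c0 := col0_eq (col_iff _ _ 0 rfl h.2)
    have := s2 (B⁻¹ * A) (hcol A B 0 fun i => ?_)
    · simpa using mul_mem hB this
    · apply e.symm.injective
      refine (c0 i).trans ?_
      fin_cases i <;> simp
  have : f.range = MM.gen 2 u_s := le_antisymm (by rintro _ ⟨A, rfl⟩; exact s1 A) hle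
  exact ⟨(MonoidHom.ofInjective hinj).trans (MulEquiv.subgroupCongr this)⟩

end CfsgH9.U33
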