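import Cfsg.Agent.H6.VC0
import Cfsg.Agent.SZ.SUZ1_d
import Cfsg.Agent.FT.Main

set_option autoImplicit false
set_option linter.unusedSectionVars false
set_option maxHeartbeats 400000

/-! V-case, linear step: `K` acts on `V α` as a Singer cycle. -/

namespace CfsgSE

open Subgroup CfsgH5 CfsgH6 CfsgFT CfsgSZ CfsgSZ.PS

universe u

theorem va_prime {n : ℕ} (hn : 4 ≤ n) :
    ∃ p : ℕ, p.Prime ∧ p ∣ 2 ^ n - 1 ∧ ¬ p ∣ n ∧ ∀ i, p ∣ 2 ^ i - 1 → n ∣ 2 * i := by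
  by_cases h6 : n = 6
  · subst h6
    refine ⟨7, by norm_num, by norm_num, by norm_num, fun i hi => ?_⟩
    have h1 : 2 ^ i % 7 = 1 := by
      have := Nat.one_le_two_pow (n := i)
      omega
    have h2 : 2 ^ i % 7 = 2 ^ (i % 3) % 7 := by
      conv_lhs => rw [← Nat.div_add_mod i 3, pow_add, pow_mul, Nat.mul_mod, Nat.pow_mod]
      simp
    have : i % 3 = 0 ∨ i % 3 = 1 ∨ i % 3 = 2 := by omega
    rcases this with e | e | e <;> rw [e] at h2 <;> omega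
  obtain ⟨p, hp, h⟩ := exists_primitive_prime (n := n) (by omega) h6
  refine ⟨p, hp, (h n).2 dvd_rfl, fun e => ?_, fun i hi => ((h i).1 hi).mul_left 2⟩
  have := Fact.mk hp
  have p2 : p ≠ 2 := by
    rintro rfl
    have a := (h n).2 dvd_rfl
    have b : 2 ∣ 2 ^ n := dvd_pow_self 2 (by omega)
    have := Nat.one_le_two_pow (n := n)
    omega
  have a : p ∣ 2 ^ (p - 1) - 1 := by
    rw [← ZMod.natCast_eq_zero_iff, Nat.cast_sub Nat.one_le_two_pow, Nat.cast_pow, Nat.cast_one,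
      ZMod.pow_card_sub_one_eq_one, sub_self]
    rw [Ne, ZMod.natCast_eq_zero_iff]
    exact fun f => p2 ((Nat.prime_dvd_prime_iff_eq hp Nat.prime_two).1 f)
  have b := Nat.le_of_dvd (by have := hp.two_le; omega) ((h _).1 a)
  have c := Nat.le_of_dvd (by omega) e
  have := hp.two_le
  omega

theorem va_frob {F : Type} [Field F] [Fintype F] (h2 : (2 : F) = 0) (σ : F ≃+* F) :
    ∃ i : ℕ, ∀ x, σ x = x ^ 2 ^ i := by
  haveI : Fact (Nat.Prime 2) := ⟨Nat.prime_two⟩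
  haveI : CharP F 2 := CharTwo.of_one_ne_zero_of_two_eq_zero one_ne_zero h2
  letI : Algebra (ZMod 2) F := ZMod.algebra F 2
  obtain ⟨i, hi⟩ := FiniteField.exists_forall_apply_eq_pow (ZMod 2) 2 F
    (AlgEquiv.ofRingEquiv (f := σ) fun x => RingHom.congr_fun
      (RingHom.ext_zmod ((σ : F →+* F).comp (algebraMap (ZMod 2) F)) (algebraMap (ZMod 2) F)) x)
  exact ⟨i, fun x => by have := hi x; rw [Nat.card_zmod] at this; exact this⟩

variable {G : Type u} [Group G] [Finite G]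

theorem va_model {A E : Subgroup G} (hs : Group.IsSolvable A) (hE : ElAb 2 E) (hn : Nrm A E)
    (ht : ∀ x ∈ E, x ≠ 1 → ∀ y ∈ E, y ≠ 1 → ∃ a ∈ A, a * x * a⁻¹ = y) (h0 : E ≠ ⊥) :
    ∃ (F : Type) (_ : Field F) (_ : Fintype F) (φ : G → F), Fintype.card F = Nat.card E ∧
      (2 : F) = 0 ∧ (∀ x ∈ E, ∀ y ∈ E, φ x = φ y → x = y) ∧ (∀ z, ∃ x ∈ E, φ x = z) ∧ φ 1 = 0 ∧
      ∀ a ∈ A, ∃ (c : F) (σ : F ≃+* F), ∀ x ∈ E, φ (a * x * a⁻¹) = c * σ (φ x) := by
  classical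
  obtain ⟨s, hs1, h1⟩ := (bot_or_exists_ne_one E).resolve_left h0
  haveI : Fact (Nat.Prime 2) := ⟨Nat.prime_two⟩
  letI : CommGroup E := { (inferInstance : Group E) with
    mul_comm := fun a b => Subtype.ext (hE.1 a a.2 b b.2) }
  letI : Module (ZMod 2) (Additive E) := AddCommGroup.zmodModule fun x =>
    Additive.toMul.injective (Subtype.ext (hE.2 _ x.toMul.2))
  haveI : Nontrivial E := ⟨⟨s, hs1⟩, 1, fun e => h1 (congrArg Subtype.val e)⟩
  let ρ : A →* (Additive E ≃ₗ[ZMod 2] Additive E) := MonoidHom.mk' (fun a =>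
    (MulEquiv.toAdditive (autm E ⟨a, hn.le_N a.2⟩)).toLinearEquiv fun c x => ZMod.map_smul _ c x)
    fun a b => LinearEquiv.ext fun x => Additive.toMul.injective (Subtype.ext (by
      change (a : G) * b * x.toMul.1 * ((a : G) * b)⁻¹ = a * (b * x.toMul.1 * (b : G)⁻¹) * (a : G)⁻¹
      group))
  haveI : Finite ρ.range := Finite.of_surjective _ ρ.rangeRestrict_surjective
  rcases Cfsg.Agent.S3360.result 2 (Group.isSolvable_of_surjective ρ.rangeRestrict_surjective)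
    ρ.range.subtype ρ.range.subtype_injective (fun v w hv hw => by
      obtain ⟨a, ha, e⟩ := ht _ v.toMul.2 (fun e => hv (Additive.toMul.injective (Subtype.ext e)))
        _ w.toMul.2 (fun e => hw (Additive.toMul.injective (Subtype.ext e)))
      exact ⟨⟨ρ ⟨a, ha⟩, _, rfl⟩, Additive.toMul.injective (Subtype.ext e)⟩) with
    ⟨F, _, _, e, he⟩ | h
  · let φ : G → F := fun x => if h : x ∈ E then e (Additive.ofMul ⟨x, h⟩) else 0
    have hφ : ∀ x (h : x ∈ E), φ x = e (Additive.ofMul ⟨x, h⟩) := fun x h => dif_pos h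
    refine ⟨F, inferInstance, inferInstance, φ, ?_, ?_, fun x hx y hy f => ?_, fun z => ?_, ?_,
      fun a ha => ?_⟩
    · rw [← Nat.card_eq_fintype_card, ← Nat.card_congr e.toEquiv]; rfl
    · obtain ⟨v, hv⟩ := e.surjective 1
      have : v + v = 0 := Additive.toMul.injective (Subtype.ext (by
        have := hE.2 _ v.toMul.2
        rwa [_root_.sq] at this))
      rw [← one_add_one_eq_two, ← hv, ← map_add, this, map_zero]
    · rw [hφ x hx, hφ y hy, e.apply_eq_iff_eq] at f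
      exact congrArg (fun x : Additive E => (x.toMul : G)) f
    · obtain ⟨v, rfl⟩ := e.surjective z
      exact ⟨_, v.toMul.2, hφ _ _⟩
    · rw [hφ 1 (one_mem E)]; exact map_zero e
    · obtain ⟨c, σ, h⟩ := he ⟨ρ ⟨a, ha⟩, _, rfl⟩
      exact ⟨c, σ, fun x hx => by rw [hφ x hx, ← h, hφ _ (hn a ha x hx)]; rfl⟩
  · obtain ⟨n, hn⟩ := exists_card_eq_pow Nat.prime_two hE.isPGroup
    have h2 : Nat.card (Additive E) = 2 ^ n := hn
    have h3 : 1 < Nat.card E := Finite.one_lt_card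
    obtain ⟨m, rfl⟩ : ∃ m, n = m + 1 := Nat.exists_eq_succ_of_ne_zero (by rintro rfl; omega)
    simp only [h2, Set.mem_insert_iff, Set.mem_singleton_iff, pow_succ] at h
    omega

section act

variable {E : Subgroup G} {F : Type} [Field F] {φ : G → F} {a b : G} {c d : F} {σ τ : F ≃+* F}

/-- `a` acts on `E` as `x ↦ c σ(x)`. -/
structure VAc (E : Subgroup G) (φ : G → F) (a : G) (c : F) (σ : F ≃+* F) : Prop where
  nrm : a ∈ N E
  act : ∀ x ∈ E, φ (a * x * a⁻¹) = c * σ (φ x)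

theorem VAc.one : VAc E φ 1 1 1 := ⟨one_mem _, fun x _ => by simp⟩
theorem VAc.mul (h : VAc E φ a c σ) (h' : VAc E φ b d τ) : VAc E φ (a * b) (c * σ d) (σ * τ) :=
  ⟨mul_mem h.nrm h'.nrm, fun x hx => by
    rw [show a * b * x * (a * b)⁻¹ = a * (b * x * b⁻¹) * a⁻¹ by group,
      h.act _ (conj_mem_of_mem_N h'.nrm hx), h'.act x hx, map_mul, mul_assoc]; rfl⟩
theorem VAc.pow (h : VAc E φ a c σ) (m : ℕ) : ∃ d, VAc E φ (a ^ m) d (σ ^ m) := by
  induction m with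
  | zero => exact ⟨1, by simpa using VAc.one⟩
  | succ m ih => obtain ⟨d, e⟩ := ih; exact ⟨_, by rw [pow_succ, pow_succ]; exact e.mul h⟩
theorem VAc.spow (h : VAc E φ a c 1) (m : ℕ) : VAc E φ (a ^ m) (c ^ m) 1 := by
  induction m with
  | zero => simpa using VAc.one
  | succ m ih => simpa [pow_succ] using ih.mul h
theorem VAc.conj (h : VAc E φ a c σ) (h' : VAc E φ b d 1) : VAc E φ (a * b * a⁻¹) (σ d) 1 :=
  ⟨mul_mem (mul_mem h.nrm h'.nrm) (inv_mem h.nrm), fun x hx => by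
    have m : a⁻¹ * x * a⁻¹⁻¹ ∈ E := conj_mem_of_mem_N (inv_mem h.nrm) hx
    have := h.act _ m
    rw [show a * (a⁻¹ * x * a⁻¹⁻¹) * a⁻¹ = x by group] at this
    rw [show a * b * a⁻¹ * x * (a * b * a⁻¹)⁻¹ = a * (b * (a⁻¹ * x * a⁻¹⁻¹) * b⁻¹) * a⁻¹ by group,
      h.act _ (conj_mem_of_mem_N h'.nrm m), h'.act _ m, this, map_mul]
    simp [mul_left_comm]⟩
theorem VAc.of_C (h : a ∈ C E) : VAc E φ a 1 1 :=
  ⟨C_le_N E h, fun x hx => by rw [← mem_centralizer_iff.1 h x hx]; simp⟩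
theorem VAc.uniq (hs : ∀ z, ∃ x ∈ E, φ x = z) (h : VAc E φ a c σ) (h' : VAc E φ a 1 1) :
    c = 1 ∧ σ = 1 := by
  have e : ∀ z, c * σ z = z := fun z => by
    obtain ⟨x, hx, rfl⟩ := hs z
    rw [← h.act x hx, h'.act x hx]; simp
  have e1 : c = 1 := by simpa using e 1
  exact ⟨e1, RingEquiv.ext fun z => by simpa [e1] using e z⟩
theorem VAc.uniq' (hs : ∀ z, ∃ x ∈ E, φ x = z) (h : VAc E φ a c 1) (h' : VAc E φ a d 1) :
    c = d := by
  obtain ⟨x, hx, e⟩ := hs 1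
  have := (h.act x hx).symm.trans (h'.act x hx)
  simpa [e] using this
theorem VAc.mem_C (hi : ∀ x ∈ E, ∀ y ∈ E, φ x = φ y → x = y) (h : VAc E φ a c 1)
    (h' : VAc E φ b c 1) : a⁻¹ * b ∈ C E := mem_centralizer_iff.2 fun x hx => by
  have := hi _ (conj_mem_of_mem_N h.nrm hx) _ (conj_mem_of_mem_N h'.nrm hx)
    ((h.act x hx).trans (h'.act x hx).symm)
  calc _ = a⁻¹ * (a * x * a⁻¹) * b := by group
    _ = _ := by rw [this]; group

end act

variable {Ω : Type u} [MulAction G Ω] {V : Ω → Subgroup G} {α : Ω} {u : G}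

/-- the Singer cycle. -/
theorem VN.singer (h : VN V) (hu : Iv u) (h1 : u • α ≠ α) : ∃ k, KK u α k ∧
    (∀ v ∈ V α, v ≠ 1 → ∀ w ∈ V α, w ≠ 1 → ∃ i : ℕ, k ^ i * v * (k ^ i)⁻¹ = w) ∧
    ∀ d ∈ St G α ⊓ St G (u • α), ∃ i : ℕ, (k ^ i)⁻¹ * (d * k * d⁻¹) ∈ C (V α) := by
  have S := h.se
  have ho := S.odd_D h1.symm
  have nD : Nrm (St G α ⊓ St G (u • α)) (V α) := (h.nrm α).mono inf_le_left
  obtain ⟨F, _, _, φ, hc, h2, hi, hs, h0, ha⟩ := va_model (solvable_of_odd ho) (h.elAb α) nD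
    (fun x hx x1 y hy y1 => S.conj_D h1.symm (h.iv hx x1) (h.iv hy y1) (h.le α hx) (h.le α hy))
    (h.ne_bot α)
  have ha' : ∀ a ∈ St G α ⊓ St G (u • α), ∃ c σ, VAc (V α) φ a c σ := fun a m =>
    let ⟨c, σ, e⟩ := ha a m; ⟨c, σ, nD.le_N m, e⟩
  obtain ⟨n, n4, hn⟩ := h.card_pow α
  obtain ⟨p, hp, p1, p2, p3⟩ := va_prime n4
  have fn : ∀ (j : ℕ) (x : F), x ^ 2 ^ (n * j) = x := fun j x => by
    rw [pow_mul, ← hn, ← hc]; exact FiniteField.pow_card_pow j x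
  have fp : ∀ (σ : F ≃+* F) (i : ℕ), (∀ x, σ x = x ^ 2 ^ i) → ∀ (m : ℕ) x,
      (σ ^ m) x = x ^ 2 ^ (i * m) := fun σ i e m => by
    induction m with
    | zero => simp
    | succ m ih =>
      intro x
      rw [pow_succ', RingAut.mul_apply, ih, e, ← pow_mul, ← pow_add, mul_add, mul_one]
  have σn : ∀ σ : F ≃+* F, σ ^ n = 1 := fun σ => by
    obtain ⟨i, e⟩ := va_frob h2 σ
    exact RingEquiv.ext fun x => by rw [fp σ i e, mul_comm, fn]; rfl
  obtain ⟨s, s1, s2⟩ := h.exists_mem α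
  have s3 := h.iv s1 s2
  have KC : ∀ k, KK u α k → k ∈ C (V α) → k = 1 := fun k a b =>
    S.K_eq_one hu s3 (h.le α s1) h1 a (mem_centralizer_iff.1 b s s1).symm
  -- an element of order `p` in `K`
  obtain ⟨x, x1, x2⟩ : ∃ x, KK u α x ∧ orderOf x = p := by
    obtain ⟨R, -, a, b⟩ := pt_exists_syl hu.sq (mem_N_D hu.sq α) ho hp bot_le IsPGroup.of_bot
      (N_bot (G := G) ▸ mem_top u)
    have : ¬ R ≤ C1 u := fun f => pt_not_dvd hu.sq (mem_N_D hu.sq α) ho hp a b (by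
      rwa [relIndex_eq_one.2 f, mul_one, S.idx_D hu h1 s3 (h.le α s1), h.m_eq s3 (h.le α s1), hn])
    obtain ⟨g, g1, g2⟩ := SetLike.not_le_iff_exists.1 this
    have m := pt_comm_mem hu.sq b g1
    obtain ⟨y, y1, y2⟩ := exists_prime_orderOf_mem_zpowers (x := g * u * g⁻¹ * u) fun f =>
      g2 (mem_C1_iff_conj.2 ((eq_inv_of_mul_eq_one_left f).trans hu.inv))
    have m' := zpowers_le.2 m y1
    refine ⟨y, S.kk_of h1 (a.le m') (pt_inv_zp (pt_inv_comm hu.sq g) y1), ?_⟩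
    have := Fact.mk hp
    obtain ⟨j, hj⟩ := IsPGroup.iff_orderOf.1 a.isPGroup ⟨y, m'⟩
    rw [← orderOf_coe] at hj
    exact (Nat.prime_dvd_prime_iff_eq y2 hp).1 (y2.dvd_of_dvd_pow (dvd_of_eq hj))
  obtain ⟨a, xa⟩ : ∃ a, VAc (V α) φ x a 1 := by
    obtain ⟨c, σ, e⟩ := ha' x x1.mem_D
    obtain ⟨d, f⟩ := e.pow p
    rw [← x2, pow_orderOf_eq_one, x2] at f
    have := (f.uniq hs VAc.one).2
    rw [← orderOf_dvd_iff_pow_eq_one] at this
    have g := Nat.dvd_gcd this (orderOf_dvd_of_pow_eq_one (σn σ))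
    rw [(hp.coprime_iff_not_dvd.2 p2).gcd_eq_one, Nat.dvd_one, orderOf_eq_one_iff] at g
    exact ⟨c, g ▸ e⟩
  have ap : orderOf a = p := by
    have := Fact.mk hp
    have f := xa.spow p
    rw [← x2, pow_orderOf_eq_one, x2] at f
    refine orderOf_eq_prime (f.uniq hs VAc.one).1 fun e => hp.ne_one ?_
    have := VAc.mem_C hi VAc.one (e ▸ xa)
    rw [inv_one, one_mul] at this
    rw [← x2, KC x x1 this, orderOf_one]
  have a0 : a ≠ 0 := fun e => by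
    have := pow_orderOf_eq_one a
    rw [ap, e, zero_pow hp.ne_zero] at this
    exact zero_ne_one this
  -- all of `K` acts by scalars
  have sc : ∀ k, KK u α k → ∃ c, VAc (V α) φ k c 1 := fun k hk => by
    obtain ⟨c, σ, e⟩ := ha' k hk.mem_D
    obtain ⟨i, hσ⟩ := va_frob h2 σ
    have e1 := e.conj xa
    have e2 := xa.spow (2 ^ i)
    rw [← hσ] at e2
    have w1 := VAc.mem_C hi e2 e1
    have w2 : (x ^ 2 ^ i)⁻¹ * (k * x * k⁻¹) ∈ St G α ⊓ St G (u • α) :=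
      mul_mem (inv_mem (pow_mem x1.mem_D _)) (mul_mem (mul_mem hk.mem_D x1.mem_D) (inv_mem hk.mem_D))
    have w3 : u * ((x ^ 2 ^ i)⁻¹ * (k * x * k⁻¹)) * u⁻¹ ∈ C (V α) := h.step4 h1.symm
      ⟨conj_mem_of_mem_N (mem_N_D hu.sq α) w2, by
        rw [← h.cjj, ← cj_C]; exact conj_mem_cj.2 w1⟩
    have w4 : u * ((x ^ 2 ^ i)⁻¹ * (k * x * k⁻¹)) * u⁻¹ = x ^ 2 ^ i * (k⁻¹ * x⁻¹ * k) := by
      have b := pt_inv_zp x1.inv (inv_mem (npow_mem_zpowers x (2 ^ i)))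
      calc _ = (u * (x ^ 2 ^ i)⁻¹ * u⁻¹) * ((u * k * u⁻¹) * (u * x * u⁻¹) * (u * k * u⁻¹)⁻¹) := by
            group
        _ = _ := by rw [b, hk.inv, x1.inv]; group
    rw [w4] at w3
    have e3 := (e.conj e2).mem_C hi (b := x) (by
      have := xa.mul (VAc.of_C (φ := φ) (one_mem (C (V α))))
      have t := (e.conj ((VAc.of_C (φ := φ) (inv_mem w3)).mul e2))
      rw [show k * ((x ^ 2 ^ i * (k⁻¹ * x⁻¹ * k))⁻¹ * x ^ 2 ^ i) * k⁻¹ = x by group] at t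
      simpa using t)
    have e4 : σ (σ a) = a := by
      have t := (e.conj e2).mul (VAc.of_C (φ := φ) e3)
      rw [mul_inv_cancel_left] at t
      have := VAc.uniq' hs (by simpa using t) xa
      exact this
    have e5 : p ∣ 2 ^ (i * 2) - 1 := by
      rw [← ap, orderOf_dvd_iff_pow_eq_one]
      have := fp σ i hσ 2 a
      rw [pow_two σ, RingAut.mul_apply, e4] at this
      apply mul_right_cancel₀ a0
      rw [← pow_succ, Nat.sub_add_cancel Nat.one_le_two_pow, one_mul, ← this]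
    obtain ⟨j, hj⟩ := p3 _ e5
    have e6 : σ ^ 4 = 1 := RingEquiv.ext fun z => by
      rw [fp σ i hσ, show i * 4 = n * j by omega, fn]; rfl
    obtain ⟨d, f⟩ := e.pow (orderOf k)
    rw [pow_orderOf_eq_one] at f
    have g := Nat.dvd_gcd (orderOf_dvd_of_pow_eq_one (f.uniq hs VAc.one).2)
      (orderOf_dvd_of_pow_eq_one e6)
    rw [(hk.odd.coprime_two_right.pow_right 2).gcd_eq_one, Nat.dvd_one, orderOf_eq_one_iff] at g
    exact ⟨c, g ▸ e⟩
  obtain ⟨g, hg⟩ := IsCyclic.exists_monoid_generator (α := Fˣ)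
  have n1 : ∀ v ∈ V α, v ≠ 1 → φ v ≠ 0 := fun v m f e => f (hi v m 1 (one_mem _) (e.trans h0.symm))
  have n2 : ∀ v ∈ V α, φ v ≠ 0 → v ≠ 1 := fun v _ f e => f (e ▸ h0)
  obtain ⟨v0, a1, a2⟩ := hs 1
  obtain ⟨v1, b1, b2⟩ := hs g
  obtain ⟨k, k1, k2, -⟩ := S.exists_K hu (h.iv a1 (n2 _ a1 (a2 ▸ one_ne_zero)))
    (h.iv b1 (n2 _ b1 (b2 ▸ g.ne_zero))) (h.le α a1) (h.le α b1) h1
  obtain ⟨c, kc⟩ := sc k k1
  have cg : c = g := by
    have := kc.act v0 a1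
    rw [k2, a2, b2] at this
    simpa using this.symm
  subst cg
  have gen : ∀ z : F, z ≠ 0 → ∃ i : ℕ, (g : F) ^ i = z := fun z hz => by
    obtain ⟨i, e⟩ := hg (Units.mk0 z hz)
    exact ⟨i, by simpa using congrArg Units.val e⟩
  refine ⟨k, k1, fun v m f w m' f' => ?_, fun d hd => ?_⟩
  · obtain ⟨i, e⟩ := gen (φ w / φ v) (div_ne_zero (n1 w m' f') (n1 v m f))
    have := kc.spow i
    refine ⟨i, hi _ (conj_mem_of_mem_N this.nrm m) _ m' ?_⟩
    rw [this.act v m, e]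
    exact div_mul_cancel₀ _ (n1 v m f)
  · obtain ⟨c, σ, e⟩ := ha' d hd
    obtain ⟨i, f⟩ := gen (σ g) ((map_ne_zero σ).2 g.ne_zero)
    exact ⟨i, VAc.mem_C hi (f ▸ kc.spow i) (e.conj kc)⟩

end CfsgSE
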